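import Cfsg.Agent.Lib.Helper47.QfDefs
import Cfsg.Agent.Lib.Helper47.Sp3Cent

/-!
# S5976 project: definitions

Elements of prime order of `Sp_{2d}(q)`, `q` odd, and the normalisers of the quadratic field
subalgebras of unitary type.
-/

set_option autoImplicit false

universe u

namespace Cfsg.Agent.Lib.Helper47.S76

open Matrix

/-- `T` is skew-adjoint for the standard alternating form. -/
def IsSkew {F : Type u} [Field F] (d : ℕ) (T : Matrix (Fin d ⊕ Fin d) (Fin d ⊕ Fin d) F) : Prop :=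
  ∀ u v : Fin d ⊕ Fin d → F, spForm (Fin d) F (T *ᵥ u) v = - spForm (Fin d) F u (T *ᵥ v)

/-- The order of `GU_d(q)`. -/
def guOrd (q d : ℕ) : ℕ :=
  q ^ (d * (d - 1) / 2) *
    ∏ i ∈ Finset.range d, (if Even i then q ^ (i + 1) + 1 else q ^ (i + 1) - 1)

/-- The number `|Sp_{2d}(q)| / |GU_d(q)|`. -/
def idxNum (q d : ℕ) : ℕ :=
  q ^ (d * (d + 1) / 2) *
    ∏ i ∈ Finset.range d, (if Even i then q ^ (i + 1) - 1 else q ^ (i + 1) + 1)

/-- The standard skew-adjoint matrix with square `δ`. -/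
def thetaStd {F : Type u} [Field F] (d : ℕ) (δ : F) : Matrix (Fin d ⊕ Fin d) (Fin d ⊕ Fin d) F :=
  Matrix.fromBlocks 0 (δ • (1 : Matrix (Fin d) (Fin d) F)) 1 0

/-- Data of a quadratic extension `K = F(ω)` of a finite field of odd order `q`, with `ω` of
norm one and an `F`-linear functional `τ` which is anti-invariant under `z ↦ z ^ q`. -/
structure QuadData (F K : Type u) [Field F] [Fintype F] [Field K] [Fintype K] [Algebra F K]
    (q : ℕ) (ω : K) (τ : K →ₗ[F] F) : Prop where
  cardF : Fintype.card F = q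
  cardK : Fintype.card K = q ^ 2
  rep : ∀ z : K, ∃ a b : F, z = algebraMap F K a + algebraMap F K b * ω
  norm : ω * ω ^ q = 1
  tau_pow : ∀ z : K, τ (z ^ q) = - τ z
  tau_nd : ∀ w : K, (∀ c : K, τ (c * w) = 0) → w = 0
  two : (2 : F) ≠ 0

end Cfsg.Agent.Lib.Helper47.S76
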