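import Cfsg.Agent.Lib.Helper47.FormConj

/-!
# Commuting isometric involutions of a symplectic space

A set of pairwise commuting involutions preserving a nondegenerate alternating form on a space
of dimension `d` over a finite field of odd characteristic has at most `2 ^ (d / 2)` elements.
-/

set_option autoImplicit false

namespace Cfsg.Agent.Lib.Helper47

open Polynomial Module

universe u

section CommInvol

variable {F : Type*} [Field F] {V : Type*} [AddCommGroup V] [Module F V]

lemma mem_ker_add_one (g : Module.End F V) (x : V) : x ∈ LinearMap.ker (g + 1) ↔ g x = -x := by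
  rw [LinearMap.mem_ker, LinearMap.add_apply, Module.End.one_apply, add_eq_zero_iff_eq_neg]

lemma invol_apply (e : Module.End F V) (he : e * e = 1) (x : V) : e (e x) = x := by
  rw [← Module.End.mul_apply, he, Module.End.one_apply]

/-- The eigenspaces of an involution are complementary (characteristic not two). -/
lemma isCompl_invol (h2 : (2 : F) ≠ 0) (e : Module.End F V) (he : e * e = 1) :
    IsCompl (LinearMap.ker (e - 1)) (LinearMap.ker (e + 1)) := by
  constructor
  · rw [Submodule.disjoint_def]
    intro x hx hx'
    rw [LinearMap.mem_ker, LinearMap.sub_apply, Module.End.one_apply, sub_eq_zero] at hx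
    rw [mem_ker_add_one, hx] at hx'
    have h3 : (2 : F) • x = 0 := by
      rw [two_smul]
      nth_rewrite 1 [hx']
      exact neg_add_cancel x
    exact (smul_eq_zero.mp h3).resolve_left h2
  · rw [codisjoint_iff, eq_top_iff]
    intro x _
    have e1 : x = (2 : F)⁻¹ • (x + e x) + (2 : F)⁻¹ • (x - e x) := by
      rw [← smul_add]
      have : x + e x + (x - e x) = (2 : F) • x := by
        rw [two_smul]
        abel
      rw [this, smul_smul, inv_mul_cancel₀ h2, one_smul]
    rw [e1]
    apply Submodule.add_mem_sup
    · apply Submodule.smul_mem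
      rw [LinearMap.mem_ker, LinearMap.sub_apply, Module.End.one_apply, map_add,
        invol_apply e he]
      abel
    · apply Submodule.smul_mem
      rw [mem_ker_add_one, map_sub, invol_apply e he]
      abel

lemma invt_ker_sub_of_commute (e e' : Module.End F V) (hc : e * e' = e' * e) :
    LinearMap.ker (e - 1) ∈ Module.End.invtSubmodule e' := by
  rw [Module.End.mem_invtSubmodule_iff_forall_mem_of_mem]
  intro x hx
  rw [LinearMap.mem_ker, LinearMap.sub_apply, Module.End.one_apply, sub_eq_zero] at hx ⊢
  rw [← Module.End.mul_apply, hc, Module.End.mul_apply, hx]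

lemma invt_ker_add_of_commute (e e' : Module.End F V) (hc : e * e' = e' * e) :
    LinearMap.ker (e + 1) ∈ Module.End.invtSubmodule e' := by
  rw [Module.End.mem_invtSubmodule_iff_forall_mem_of_mem]
  intro x hx
  rw [mem_ker_add_one] at hx ⊢
  rw [← Module.End.mul_apply, hc, Module.End.mul_apply, hx, map_neg]

end CommInvol

/-- A set of pairwise commuting isometric involutions of a nondegenerate alternating space of
dimension `d` has at most `2 ^ (d / 2)` elements. -/
theorem card_comm_invol_le {F : Type*} [Field F] [Finite F] (h2 : (2 : F) ≠ 0) :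
    ∀ (d : ℕ) (V : Type u) [AddCommGroup V] [Module F V] [FiniteDimensional F V]
      (B : V → V → F), finrank F V = d → IsSForm (RingHom.id F) (-1) B → Nondeg B →
      (∀ x, B x x = 0) → ∀ E : Set (Module.End F V), (∀ e ∈ E, e * e = 1) →
      (∀ e ∈ E, ∀ e' ∈ E, e * e' = e' * e) → (∀ e ∈ E, ∀ x y, B (e x) (e y) = B x y) →
      Nat.card E ≤ 2 ^ (d / 2) := by
  classical
  intro d
  induction d using Nat.strong_induction_on with
  | _ d ih =>
    intro V _ _ _ B hd hB hnd halt E hinv hcomm hiso
    have hfinEnd : Finite (Module.End F V) := Module.finite_of_finite F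
    by_cases hall : ∀ e ∈ E, e = 1 ∨ e = -1
    · -- at most two elements
      rcases Nat.lt_or_ge d 2 with hd2 | hd2
      · -- the space is trivial
        have hz : ∀ x : V, x = 0 := by
          intro x
          apply hnd
          intro y
          have h1 : finrank F (⊤ : Submodule F V) ≤ 1 := by
            rw [finrank_top, hd]
            omega
          exact alt_isotropic_of_finrank_le_one hB halt ⊤ h1 x trivial y trivial
        have hsub : Subsingleton (Module.End F V) :=
          ⟨fun a b => LinearMap.ext (fun x => by rw [hz (a x), hz (b x)])⟩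
        have hsubE : Subsingleton E := ⟨fun a b => Subtype.ext (Subsingleton.elim _ _)⟩
        have : Nat.card E ≤ 1 := Finite.card_le_one_iff_subsingleton.mpr hsubE
        exact this.trans Nat.one_le_two_pow
      · have h1 : Nat.card E ≤ Nat.card (Fin 2) := by
          apply Nat.card_le_card_of_injective
            (fun e : E => if e.1 = 1 then (0 : Fin 2) else 1)
          intro a b hab
          apply Subtype.ext
          simp only at hab
          rcases hall a.1 a.2 with ha | ha <;> rcases hall b.1 b.2 with hb | hb
          · rw [ha, hb]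
          · by_cases hb1 : b.1 = 1
            · rw [ha, hb1]
            · rw [if_pos ha, if_neg hb1] at hab
              exact absurd hab (by decide)
          · by_cases ha1 : a.1 = 1
            · rw [hb, ha1]
            · rw [if_neg ha1, if_pos hb] at hab
              exact absurd hab (by decide)
          · rw [ha, hb]
        rw [Nat.card_fin] at h1
        have h3 : 2 ^ 1 ≤ 2 ^ (d / 2) := Nat.pow_le_pow_right (by norm_num) (by omega)
        omega
    · push Not at hall
      obtain ⟨e₀, he₀E, he₀1, he₀n⟩ := hall
      have he₀ := hinv e₀ he₀E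
      have hpq := isCompl_invol h2 e₀ he₀
      have hpne : LinearMap.ker (e₀ - 1) ≠ ⊤ := by
        intro htop
        apply he₀1
        apply LinearMap.ext
        intro x
        have hx : x ∈ LinearMap.ker (e₀ - 1) := by rw [htop]; trivial
        rw [LinearMap.mem_ker, LinearMap.sub_apply, Module.End.one_apply, sub_eq_zero] at hx
        rw [hx, Module.End.one_apply]
      have hqne : LinearMap.ker (e₀ + 1) ≠ ⊤ := by
        intro htop
        apply he₀n
        apply LinearMap.ext
        intro x
        have hx : x ∈ LinearMap.ker (e₀ + 1) := by rw [htop]; trivial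
        rw [mem_ker_add_one] at hx
        rw [hx, LinearMap.neg_apply, Module.End.one_apply]
      have hfp : finrank F (LinearMap.ker (e₀ - 1)) < d := hd ▸ Submodule.finrank_lt hpne
      have hfq : finrank F (LinearMap.ker (e₀ + 1)) < d := hd ▸ Submodule.finrank_lt hqne
      have hfpq := Submodule.finrank_add_eq_of_isCompl hpq
      rw [hd] at hfpq
      -- orthogonality
      have horth : ∀ x ∈ LinearMap.ker (e₀ - 1), ∀ y ∈ LinearMap.ker (e₀ + 1), B x y = 0 := by
        intro x hx y hy
        rw [LinearMap.mem_ker, LinearMap.sub_apply, Module.End.one_apply, sub_eq_zero] at hx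
        rw [mem_ker_add_one] at hy
        have h1 := hiso e₀ he₀E x y
        rw [hx, hy, hB.neg_right] at h1
        have h3 : (2 : F) * B x y = 0 := by linear_combination -h1
        rcases mul_eq_zero.mp h3 with h | h
        · exact absurd h h2
        · exact h
      have hdec : ∀ z : V, ∃ a ∈ LinearMap.ker (e₀ - 1), ∃ b ∈ LinearMap.ker (e₀ + 1),
          z = a + b := by
        intro z
        have hz : z ∈ LinearMap.ker (e₀ - 1) ⊔ LinearMap.ker (e₀ + 1) := by
          rw [hpq.sup_eq_top]; trivial
        obtain ⟨a, ha, b, hb, rfl⟩ := Submodule.mem_sup.mp hz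
        exact ⟨a, ha, b, hb, rfl⟩
      have hndp : Nondeg (resForm B (LinearMap.ker (e₀ - 1))) := by
        intro x hx
        apply Subtype.ext
        apply hnd
        intro z
        obtain ⟨a, ha, b, hb, rfl⟩ := hdec z
        rw [hB.add_right, horth x x.2 b hb, add_zero]
        exact hx ⟨a, ha⟩
      have hndq : Nondeg (resForm B (LinearMap.ker (e₀ + 1))) := by
        intro x hx
        apply Subtype.ext
        apply hnd
        intro z
        obtain ⟨a, ha, b, hb, rfl⟩ := hdec z
        rw [hB.add_right, hB.refl (horth a ha x x.2), zero_add]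
        exact hx ⟨b, hb⟩
      have hpi : ∀ e ∈ E, LinearMap.ker (e₀ - 1) ∈ Module.End.invtSubmodule e :=
        fun e he => invt_ker_sub_of_commute e₀ e (hcomm e₀ he₀E e he)
      have hqi : ∀ e ∈ E, LinearMap.ker (e₀ + 1) ∈ Module.End.invtSubmodule e :=
        fun e he => invt_ker_add_of_commute e₀ e (hcomm e₀ he₀E e he)
      -- the restricted families
      have key : ∀ (W : Submodule F V) (hW : ∀ e ∈ E, W ∈ Module.End.invtSubmodule e),
          Nondeg (resForm B W) → finrank F W < d →
          Nat.card (Set.range (fun e : E => resInv e.1 (hW e.1 e.2))) ≤ 2 ^ (finrank F W / 2) := by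
        intro W hW hndW hlt
        apply ih _ hlt W (resForm B W) rfl (hB.res W) hndW (fun x => halt x)
        · rintro _ ⟨e, rfl⟩
          apply LinearMap.ext
          intro x
          apply Subtype.ext
          rw [Module.End.mul_apply, resInv_apply, resInv_apply, Module.End.one_apply]
          exact invol_apply e.1 (hinv e.1 e.2) x
        · rintro _ ⟨e, rfl⟩ _ ⟨e', rfl⟩
          apply LinearMap.ext
          intro x
          apply Subtype.ext
          rw [Module.End.mul_apply, Module.End.mul_apply, resInv_apply, resInv_apply,
            resInv_apply, resInv_apply, ← Module.End.mul_apply, ← Module.End.mul_apply,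
            hcomm e.1 e.2 e'.1 e'.2]
        · rintro _ ⟨e, rfl⟩ x y
          exact hiso e.1 e.2 x y
      have hcp := key _ hpi hndp hfp
      have hcq := key _ hqi hndq hfq
      have hfinP : Finite (Module.End F (LinearMap.ker (e₀ - 1))) := Module.finite_of_finite F
      have hfinQ : Finite (Module.End F (LinearMap.ker (e₀ + 1))) := Module.finite_of_finite F
      have hinj : Function.Injective (fun e : E =>
          ((⟨resInv e.1 (hpi e.1 e.2), ⟨e, rfl⟩⟩ :
              Set.range (fun e : E => resInv e.1 (hpi e.1 e.2))),
            (⟨resInv e.1 (hqi e.1 e.2), ⟨e, rfl⟩⟩ :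
              Set.range (fun e : E => resInv e.1 (hqi e.1 e.2))))) := by
        intro a b hab
        have h1 : resInv a.1 (hpi a.1 a.2) = resInv b.1 (hpi b.1 b.2) :=
          congrArg (fun t => (t.1 : Module.End F (LinearMap.ker (e₀ - 1)))) hab
        have h3 : resInv a.1 (hqi a.1 a.2) = resInv b.1 (hqi b.1 b.2) :=
          congrArg (fun t => (t.2 : Module.End F (LinearMap.ker (e₀ + 1)))) hab
        apply Subtype.ext
        apply LinearMap.ext
        intro z
        obtain ⟨x, hx, y, hy, rfl⟩ := hdec z
        have e1 : a.1 x = b.1 x := by
          have := congrArg (fun t : Module.End F (LinearMap.ker (e₀ - 1)) =>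
            ((t ⟨x, hx⟩ : LinearMap.ker (e₀ - 1)) : V)) h1
          exact this
        have e3 : a.1 y = b.1 y := by
          have := congrArg (fun t : Module.End F (LinearMap.ker (e₀ + 1)) =>
            ((t ⟨y, hy⟩ : LinearMap.ker (e₀ + 1)) : V)) h3
          exact this
        rw [map_add, map_add, e1, e3]
      have hle := Nat.card_le_card_of_injective _ hinj
      rw [Nat.card_prod] at hle
      have h4 : 2 ^ (finrank F (LinearMap.ker (e₀ - 1)) / 2)
          * 2 ^ (finrank F (LinearMap.ker (e₀ + 1)) / 2) ≤ 2 ^ (d / 2) := by
        rw [← pow_add]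
        apply Nat.pow_le_pow_right (by norm_num)
        omega
      exact hle.trans ((Nat.mul_le_mul hcp hcq).trans h4)

end Cfsg.Agent.Lib.Helper47
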