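import Cfsg.Agent.Lib.Helper47.CommInvol

/-!
# Commuting involutions of a vector space

A set of pairwise commuting involutions of a space of dimension `d` over a field of
characteristic not two has at most `2 ^ d` elements.
-/

set_option autoImplicit false

namespace Cfsg.Agent.Lib.Helper47

open Polynomial Module

universe u

/-- A set of pairwise commuting involutions of a space of dimension `d` has at most `2 ^ d`
elements. -/
theorem card_comm_invol_le_pow {F : Type*} [Field F] [Finite F] (h2 : (2 : F) ≠ 0) :
    ∀ (d : ℕ) (V : Type u) [AddCommGroup V] [Module F V] [FiniteDimensional F V],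
      finrank F V = d → ∀ E : Set (Module.End F V), (∀ e ∈ E, e * e = 1) →
      (∀ e ∈ E, ∀ e' ∈ E, e * e' = e' * e) → Nat.card E ≤ 2 ^ d := by
  classical
  intro d
  induction d using Nat.strong_induction_on with
  | _ d ih =>
    intro V _ _ _ hd E hinv hcomm
    have hfinEnd : Finite (Module.End F V) := Module.finite_of_finite F
    by_cases hall : ∀ e ∈ E, e = 1 ∨ e = -1
    · rcases Nat.eq_zero_or_pos d with hd0 | hdpos
      · have hsubV : Subsingleton V := Module.finrank_zero_iff.mp (hd.trans hd0)
        have hsub : Subsingleton (Module.End F V) :=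
          ⟨fun a b => LinearMap.ext (fun x => Subsingleton.elim _ _)⟩
        have hsubE : Subsingleton E := ⟨fun a b => Subtype.ext (Subsingleton.elim _ _)⟩
        have : Nat.card E ≤ 1 := Finite.card_le_one_iff_subsingleton.mpr hsubE
        exact this.trans Nat.one_le_two_pow
      · have h1 : Nat.card E ≤ Nat.card (Fin 2) := by
          apply Nat.card_le_card_of_injective
            (fun e : E => if e.1 = 1 then (0 : Fin 2) else 1)
          intro a b hab
          apply Subtype.ext
          simp only at hab
          rcases hall a.1 a.2 with ha | ha <;> rcases hall b.1 b.2 with hb | hb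
          · rw [ha, hb]
          · by_cases hb1 : b.1 = 1
            · rw [ha, hb1]
            · rw [if_pos ha, if_neg hb1] at hab
              exact absurd hab (by decide)
          · by_cases ha1 : a.1 = 1
            · rw [hb, ha1]
            · rw [if_neg ha1, if_pos hb] at hab
              exact absurd hab (by decide)
          · rw [ha, hb]
        rw [Nat.card_fin] at h1
        have h3 : 2 ^ 1 ≤ 2 ^ d := Nat.pow_le_pow_right (by norm_num) hdpos
        omega
    · push Not at hall
      obtain ⟨e₀, he₀E, he₀1, he₀n⟩ := hall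
      have he₀ := hinv e₀ he₀E
      have hpq := isCompl_invol h2 e₀ he₀
      have hpne : LinearMap.ker (e₀ - 1) ≠ ⊤ := by
        intro htop
        apply he₀1
        apply LinearMap.ext
        intro x
        have hx : x ∈ LinearMap.ker (e₀ - 1) := by rw [htop]; trivial
        rw [LinearMap.mem_ker, LinearMap.sub_apply, Module.End.one_apply, sub_eq_zero] at hx
        rw [hx, Module.End.one_apply]
      have hqne : LinearMap.ker (e₀ + 1) ≠ ⊤ := by
        intro htop
        apply he₀n
        apply LinearMap.ext
        intro x
        have hx : x ∈ LinearMap.ker (e₀ + 1) := by rw [htop]; trivial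
        rw [mem_ker_add_one] at hx
        rw [hx, LinearMap.neg_apply, Module.End.one_apply]
      have hfp : finrank F (LinearMap.ker (e₀ - 1)) < d := hd ▸ Submodule.finrank_lt hpne
      have hfq : finrank F (LinearMap.ker (e₀ + 1)) < d := hd ▸ Submodule.finrank_lt hqne
      have hfpq := Submodule.finrank_add_eq_of_isCompl hpq
      rw [hd] at hfpq
      have hdec : ∀ z : V, ∃ a ∈ LinearMap.ker (e₀ - 1), ∃ b ∈ LinearMap.ker (e₀ + 1),
          z = a + b := by
        intro z
        have hz : z ∈ LinearMap.ker (e₀ - 1) ⊔ LinearMap.ker (e₀ + 1) := by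
          rw [hpq.sup_eq_top]; trivial
        obtain ⟨a, ha, b, hb, rfl⟩ := Submodule.mem_sup.mp hz
        exact ⟨a, ha, b, hb, rfl⟩
      have hpi : ∀ e ∈ E, LinearMap.ker (e₀ - 1) ∈ Module.End.invtSubmodule e :=
        fun e he => invt_ker_sub_of_commute e₀ e (hcomm e₀ he₀E e he)
      have hqi : ∀ e ∈ E, LinearMap.ker (e₀ + 1) ∈ Module.End.invtSubmodule e :=
        fun e he => invt_ker_add_of_commute e₀ e (hcomm e₀ he₀E e he)
      have key : ∀ (W : Submodule F V) (hW : ∀ e ∈ E, W ∈ Module.End.invtSubmodule e),
          finrank F W < d →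
          Nat.card (Set.range (fun e : E => resInv e.1 (hW e.1 e.2))) ≤ 2 ^ finrank F W := by
        intro W hW hlt
        apply ih _ hlt W rfl
        · rintro _ ⟨e, rfl⟩
          apply LinearMap.ext
          intro x
          apply Subtype.ext
          rw [Module.End.mul_apply, resInv_apply, resInv_apply, Module.End.one_apply]
          exact invol_apply e.1 (hinv e.1 e.2) x
        · rintro _ ⟨e, rfl⟩ _ ⟨e', rfl⟩
          apply LinearMap.ext
          intro x
          apply Subtype.ext
          rw [Module.End.mul_apply, Module.End.mul_apply, resInv_apply, resInv_apply,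
            resInv_apply, resInv_apply, ← Module.End.mul_apply, ← Module.End.mul_apply,
            hcomm e.1 e.2 e'.1 e'.2]
      have hcp := key _ hpi hfp
      have hcq := key _ hqi hfq
      have hfinP : Finite (Module.End F (LinearMap.ker (e₀ - 1))) := Module.finite_of_finite F
      have hfinQ : Finite (Module.End F (LinearMap.ker (e₀ + 1))) := Module.finite_of_finite F
      have hinj : Function.Injective (fun e : E =>
          ((⟨resInv e.1 (hpi e.1 e.2), ⟨e, rfl⟩⟩ :
              Set.range (fun e : E => resInv e.1 (hpi e.1 e.2))),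
            (⟨resInv e.1 (hqi e.1 e.2), ⟨e, rfl⟩⟩ :
              Set.range (fun e : E => resInv e.1 (hqi e.1 e.2))))) := by
        intro a b hab
        have h1 : resInv a.1 (hpi a.1 a.2) = resInv b.1 (hpi b.1 b.2) :=
          congrArg (fun t => (t.1 : Module.End F (LinearMap.ker (e₀ - 1)))) hab
        have h3 : resInv a.1 (hqi a.1 a.2) = resInv b.1 (hqi b.1 b.2) :=
          congrArg (fun t => (t.2 : Module.End F (LinearMap.ker (e₀ + 1)))) hab
        apply Subtype.ext
        apply LinearMap.ext
        intro z
        obtain ⟨x, hx, y, hy, rfl⟩ := hdec z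
        have e1 : a.1 x = b.1 x := by
          have := congrArg (fun t : Module.End F (LinearMap.ker (e₀ - 1)) =>
            ((t ⟨x, hx⟩ : LinearMap.ker (e₀ - 1)) : V)) h1
          exact this
        have e3 : a.1 y = b.1 y := by
          have := congrArg (fun t : Module.End F (LinearMap.ker (e₀ + 1)) =>
            ((t ⟨y, hy⟩ : LinearMap.ker (e₀ + 1)) : V)) h3
          exact this
        rw [map_add, map_add, e1, e3]
      have hle := Nat.card_le_card_of_injective _ hinj
      rw [Nat.card_prod] at hle
      have h4 : 2 ^ finrank F (LinearMap.ker (e₀ - 1))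
          * 2 ^ finrank F (LinearMap.ker (e₀ + 1)) = 2 ^ d := by
        rw [← pow_add, hfpq]
      exact hle.trans ((Nat.mul_le_mul hcp hcq).trans h4.le)

/-- Matrix version: an elementary abelian `2`-subgroup of `GL_n(F)` has order at most `2 ^ n`. -/
theorem card_elemAb_GL_le {F : Type*} [Field F] [Finite F] (h2 : (2 : F) ≠ 0) (n : ℕ)
    {G : Type*} [Group G] (ψ : G →* GL (Fin n) F) (hψ : Function.Injective ψ)
    (hcomm : ∀ x y : G, x * y = y * x) (hsq : ∀ x : G, x ^ 2 = 1) : Nat.card G ≤ 2 ^ n := by
  obtain ⟨f, hf⟩ : ∃ f : G → Module.End F (Fin n → F), ∀ x : G,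
      f x = Matrix.toLin' ((ψ x : GL (Fin n) F) : Matrix (Fin n) (Fin n) F) := ⟨_, fun x => rfl⟩
  have hinj : Function.Injective f := by
    intro x y hxy
    rw [hf, hf] at hxy
    exact hψ (Units.ext (Matrix.toLin'.injective hxy))
  have hmul : ∀ x y : G, f x * f y = f (x * y) := by
    intro x y
    rw [hf, hf, hf, map_mul, Units.val_mul]
    exact (Matrix.toLin'_mul _ _).symm
  have hone : f 1 = 1 := by
    rw [hf, map_one, Units.val_one]
    exact Matrix.toLin'_one
  have hbound := card_comm_invol_le_pow h2 n (Fin n → F)
    (by rw [Module.finrank_fintype_fun_eq_card, Fintype.card_fin]) (Set.range f)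
    (by
      rintro _ ⟨x, rfl⟩
      rw [hmul, ← hone, ← pow_two, hsq])
    (by
      rintro _ ⟨x, rfl⟩ _ ⟨y, rfl⟩
      rw [hmul, hmul, hcomm])
  rw [← Nat.card_range_of_injective hinj]
  exact hbound

end Cfsg.Agent.Lib.Helper47
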