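import Mathlib

set_option autoImplicit false

namespace Cfsg.Agent.Lib.Helper47

open Polynomial Matrix

section pingpong

variable {F : Type*} [Field F]

theorem add_mul_natDegree (c : F[X]) (d : ℕ) (hd : 1 ≤ d) (hc0 : c ≠ 0) (hc : c.natDegree = d)
    (a b : F[X]) (hab : a ≠ 0 ∨ b ≠ 0)
    (hne : ¬ (a ≠ 0 ∧ b ≠ 0 ∧ b.natDegree = a.natDegree + d)) :
    a + c * (b + c * a) ≠ 0 ∧ b + c * a ≠ 0 ∧
      (a + c * (b + c * a)).natDegree = (b + c * a).natDegree + d := by
  -- step A
  have hA : b + c * a ≠ 0 ∧ (a ≠ 0 → a.natDegree + d ≤ (b + c * a).natDegree) := by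
    by_cases ha : a = 0
    · subst ha
      have hb : b ≠ 0 := by simpa using hab
      simp [hb]
    · have hca : (c * a).natDegree = a.natDegree + d := by
        rw [natDegree_mul hc0 ha, hc, add_comm]
      by_cases hb : b = 0
      · subst hb
        simp only [zero_add]
        exact ⟨mul_ne_zero hc0 ha, fun _ => hca.ge⟩
      · have hbd : b.natDegree ≠ a.natDegree + d := fun h => hne ⟨ha, hb, h⟩
        rcases lt_or_gt_of_ne hbd with hlt | hgt
        · have h1 : (b + c * a).natDegree = (c * a).natDegree :=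
            natDegree_add_eq_right_of_natDegree_lt (by omega)
          refine ⟨ne_zero_of_natDegree_gt (n := 0) (by omega), fun _ => by omega⟩
        · have h1 : (b + c * a).natDegree = b.natDegree :=
            natDegree_add_eq_left_of_natDegree_lt (by omega)
          refine ⟨ne_zero_of_natDegree_gt (n := 0) (by omega), fun _ => by omega⟩
  obtain ⟨hb', hdeg⟩ := hA
  have hcb : (c * (b + c * a)).natDegree = (b + c * a).natDegree + d := by
    rw [natDegree_mul hc0 hb', hc, add_comm]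
  by_cases ha : a = 0
  · subst ha
    simp only [zero_add, mul_zero, add_zero] at hcb hb' ⊢
    exact ⟨mul_ne_zero hc0 hb', hb', hcb⟩
  · have h1 : (a + c * (b + c * a)).natDegree = (c * (b + c * a)).natDegree :=
      natDegree_add_eq_right_of_natDegree_lt (by have := hdeg ha; omega)
    refine ⟨ne_zero_of_natDegree_gt (n := 0) (by have := hdeg ha; omega), hb', by omega⟩

/-- the matrix of the `i`-th generator -/
noncomputable def genMat (F : Type*) [Field F] (i : ℕ) : Matrix (Fin 2) (Fin 2) F[X] :=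
  !![1 + X ^ (i + 1) * X ^ (i + 1), X ^ (i + 1); X ^ (i + 1), 1]

/-- the `i`-th generator -/
noncomputable def gen (F : Type*) [Field F] (i : ℕ) : Matrix.SpecialLinearGroup (Fin 2) F[X] :=
  ⟨genMat F i, by simp [genMat, Matrix.det_fin_two]⟩

/-- the matrix of a letter -/
noncomputable def letter (F : Type*) [Field F] (x : ℕ × Bool) : Matrix.SpecialLinearGroup (Fin 2) F[X] :=
  cond x.2 (gen F x.1) (gen F x.1)⁻¹

/-- the product of a word -/
noncomputable def wordProd (F : Type*) [Field F] (L : List (ℕ × Bool)) : Matrix.SpecialLinearGroup (Fin 2) F[X] :=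
  (L.map (letter F)).prod

theorem gen_coe (i : ℕ) : (gen F i).1 = !![1 + X ^ (i + 1) * X ^ (i + 1), X ^ (i + 1); X ^ (i + 1), 1] :=
  rfl

theorem gen_inv_coe (i : ℕ) :
    ((gen F i)⁻¹).1 = !![1, -X ^ (i + 1); -X ^ (i + 1), 1 + X ^ (i + 1) * X ^ (i + 1)] := by
  rw [Matrix.SpecialLinearGroup.coe_inv, gen_coe, Matrix.adjugate_fin_two_of]

theorem gen_mulVec (i : ℕ) (v : Fin 2 → F[X]) :
    (gen F i).1 *ᵥ v = ![v 0 + X ^ (i + 1) * (v 1 + X ^ (i + 1) * v 0), v 1 + X ^ (i + 1) * v 0] := by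
  rw [gen_coe]
  funext j
  fin_cases j
  · simp [Matrix.mulVec, dotProduct, Fin.sum_univ_two]
    ring
  · simp [Matrix.mulVec, dotProduct, Fin.sum_univ_two]
    ring

theorem gen_inv_mulVec (i : ℕ) (v : Fin 2 → F[X]) :
    ((gen F i)⁻¹).1 *ᵥ v = ![v 0 + (-X ^ (i + 1)) * v 1,
      v 1 + (-X ^ (i + 1)) * (v 0 + (-X ^ (i + 1)) * v 1)] := by
  rw [gen_inv_coe]
  funext j
  fin_cases j
  · simp [Matrix.mulVec, dotProduct, Fin.sum_univ_two]
  · simp [Matrix.mulVec, dotProduct, Fin.sum_univ_two]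
    ring

/-- first ping-pong set -/
def inX (i : ℕ) (v : Fin 2 → F[X]) : Prop :=
  v 0 ≠ 0 ∧ v 1 ≠ 0 ∧ (v 0).natDegree = (v 1).natDegree + (i + 1)

/-- second ping-pong set -/
def inY (i : ℕ) (v : Fin 2 → F[X]) : Prop :=
  v 0 ≠ 0 ∧ v 1 ≠ 0 ∧ (v 1).natDegree = (v 0).natDegree + (i + 1)

/-- target set of a letter -/
def target (x : ℕ × Bool) (v : Fin 2 → F[X]) : Prop :=
  if x.2 then inX x.1 v else inY x.1 v

theorem target_letter (x : ℕ × Bool) (v : Fin 2 → F[X]) (hv : v 0 ≠ 0 ∨ v 1 ≠ 0)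
    (hn : ¬ target (x.1, !x.2) v) : target x ((letter F x).1 *ᵥ v) := by
  obtain ⟨i, e⟩ := x
  cases e
  · -- inverse letter
    simp only [target, Bool.not_false, if_true] at hn
    simp only [target, letter, cond_false, Bool.false_eq_true, if_false]
    rw [gen_inv_mulVec]
    have h := add_mul_natDegree (-X ^ (i + 1) : F[X]) (i + 1) (by omega)
      (neg_ne_zero.mpr (pow_ne_zero _ X_ne_zero)) (by rw [natDegree_neg, natDegree_X_pow])
      (v 1) (v 0) hv.symm (fun h => hn ⟨h.2.1, h.1, h.2.2⟩)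
    exact ⟨h.2.1, h.1, h.2.2⟩
  · simp only [target, Bool.not_true, Bool.false_eq_true, if_false] at hn
    simp only [target, letter, cond_true, if_true]
    rw [gen_mulVec]
    have h := add_mul_natDegree (X ^ (i + 1) : F[X]) (i + 1) (by omega)
      (pow_ne_zero _ X_ne_zero) (by rw [natDegree_X_pow])
      (v 0) (v 1) hv (fun h => hn ⟨h.1, h.2.1, h.2.2⟩)
    exact ⟨h.1, h.2.1, h.2.2⟩

theorem target_unique (x y : ℕ × Bool) (v : Fin 2 → F[X]) (hx : target x v) (hy : target y v) :
    x = y := by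
  obtain ⟨i, e⟩ := x
  obtain ⟨j, e'⟩ := y
  cases e <;> cases e' <;> simp only [target, Bool.false_eq_true, if_false, if_true] at hx hy
  · obtain ⟨-, -, h1⟩ := hx
    obtain ⟨-, -, h2⟩ := hy
    have : i = j := by omega
    rw [this]
  · obtain ⟨-, -, h1⟩ := hx
    obtain ⟨-, -, h2⟩ := hy
    omega
  · obtain ⟨-, -, h1⟩ := hx
    obtain ⟨-, -, h2⟩ := hy
    omega
  · obtain ⟨-, -, h1⟩ := hx
    obtain ⟨-, -, h2⟩ := hy
    have : i = j := by omega
    rw [this]

theorem target_wordProd (L : List (ℕ × Bool)) (x : ℕ × Bool) (hL : FreeGroup.IsReduced (x :: L))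
    (v₀ : Fin 2 → F[X]) (hv₀ : v₀ 0 ≠ 0 ∨ v₀ 1 ≠ 0) (hout : ∀ y, ¬ target y v₀) :
    target x ((wordProd F (x :: L)).1 *ᵥ v₀) := by
  induction L generalizing x with
  | nil =>
    have : wordProd F [x] = letter F x := by simp [wordProd]
    rw [this]
    exact target_letter x v₀ hv₀ (hout _)
  | cons y L ih =>
    rw [FreeGroup.isReduced_cons_cons] at hL
    have h1 := ih y hL.2
    have h2 : (wordProd F (x :: y :: L)).1 *ᵥ v₀ =
        (letter F x).1 *ᵥ ((wordProd F (y :: L)).1 *ᵥ v₀) := by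
      rw [Matrix.mulVec_mulVec, ← Matrix.SpecialLinearGroup.coe_mul]
      simp [wordProd]
    rw [h2]
    apply target_letter
    · left
      have h3 := h1
      unfold target at h3
      split_ifs at h3
      · exact h3.1
      · exact h3.1
    · intro h3
      have h4 := target_unique _ _ _ h1 h3
      have h5 : x.1 = y.1 := by rw [h4]
      have h6 := hL.1 h5
      rw [h4] at h6
      simp at h6

/-- degree bound for matrices -/
def MatDeg (A : Matrix (Fin 2) (Fin 2) F[X]) (k : ℕ) : Prop := ∀ i j, (A i j).natDegree ≤ k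

theorem matDeg_one : MatDeg (1 : Matrix (Fin 2) (Fin 2) F[X]) 0 := by
  intro i j
  rw [Matrix.one_apply]
  split_ifs <;> simp

theorem matDeg_mul (A B : Matrix (Fin 2) (Fin 2) F[X]) (k l : ℕ) (hA : MatDeg A k)
    (hB : MatDeg B l) : MatDeg (A * B) (k + l) := by
  intro i j
  rw [Matrix.mul_apply]
  apply natDegree_sum_le_of_forall_le
  intro m _
  exact natDegree_mul_le_of_le (hA i m) (hB m j)

theorem matDeg_letter (x : ℕ × Bool) : MatDeg (letter F x).1 (2 * (x.1 + 1)) := by
  obtain ⟨i, e⟩ := x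
  have hX : (X ^ (i + 1) : F[X]).natDegree ≤ 2 * (i + 1) := by
    rw [natDegree_X_pow]; omega
  have hXX : (1 + X ^ (i + 1) * X ^ (i + 1) : F[X]).natDegree ≤ 2 * (i + 1) := by
    refine (natDegree_add_le _ _).trans ?_
    rw [natDegree_one, ← pow_add, natDegree_X_pow]
    omega
  have hnX : (-X ^ (i + 1) : F[X]).natDegree ≤ 2 * (i + 1) := by
    rw [natDegree_neg]; exact hX
  have h1 : (1 : F[X]).natDegree ≤ 2 * (i + 1) := by simp
  cases e
  · intro a b
    simp only [letter, cond_false]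
    rw [gen_inv_coe]
    fin_cases a <;> fin_cases b <;> (simp; try assumption)
  · intro a b
    simp only [letter, cond_true]
    rw [gen_coe]
    fin_cases a <;> fin_cases b <;> (simp; try assumption)

/-- the degree bound of a word -/
def wordBound (L : List (ℕ × Bool)) : ℕ := (L.map fun x => 2 * (x.1 + 1)).sum

theorem matDeg_wordProd (L : List (ℕ × Bool)) : MatDeg (wordProd F L).1 (wordBound L) := by
  induction L with
  | nil => simpa [wordProd, wordBound] using matDeg_one (F := F)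
  | cons x L ih =>
    have h : (wordProd F (x :: L)).1 = (letter F x).1 * (wordProd F L).1 := by
      rw [← Matrix.SpecialLinearGroup.coe_mul]
      simp [wordProd]
    rw [h]
    have := matDeg_mul _ _ _ _ (matDeg_letter (F := F) x) ih
    simpa [wordBound] using this

end pingpong

open scoped MatrixGroups

/-- A nontrivial word is not central-valued on `SL₂` of large finite fields. -/
theorem exists_not_central.{u} (w : FreeGroup ℕ) (hw : w ≠ 1) :
    ∃ N : ℕ, ∀ (F : Type u) [Field F] [Fintype F], N ≤ Fintype.card F →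
      ∃ f : ℕ → Matrix.SpecialLinearGroup (Fin 2) F,
        FreeGroup.lift f w ∉ Subgroup.center (Matrix.SpecialLinearGroup (Fin 2) F) := by
  refine ⟨wordBound w.toWord + 1, fun F _ _ hF => ?_⟩
  have hred : FreeGroup.IsReduced w.toWord := FreeGroup.isReduced_toWord
  have hne : w.toWord ≠ [] := fun h => hw (FreeGroup.toWord_eq_nil_iff.mp h)
  obtain ⟨x, L, hxL⟩ := List.exists_cons_of_ne_nil hne
  set M := wordProd F w.toWord with hM
  have hv₀ : ((![1, 1] : Fin 2 → F[X]) 0 ≠ 0 ∨ (![1, 1] : Fin 2 → F[X]) 1 ≠ 0) := by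
    left; simp
  have hout : ∀ y : ℕ × Bool, ¬ target y (![1, 1] : Fin 2 → F[X]) := by
    rintro ⟨i, e⟩ h
    cases e <;> simp [target, inX, inY] at h
  have ht : target x (M.1 *ᵥ ![1, 1]) := by
    rw [hM, hxL]
    rw [hxL] at hred
    exact target_wordProd L x hred _ hv₀ hout
  set P : F[X] := (M.1 *ᵥ ![1, 1]) 0 - (M.1 *ᵥ ![1, 1]) 1 with hP
  have hP0 : P ≠ 0 := by
    intro h
    rw [hP, sub_eq_zero] at h
    unfold target inX inY at ht
    split_ifs at ht
    · have := ht.2.2
      rw [h] at this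
      omega
    · have := ht.2.2
      rw [h] at this
      omega
  have hdeg : P.natDegree ≤ wordBound w.toWord := by
    have hMd := matDeg_wordProd (F := F) w.toWord
    rw [← hM] at hMd
    have e0 : (M.1 *ᵥ ![1, 1]) 0 = M.1 0 0 + M.1 0 1 := by
      simp [Matrix.mulVec, dotProduct, Fin.sum_univ_two]
    have e1 : (M.1 *ᵥ ![1, 1]) 1 = M.1 1 0 + M.1 1 1 := by
      simp [Matrix.mulVec, dotProduct, Fin.sum_univ_two]
    rw [hP, e0, e1]
    refine (natDegree_sub_le _ _).trans (max_le ?_ ?_)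
    · exact (natDegree_add_le _ _).trans (max_le (hMd 0 0) (hMd 0 1))
    · exact (natDegree_add_le _ _).trans (max_le (hMd 1 0) (hMd 1 1))
  obtain ⟨c, hc⟩ : ∃ c : F, P.eval c ≠ 0 := by
    by_contra hcon
    rw [not_exists] at hcon
    apply hP0
    apply Polynomial.eq_zero_of_natDegree_lt_card_of_eval_eq_zero' P (Finset.univ : Finset F)
    · intro c _
      simpa using hcon c
    · rw [Finset.card_univ]
      omega
  let φ : Matrix.SpecialLinearGroup (Fin 2) F[X] →* Matrix.SpecialLinearGroup (Fin 2) F :=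
    Matrix.SpecialLinearGroup.map (Polynomial.evalRingHom c)
  refine ⟨fun i => φ (gen F i), ?_⟩
  have hlift : FreeGroup.lift (fun i => φ (gen F i)) w = φ M := by
    have h1 : FreeGroup.lift (fun i => φ (gen F i)) = φ.comp (FreeGroup.lift (gen F)) := by
      ext i
      simp
    rw [h1, MonoidHom.comp_apply]
    congr 1
    conv_lhs => rw [← FreeGroup.mk_toWord (x := w)]
    rw [FreeGroup.lift_mk, hM]
    rfl
  rw [hlift]
  intro hcen
  obtain ⟨r, -, hr⟩ := Matrix.SpecialLinearGroup.mem_center_iff.mp hcen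
  apply hc
  have hent : ∀ i j : Fin 2, (M.1 i j).eval c = if i = j then r else 0 := by
    intro i j
    have := congrFun (congrFun hr i) j
    simp only [Matrix.scalar_apply, Matrix.diagonal_apply] at this
    rw [this]
    rfl
  have e0 : (M.1 *ᵥ ![1, 1]) 0 = M.1 0 0 + M.1 0 1 := by
    simp [Matrix.mulVec, dotProduct, Fin.sum_univ_two]
  have e1 : (M.1 *ᵥ ![1, 1]) 1 = M.1 1 0 + M.1 1 1 := by
    simp [Matrix.mulVec, dotProduct, Fin.sum_univ_two]
  rw [hP, e0, e1]
  simp [hent]

end Cfsg.Agent.Lib.Helper47
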