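import Cfsg.Agent.Lib.Helper47.SpSylNE

/-!
# Normal elementary abelian subgroups of `2`-groups: the bound `MaxNE`

`HasNE T m` (in `SpSylNE`): `T` has a normal elementary abelian `2`-subgroup of order `2 ^ m`.
`MaxNE T k`: every normal elementary abelian `2`-subgroup of `T` has order at most `2 ^ k`.
-/

set_option autoImplicit false

namespace Cfsg.Agent.Lib.Helper47

/-- Every normal elementary abelian `2`-subgroup of `T` has order at most `2 ^ k`. -/
def MaxNE (T : Type*) [Group T] (k : ℕ) : Prop :=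
  ∀ E : Subgroup T, E.Normal → (∀ x ∈ E, ∀ y ∈ E, x * y = y * x) → (∀ x ∈ E, x ^ 2 = 1) →
    Nat.card E ≤ 2 ^ k

theorem maxNE_of_card_le {T : Type*} [Group T] [Finite T] {k : ℕ} (h : Nat.card T ≤ 2 ^ k) :
    MaxNE T k := fun E _ _ _ => (Subgroup.card_le_card_group E).trans h

end Cfsg.Agent.Lib.Helper47
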