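import Cfsg.Agent.Lib.Helper47.GLSylDefs

/-!
# Sylow `2`-subgroups of `GL_n(q)`, `q` odd, abstractly

A framework in the style of `Helper81.SpSyl`: finite `2`-groups with a property `P` acting
faithfully on `l → F`, closed under regular wreath products with `C₂` and direct products.
-/

set_option autoImplicit false

namespace Cfsg.Agent.Lib.Helper47

open Cfsg.Agent.Lib.Helper74.Wreath Cfsg.Agent.Lib.Helper81.SpSyl

universe u

section Generic

/-- A nontrivial finite `2`-group has a central subgroup of order two. -/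
theorem hasNE_one_of_nontrivial {T : Type*} [Group T] [Finite T] (hT : IsPGroup 2 T)
    [hnt : Nontrivial T] : HasNE T 1 := by
  have hfact : Fact (Nat.Prime 2) := ⟨Nat.prime_two⟩
  have hntZ : Nontrivial (Subgroup.center T) := hT.center_nontrivial
  have hZ2 : 2 ∣ Nat.card (Subgroup.center T) := by
    obtain ⟨k, hk⟩ := IsPGroup.iff_card.1 (hT.to_subgroup (Subgroup.center T))
    rw [hk]
    have hk0 : k ≠ 0 := by
      rintro rfl
      rw [pow_zero] at hk
      have := Finite.one_lt_card_iff_nontrivial.mpr hntZ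
      omega
    exact dvd_pow_self 2 hk0
  obtain ⟨z, hz⟩ := exists_prime_orderOf_dvd_card' 2 hZ2
  have hzc : ∀ g : T, g * (z : T) = (z : T) * g := fun g => Subgroup.mem_center_iff.mp z.2 g
  have hz2 : orderOf (z : T) = 2 := by
    rw [Subgroup.orderOf_coe]
    exact hz
  have hpowc : ∀ (x : T), x ∈ Subgroup.zpowers (z : T) → ∀ g : T, g * x = x * g := by
    rintro _ ⟨i, rfl⟩ g
    exact ((Commute.zpow_right (hzc g) i)).eq
  refine ⟨Subgroup.zpowers (z : T), ⟨fun x hx g => ?_⟩, fun x hx y _ => ?_, ?_, ?_⟩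
  · rw [hpowc x hx g, mul_inv_cancel_right]
    exact hx
  · exact (hpowc y ‹_› x).symm ▸ rfl
  · rintro _ ⟨i, rfl⟩
    show ((z : T) ^ i) ^ 2 = 1
    rw [← zpow_natCast, ← zpow_mul, mul_comm, zpow_mul, zpow_natCast, ← hz2, pow_orderOf_eq_one,
      one_zpow]
  · rw [Nat.card_zpowers, hz2, pow_one]

/-- A `2`-group of full `2`-power order embedded in `G` is isomorphic to every Sylow
`2`-subgroup of `G`. -/
theorem nonempty_mulEquiv_sylow_of_hom {G : Type*} [Group G] [Finite G] {T : Type*} [Group T]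
    [Finite T] (φ : T →* G) (hφ : Function.Injective φ) (hT : IsPGroup 2 T)
    (hdvd : 2 ^ (Nat.card G).factorization 2 ∣ Nat.card T) (P : Sylow 2 G) :
    Nonempty (T ≃* ↥P) := by
  have hfact : Fact (Nat.Prime 2) := ⟨Nat.prime_two⟩
  have hcR : Nat.card φ.range = Nat.card T :=
    Nat.card_congr (MonoidHom.ofInjective hφ).toEquiv.symm
  obtain ⟨j, hj⟩ := IsPGroup.iff_card.1 hT
  have h1 : Nat.card φ.range ∣ Nat.card G := Subgroup.card_subgroup_dvd_card _
  have h2 : Nat.card T = 2 ^ (Nat.card G).factorization 2 := by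
    rw [hj] at hdvd ⊢
    rw [hcR, hj] at h1
    have h3 : (Nat.card G).factorization 2 ≤ j :=
      (Nat.pow_dvd_pow_iff_le_right (by norm_num)).1 hdvd
    have h4 : j ≤ (Nat.card G).factorization 2 :=
      (Nat.Prime.pow_dvd_iff_le_factorization Nat.prime_two Nat.card_pos.ne').1 h1
    rw [le_antisymm h4 h3]
  obtain ⟨R, hR⟩ : ∃ R : Sylow 2 G, (R : Subgroup G) = φ.range :=
    ⟨Sylow.ofCard φ.range (by rw [hcR, h2]), rfl⟩
  have e1 : P ≃* R := Sylow.equiv P R
  have e2 : T ≃* (R : Subgroup G) := by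
    rw [hR]
    exact MonoidHom.ofInjective hφ
  exact ⟨e2.trans e1.symm⟩

/-- Induction along binary expansions, as for Sylow `2`-subgroups of symmetric groups. -/
theorem binary_induction_syl {Q : ℕ → Prop} (h1 : Q 1)
    (hstep : ∀ m, 1 ≤ m → Q m →
      padicValNat 2 (2 * m).factorial ≤ 2 * padicValNat 2 m.factorial + 1 → Q (2 * m))
    (hprod : ∀ a b, 1 ≤ a → 1 ≤ b → Q a → Q b →
      padicValNat 2 (a + b).factorial ≤ padicValNat 2 a.factorial + padicValNat 2 b.factorial →
      Q (a + b)) :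
    ∀ n, 1 ≤ n → Q n := by
  intro n
  induction n using Nat.strong_induction_on with
  | _ n ih =>
    intro hn
    rcases Nat.lt_or_ge n 2 with h2 | h2
    · have h3 : n = 1 := by omega
      rw [h3]
      exact h1
    · obtain ⟨k, hk⟩ : ∃ k, k = Nat.log 2 n := ⟨_, rfl⟩
      have hlo : 2 ^ k ≤ n := by
        rw [hk]
        exact Nat.pow_log_le_self 2 (by omega)
      have hhi : n < 2 ^ (k + 1) := by
        rw [hk]
        exact Nat.lt_pow_succ_log_self (by norm_num) n
      have hk1 : 1 ≤ k := by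
        by_contra hcon
        have h3 : k = 0 := by omega
        rw [h3] at hhi
        norm_num at hhi
        omega
      rcases Nat.eq_or_lt_of_le hlo with heq | hlt
      · obtain ⟨j, rfl⟩ : ∃ j, k = j + 1 := ⟨k - 1, by omega⟩
        have hm : 2 * 2 ^ j = n := by
          rw [← heq, pow_succ]
          ring
        have hj1 : 1 ≤ 2 ^ j := Nat.one_le_two_pow
        rw [← hm]
        apply hstep (2 ^ j) hj1 (ih (2 ^ j) (by omega) hj1)
        rw [mul_comm 2, ← pow_succ, val_two_pow_factorial, val_two_pow_factorial, pow_succ]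
        omega
      · obtain ⟨r, hr⟩ : ∃ r, n = 2 ^ k + r := ⟨n - 2 ^ k, by omega⟩
        have hr0 : 0 < r := by omega
        have hrk : r < 2 ^ k := by
          rw [pow_succ] at hhi
          omega
        have hk0 : 1 ≤ 2 ^ k := Nat.one_le_two_pow
        rw [hr]
        apply hprod (2 ^ k) r hk0 hr0 (ih (2 ^ k) (by omega) hk0) (ih r (by omega) (by omega))
        rw [val_factorial_add_two_pow k r hrk]

end Generic

section HasGL2

open RegularWreathProduct

variable {F : Type u} [Field F]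

/-- Some finite `2`-group with property `P` and order divisible by `2 ^ e` acts faithfully on
`l → F`, `l` of cardinality `d`. -/
def HasGL2 (F : Type u) [Field F] (P : ∀ (T : Type u) [Group T], Prop) (d e : ℕ) : Prop :=
  ∃ (l : Type) (_ : Fintype l) (_ : Nonempty l) (T : Type u) (_ : Group T) (_ : Finite T)
    (ρ : Representation F T (l → F)),
    Fintype.card l = d ∧ IsPGroup 2 T ∧ 2 ^ e ∣ Nat.card T ∧ P T ∧ Function.Injective ρ

/-- Transport of a faithful representation along a linear equivalence. -/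
theorem transportLin {T : Type*} [Group T] {X Y : Type*} [AddCommGroup X] [Module F X]
    [AddCommGroup Y] [Module F Y] (E : Y ≃ₗ[F] X) (σ : Representation F T X)
    (hinj : Function.Injective σ) : ∃ ρ : Representation F T Y, Function.Injective ρ := by
  refine ⟨{ toFun := fun g => E.symm.toLinearMap ∘ₗ σ g ∘ₗ E.toLinearMap
            map_one' := ?_
            map_mul' := ?_ }, ?_⟩
  · refine LinearMap.ext fun u => ?_
    simp
  · intro a b
    refine LinearMap.ext fun u => ?_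
    simp
  · intro a b hab
    apply hinj
    refine LinearMap.ext fun x => ?_
    have h1 := congrArg (fun f : Module.End F Y => E (f (E.symm x))) hab
    simpa using h1

theorem HasGL2.wreath {P P' : ∀ (T : Type u) [Group T], Prop} {d e : ℕ} (h : HasGL2 F P d e)
    (hP : ∀ (T : Type u) [Group T] [Finite T], P T → P' (T ≀ᵣ Multiplicative (ZMod 2))) :
    HasGL2 F P' (2 * d) (2 * e + 1) := by
  have hfact : Fact (Nat.Prime 2) := ⟨Nat.prime_two⟩
  obtain ⟨l, _, _, T, _, _, ρ, hcard, hT, hdvd, hPT, hinj⟩ := h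
  have hσinj := wrRep_injective (Q := Multiplicative (ZMod 2)) ρ hinj
  obtain ⟨ρ', hinj'⟩ := transportLin (Y := Multiplicative (ZMod 2) × l → F)
    (LinearEquiv.curry F F (Multiplicative (ZMod 2)) l) (wrRep ρ) hσinj
  have hcQ : Nat.card (Multiplicative (ZMod 2)) = 2 := by
    rw [Nat.card_eq_fintype_card, Fintype.card_multiplicative, ZMod.card]
  have hc : Nat.card (T ≀ᵣ Multiplicative (ZMod 2)) = Nat.card T ^ 2 * 2 := by
    rw [RegularWreathProduct.card, hcQ]
  refine ⟨Multiplicative (ZMod 2) × l, inferInstance, inferInstance,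
    T ≀ᵣ Multiplicative (ZMod 2), inferInstance, inferInstance, ρ', ?_, ?_, ?_, hP T hPT,
    hinj'⟩
  · rw [Fintype.card_prod, Fintype.card_multiplicative, ZMod.card, hcard]
  · obtain ⟨a, ha⟩ := IsPGroup.iff_card.1 hT
    have hc' : Nat.card (T ≀ᵣ Multiplicative (ZMod 2)) = 2 ^ (a * 2 + 1) := by
      rw [hc, ha, ← pow_mul, pow_succ]
    exact IsPGroup.of_card hc'
  · rw [hc]
    have h1 : (2 ^ e) ^ 2 * 2 ∣ Nat.card T ^ 2 * 2 :=
      mul_dvd_mul (pow_dvd_pow_of_dvd hdvd 2) (dvd_refl 2)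
    refine dvd_trans ?_ h1
    rw [← pow_mul, ← pow_succ, mul_comm]

theorem HasGL2.prod {P₁ P₂ P' : ∀ (T : Type u) [Group T], Prop} {d₁ e₁ d₂ e₂ : ℕ}
    (h₁ : HasGL2 F P₁ d₁ e₁) (h₂ : HasGL2 F P₂ d₂ e₂)
    (hP : ∀ (T₁ T₂ : Type u) [Group T₁] [Group T₂] [Finite T₁] [Finite T₂],
      P₁ T₁ → P₂ T₂ → P' (T₁ × T₂)) :
    HasGL2 F P' (d₁ + d₂) (e₁ + e₂) := by
  have hfact : Fact (Nat.Prime 2) := ⟨Nat.prime_two⟩
  obtain ⟨l₁, _, _, T₁, _, _, ρ₁, hcard₁, hT₁, hdvd₁, hPT₁, hinj₁⟩ := h₁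
  obtain ⟨l₂, _, _, T₂, _, _, ρ₂, hcard₂, hT₂, hdvd₂, hPT₂, hinj₂⟩ := h₂
  let σ : Representation F (T₁ × T₂) ((l₁ → F) × (l₂ → F)) :=
    { toFun := fun g => LinearMap.prodMap (ρ₁ g.1) (ρ₂ g.2)
      map_one' := by
        show LinearMap.prodMap (ρ₁ 1) (ρ₂ 1) = 1
        rw [map_one, map_one]
        exact LinearMap.prodMap_one
      map_mul' := by
        intro x y
        show LinearMap.prodMap (ρ₁ (x.1 * y.1)) (ρ₂ (x.2 * y.2)) = _
        rw [map_mul, map_mul]
        refine LinearMap.ext fun v => ?_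
        simp [Module.End.mul_apply] }
  have hσinj : Function.Injective σ := by
    intro x y hxy
    refine Prod.ext (hinj₁ ?_) (hinj₂ ?_)
    · refine LinearMap.ext fun w => ?_
      exact congrArg (fun f : Module.End F ((l₁ → F) × (l₂ → F)) => (f (w, 0)).1) hxy
    · refine LinearMap.ext fun w => ?_
      exact congrArg (fun f : Module.End F ((l₁ → F) × (l₂ → F)) => (f (0, w)).2) hxy
  obtain ⟨ρ', hinj'⟩ := transportLin (Y := l₁ ⊕ l₂ → F)
    (LinearEquiv.sumArrowLequivProdArrow l₁ l₂ F F) σ hσinj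
  obtain ⟨j₁, hj₁⟩ := IsPGroup.iff_card.1 hT₁
  obtain ⟨j₂, hj₂⟩ := IsPGroup.iff_card.1 hT₂
  refine ⟨l₁ ⊕ l₂, inferInstance, inferInstance, T₁ × T₂, inferInstance, inferInstance, ρ',
    ?_, ?_, ?_, hP T₁ T₂ hPT₁ hPT₂, hinj'⟩
  · rw [Fintype.card_sum, hcard₁, hcard₂]
  · have hc : Nat.card (T₁ × T₂) = 2 ^ (j₁ + j₂) := by
      rw [Nat.card_prod, hj₁, hj₂, pow_add]
    exact IsPGroup.of_card hc
  · rw [Nat.card_prod, pow_add]
    exact mul_dvd_mul hdvd₁ hdvd₂

theorem HasGL2.mono {P P' : ∀ (T : Type u) [Group T], Prop} {d e e' : ℕ} (h : HasGL2 F P d e)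
    (he : e' ≤ e) (hP : ∀ (T : Type u) [Group T] [Finite T], P T → P' T) :
    HasGL2 F P' d e' := by
  obtain ⟨l, hl1, hl2, T, hT1, hT2, ρ, hcard, hT, hdvd, hPT, hinj⟩ := h
  exact ⟨l, hl1, hl2, T, hT1, hT2, ρ, hcard, hT, (pow_dvd_pow 2 he).trans hdvd, hP T hPT, hinj⟩

/-- Conversion to an embedding into the general linear group. -/
theorem HasGL2.exists_hom {P : ∀ (T : Type u) [Group T], Prop} {n e : ℕ} (h : HasGL2 F P n e) :
    ∃ (T : Type u) (_ : Group T) (_ : Finite T) (φ : T →* GL (Fin n) F),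
      IsPGroup 2 T ∧ 2 ^ e ∣ Nat.card T ∧ P T ∧ Function.Injective φ := by
  classical
  obtain ⟨l, _, _, T, _, _, ρ, hcard, hT, hdvd, hPT, hinj⟩ := h
  have hc : Fintype.card l = Fintype.card (Fin n) := by
    rw [hcard, Fintype.card_fin]
  obtain ⟨ρ', hinj'⟩ := transportLin (Y := Fin n → F)
    (LinearEquiv.funCongrLeft F F (Fintype.equivOfCardEq hc)) ρ hinj
  refine ⟨T, inferInstance, inferInstance,
    ((MonoidHomClass.toMonoidHom (LinearMap.toMatrixAlgEquiv' (R := F)
      (n := Fin n))).comp ρ').toHomUnits, hT, hdvd, hPT, ?_⟩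
  intro a b hab
  apply hinj'
  have h1 := congrArg (fun g : GL (Fin n) F => (g : Matrix (Fin n) (Fin n) F)) hab
  exact (LinearMap.toMatrixAlgEquiv' (R := F) (n := Fin n)).injective h1

/-- A Sylow `2`-subgroup of `GL_n(F)` with property `P` is a base for the framework. -/
theorem hasGL2_of_sylow [Fintype F] (n : ℕ) (hn : 1 ≤ n) (S : Sylow 2 (GL (Fin n) F))
    {P : ∀ (T : Type u) [Group T], Prop} (hP : P ↥(S : Subgroup (GL (Fin n) F))) :
    HasGL2 F P n ((Nat.card (GL (Fin n) F)).factorization 2) := by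
  have hfact : Fact (Nat.Prime 2) := ⟨Nat.prime_two⟩
  have hne : Nonempty (Fin n) := ⟨⟨0, hn⟩⟩
  refine ⟨Fin n, inferInstance, hne, ↥(S : Subgroup (GL (Fin n) F)), inferInstance,
    inferInstance,
    ((MonoidHomClass.toMonoidHom (Matrix.toLinAlgEquiv' (R := F) (n := Fin n))).comp
      (Units.coeHom (Matrix (Fin n) (Fin n) F))).comp (S : Subgroup (GL (Fin n) F)).subtype,
    Fintype.card_fin n, S.isPGroup', ?_, hP, ?_⟩
  · rw [Sylow.card_eq_multiplicity]
  · intro a b hab
    apply Subtype.ext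
    apply Units.ext
    exact (Matrix.toLinAlgEquiv' (R := F) (n := Fin n)).injective hab

end HasGL2

end Cfsg.Agent.Lib.Helper47
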