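import Cfsg.Agent.Lib.Helper47.GLSylFrame
import Cfsg.Agent.Lib.Helper47.CommInvolGL
import Cfsg.Agent.Lib.Helper75.GLSylARITH
import Cfsg.Agent.Lib.Helper28.GLSylMAXPROD
import Cfsg.Agent.Lib.Helper31.GLSylMAXWR
import Cfsg.Agent.Lib.Helper31.GLSylSD

/-!
# Normal `2`-rank of the Sylow `2`-subgroups of `GL_n(q)`, `q` odd (for S2249)

Assembly of the job-board pieces ARITH (helper75), MAXPROD (helper28), MAXWR and SD (helper31)
with the frame in `GLSylFrame` and the bound `card_elemAb_GL_le`.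
-/

set_option autoImplicit false

namespace Cfsg.Agent.Lib.Helper47

open Cfsg.Agent.Lib.Helper75.GLSylArith Cfsg.Agent.Lib.Helper28.GLSylMAXPROD
  Cfsg.Agent.Lib.Helper31.GLSyl

universe u


section GLMain

open RegularWreathProduct

variable {F : Type u} [Field F] [Fintype F]

lemma gl_two_ne_zero (hodd : Odd (Fintype.card F)) : (2 : F) ≠ 0 := by
  intro h0
  have h1 : ((Fintype.card F : ℕ) : F) = 0 := FiniteField.cast_card_eq_zero F
  obtain ⟨k, hk⟩ := hodd
  rw [hk] at h1
  push_cast at h1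
  rw [h0, zero_mul, zero_add] at h1
  exact one_ne_zero h1

lemma card_GL_factorization (n : ℕ) :
    (Nat.card (GL (Fin n) F)).factorization 2
      = padicValNat 2 (∏ i : Fin n, (Fintype.card F ^ n - Fintype.card F ^ (i : ℕ))) := by
  rw [Nat.factorization_def _ Nat.prime_two, Matrix.card_GL_field]

lemma card_mulZMod2 : Nat.card (Multiplicative (ZMod 2)) = 2 := by
  rw [Nat.card_eq_fintype_card, Fintype.card_multiplicative, ZMod.card]

/-- An elementary abelian `2`-subgroup of a Sylow `2`-subgroup of `GL_n(F)` has order at most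
`2 ^ n`. -/
theorem gl_sylow_elemAb_le (h2 : (2 : F) ≠ 0) (n : ℕ) (S : Sylow 2 (GL (Fin n) F))
    (E : Subgroup ↥(S : Subgroup (GL (Fin n) F))) (hc : ∀ x ∈ E, ∀ y ∈ E, x * y = y * x)
    (hs : ∀ x ∈ E, x ^ 2 = 1) : Nat.card E ≤ 2 ^ n :=
  card_elemAb_GL_le h2 n ((S : Subgroup (GL (Fin n) F)).subtype.comp E.subtype)
    (fun x y hxy => Subtype.ext (Subtype.ext hxy))
    (fun x y => Subtype.ext (hc x x.2 y y.2)) (fun x => Subtype.ext (hs x x.2))

/-- `q ≡ 1 mod 4`: a Sylow `2`-subgroup of `GL_n(q)` has a normal elementary abelian subgroup of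
order `2 ^ n`. -/
theorem gl_sylow_hasNE_one_mod_four (hq : Fintype.card F % 4 = 1) (n : ℕ) (hn : 1 ≤ n)
    (S : Sylow 2 (GL (Fin n) F)) : HasNE ↥(S : Subgroup (GL (Fin n) F)) n := by
  have hfact : Fact (Nat.Prime 2) := ⟨Nat.prime_two⟩
  have hq1 : 1 < Fintype.card F := Fintype.one_lt_card
  obtain ⟨c, hc⟩ : ∃ c, c = padicValNat 2 (Fintype.card F - 1) := ⟨_, rfl⟩
  have hc1 : 1 ≤ c := by
    rw [hc]
    exact one_le_padicValNat_of_dvd (by omega) (by omega)
  have hbase : HasGL2 F (fun (T : Type u) [Group T] => HasNE T 1) 1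
      (1 * c + padicValNat 2 (1).factorial) := by
    obtain ⟨S₁⟩ : Nonempty (Sylow 2 (GL (Fin 1) F)) := inferInstance
    have hval : (Nat.card (GL (Fin 1) F)).factorization 2
        = 1 * c + padicValNat 2 (1).factorial := by
      rw [card_GL_factorization, val_two_card_GL_one_mod_four hq hq1 1, ← hc]
    have hcard : Nat.card S₁ = 2 ^ c := by
      rw [Sylow.card_eq_multiplicity, hval]
      simp
    have hnt : Nontrivial S₁ := by
      rw [← Finite.one_lt_card_iff_nontrivial, hcard]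
      exact Nat.one_lt_two_pow (by omega)
    have h1 := hasGL2_of_sylow (F := F) 1 le_rfl S₁
      (P := fun (T : Type u) [Group T] => HasNE T 1) (hasNE_one_of_nontrivial S₁.isPGroup')
    rw [hval] at h1
    exact h1
  have hall : ∀ m, 1 ≤ m → HasGL2 F (fun (T : Type u) [Group T] => HasNE T m) m
      (m * c + padicValNat 2 m.factorial) := by
    apply binary_induction_syl
      (Q := fun m => HasGL2 F (fun (T : Type u) [Group T] => HasNE T m) m
        (m * c + padicValNat 2 m.factorial)) hbase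
    · intro m hm h hν
      have e1 : 2 * m * c = 2 * (m * c) := by ring
      exact (h.wreath (P' := fun (T : Type u) [Group T] => HasNE T (2 * m))
        (fun T _ _ hT => HasNE.wreath card_mulZMod2 hT)).mono (by omega) (fun T _ _ h => h)
    · intro a b ha hb h₁ h₂ hν
      have e1 : (a + b) * c = a * c + b * c := by ring
      exact (h₁.prod h₂ (P' := fun (T : Type u) [Group T] => HasNE T (a + b))
        (fun T₁ T₂ _ _ _ _ h1 h2 => HasNE.prod h1 h2)).mono (by omega) (fun T _ _ h => h)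
  obtain ⟨T, _, _, φ, hT, hdvd, hne, hφ⟩ := (hall n hn).exists_hom
  obtain ⟨e⟩ := nonempty_mulEquiv_sylow_of_hom φ hφ hT
    (by rw [card_GL_factorization, val_two_card_GL_one_mod_four hq hq1 n, ← hc]; exact hdvd) S
  exact HasNE.of_mulEquiv e hne

/-- `q ≡ 3 mod 4`: the normal `2`-rank of a Sylow `2`-subgroup of `GL_n(q)` is `⌊(n+1)/2⌋`. -/
theorem gl_sylow_three_mod_four (hq : Fintype.card F % 4 = 3) (n : ℕ) (hn : 1 ≤ n)
    (S : Sylow 2 (GL (Fin n) F)) :
    HasNE ↥(S : Subgroup (GL (Fin n) F)) ((n + 1) / 2)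
      ∧ MaxNE ↥(S : Subgroup (GL (Fin n) F)) ((n + 1) / 2) := by
  have hfact : Fact (Nat.Prime 2) := ⟨Nat.prime_two⟩
  have hq1 : 1 < Fintype.card F := Fintype.one_lt_card
  have hodd : Odd (Fintype.card F) := Nat.odd_iff.mpr (by omega)
  have h2 : (2 : F) ≠ 0 := gl_two_ne_zero hodd
  obtain ⟨c, hc⟩ : ∃ c, c = 1 + padicValNat 2 (Fintype.card F ^ 2 - 1) := ⟨_, rfl⟩
  have hc4 : 4 ≤ c := by
    have h8 : 2 ^ 3 ∣ Fintype.card F ^ 2 - 1 := by
      obtain ⟨t, ht⟩ := hodd
      rw [ht]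
      rcases Nat.even_or_odd' t with ⟨s, hs | hs⟩
      · exact ⟨2 * s ^ 2 + s, by
          have : (2 * t + 1) ^ 2 = 4 * t ^ 2 + 4 * t + 1 := by ring
          rw [this, hs]
          have e : 4 * (2 * s) ^ 2 + 4 * (2 * s) + 1 - 1 = 2 ^ 3 * (2 * s ^ 2 + s) := by
            have : 4 * (2 * s) ^ 2 + 4 * (2 * s) = 2 ^ 3 * (2 * s ^ 2 + s) := by ring
            omega
          exact e⟩
      · exact ⟨2 * s ^ 2 + 3 * s + 1, by
          have : (2 * t + 1) ^ 2 = 4 * t ^ 2 + 4 * t + 1 := by ring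
          rw [this, hs]
          have e : 4 * (2 * s + 1) ^ 2 + 4 * (2 * s + 1) + 1 - 1
              = 2 ^ 3 * (2 * s ^ 2 + 3 * s + 1) := by
            have : 4 * (2 * s + 1) ^ 2 + 4 * (2 * s + 1) = 2 ^ 3 * (2 * s ^ 2 + 3 * s + 1) := by
              ring
            omega
          exact e⟩
    have hne0 : Fintype.card F ^ 2 - 1 ≠ 0 := by
      have : 2 ≤ Fintype.card F ^ 2 := le_trans hq1 (Nat.le_self_pow (by norm_num) _)
      omega
    have := (padicValNat_dvd_iff_le hne0).mp h8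
    omega
  -- the base in dimension two
  have hbase : HasGL2 F
      (fun (T : Type u) [Group T] => HasNE T 1 ∧ MaxNE T 1 ∧ ∃ t : T, t ^ 2 ≠ 1) (2 * 1)
      (1 * c + padicValNat 2 (1).factorial) := by
    obtain ⟨S₂⟩ : Nonempty (Sylow 2 (GL (Fin 2) F)) := inferInstance
    have hval : (Nat.card (GL (Fin 2) F)).factorization 2
        = 1 * c + padicValNat 2 (1).factorial := by
      rw [card_GL_factorization, hc]
      exact val_two_card_GL_three_mod_four_even hq 1
    have hcard : Nat.card S₂ = 2 ^ c := by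
      rw [Sylow.card_eq_multiplicity, hval]
      simp
    have hnt : Nontrivial S₂ := by
      rw [← Finite.one_lt_card_iff_nontrivial, hcard]
      exact Nat.one_lt_two_pow (by omega)
    have hex : ∃ t : S₂, t ^ 2 ≠ 1 := by
      by_contra hcon
      push Not at hcon
      have hcomm : ∀ x y : S₂, x * y = y * x := by
        intro x y
        have h1 := hcon (x * y)
        have hx := hcon x
        have hy := hcon y
        rw [pow_two] at h1 hx hy
        have hxi : x⁻¹ = x := by rw [inv_eq_iff_mul_eq_one]; exact hx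
        have hyi : y⁻¹ = y := by rw [inv_eq_iff_mul_eq_one]; exact hy
        have hxyi : (x * y)⁻¹ = x * y := by rw [inv_eq_iff_mul_eq_one]; exact h1
        calc x * y = (x * y)⁻¹ := hxyi.symm
          _ = y⁻¹ * x⁻¹ := mul_inv_rev x y
          _ = y * x := by rw [hyi, hxi]
      have hle := card_elemAb_GL_le h2 2 (S₂ : Subgroup (GL (Fin 2) F)).subtype
        Subtype.val_injective hcomm hcon
      rw [hcard] at hle
      have : 2 ^ 4 ≤ 2 ^ c := Nat.pow_le_pow_right (by norm_num) hc4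
      omega
    have h1 := hasGL2_of_sylow (F := F) 2 (by norm_num) S₂
      (P := fun (T : Type u) [Group T] => HasNE T 1 ∧ MaxNE T 1 ∧ ∃ t : T, t ^ 2 ≠ 1)
      ⟨hasNE_one_of_nontrivial S₂.isPGroup', maxNE_sylow_GL2 hq S₂, hex⟩
    rw [hval] at h1
    exact h1
  have hall : ∀ m, 1 ≤ m → HasGL2 F
      (fun (T : Type u) [Group T] => HasNE T m ∧ MaxNE T m ∧ ∃ t : T, t ^ 2 ≠ 1) (2 * m)
      (m * c + padicValNat 2 m.factorial) := by
    apply binary_induction_syl
      (Q := fun m => HasGL2 F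
        (fun (T : Type u) [Group T] => HasNE T m ∧ MaxNE T m ∧ ∃ t : T, t ^ 2 ≠ 1) (2 * m)
        (m * c + padicValNat 2 m.factorial)) hbase
    · intro m hm h hν
      have e1 : 2 * m * c = 2 * (m * c) := by ring
      refine (h.wreath (P' := fun (T : Type u) [Group T] =>
          HasNE T (2 * m) ∧ MaxNE T (2 * m) ∧ ∃ t : T, t ^ 2 ≠ 1) ?_).mono (by omega)
        (fun T _ _ h => h)
      intro T _ _ hT
      obtain ⟨hne, hmax, t, ht⟩ := hT
      refine ⟨HasNE.wreath card_mulZMod2 hne, MaxNE_wreath card_mulZMod2 ⟨t, ht⟩ hmax,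
        ⟨⟨fun _ => t, 1⟩, fun h => ht ?_⟩⟩
      have h3 := congrArg (fun x : T ≀ᵣ Multiplicative (ZMod 2) => x.left 1) h
      simp only [pow_two, RegularWreathProduct.mul_left, Pi.mul_apply,
        RegularWreathProduct.one_left, Pi.one_apply] at h3
      rw [pow_two]
      exact h3
    · intro a b ha hb h₁ h₂ hν
      have e1 : (a + b) * c = a * c + b * c := by ring
      have h3 := (h₁.prod h₂ (P' := fun (T : Type u) [Group T] =>
          HasNE T (a + b) ∧ MaxNE T (a + b) ∧ ∃ t : T, t ^ 2 ≠ 1) ?_).mono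
        (e' := (a + b) * c + padicValNat 2 (a + b).factorial) (by omega) (fun T _ _ h => h)
      · rw [← Nat.mul_add] at h3
        exact h3
      · intro T₁ T₂ _ _ _ _ hT₁ hT₂
        obtain ⟨hne₁, hmax₁, t, ht⟩ := hT₁
        obtain ⟨hne₂, hmax₂, -⟩ := hT₂
        refine ⟨HasNE.prod hne₁ hne₂, MaxNE_prod hmax₁ hmax₂, ⟨(t, 1), fun h => ht ?_⟩⟩
        exact congrArg Prod.fst h
  rcases Nat.even_or_odd' n with ⟨m, rfl | rfl⟩
  · have hm : 1 ≤ m := by omega
    obtain ⟨T, _, _, φ, hT, hdvd, ⟨hne, hmax, -⟩, hφ⟩ := (hall m hm).exists_hom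
    obtain ⟨e⟩ := nonempty_mulEquiv_sylow_of_hom φ hφ hT
      (by rw [card_GL_factorization, val_two_card_GL_three_mod_four_even hq m, ← hc]
          exact hdvd) S
    have hk : (2 * m + 1) / 2 = m := by omega
    rw [hk]
    exact ⟨HasNE.of_mulEquiv e hne, MaxNE_of_mulEquiv e hmax⟩
  · have hk : (2 * m + 1 + 1) / 2 = m + 1 := by omega
    rw [hk]
    obtain ⟨S₁⟩ : Nonempty (Sylow 2 (GL (Fin 1) F)) := inferInstance
    have hval1 : (Nat.card (GL (Fin 1) F)).factorization 2 = 1 := by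
      rw [card_GL_factorization]
      have := val_two_card_GL_three_mod_four_odd hq 0
      simpa using this
    have hcard1 : Nat.card S₁ = 2 := by
      rw [Sylow.card_eq_multiplicity, hval1, pow_one]
    have hnt1 : Nontrivial S₁ := by
      rw [← Finite.one_lt_card_iff_nontrivial, hcard1]
      norm_num
    have hb1 : HasGL2 F (fun (T : Type u) [Group T] => HasNE T 1 ∧ MaxNE T 1) 1 1 := by
      have h1 := hasGL2_of_sylow (F := F) 1 le_rfl S₁
        (P := fun (T : Type u) [Group T] => HasNE T 1 ∧ MaxNE T 1)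
        ⟨hasNE_one_of_nontrivial S₁.isPGroup', maxNE_of_card_le (by rw [hcard1]; norm_num)⟩
      rw [hval1] at h1
      exact h1
    have hodd_all : HasGL2 F (fun (T : Type u) [Group T] => HasNE T (m + 1) ∧ MaxNE T (m + 1))
        (2 * m + 1) (m * c + padicValNat 2 m.factorial + 1) := by
      rcases Nat.eq_zero_or_pos m with hm0 | hmpos
      · subst hm0
        simpa using hb1
      · exact (hall m hmpos).prod hb1 (fun T₁ T₂ _ _ _ _ hT₁ hT₂ =>
          ⟨HasNE.prod hT₁.1 hT₂.1, MaxNE_prod hT₁.2.1 hT₂.2⟩)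
    obtain ⟨T, _, _, φ, hT, hdvd, ⟨hne, hmax⟩, hφ⟩ := hodd_all.exists_hom
    obtain ⟨e⟩ := nonempty_mulEquiv_sylow_of_hom φ hφ hT
      (by rw [card_GL_factorization, val_two_card_GL_three_mod_four_odd hq m, ← hc]
          exact hdvd) S
    exact ⟨HasNE.of_mulEquiv e hne, MaxNE_of_mulEquiv e hmax⟩

end GLMain

end Cfsg.Agent.Lib.Helper47
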