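import Mathlib
import Cfsg.Agent.Lib.Helper47.FreeLaw
import Cfsg.Agent.S2352

set_option autoImplicit false

namespace Cfsg.Agent.Lib.Helper47

open scoped MatrixGroups

/-- Naturality of `FreeGroup.lift`. -/
theorem lift_comp_hom {G H : Type*} [Group G] [Group H] (φ : G →* H) (g : ℕ → G)
    (w : FreeGroup ℕ) : FreeGroup.lift (fun i => φ (g i)) w = φ (FreeGroup.lift g w) := by
  have h1 : FreeGroup.lift (fun i => φ (g i)) = φ.comp (FreeGroup.lift g) := by
    ext i
    simp
  rw [h1, MonoidHom.comp_apply]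

/-- If `w` is a law in `G ≅ G₀ / Z(G₀)` then every value of `w` in `G₀` is central. -/
theorem law_lift_mem_center {G₀ G : Type*} [Group G₀] [Group G] (w : FreeGroup ℕ)
    (e : G ≃* G₀ ⧸ Subgroup.center G₀) (hlaw : ∀ f : ℕ → G, FreeGroup.lift f w = 1)
    (g : ℕ → G₀) : FreeGroup.lift g w ∈ Subgroup.center G₀ := by
  let π : G₀ →* G := e.symm.toMonoidHom.comp (QuotientGroup.mk' (Subgroup.center G₀))
  have h2 := lift_comp_hom π g w
  rw [hlaw] at h2
  have h3 : (QuotientGroup.mk' (Subgroup.center G₀)) (FreeGroup.lift g w) = 1 := by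
    have : e.symm ((QuotientGroup.mk' (Subgroup.center G₀)) (FreeGroup.lift g w)) = 1 := h2.symm
    simpa using this
  exact (QuotientGroup.eq_one_iff _).mp h3

/-- A witness group for `w`: a perfect group in which some value of `w` is not central. -/
def IsWitness (w : FreeGroup ℕ) (K : Type*) [Group K] : Prop :=
  commutator K = ⊤ ∧ ∃ k : ℕ → K, FreeGroup.lift k w ∉ Subgroup.center K

theorem IsWitness.not_central {K G₀ : Type*} [Group K] [Group G₀] {w : FreeGroup ℕ}
    (hK : IsWitness w K) (φ : K →* G₀) (hφ : Function.Injective φ) :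
    ∃ g : ℕ → G₀, FreeGroup.lift g w ∉ Subgroup.center G₀ := by
  obtain ⟨-, k, hk⟩ := hK
  refine ⟨fun i => φ (k i), ?_⟩
  rw [lift_comp_hom]
  intro hc
  apply hk
  rw [Subgroup.mem_center_iff] at hc ⊢
  intro u
  apply hφ
  rw [map_mul, map_mul]
  exact hc (φ u)

theorem IsWitness.map_mem_commutator {K A : Type*} [Group K] [Group A] {w : FreeGroup ℕ}
    (hK : IsWitness w K) (φ : K →* A) (x : K) : φ x ∈ commutator A := by
  have hx : x ∈ commutator K := by
    rw [hK.1]
    trivial
  rw [commutator_def] at hx ⊢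
  have h := Subgroup.mem_map_of_mem φ hx
  rw [Subgroup.map_commutator] at h
  exact Subgroup.commutator_mono le_top le_top h

theorem IsWitness.not_central_commutator {K A : Type*} [Group K] [Group A] {w : FreeGroup ℕ}
    (hK : IsWitness w K) (φ : K →* A) (hφ : Function.Injective φ) :
    ∃ g : ℕ → commutator A, FreeGroup.lift g w ∉ Subgroup.center (commutator A) := by
  let φ' : K →* commutator A := φ.codRestrict (commutator A) (hK.map_mem_commutator φ)
  refine hK.not_central φ' ?_
  intro a b hab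
  apply hφ
  exact congrArg Subtype.val hab

theorem exists_sq_ne_one (F : Type*) [Field F] [Fintype F] (h : 4 ≤ Fintype.card F) :
    ∃ a : F, a ≠ 0 ∧ a ^ 2 ≠ 1 := by
  classical
  by_contra hcon
  push Not at hcon
  have hsub : (Finset.univ : Finset F) ⊆ {0, 1, -1} := by
    intro a _
    by_cases ha : a = 0
    · simp [ha]
    · have h1 := hcon a ha
      have h2 : (a - 1) * (a + 1) = 0 := by linear_combination h1
      rcases mul_eq_zero.mp h2 with h | h
      · simp [sub_eq_zero.mp h]
      · simp [eq_neg_of_add_eq_zero_left h]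
  have h1 := Finset.card_le_card hsub
  have h3 : ({0, 1, -1} : Finset F).card ≤ 3 := Finset.card_le_three
  rw [Finset.card_univ] at h1
  omega

/-- For a non-trivial word there are thresholds beyond which `SL₂(F)` and `Alt(n)` are witnesses. -/
theorem exists_witness_bounds (w : FreeGroup ℕ) (hw : w ≠ 1) :
    ∃ N₂ n₀ : ℕ, (∀ (F : Type) [Field F] [Fintype F], N₂ ≤ Fintype.card F →
        IsWitness w (Matrix.SpecialLinearGroup (Fin 2) F)) ∧
      (∀ n : ℕ, n₀ ≤ n → IsWitness w (alternatingGroup (Fin n))) := by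
  obtain ⟨N, hN⟩ := exists_not_central.{0} w hw
  obtain ⟨M, hM⟩ := Cfsg.Agent.S2352.result w hw
  refine ⟨max N 4, max M 5, ?_, ?_⟩
  · intro F _ _ hF
    obtain ⟨a, ha, hasq⟩ := exists_sq_ne_one F (le_trans (le_max_right _ _) hF)
    exact ⟨Matrix.SL2.commutator_eq_top ha hasq,
      hN F (le_trans (le_max_left _ _) hF)⟩
  · intro n hn
    have h5 : 5 ≤ Nat.card (Fin n) := by
      rw [Nat.card_eq_fintype_card, Fintype.card_fin]
      exact le_trans (le_max_right _ _) hn
    refine ⟨commutator_alternatingGroup_eq_top h5, ?_⟩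
    obtain ⟨f, hf⟩ := hM n (le_trans (le_max_left _ _) hn)
    refine ⟨f, ?_⟩
    rw [alternatingGroup.center_eq_bot (by omega), Subgroup.mem_bot]
    exact hf

end Cfsg.Agent.Lib.Helper47
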