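import Cfsg.Agent.Lib.Helper47.OmcPieces
import Cfsg.Agent.S0245
import Cfsg.Agent.S0287
import Cfsg.Agent.S2680
import Cfsg.Agent.S2681
import Cfsg.Agent.S2682

/-!
# Involution centralizers in `Ω⁺_{2m}(q)`, `q` even: assembly
-/

set_option autoImplicit false

namespace Cfsg.Agent.Lib.Helper47

open Matrix OmcSkel

section OmcMain

variable {F : Type*} [Field F] [Fintype F] [CharP F 2]

/-- For `A ∈ Sp`, the vector `a` with `Q (A v) = Q v + B(a, v) ^ 2`. -/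
noncomputable def alphaVec (m : ℕ) (A : ↥(Matrix.symplecticGroup (Fin m) F)) :
    Fin m ⊕ Fin m → F :=
  (exists_unique_alpha m A.1 A.2).exists.choose

lemma alphaVec_spec (m : ℕ) (A : ↥(Matrix.symplecticGroup (Fin m) F)) (v : Fin m ⊕ Fin m → F) :
    Cfsg.quadFormPlus m F ((A : Matrix (Fin m ⊕ Fin m) (Fin m ⊕ Fin m) F) *ᵥ v)
      = Cfsg.quadFormPlus m F v + (spForm (Fin m) F (alphaVec m A) v) ^ 2 :=
  (exists_unique_alpha m A.1 A.2).exists.choose_spec v

lemma alphaVec_unique (m : ℕ) (A : ↥(Matrix.symplecticGroup (Fin m) F)) (a : Fin m ⊕ Fin m → F)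
    (ha : ∀ v, Cfsg.quadFormPlus m F ((A : Matrix (Fin m ⊕ Fin m) (Fin m ⊕ Fin m) F) *ᵥ v)
      = Cfsg.quadFormPlus m F v + (spForm (Fin m) F a v) ^ 2) : alphaVec m A = a :=
  (exists_unique_alpha m A.1 A.2).unique (alphaVec_spec m A) ha

lemma sp_coe_mul_inv (m : ℕ) (A : ↥(Matrix.symplecticGroup (Fin m) F)) :
    (A : Matrix (Fin m ⊕ Fin m) (Fin m ⊕ Fin m) F)
      * ((A⁻¹ : ↥(Matrix.symplecticGroup (Fin m) F)) :
        Matrix (Fin m ⊕ Fin m) (Fin m ⊕ Fin m) F) = 1 :=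
  congrArg Subtype.val (mul_inv_cancel A)

lemma sp_coe_inv_mul (m : ℕ) (A : ↥(Matrix.symplecticGroup (Fin m) F)) :
    ((A⁻¹ : ↥(Matrix.symplecticGroup (Fin m) F)) :
        Matrix (Fin m ⊕ Fin m) (Fin m ⊕ Fin m) F)
      * (A : Matrix (Fin m ⊕ Fin m) (Fin m ⊕ Fin m) F) = 1 :=
  congrArg Subtype.val (inv_mul_cancel A)

lemma alphaVec_eq_iff (m : ℕ) (A A' : ↥(Matrix.symplecticGroup (Fin m) F)) :
    alphaVec m A = alphaVec m A' ↔ A' * A⁻¹ ∈ oInSp m F := by
  rw [mem_oInSp]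
  constructor
  · intro h v
    rw [Submonoid.coe_mul, ← Matrix.mulVec_mulVec, alphaVec_spec, ← h]
    have h1 := alphaVec_spec m A (((A⁻¹ : ↥(Matrix.symplecticGroup (Fin m) F)) :
        Matrix (Fin m ⊕ Fin m) (Fin m ⊕ Fin m) F) *ᵥ v)
    rw [Matrix.mulVec_mulVec, sp_coe_mul_inv, Matrix.one_mulVec] at h1
    exact h1.symm
  · intro h
    symm
    apply alphaVec_unique
    intro w
    have h1 := h ((A : Matrix (Fin m ⊕ Fin m) (Fin m ⊕ Fin m) F) *ᵥ w)
    have h2 : ((A⁻¹ : ↥(Matrix.symplecticGroup (Fin m) F)) :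
        Matrix (Fin m ⊕ Fin m) (Fin m ⊕ Fin m) F)
          *ᵥ ((A : Matrix (Fin m ⊕ Fin m) (Fin m ⊕ Fin m) F) *ᵥ w) = w := by
      rw [Matrix.mulVec_mulVec, sp_coe_inv_mul, Matrix.one_mulVec]
    rw [Submonoid.coe_mul, ← Matrix.mulVec_mulVec, h2] at h1
    rw [h1, alphaVec_spec]

/-- The hard direction: `Q ∘ A = Q_a` forces `Q a ∈ ℘(F)` (global count). -/
theorem isWP_alphaVec {q : ℕ} (hF : Fintype.card F = q) (m : ℕ)
    (A : ↥(Matrix.symplecticGroup (Fin m) F)) : IsWP (Cfsg.quadFormPlus m F (alphaVec m A)) := by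
  rcases Nat.eq_zero_or_pos m with h0 | hm
  · subst h0
    refine ⟨0, ?_⟩
    simp [Cfsg.quadFormPlus]
  have hq : 2 ≤ q := by
    rw [← hF]
    exact Fintype.one_lt_card
  have hwp := wp_facts hF
  have hfib := card_eq_card_mul_range (oInSp m F) (alphaVec m) (alphaVec_eq_iff m)
  rw [Cfsg.Agent.S0245.result hF m, card_oInSp, Cfsg.Agent.S0287.result hF m hm] at hfib
  have hP := card_std_wp hF hwp m 0 (Nat.zero_le m)
  rw [Nat.sub_zero] at hP
  have hP' : Nat.card {a : Fin m ⊕ Fin m → F // IsWP (Cfsg.quadFormPlus m F a)} * 2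
      = q ^ m * (q ^ m + 1) := by
    rw [← hP]
    congr 1
    exact Nat.card_congr (Equiv.subtypeEquivRight (fun a => by simp))
  have hnp := arith_sp_o q m _ _ hq hm hfib hP'
  have hsub : {a : Fin m ⊕ Fin m → F | IsWP (Cfsg.quadFormPlus m F a)}
      ⊆ Set.range (alphaVec (F := F) m) := by
    intro a ha
    obtain ⟨A', hA', hspec, -⟩ := exists_transv m a ha
    exact ⟨⟨A', hA'⟩, alphaVec_unique m ⟨A', hA'⟩ a hspec⟩
  have heq : {a : Fin m ⊕ Fin m → F | IsWP (Cfsg.quadFormPlus m F a)}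
      = Set.range (alphaVec (F := F) m) := by
    apply Set.eq_of_subset_of_ncard_le hsub _ (Set.toFinite _)
    rw [← Nat.card_coe_set_eq, ← Nat.card_coe_set_eq]
    exact hnp.le
  have hmem : alphaVec m A ∈ Set.range (alphaVec (F := F) m) := ⟨A, rfl⟩
  rw [← heq] at hmem
  exact hmem

lemma omat_sq {m : ℕ} (x : ↥(Cfsg.isometryGroup F (Cfsg.quadFormPlus m F))) (hx : x ^ 2 = 1) :
    omat x * omat x = 1 := by
  rw [← omat_mul, ← pow_two, hx, omat_one]

/-- `|C_Sp(x)| = |C_O(x)| · #{a fixed by x with Q a ∈ ℘(F)}`. -/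
theorem card_cent_sp_eq {q : ℕ} (hF : Fintype.card F = q) (m : ℕ)
    (x : ↥(Cfsg.isometryGroup F (Cfsg.quadFormPlus m F))) (hx : x ^ 2 = 1) :
    Nat.card ↥(Subgroup.centralizer ({spOfO x} : Set ↥(Matrix.symplecticGroup (Fin m) F)))
      = Nat.card {g : ↥(Cfsg.isometryGroup F (Cfsg.quadFormPlus m F)) // g * x = x * g}
        * Nat.card {a : Fin m ⊕ Fin m → F //
            omat x *ᵥ a = a ∧ IsWP (Cfsg.quadFormPlus m F a)} := by
  have hfib := card_eq_card_mul_range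
    ((oInSp m F).subgroupOf
      (Subgroup.centralizer ({spOfO x} : Set ↥(Matrix.symplecticGroup (Fin m) F))))
    (fun g : ↥(Subgroup.centralizer ({spOfO x} : Set ↥(Matrix.symplecticGroup (Fin m) F))) =>
      alphaVec m g.1)
    (fun g g' => by
      rw [alphaVec_eq_iff, Subgroup.mem_subgroupOf]
      rfl)
  rw [card_oInSp_cent] at hfib
  rw [hfib]
  congr 1
  have hrange : Set.range
      (fun g : ↥(Subgroup.centralizer ({spOfO x} : Set ↥(Matrix.symplecticGroup (Fin m) F))) =>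
        alphaVec m g.1)
      = {a : Fin m ⊕ Fin m → F | omat x *ᵥ a = a ∧ IsWP (Cfsg.quadFormPlus m F a)} := by
    ext a
    constructor
    · rintro ⟨g, rfl⟩
      refine ⟨?_, isWP_alphaVec hF m g.1⟩
      have hg := Subgroup.mem_centralizer_iff.mp g.2 (spOfO x) rfl
      have hg' : omat x * (g.1 : Matrix (Fin m ⊕ Fin m) (Fin m ⊕ Fin m) F)
          = (g.1 : Matrix (Fin m ⊕ Fin m) (Fin m ⊕ Fin m) F) * omat x :=
        congrArg Subtype.val hg
      exact alpha_fixed m (omat x) _ (omat_qplus x) (omat_sq x hx) hg'.symm _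
        (alphaVec_spec m g.1)
    · rintro ⟨hfix, hwp⟩
      obtain ⟨A', hA', hspec, hcomm⟩ := exists_transv m a hwp
      have hc := hcomm (omat x) (spOfO x).2 hfix
      have hmem : (⟨A', hA'⟩ : ↥(Matrix.symplecticGroup (Fin m) F))
          ∈ Subgroup.centralizer ({spOfO x} : Set ↥(Matrix.symplecticGroup (Fin m) F)) := by
        rw [Subgroup.mem_centralizer_iff]
        rintro h rfl
        apply Subtype.ext
        exact hc.symm
      exact ⟨⟨⟨A', hA'⟩, hmem⟩, alphaVec_unique m ⟨A', hA'⟩ a hspec⟩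
  rw [hrange]
  rfl

lemma qplus_sub_one (m : ℕ) (M : Matrix (Fin m ⊕ Fin m) (Fin m ⊕ Fin m) F)
    (hMQ : ∀ v, Cfsg.quadFormPlus m F (M *ᵥ v) = Cfsg.quadFormPlus m F v)
    (v : Fin m ⊕ Fin m → F) :
    Cfsg.quadFormPlus m F ((M - 1) *ᵥ v) = spForm (Fin m) F v (M *ᵥ v) := by
  have h2 : (2 : F) = 0 := CharTwo.two_eq_zero
  have h1 : (M - 1) *ᵥ v = M *ᵥ v + v := by
    rw [Matrix.sub_mulVec, Matrix.one_mulVec, sub_eq_add_neg]
    congr 1
    funext i
    exact CharTwo.neg_eq (v i)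
  rw [h1, qplus_add, hMQ]
  have h3 := (spForm_isSForm (F := F) (l := Fin m)).symm v (M *ᵥ v)
  rw [RingHom.id_apply] at h3
  rw [h3]
  linear_combination (Cfsg.quadFormPlus m F v - spForm (Fin m) F v (M *ᵥ v)) * h2

lemma spOfO_sq {m : ℕ} (x : ↥(Cfsg.isometryGroup F (Cfsg.quadFormPlus m F))) (hx : x ^ 2 = 1) :
    (spOfO x) ^ 2 = 1 := by
  apply Subtype.ext
  rw [SubmonoidClass.coe_pow, spOfO_coe, pow_two, omat_sq x hx]
  rfl

/-- Non-alternating involutions: `|C_Sp(x)| = q^(2m-s) |C_Ω(x)|`. -/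
theorem card_cent_na {q : ℕ} (hF : Fintype.card F = q) (m s : ℕ)
    (h : Fintype.card F ≠ 2 ∨ m ≠ 2)
    (x : ↥(Cfsg.isometryGroup F (Cfsg.quadFormPlus m F))) (hx : x ^ 2 = 1)
    (hs : (omat x - 1).rank = s)
    (hna : ∃ v, Cfsg.quadFormPlus m F ((omat x - 1) *ᵥ v) ≠ 0) :
    Nat.card ↥(Subgroup.centralizer ({spOfO x} : Set ↥(Matrix.symplecticGroup (Fin m) F)))
      = q ^ (2 * m - s) * Nat.card {g : ↥(Cfsg.Omega F (Cfsg.quadFormPlus m F)) //
          (g : ↥(Cfsg.isometryGroup F (Cfsg.quadFormPlus m F))) * x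
            = x * (g : ↥(Cfsg.isometryGroup F (Cfsg.quadFormPlus m F)))} := by
  have hwp := wp_facts hF
  have hK := card_cent_sp_eq hF m x hx
  have hT := card_fix_wp_na hF hwp m s (omat x) (omat_qplus x) (omat_sq x hx) hs hna
  obtain ⟨u, hu, hxu⟩ := exists_fixed_nonsingular m x hx (fun hh => by
    obtain ⟨v, hv⟩ := hna
    exact hv (hh.2 v))
  have hI := cent_index_two m h x u hu hxu
  rw [hK, hI, ← hT]
  ring

/-- Alternating involutions. -/
theorem card_cent_alt {q : ℕ} (hF : Fintype.card F = q) (m s : ℕ) (hm : 1 ≤ m)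
    (h : Fintype.card F ≠ 2 ∨ m ≠ 2)
    (x : ↥(Cfsg.isometryGroup F (Cfsg.quadFormPlus m F))) (hx : x ^ 2 = 1)
    (hs : (omat x - 1).rank = s)
    (halt : ∀ v, Cfsg.quadFormPlus m F ((omat x - 1) *ᵥ v) = 0) :
    Even s ∧ s ≤ m ∧
    (s = m → Nat.card ↥(Subgroup.centralizer
        ({spOfO x} : Set ↥(Matrix.symplecticGroup (Fin m) F)))
      = q ^ m * Nat.card {g : ↥(Cfsg.Omega F (Cfsg.quadFormPlus m F)) //
          (g : ↥(Cfsg.isometryGroup F (Cfsg.quadFormPlus m F))) * x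
            = x * (g : ↥(Cfsg.isometryGroup F (Cfsg.quadFormPlus m F)))}) ∧
    (s < m → Nat.card ↥(Subgroup.centralizer
        ({spOfO x} : Set ↥(Matrix.symplecticGroup (Fin m) F)))
      = q ^ m * (q ^ (m - s) + 1) * Nat.card {g : ↥(Cfsg.Omega F (Cfsg.quadFormPlus m F)) //
          (g : ↥(Cfsg.isometryGroup F (Cfsg.quadFormPlus m F))) * x
            = x * (g : ↥(Cfsg.isometryGroup F (Cfsg.quadFormPlus m F)))}) := by
  have hwp := wp_facts hF
  have hK := card_cent_sp_eq hF m x hx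
  obtain ⟨hev, hsm, hconj⟩ := alt_conj_std m s x hx hs halt
  obtain ⟨M, hMQ, hM2, hMr, hMalt, hMfix⟩ := exists_std_alt_inv (F := F) m s hsm hev
  obtain ⟨P, hPQ, hPu, hPM⟩ := hconj M hMQ hM2 hMr hMalt
  have hT1 := card_fix_wp_conj m (omat x) M P hPQ hPu hPM
  have hT2 : Nat.card {a : Fin m ⊕ Fin m → F // M *ᵥ a = a ∧ IsWP (Cfsg.quadFormPlus m F a)}
      = Nat.card {a : Fin m ⊕ Fin m → F // (∀ i : Fin m, i.val < s → a (Sum.inr i) = 0) ∧
        IsWP (Cfsg.quadFormPlus m F a)} :=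
    Nat.card_congr (Equiv.subtypeEquivRight (fun a => by rw [hMfix a]))
  have hT := card_std_wp hF hwp m s hsm
  rw [← hT2, ← hT1] at hT
  refine ⟨hev, hsm, ?_, ?_⟩
  · intro hsm'
    have hI := cent_index_one m hm h x hx (hs.trans hsm') halt
    rw [hsm', Nat.sub_self, pow_zero] at hT
    have hT' : Nat.card {a : Fin m ⊕ Fin m → F //
        omat x *ᵥ a = a ∧ IsWP (Cfsg.quadFormPlus m F a)} = q ^ m := by
      omega
    rw [hK, hI, hT']
    ring
  · intro hlt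
    obtain ⟨u, hu, hxu⟩ := exists_fixed_nonsingular m x hx (fun hh => by
      rw [hs] at hh
      omega)
    have hI := cent_index_two m h x u hu hxu
    rw [hK, hI, ← hT]
    ring

end OmcMain

end Cfsg.Agent.Lib.Helper47
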