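import Cfsg.Agent.Lib.Helper47.OmcDefs
import Cfsg.Agent.Lib.Helper1.OmcINDEX1
import Cfsg.Agent.Lib.Helper1.OmcINDEX2
import Cfsg.Agent.Lib.Helper19.OmcALPHA
import Cfsg.Agent.Lib.Helper21.OmcOBIJ
import Cfsg.Agent.Lib.Helper34.OmcFIXNS
import Cfsg.Agent.Lib.Helper46.OmcARITHA
import Cfsg.Agent.Lib.Helper46.OmcRANKLE
import Cfsg.Agent.Lib.Helper58.OmcNACOUNT
import Cfsg.Agent.Lib.Helper58.OmcSTDINV
import Cfsg.Agent.Lib.Helper63.OmcARITH0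
import Cfsg.Agent.Lib.Helper63.OmcARITHB
import Cfsg.Agent.Lib.Helper63.OmcARITHC
import Cfsg.Agent.Lib.Helper64.OmcCOUNTSTD
import Cfsg.Agent.Lib.Helper64.OmcTRANSV
import Cfsg.Agent.Lib.Helper78.OmcCONJALT
import Cfsg.Agent.Lib.Helper85.OmcWPFACTS
import Cfsg.Agent.Lib.Helper87.OmcFIBERCOUNT
import Cfsg.Agent.Lib.Helper87.OmcIMGFIX
import Cfsg.Agent.Lib.Helper90.OmcCONJT

/-!
# Pieces of the S2683/S2684/S2685 project (proved by other seats), restated in one namespace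
-/

set_option autoImplicit false

namespace Cfsg.Agent.Lib.Helper47.OmcSkel

open Cfsg.Agent.Lib.Helper47 Matrix

section Pieces

variable {F : Type*} [Field F]

-- PIECE WPFACTS
theorem wp_facts [Fintype F] [CharP F 2] {q : ℕ} (hF : Fintype.card F = q) : WPFacts F q :=
  Cfsg.Agent.Lib.Helper85.Omc.wp_facts hF

-- PIECE ALPHA
theorem exists_unique_alpha [Fintype F] [CharP F 2] (m : ℕ)
    (A : Matrix (Fin m ⊕ Fin m) (Fin m ⊕ Fin m) F) (hA : A ∈ Matrix.symplecticGroup (Fin m) F) :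
    ∃! a : Fin m ⊕ Fin m → F, ∀ v, Cfsg.quadFormPlus m F (A *ᵥ v)
      = Cfsg.quadFormPlus m F v + (spForm (Fin m) F a v) ^ 2 :=
  Cfsg.Agent.Lib.Helper19.Omc.exists_unique_alpha m A hA

-- PIECE TRANSV
theorem exists_transv [CharP F 2] (m : ℕ) (a : Fin m ⊕ Fin m → F)
    (ha : IsWP (Cfsg.quadFormPlus m F a)) :
    ∃ A : Matrix (Fin m ⊕ Fin m) (Fin m ⊕ Fin m) F, A ∈ Matrix.symplecticGroup (Fin m) F ∧
      (∀ v, Cfsg.quadFormPlus m F (A *ᵥ v)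
        = Cfsg.quadFormPlus m F v + (spForm (Fin m) F a v) ^ 2) ∧
      ∀ M : Matrix (Fin m ⊕ Fin m) (Fin m ⊕ Fin m) F, M ∈ Matrix.symplecticGroup (Fin m) F →
        M *ᵥ a = a → A * M = M * A :=
  Cfsg.Agent.Lib.Helper64.Omc.exists_transv m a ha

-- PIECE COUNTSTD
theorem card_std_wp [Fintype F] [CharP F 2] {q : ℕ} (hF : Fintype.card F = q)
    (hwp : WPFacts F q) (m s : ℕ) (hs : s ≤ m) :
    Nat.card {a : Fin m ⊕ Fin m → F // (∀ i : Fin m, i.val < s → a (Sum.inr i) = 0) ∧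
      IsWP (Cfsg.quadFormPlus m F a)} * 2 = q ^ m * (q ^ (m - s) + 1) :=
  Cfsg.Agent.Lib.Helper64.Omc.card_std_wp hF hwp m s hs

-- PIECE FIBERCOUNT
theorem card_eq_card_mul_range {G : Type*} [Group G] [Finite G] (H : Subgroup G) {X : Type*}
    (α : G → X) (hα : ∀ g g' : G, α g = α g' ↔ g' * g⁻¹ ∈ H) :
    Nat.card G = Nat.card H * Nat.card (Set.range α) :=
  Cfsg.Agent.Lib.Helper87.Omc.card_eq_card_mul_range H α hα

-- PIECE OBIJ (two theorems)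
theorem card_oInSp [CharP F 2] (m : ℕ) :
    Nat.card (oInSp m F) = Nat.card ↥(Cfsg.isometryGroup F (Cfsg.quadFormPlus m F)) :=
  Cfsg.Agent.Lib.Helper21.Omc.card_oInSp m

theorem card_oInSp_cent [CharP F 2] (m : ℕ)
    (x : ↥(Cfsg.isometryGroup F (Cfsg.quadFormPlus m F))) :
    Nat.card ((oInSp m F).subgroupOf
        (Subgroup.centralizer ({spOfO x} : Set ↥(Matrix.symplecticGroup (Fin m) F))))
      = Nat.card {g : ↥(Cfsg.isometryGroup F (Cfsg.quadFormPlus m F)) // g * x = x * g} :=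
  Cfsg.Agent.Lib.Helper21.Omc.card_oInSp_cent m x

-- PIECE ARITH0
theorem arith_sp_o (q m n p : ℕ) (hq : 2 ≤ q) (hm : 1 ≤ m)
    (h1 : q ^ (m ^ 2) * ∏ i ∈ Finset.range m, (q ^ (2 * (i + 1)) - 1)
      = (2 * q ^ (m * (m - 1)) * (q ^ m - 1) * ∏ i ∈ Finset.range (m - 1), (q ^ (2 * (i + 1)) - 1)) * n)
    (h2 : p * 2 = q ^ m * (q ^ m + 1)) : n = p :=
  Cfsg.Agent.Lib.Helper63.Omc.arith_sp_o q m n p hq hm h1 h2

-- PIECE IMGFIX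
theorem alpha_fixed [CharP F 2] (m : ℕ) (M A : Matrix (Fin m ⊕ Fin m) (Fin m ⊕ Fin m) F)
    (hMQ : ∀ v, Cfsg.quadFormPlus m F (M *ᵥ v) = Cfsg.quadFormPlus m F v) (hM2 : M * M = 1)
    (hAM : A * M = M * A) (a : Fin m ⊕ Fin m → F)
    (ha : ∀ v, Cfsg.quadFormPlus m F (A *ᵥ v)
      = Cfsg.quadFormPlus m F v + (spForm (Fin m) F a v) ^ 2) : M *ᵥ a = a :=
  Cfsg.Agent.Lib.Helper87.Omc.alpha_fixed m M A hMQ hM2 hAM a ha

-- PIECE NACOUNT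
theorem card_fix_wp_na [Fintype F] [CharP F 2] {q : ℕ} (hF : Fintype.card F = q)
    (hwp : WPFacts F q) (m s : ℕ) (M : Matrix (Fin m ⊕ Fin m) (Fin m ⊕ Fin m) F)
    (hMQ : ∀ v, Cfsg.quadFormPlus m F (M *ᵥ v) = Cfsg.quadFormPlus m F v) (hM2 : M * M = 1)
    (hs : (M - 1).rank = s) (hna : ∃ v, Cfsg.quadFormPlus m F ((M - 1) *ᵥ v) ≠ 0) :
    Nat.card {a : Fin m ⊕ Fin m → F // M *ᵥ a = a ∧ IsWP (Cfsg.quadFormPlus m F a)} * 2
      = q ^ (2 * m - s) :=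
  Cfsg.Agent.Lib.Helper58.Omc.card_fix_wp_na hF hwp m s M hMQ hM2 hs hna

-- PIECE STDINV
theorem exists_std_alt_inv [CharP F 2] (m s : ℕ) (hs : s ≤ m) (hev : Even s) :
    ∃ M : Matrix (Fin m ⊕ Fin m) (Fin m ⊕ Fin m) F,
      (∀ v, Cfsg.quadFormPlus m F (M *ᵥ v) = Cfsg.quadFormPlus m F v) ∧ M * M = 1 ∧
      (M - 1).rank = s ∧ (∀ v, Cfsg.quadFormPlus m F ((M - 1) *ᵥ v) = 0) ∧
      ∀ a : Fin m ⊕ Fin m → F, M *ᵥ a = a ↔ ∀ i : Fin m, i.val < s → a (Sum.inr i) = 0 :=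
  Cfsg.Agent.Lib.Helper58.Omc.exists_std_alt_inv m s hs hev

-- PIECE CONJT
theorem card_fix_wp_conj (m : ℕ) (M M' P : Matrix (Fin m ⊕ Fin m) (Fin m ⊕ Fin m) F)
    (hP : ∀ v, Cfsg.quadFormPlus m F (P *ᵥ v) = Cfsg.quadFormPlus m F v) (hPu : IsUnit P.det)
    (h : P * M = M' * P) :
    Nat.card {a : Fin m ⊕ Fin m → F // M *ᵥ a = a ∧ IsWP (Cfsg.quadFormPlus m F a)}
      = Nat.card {a : Fin m ⊕ Fin m → F // M' *ᵥ a = a ∧ IsWP (Cfsg.quadFormPlus m F a)} :=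
  Cfsg.Agent.Lib.Helper90.Omc.card_fix_wp_conj m M M' P hP hPu h

-- PIECE INDEX2
theorem cent_index_two [Fintype F] [CharP F 2] (m : ℕ) (h : Fintype.card F ≠ 2 ∨ m ≠ 2)
    (x : ↥(Cfsg.isometryGroup F (Cfsg.quadFormPlus m F))) (u : Fin m ⊕ Fin m → F)
    (hu : Cfsg.quadFormPlus m F u ≠ 0) (hxu : omat x *ᵥ u = u) :
    Nat.card {g : ↥(Cfsg.isometryGroup F (Cfsg.quadFormPlus m F)) // g * x = x * g}
      = 2 * Nat.card {g : ↥(Cfsg.Omega F (Cfsg.quadFormPlus m F)) //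
          (g : ↥(Cfsg.isometryGroup F (Cfsg.quadFormPlus m F))) * x
            = x * (g : ↥(Cfsg.isometryGroup F (Cfsg.quadFormPlus m F)))} :=
  Cfsg.Agent.Lib.Helper1.Omc.cent_index_two m h x u hu hxu

-- PIECE INDEX1
theorem cent_index_one [Fintype F] [CharP F 2] (m : ℕ) (hm : 1 ≤ m)
    (h : Fintype.card F ≠ 2 ∨ m ≠ 2)
    (x : ↥(Cfsg.isometryGroup F (Cfsg.quadFormPlus m F))) (hx : x ^ 2 = 1)
    (hrank : (omat x - 1).rank = m)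
    (halt : ∀ v, Cfsg.quadFormPlus m F ((omat x - 1) *ᵥ v) = 0) :
    Nat.card {g : ↥(Cfsg.isometryGroup F (Cfsg.quadFormPlus m F)) // g * x = x * g}
      = Nat.card {g : ↥(Cfsg.Omega F (Cfsg.quadFormPlus m F)) //
          (g : ↥(Cfsg.isometryGroup F (Cfsg.quadFormPlus m F))) * x
            = x * (g : ↥(Cfsg.isometryGroup F (Cfsg.quadFormPlus m F)))} :=
  Cfsg.Agent.Lib.Helper1.Omc.cent_index_one m hm h x hx hrank halt

-- PIECE FIXNS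
theorem exists_fixed_nonsingular [Fintype F] [CharP F 2] (m : ℕ)
    (x : ↥(Cfsg.isometryGroup F (Cfsg.quadFormPlus m F))) (hx : x ^ 2 = 1)
    (hne : ¬ ((omat x - 1).rank = m ∧
      ∀ v, Cfsg.quadFormPlus m F ((omat x - 1) *ᵥ v) = 0)) :
    ∃ u : Fin m ⊕ Fin m → F, Cfsg.quadFormPlus m F u ≠ 0 ∧ omat x *ᵥ u = u :=
  Cfsg.Agent.Lib.Helper34.Omc.exists_fixed_nonsingular m x hx hne

-- PIECE CONJALT
theorem alt_conj_std [Fintype F] [CharP F 2] (m s : ℕ)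
    (x : ↥(Cfsg.isometryGroup F (Cfsg.quadFormPlus m F))) (hx : x ^ 2 = 1)
    (hs : (omat x - 1).rank = s)
    (halt : ∀ v, Cfsg.quadFormPlus m F ((omat x - 1) *ᵥ v) = 0) :
    Even s ∧ s ≤ m ∧ ∀ M : Matrix (Fin m ⊕ Fin m) (Fin m ⊕ Fin m) F,
      (∀ v, Cfsg.quadFormPlus m F (M *ᵥ v) = Cfsg.quadFormPlus m F v) → M * M = 1 →
      (M - 1).rank = s → (∀ v, Cfsg.quadFormPlus m F ((M - 1) *ᵥ v) = 0) →
      ∃ P : Matrix (Fin m ⊕ Fin m) (Fin m ⊕ Fin m) F,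
        (∀ v, Cfsg.quadFormPlus m F (P *ᵥ v) = Cfsg.quadFormPlus m F v) ∧ IsUnit P.det ∧
        P * omat x = M * P :=
  Cfsg.Agent.Lib.Helper78.Omc.alt_conj_std m s x hx hs halt

-- PIECE RANKLE
theorem rank_le_of_inv [Fintype F] [CharP F 2] (m : ℕ)
    (x : ↥(Cfsg.isometryGroup F (Cfsg.quadFormPlus m F))) (hx : x ^ 2 = 1) :
    (omat x - 1).rank ≤ m :=
  Cfsg.Agent.Lib.Helper46.Omc.rank_le_of_inv m x hx

-- PIECE ARITHB
theorem arith_b (q m s cS cO A B : ℕ) (hq : 2 ≤ q) (hs : s ≤ m) (hodd : Odd s)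
    (h1 : cS = q ^ (2 * m - s) * cO)
    (h2 : cS = q ^ (2 * m * s - (3 * s ^ 2 - s) / 2) * A * B) :
    cO = q ^ (2 * m * (s - 1) - (3 * s ^ 2 - 3 * s) / 2) * A * B :=
  Cfsg.Agent.Lib.Helper63.Omc.arith_b q m s cS cO A B hq hs hodd h1 h2

-- PIECE ARITHC
theorem arith_c (q m s cS cO A B : ℕ) (hq : 2 ≤ q) (hs : s ≤ m) (hev : Even s) (hs2 : 2 ≤ s)
    (h1 : cS = q ^ (2 * m - s) * cO)
    (h2 : cS = q ^ (2 * m * s - (3 * s ^ 2 - 3 * s) / 2 - 1) * A * B) :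
    cO = q ^ (2 * m * (s - 1) - (3 * s ^ 2 - 5 * s) / 2 - 1) * A * B :=
  Cfsg.Agent.Lib.Helper63.Omc.arith_c q m s cS cO A B hq hs hev hs2 h1 h2

-- PIECE ARITHA
theorem arith_a (q m s cS cO A : ℕ) (hq : 2 ≤ q) (hs : s ≤ m) (hev : Even s)
    (h1 : (s = m → cS = q ^ m * cO) ∧ (s < m → cS = q ^ m * (q ^ (m - s) + 1) * cO))
    (h2 : cS = q ^ (2 * m * s - (3 * s ^ 2 - s) / 2) * A *
      ((q : ℕ) ^ ((m - s) ^ 2) * ∏ i : Fin (m - s), (q ^ (2 * ((i : ℕ) + 1)) - 1))) :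
    cO = q ^ (2 * m * s - (3 * s ^ 2 + s) / 2) * A *
      (if s = m then 1 else q ^ ((m - s) * (m - s - 1)) * (q ^ (m - s) - 1) *
        ∏ i : Fin (m - s - 1), (q ^ (2 * ((i : ℕ) + 1)) - 1)) :=
  Cfsg.Agent.Lib.Helper46.Omc.arith_a q m s cS cO A hq hs hev h1 h2

end Pieces

end Cfsg.Agent.Lib.Helper47.OmcSkel
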