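import Mathlib
import Cfsg.Agent.Lib.Helper48.RCBase

/-!
# Project QB (helper48, S2359), piece TORUS (helper47)

In the abstract rank-one setting `Ok0`: an element commuting with `H s`, `s² ≠ 1`, lies in the
torus.
-/

set_option autoImplicit false

namespace Cfsg.Agent.Lib.Helper48.QB

open Cfsg.Agent.Lib.Helper48.RC

variable {F : Type*} [Field F] [Finite F] [CharP F 3] {G : Type*} [Group G] [Finite G]
variable {θ : F →+* F} {T : F → F → F → G} {H : Fˣ → G} {w : G}

/-- the torus meets the unipotent subgroup trivially -/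
theorem TORUS_H_mem_Qs (h : Ok0 θ T H w) (τ : Fˣ) (hτ : H τ ∈ h.Qs) : τ = 1 := by
  have hb : w * H τ * w ∈ h.Bs := by rw [h.wH]; exact h.H_mem _
  exact h.H_inj τ (h.eq_one_of_wuw hτ hb)

/-- uniqueness of the form `T v * H σ` -/
theorem TORUS_TH_inj (h : Ok0 θ T H w) (a b c a' b' c' : F) (σ σ' : Fˣ)
    (e : T a b c * H σ = T a' b' c' * H σ') : σ = σ' ∧ T a b c = T a' b' c' := by
  have h1 : H (σ' * σ⁻¹) ∈ h.Qs := by
    have e2 : H (σ' * σ⁻¹) = (T a' b' c')⁻¹ * T a b c := by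
      rw [h.H_mul, ← h.H_inv, eq_inv_mul_iff_mul_eq, ← mul_assoc, ← e, mul_assoc,
        mul_inv_cancel, mul_one]
    rw [e2]
    exact h.Qs.mul_mem (h.Qs.inv_mem (h.T_mem _ _ _)) (h.T_mem _ _ _)
  have h2 := TORUS_H_mem_Qs h _ h1
  have h3 : σ = σ' := (mul_inv_eq_one.mp h2).symm
  subst h3
  exact ⟨rfl, mul_right_cancel e⟩

/-- the only fixed point of `H s`, `s² ≠ 1`, on the unipotent subgroup is the identity -/
theorem TORUS_fix (h : Ok0 θ T H w) (s : Fˣ) (hs : s * s ≠ 1) (a b c : F)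
    (ha : (s : F) * a = a) (hb : (s : F) * θ s * b = b) (hc : (s : F) ^ 2 * θ s * c = c) :
    a = 0 ∧ b = 0 ∧ c = 0 := by
  have hs1 : (s : F) ≠ 1 := by
    intro e
    apply hs
    have h0 : s = 1 := Units.ext e
    rw [h0, mul_one]
  have hθθ : θ (θ (s : F)) = (s : F) ^ 3 := h.θθ _
  refine ⟨?_, ?_, ?_⟩
  · by_contra ha0
    apply hs1
    have h0 : ((s : F) - 1) * a = 0 := by linear_combination ha
    rcases mul_eq_zero.mp h0 with h1 | h1
    · linear_combination h1
    · exact absurd h1 ha0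
  · by_contra hb0
    apply hs
    have e1 : (s : F) * θ s = 1 := by
      have h0 : ((s : F) * θ s - 1) * b = 0 := by linear_combination hb
      rcases mul_eq_zero.mp h0 with h1 | h1
      · linear_combination h1
      · exact absurd h1 hb0
    have e2 : θ (s : F) * (s : F) ^ 3 = 1 := by
      have h0 := congrArg θ e1
      rw [map_mul, hθθ, map_one] at h0
      exact h0
    have e3 : (s : F) ^ 2 = 1 := by linear_combination (-((s : F) ^ 2)) * e1 + e2
    apply Units.ext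
    rw [Units.val_mul, Units.val_one, ← pow_two]; exact e3
  · by_contra hc0
    have e1 : (s : F) ^ 2 * θ s = 1 := by
      have h0 : ((s : F) ^ 2 * θ s - 1) * c = 0 := by linear_combination hc
      rcases mul_eq_zero.mp h0 with h1 | h1
      · linear_combination h1
      · exact absurd h1 hc0
    have e2 : θ (s : F) ^ 2 * (s : F) ^ 3 = 1 := by
      have h0 := congrArg θ e1
      rw [map_mul, map_pow, hθθ, map_one] at h0
      exact h0
    have e3 : (s : F) = 1 := by
      linear_combination (-(s : F)) * e2 + ((s : F) ^ 2 * θ s + 1) * e1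
    exact hs1 e3

-- QB-TORUS
theorem centralizer_H (h : Ok0 θ T H w) (s : Fˣ) (hs : s * s ≠ 1) (g : G)
    (hg : g * H s = H s * g) : ∃ s' : Fˣ, g = H s' := by
  rcases h.cases g with ⟨a, b, c, s', rfl⟩ | ⟨a, b, c, a', b', c', s', rfl⟩
  · have e : T a b c * H (s' * s)
        = T (s * a) (s * θ s * b) ((s : F) ^ 2 * θ s * c) * H (s * s') := by
      calc T a b c * H (s' * s) = T a b c * H s' * H s := by rw [h.H_mul, mul_assoc]
        _ = H s * T a b c * H s' := by rw [hg, mul_assoc]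
        _ = T (s * a) (s * θ s * b) ((s : F) ^ 2 * θ s * c) * H (s * s') := by
            rw [h.HT, h.H_mul, mul_assoc]
    obtain ⟨-, e2⟩ := TORUS_TH_inj h _ _ _ _ _ _ _ _ e
    obtain ⟨ha, hb, hc⟩ := h.T_inj _ _ _ _ _ _ e2
    obtain ⟨rfl, rfl, rfl⟩ := TORUS_fix h s hs a b c ha.symm hb.symm hc.symm
    exact ⟨s', by rw [h.T_zero, one_mul]⟩
  · exfalso
    have hq : T a b c ∈ h.Qs := h.T_mem a b c
    have hbb : T a' b' c' * H s' ∈ h.Bs := h.TH_mem a' b' c' s'
    have hx : (T a b c)⁻¹ * H s * T a b c ∈ h.Bs :=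
      h.Bs.mul_mem (h.Bs.mul_mem (h.Bs.inv_mem (h.Qs_le_Bs hq)) (h.H_mem s)) (h.Qs_le_Bs hq)
    have e1 : (T a b c)⁻¹ * H s * T a b c * w
        = w * ((T a' b' c' * H s') * H s * (T a' b' c' * H s')⁻¹) := by
      have e0 : (T a b c)⁻¹ * H s * T a b c * w
          = (T a b c)⁻¹ * (H s * (T a b c * w * (T a' b' c' * H s')))
            * (T a' b' c' * H s')⁻¹ := by group
      rw [e0, ← hg]; group
    have e2 : w * ((T a b c)⁻¹ * H s * T a b c) * w
        = (T a' b' c' * H s') * H s * (T a' b' c' * H s')⁻¹ := by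
      rw [mul_assoc, e1, ← mul_assoc, h.w_sq, one_mul]
    have hx' : w * ((T a b c)⁻¹ * H s * T a b c) * w ∈ h.Bs := by
      rw [e2]; exact h.Bs.mul_mem (h.Bs.mul_mem hbb (h.H_mem s)) (h.Bs.inv_mem hbb)
    obtain ⟨σ, hσ⟩ := h.exists_H_of_mem hx hx'
    have e3 : T (s * a) (s * θ s * b) ((s : F) ^ 2 * θ s * c) * H s = T a b c * H σ := by
      rw [← h.HT, ← hσ]; group
    obtain ⟨-, e4⟩ := TORUS_TH_inj h _ _ _ _ _ _ _ _ e3
    obtain ⟨ha, hb, hc⟩ := h.T_inj _ _ _ _ _ _ e4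
    obtain ⟨rfl, rfl, rfl⟩ := TORUS_fix h s hs a b c ha hb hc
    rw [h.T_zero, inv_one, one_mul, mul_one, h.wH] at e2
    have e5 : H s⁻¹ * (T a' b' c' * H s') = T a' b' c' * H s' * H s := by
      rw [e2]; group
    have e6 : H s⁻¹ * T a' b' c' * H s' = T a' b' c' * H (s' * s) := by
      rw [mul_assoc, e5, h.H_mul, mul_assoc]
    rw [h.HT, mul_assoc, ← h.H_mul] at e6
    obtain ⟨e7, -⟩ := TORUS_TH_inj h _ _ _ _ _ _ _ _ e6
    rw [mul_comm s' s] at e7
    have e8 : s⁻¹ = s := mul_right_cancel e7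
    apply hs
    calc s * s = s⁻¹ * s := by rw [e8]
      _ = 1 := inv_mul_cancel s

end Cfsg.Agent.Lib.Helper48.QB
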