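import Cfsg.Agent.Lib.Helper47.QfDefs

/-!
# QF pieces DIFF, TRANSVQ, FLIP, ARITHR, ARITHIDX (S5983)
-/

set_option autoImplicit false

namespace Cfsg.Agent.Lib.Helper47.Qf

open Cfsg.Agent.Lib.Helper47 Matrix

variable {F : Type*} [Field F]

lemma sq_inj [CharP F 2] : Function.Injective (fun x : F => x ^ 2) := by
  have h2 : (2 : F) = 0 := CharTwo.two_eq_zero
  intro x y hxy
  have hxy' : x ^ 2 = y ^ 2 := hxy
  have h : (x - y) ^ 2 = 0 := by
    linear_combination hxy' - (x * y - y ^ 2) * h2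
  exact sub_eq_zero.mp ((pow_eq_zero_iff (n := 2) two_ne_zero).mp h)

lemma sq_surj [Fintype F] [CharP F 2] : Function.Surjective (fun x : F => x ^ 2) :=
  Finite.surjective_of_injective sq_inj

-- PIECE DIFF
theorem qf_diff [Fintype F] [CharP F 2] (d : ℕ) (Q Q' : (Fin d ⊕ Fin d → F) → F)
    (hQ : IsQF d Q) (hQ' : IsQF d Q') :
    ∃ a : Fin d ⊕ Fin d → F, ∀ v, Q' v = Q v + (spForm (Fin d) F a v) ^ 2 := by
  have : Fact (Nat.Prime 2) := ⟨Nat.prime_two⟩
  have h2 : (2 : F) = 0 := CharTwo.two_eq_zero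
  choose sq hsq using (sq_surj (F := F))
  have hsq' : ∀ b : F, sq b ^ 2 = b := hsq
  let D : (Fin d ⊕ Fin d → F) →+ F :=
    { toFun := fun v => Q' v + Q v
      map_zero' := by
        rw [hQ.zero, hQ'.zero, add_zero]
      map_add' := by
        intro v w
        rw [hQ.2, hQ'.2]
        linear_combination (spForm (Fin d) F v w) * h2 }
  have hD : ∀ v, D v = Q' v + Q v := fun _ => rfl
  have hDsmul : ∀ (c : F) (v : Fin d ⊕ Fin d → F), D (c • v) = c ^ 2 * D v := by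
    intro c v
    rw [hD, hD, hQ.1, hQ'.1]
    ring
  have hDsum : ∀ v : Fin d ⊕ Fin d → F,
      D v = ∑ i : Fin d, v (Sum.inl i) ^ 2 * D (Pi.single (Sum.inl i) 1)
        + ∑ i : Fin d, v (Sum.inr i) ^ 2 * D (Pi.single (Sum.inr i) 1) := by
    intro v
    have h1 : v = ∑ j, v j • (Pi.single j (1 : F) : Fin d ⊕ Fin d → F) := by
      conv_lhs => rw [← Finset.univ_sum_single v]
      apply Finset.sum_congr rfl
      intro j _
      rw [← Pi.single_smul, smul_eq_mul, mul_one]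
    conv_lhs => rw [h1]
    rw [map_sum, Fintype.sum_sum_type]
    simp only [hDsmul]
  have hkey : ∀ v : Fin d ⊕ Fin d → F,
      spForm (Fin d) F (Sum.elim (fun i => sq (D (Pi.single (Sum.inr i) 1)))
        (fun i => sq (D (Pi.single (Sum.inl i) 1)))) v ^ 2 = D v := by
    intro v
    rw [spForm_eq_sum, sum_pow_char 2, hDsum, ← Finset.sum_add_distrib]
    apply Finset.sum_congr rfl
    intro i _
    simp only [Sum.elim_inl, Sum.elim_inr]
    have e1 := hsq' (D (Pi.single (Sum.inl i) 1))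
    have e2 := hsq' (D (Pi.single (Sum.inr i) 1))
    linear_combination (v (Sum.inl i)) ^ 2 * e1 + (v (Sum.inr i)) ^ 2 * e2
      - (sq (D (Pi.single (Sum.inl i) 1)) * v (Sum.inl i) *
          (sq (D (Pi.single (Sum.inr i) 1)) * v (Sum.inr i))) * h2
  refine ⟨Sum.elim (fun i => sq (D (Pi.single (Sum.inr i) 1)))
    (fun i => sq (D (Pi.single (Sum.inl i) 1))), ?_⟩
  intro v
  rw [hkey, hD]
  linear_combination (-(Q v)) * h2

/-- the transvection matrix `v ↦ v + (c * f(a, v)) • a` -/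
theorem transv_mulVec' (m : ℕ) (a : Fin m ⊕ Fin m → F) (c : F) (v : Fin m ⊕ Fin m → F) :
    (1 + c • Matrix.vecMulVec a (a ᵥ* Matrix.J (Fin m) F)) *ᵥ v =
      v + (c * spForm (Fin m) F a v) • a := by
  rw [Matrix.add_mulVec, Matrix.one_mulVec, Matrix.smul_mulVec]
  congr 1
  ext i
  simp only [Pi.smul_apply, smul_eq_mul, Matrix.mulVec, Matrix.vecMulVec_apply, spForm,
    Matrix.dotProduct_mulVec]
  simp only [dotProduct, Finset.mul_sum]
  rw [Finset.sum_mul]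
  refine Finset.sum_congr rfl (fun j _ => ?_)
  ring

-- PIECE TRANSVQ
theorem exists_transv_qf [CharP F 2] (d : ℕ) (Q : (Fin d ⊕ Fin d → F) → F) (hQ : IsQF d Q)
    (b : Fin d ⊕ Fin d → F) (hb : IsWP (Q b)) :
    ∃ A : Matrix (Fin d ⊕ Fin d) (Fin d ⊕ Fin d) F, A ∈ Matrix.symplecticGroup (Fin d) F ∧
      ∀ v, Q (A *ᵥ v) = Q v + (spForm (Fin d) F b v) ^ 2 := by
  classical
  obtain ⟨z, hz⟩ := hb
  have hB : IsSForm (RingHom.id F) (-1) (spForm (Fin d) F) := spForm_isSForm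
  have h2 : (2 : F) = 0 := CharTwo.two_eq_zero
  obtain ⟨c, hc⟩ : ∃ c : F, c ^ 2 * Q b + c = 1 := by
    by_cases h0 : Q b = 0
    · exact ⟨1, by rw [h0]; ring⟩
    · refine ⟨z / Q b, ?_⟩
      field_simp
      rw [hz]
      ring
  have hsymm : ∀ x y, spForm (Fin d) F y x = -spForm (Fin d) F x y := by
    intro x y
    have := hB.symm x y
    simpa using this
  refine ⟨1 + c • Matrix.vecMulVec b (b ᵥ* Matrix.J (Fin d) F), ?_, ?_⟩
  · apply mem_sp_of_isometry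
    intro x y
    rw [transv_mulVec', transv_mulVec', hB.add_left, hB.add_right, hB.add_right, hB.smul_left,
      hB.smul_left, hB.smul_right, hB.smul_right, spForm_alt, hsymm b x]
    simp only [RingHom.id_apply]
    ring
  · intro v
    rw [transv_mulVec', hQ.2, hQ.1, hB.smul_right, hsymm b v]
    simp only [RingHom.id_apply]
    linear_combination (spForm (Fin d) F b v) ^ 2 * hc
      - (c * (spForm (Fin d) F b v) ^ 2) * h2

-- PIECE FLIP
theorem exists_nonwp [Fintype F] [CharP F 2] {q : ℕ} (hwp : WPFacts F q) (d : ℕ)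
    (Q : (Fin d ⊕ Fin d → F) → F) (hQ : IsQF d Q) (u : Fin d ⊕ Fin d → F) (hu : Q u ≠ 0) :
    ∃ c : F, ¬ IsWP (Q (c • u)) := by
  obtain ⟨e, he⟩ := hwp.2.2.2.1
  obtain ⟨c, hc⟩ := sq_surj (F := F) (e / Q u)
  have hc' : c ^ 2 = e / Q u := hc
  refine ⟨c, ?_⟩
  rw [hQ.1, hc', div_mul_cancel₀ _ hu]
  exact he

-- PIECE ARITHR
theorem arith_r (q d r : ℕ) (hd : 1 ≤ d) (hr : r.Prime) (hr2 : r ≠ 2)
    (hdvd : r ∣ q ^ d + 1) : ¬ r ∣ (q ^ d - 1) * (q ^ (d - 1) + 1) := by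
  intro h
  have hr2' : ¬ r ∣ 2 := by
    intro h2
    exact hr2 ((Nat.prime_dvd_prime_iff_eq hr Nat.prime_two).mp h2)
  rcases Nat.eq_zero_or_pos q with hq0 | hq
  · subst hq0
    rw [zero_pow (by omega)] at hdvd
    exact hr.one_lt.ne' (Nat.dvd_one.mp hdvd)
  have hx : 1 ≤ q ^ d := Nat.one_le_pow _ _ hq
  rcases (Nat.Prime.dvd_mul hr).mp h with h1 | h1
  · apply hr2'
    have h3 : q ^ d + 1 = (q ^ d - 1) + 2 := by omega
    rw [h3] at hdvd
    exact (Nat.dvd_add_right h1).mp hdvd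
  · obtain ⟨k, hk⟩ : ∃ k, d = k + 1 := ⟨d - 1, by omega⟩
    subst hk
    rw [Nat.add_sub_cancel] at h1
    -- r ∣ q^k + 1, r ∣ q^(k+1) + 1
    have h4 : r ∣ q * (q ^ k + 1) := Dvd.dvd.mul_left h1 q
    have h5 : q * (q ^ k + 1) = (q ^ (k + 1) + 1) + (q - 1) := by
      rw [pow_succ]
      have : q * (q ^ k + 1) = q ^ k * q + q := by ring
      omega
    rw [h5] at h4
    have h6 : r ∣ q - 1 := (Nat.dvd_add_right hdvd).mp h4
    -- q ≡ 1 mod r
    have h7 : (q : ZMod r) = 1 := by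
      have h8 : ((q - 1 : ℕ) : ZMod r) = 0 := (ZMod.natCast_eq_zero_iff _ _).mpr h6
      rw [Nat.cast_sub hq, Nat.cast_one, sub_eq_zero] at h8
      exact h8
    have h9 : ((q ^ (k + 1) + 1 : ℕ) : ZMod r) = 0 := (ZMod.natCast_eq_zero_iff _ _).mpr hdvd
    rw [Nat.cast_add, Nat.cast_pow, h7, one_pow, Nat.cast_one] at h9
    apply hr2'
    rw [← ZMod.natCast_eq_zero_iff]
    rw [Nat.cast_ofNat]
    rw [← h9]
    norm_num

-- PIECE ARITHIDX
theorem arith_idx (q d n r : ℕ) (hq : 2 ≤ q) (hq2 : ∃ k, q = 2 ^ k) (hd : 1 ≤ d) (hr : r.Prime)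
    (hr2 : r ≠ 2) (hrn : r ∣ n) :
    (n * 2 = q ^ d * (q ^ d + 1) → r ∣ q ^ d + 1) ∧
    (n * 2 = q ^ d * (q ^ d - 1) → r ∣ q ^ d - 1) := by
  obtain ⟨k, rfl⟩ := hq2
  have hnot : ¬ r ∣ (2 ^ k) ^ d := by
    intro h
    have h1 := hr.dvd_of_dvd_pow (hr.dvd_of_dvd_pow h)
    exact hr2 ((Nat.prime_dvd_prime_iff_eq hr Nat.prime_two).mp h1)
  constructor
  · intro h
    have h1 : r ∣ (2 ^ k) ^ d * ((2 ^ k) ^ d + 1) := by
      rw [← h]
      exact Dvd.dvd.mul_right hrn 2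
    exact ((Nat.Prime.dvd_mul hr).mp h1).resolve_left hnot
  · intro h
    have h1 : r ∣ (2 ^ k) ^ d * ((2 ^ k) ^ d - 1) := by
      rw [← h]
      exact Dvd.dvd.mul_right hrn 2
    exact ((Nat.Prime.dvd_mul hr).mp h1).resolve_left hnot

end Cfsg.Agent.Lib.Helper47.Qf
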