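import Cfsg.Agent.Lib.Helper47.QfA

/-!
# QF pieces ALTONLY, PLUSTO, USTD, FIXSING (S5983)
-/

set_option autoImplicit false

namespace Cfsg.Agent.Lib.Helper47.Qf

open Cfsg.Agent.Lib.Helper47 Matrix

variable {F : Type*} [Field F]

-- PIECE ALTONLY
theorem alt_only_plus [Fintype F] [CharP F 2] (d : ℕ) (hd : 1 ≤ d) (hev : Even d) :
    ∃ X : Matrix (Fin d ⊕ Fin d) (Fin d ⊕ Fin d) F, X ∈ Matrix.symplecticGroup (Fin d) F ∧
      X * X = 1 ∧ X ≠ 1 ∧
      (∀ v, Cfsg.quadFormPlus d F (X *ᵥ v) = Cfsg.quadFormPlus d F v) ∧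
      ∀ b : Fin d ⊕ Fin d → F,
        (∀ v, (spForm (Fin d) F b (X *ᵥ v)) ^ 2 = (spForm (Fin d) F b v) ^ 2) →
        b ∈ stdLag d F := by
  obtain ⟨M, hMQ, hM2, hMr, -, hMfix⟩ := OmcSkel.exists_std_alt_inv (F := F) d d le_rfl hev
  have hM : M ∈ Matrix.symplecticGroup (Fin d) F := mem_sp_of_qplus d M hMQ
  refine ⟨M, hM, hM2, ?_, hMQ, ?_⟩
  · rintro rfl
    rw [sub_self, Matrix.rank_zero] at hMr
    omega
  · intro b hb
    rw [mem_stdLag]
    have hfix : M *ᵥ b = b := by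
      apply sub_eq_zero.mp
      apply spForm_nondeg
      intro v
      rw [(spForm_isSForm (F := F) (l := Fin d)).sub_left]
      have h1 : spForm (Fin d) F b (M *ᵥ v) = spForm (Fin d) F b v := sq_inj (hb v)
      have h2 := spForm_mulVec d hM b (M *ᵥ v)
      rw [Matrix.mulVec_mulVec, hM2, Matrix.one_mulVec] at h2
      rw [h2, h1, sub_self]
    intro i
    exact (hMfix b).mp hfix i i.2

-- PIECE PLUSTO
theorem finrank_stdLag (d : ℕ) : Module.finrank F (stdLag d F) = d := by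
  let e : (Fin d → F) ≃ₗ[F] stdLag d F :=
    { toFun := fun x => ⟨Sum.elim x 0, fun i => rfl⟩
      map_add' := by
        intro x y
        apply Subtype.ext
        funext j
        rcases j with j | j <;> simp
      map_smul' := by
        intro c x
        apply Subtype.ext
        funext j
        rcases j with j | j <;> simp
      invFun := fun v => fun i => v.1 (Sum.inl i)
      left_inv := fun x => rfl
      right_inv := by
        intro v
        apply Subtype.ext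
        funext j
        rcases j with j | j
        · rfl
        · exact (v.2 j).symm }
  rw [← e.finrank_eq, Module.finrank_fintype_fun_eq_card, Fintype.card_fin]

-- PIECE PLUSTO
theorem plus_of_tsing (d : ℕ) (Q : (Fin d ⊕ Fin d → F) → F)
    (T : Matrix (Fin d ⊕ Fin d) (Fin d ⊕ Fin d) F) (hT : IsUnit T.det)
    (hQ : ∀ v ∈ stdLag d F, Q (T *ᵥ v) = 0) : Cfsg.Geo.IsPlusTypeOn Q ⊤ := by
  have hinj : Function.Injective (Matrix.toLin' T) := by
    intro x y hxy
    rw [Matrix.toLin'_apply, Matrix.toLin'_apply] at hxy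
    have h := congrArg (fun z => T⁻¹ *ᵥ z) hxy
    simp only [Matrix.mulVec_mulVec, Matrix.nonsing_inv_mul T hT, Matrix.one_mulVec] at h
    exact h
  refine ⟨(stdLag d F).map (Matrix.toLin' T), le_top, ?_, ?_⟩
  · rintro w ⟨v, hv, rfl⟩
    rw [Matrix.toLin'_apply]
    exact hQ v hv
  · rw [finrank_top, Module.finrank_fintype_fun_eq_card, Fintype.card_sum, Fintype.card_fin,
      ← (Submodule.equivMapOfInjective (Matrix.toLin' T) hinj (stdLag d F)).finrank_eq,
      finrank_stdLag]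
    omega

-- PIECE USTD
theorem exists_sp_of_form [Fintype F] (d : ℕ) (r : ℕ)
    (B : (Fin d ⊕ Fin d → F) → (Fin d ⊕ Fin d → F) → F)
    (g : (Fin d ⊕ Fin d → F) →ₗ[F] (Fin d ⊕ Fin d → F))
    (hB : IsSForm (RingHom.id F) (-1) B) (hnd : Nondeg B) (halt : ∀ x, B x x = 0)
    (hg : ∀ x y, B (g x) (g y) = B x y) (hgr : g ^ r = 1) (hfix : ∀ v, g v = v → v = 0) :
    ∃ X : Matrix (Fin d ⊕ Fin d) (Fin d ⊕ Fin d) F, X ∈ Matrix.symplecticGroup (Fin d) F ∧
      X ^ r = 1 ∧ ∀ v, X *ᵥ v = v → v = 0 := by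
  obtain ⟨φ, -, hφ⟩ := exists_isometry_conj (F := F) (σ := RingHom.id F) (ε := -1)
    (fun x => rfl) (Or.inl ⟨rfl, rfl⟩)
    (Module.finrank F (Fin d ⊕ Fin d → F)) (Fin d ⊕ Fin d → F) (Fin d ⊕ Fin d → F)
    (spForm (Fin d) F) B LinearMap.id LinearMap.id rfl
    spForm_isSForm hB spForm_nondeg hnd (fun _ x => spForm_alt x) (fun _ x => halt x)
    Module.End.isSemisimple_id Module.End.isSemisimple_id (fun x y => rfl) (fun x y => rfl) rfl
  obtain ⟨h, hh⟩ : ∃ h : (Fin d ⊕ Fin d → F) →ₗ[F] (Fin d ⊕ Fin d → F),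
      ∀ x, h x = φ.symm (g (φ x)) :=
    ⟨φ.symm.toLinearMap ∘ₗ g ∘ₗ φ.toLinearMap, fun x => rfl⟩
  have hpow : ∀ n x, (h ^ n) x = φ.symm ((g ^ n) (φ x)) := by
    intro n
    induction n with
    | zero =>
      intro x
      rw [pow_zero, pow_zero, Module.End.one_apply, Module.End.one_apply, φ.symm_apply_apply]
    | succ n ih =>
      intro x
      rw [pow_succ, Module.End.mul_apply, ih, pow_succ, Module.End.mul_apply, hh,
        φ.apply_symm_apply]
  have hhr : h ^ r = 1 := by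
    apply LinearMap.ext
    intro x
    rw [hpow, hgr, Module.End.one_apply, Module.End.one_apply, φ.symm_apply_apply]
  refine ⟨LinearMap.toMatrixAlgEquiv' h, ?_, ?_, ?_⟩
  · apply mem_sp_of_isometry
    intro x y
    have e1 : ∀ z, (LinearMap.toMatrixAlgEquiv' h) *ᵥ z = h z := by
      intro z
      rw [← Matrix.toLin'_apply]
      exact congrFun (congrArg DFunLike.coe (Matrix.toLin'_toMatrix' h)) z
    rw [e1, e1, hh, hh, ← hφ, φ.apply_symm_apply, φ.apply_symm_apply, hg, hφ]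
  · rw [← map_pow, hhr, map_one]
  · intro v hv
    have e1 : (LinearMap.toMatrixAlgEquiv' h) *ᵥ v = h v := by
      rw [← Matrix.toLin'_apply]
      exact congrFun (congrArg DFunLike.coe (Matrix.toLin'_toMatrix' h)) v
    rw [e1, hh] at hv
    have h1 : g (φ v) = φ v := by
      have := congrArg φ hv
      rw [φ.apply_symm_apply] at this
      exact this
    have h2 := hfix _ h1
    exact φ.map_eq_zero_iff.mp h2

-- PIECE FIXSING
theorem exists_fixed_of_count [Fintype F] {q : ℕ} (hF : Fintype.card F = q) (d : ℕ)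
    (hd : 1 ≤ d) (r : ℕ) (hr : r.Prime) (hnd : ¬ r ∣ (q ^ d - 1) * (q ^ (d - 1) + 1))
    (Y : Matrix (Fin d ⊕ Fin d) (Fin d ⊕ Fin d) F) (hY : Y ^ r = 1)
    (hYQ : ∀ v, Cfsg.quadFormPlus d F (Y *ᵥ v) = Cfsg.quadFormPlus d F v) :
    ∃ v : Fin d ⊕ Fin d → F, v ≠ 0 ∧ Y *ᵥ v = v := by
  classical
  by_contra hcon
  push Not at hcon
  have : Fact r.Prime := ⟨hr⟩
  obtain ⟨f, hf⟩ : ∃ f : Function.End {v : Fin d ⊕ Fin d → F // Cfsg.quadFormPlus d F v = 0},
      ∀ v, (f v).1 = Y *ᵥ v.1 :=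
    ⟨fun v => ⟨Y *ᵥ v.1, by rw [hYQ]; exact v.2⟩, fun v => rfl⟩
  have hpow : ∀ n v, ((f ^ n) v).1 = Y ^ n *ᵥ v.1 := by
    intro n
    induction n with
    | zero =>
      intro v
      rw [pow_zero, pow_zero, Matrix.one_mulVec]
      rfl
    | succ n ih =>
      intro v
      rw [pow_succ, pow_succ, ← Matrix.mulVec_mulVec, ← hf]
      exact ih (f v)
  have hfr : f ^ r ^ 1 = 1 := by
    rw [pow_one]
    funext v
    apply Subtype.ext
    rw [hpow, hY, Matrix.one_mulVec]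
    rfl
  have hmod := Equiv.Perm.card_fixedPoints_modEq (p := r) (n := 1) hfr
  have hfix : Nat.card (Function.fixedPoints f) = 1 := by
    rw [Nat.card_eq_fintype_card, Fintype.card_eq_one_iff]
    refine ⟨⟨⟨0, qplus_zero d⟩, ?_⟩, ?_⟩
    · apply Subtype.ext
      rw [hf, Matrix.mulVec_zero]
    · rintro ⟨v, hv⟩
      apply Subtype.ext
      apply Subtype.ext
      by_contra hv0
      have hv' : (f v).1 = v.1 := congrArg Subtype.val hv
      rw [hf] at hv'
      exact hcon v.1 hv0 hv'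
  rw [Fintype.card_eq_nat_card, Fintype.card_eq_nat_card, hfix,
    Cfsg.Agent.S0289.result hF d hd] at hmod
  obtain ⟨k, rfl⟩ : ∃ k, d = k + 1 := ⟨d - 1, by omega⟩
  have hq : 1 ≤ q := by
    rw [← hF]
    exact Fintype.card_pos
  obtain ⟨y', hy'⟩ : ∃ y', q ^ (k + 1) = y' + 1 :=
    ⟨q ^ (k + 1) - 1, by have := Nat.one_le_pow (k + 1) q hq; omega⟩
  have h1 : q ^ (2 * (k + 1) - 1) = q ^ (k + 1) * q ^ k := by
    rw [← pow_add]
    congr 1
    omega
  rw [Nat.add_sub_cancel] at hmod hnd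
  rw [h1, hy'] at hmod
  rw [hy', Nat.add_sub_cancel] at hnd
  have h2 : (y' + 1) * q ^ k = y' * q ^ k + q ^ k := by ring
  have h3 : y' * (q ^ k + 1) = y' * q ^ k + y' := by ring
  rw [h2] at hmod
  rw [h3] at hnd
  have h4 : y' * q ^ k + q ^ k + (y' + 1) - q ^ k = (y' * q ^ k + y') + 1 := by omega
  rw [h4] at hmod
  apply hnd
  have h5 := (Nat.modEq_iff_dvd' (by omega : 1 ≤ y' * q ^ k + y' + 1)).mp hmod.symm
  rw [Nat.add_sub_cancel] at h5
  exact h5

end Cfsg.Agent.Lib.Helper47.Qf
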