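import Cfsg.Agent.Lib.Helper47.QfA

/-!
# QF pieces SINGER, BLOCKELT (S5983)
-/

set_option autoImplicit false

namespace Cfsg.Agent.Lib.Helper47.Qf

open Cfsg.Agent.Lib.Helper47 Matrix

variable {F : Type*} [Field F]

-- PIECE SINGER
theorem exists_singer [Fintype F] {q : ℕ} (hF : Fintype.card F = q) (d : ℕ) (hd : 1 ≤ d)
    (r : ℕ) (hr : r.Prime) (hdvd : r ∣ q ^ d - 1) :
    ∃ A : Matrix (Fin d) (Fin d) F, A ^ r = 1 ∧ ∀ v, A *ᵥ v = v → v = 0 := by
  classical
  obtain ⟨p, hp⟩ := CharP.exists F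
  have hpp : Fact p.Prime := ⟨CharP.char_is_prime F p⟩
  have hd0 : NeZero d := ⟨by omega⟩
  have hfr : Module.finrank F (FiniteField.Extension F p d) = d :=
    FiniteField.finrank_extension F p d
  have hcard : Nat.card (FiniteField.Extension F p d) = q ^ d := by
    rw [FiniteField.natCard_extension, Nat.card_eq_fintype_card, hF]
  have hcu : Nat.card (FiniteField.Extension F p d)ˣ = q ^ d - 1 := by
    rw [Nat.card_units, hcard]
  have hrf : Fact r.Prime := ⟨hr⟩
  obtain ⟨l, hl⟩ := exists_prime_orderOf_dvd_card' (G := (FiniteField.Extension F p d)ˣ) r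
    (by rw [hcu]; exact hdvd)
  obtain ⟨b⟩ : Nonempty (Module.Basis (Fin d) F (FiniteField.Extension F p d)) :=
    ⟨Module.finBasisOfFinrankEq F _ hfr⟩
  have hl1 : (l : FiniteField.Extension F p d) ≠ 1 := by
    intro h
    have h1 : l = 1 := Units.ext h
    rw [h1, orderOf_one] at hl
    exact hr.one_lt.ne hl
  refine ⟨Algebra.leftMulMatrix b (l : FiniteField.Extension F p d), ?_, ?_⟩
  · rw [← map_pow, ← Units.val_pow_eq_pow_val, ← hl, pow_orderOf_eq_one, Units.val_one, map_one]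
  · intro v hv
    have h1 := Algebra.leftMulMatrix_mulVec_repr b (l : FiniteField.Extension F p d)
      (b.equivFun.symm v)
    have h2 : ⇑(b.repr (b.equivFun.symm v)) = v := b.equivFun.apply_symm_apply v
    rw [h2, hv] at h1
    have h3 : b.repr (b.equivFun.symm v)
        = b.repr ((l : FiniteField.Extension F p d) * b.equivFun.symm v) := by
      apply DFunLike.coe_injective
      rw [h2]
      exact h1
    have h4 := b.repr.injective h3
    have h5 : ((l : FiniteField.Extension F p d) - 1) * b.equivFun.symm v = 0 := by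
      rw [sub_mul, one_mul, ← h4, sub_self]
    rcases mul_eq_zero.mp h5 with h6 | h6
    · exact absurd (sub_eq_zero.mp h6) hl1
    · have h7 := congrArg b.equivFun h6
      rw [b.equivFun.apply_symm_apply, map_zero] at h7
      exact h7

-- PIECE BLOCKELT
theorem block_elt [CharP F 2] (d : ℕ) (r : ℕ) (hr : 0 < r) (A : Matrix (Fin d) (Fin d) F)
    (hA : A ^ r = 1) (hfix : ∀ v, A *ᵥ v = v → v = 0) :
    ∃ X : Matrix (Fin d ⊕ Fin d) (Fin d ⊕ Fin d) F, X ∈ Matrix.symplecticGroup (Fin d) F ∧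
      X ^ r = 1 ∧ (∀ v, X *ᵥ v = v → v = 0) ∧
      ∀ Q : (Fin d ⊕ Fin d → F) → F, IsQF d Q → (∀ v, Q (X *ᵥ v) = Q v) →
        ∀ v ∈ stdLag d F, Q v = 0 := by
  have h2 : (2 : F) = 0 := CharTwo.two_eq_zero
  obtain ⟨C, hC⟩ : ∃ C : Matrix (Fin d) (Fin d) F, C = A ^ (r - 1) := ⟨_, rfl⟩
  have hAC : A * C = 1 := by rw [hC, ← pow_succ', Nat.sub_add_cancel hr, hA]
  have hCA : C * A = 1 := by rw [hC, ← pow_succ, Nat.sub_add_cancel hr, hA]
  have hCr : C ^ r = 1 := by
    rw [hC, ← pow_mul, mul_comm, pow_mul, hA, one_pow]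
  -- `A - 1` is invertible
  have hU : IsUnit (A - 1) := by
    rw [← Matrix.mulVec_injective_iff_isUnit]
    intro x y hxy
    have h1 : (A - 1) *ᵥ (x - y) = 0 := by
      rw [Matrix.mulVec_sub, hxy, sub_self]
    rw [Matrix.sub_mulVec, Matrix.one_mulVec, sub_eq_zero] at h1
    exact sub_eq_zero.mp (hfix _ h1)
  have hXmul : ∀ v : Fin d ⊕ Fin d → F, Matrix.fromBlocks A 0 0 Cᵀ *ᵥ v
      = Sum.elim (A *ᵥ (v ∘ Sum.inl)) (Cᵀ *ᵥ (v ∘ Sum.inr)) := by
    intro v
    rw [Matrix.fromBlocks_mulVec]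
    simp
  have hpow : ∀ n : ℕ, (Matrix.fromBlocks A 0 0 Cᵀ) ^ n = Matrix.fromBlocks (A ^ n) 0 0 (Cᵀ ^ n) := by
    intro n
    induction n with
    | zero => rw [pow_zero, pow_zero, pow_zero, Matrix.fromBlocks_one]
    | succ n ih =>
      rw [pow_succ, ih, Matrix.fromBlocks_multiply, pow_succ, pow_succ]
      simp
  refine ⟨Matrix.fromBlocks A 0 0 Cᵀ, ?_, ?_, ?_, ?_⟩
  · rw [SymplecticGroup.mem_iff]
    rw [Matrix.J, Matrix.fromBlocks_transpose, Matrix.fromBlocks_multiply,
      Matrix.fromBlocks_multiply]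
    simp only [Matrix.transpose_zero, Matrix.transpose_transpose, Matrix.mul_zero,
      Matrix.zero_mul, Matrix.mul_one, Matrix.mul_neg, add_zero, zero_add, Matrix.neg_mul]
    rw [hAC, ← Matrix.transpose_mul, hAC, Matrix.transpose_one, neg_zero]
  · rw [hpow, hA, ← Matrix.transpose_pow, hCr, Matrix.transpose_one, Matrix.fromBlocks_one]
  · intro v hv
    rw [hXmul] at hv
    have h1 : A *ᵥ (v ∘ Sum.inl) = v ∘ Sum.inl := by
      funext i
      have := congrFun hv (Sum.inl i)
      simpa using this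
    have h3 : Cᵀ *ᵥ (v ∘ Sum.inr) = v ∘ Sum.inr := by
      funext i
      have := congrFun hv (Sum.inr i)
      simpa using this
    have h4 : (v ∘ Sum.inr) ᵥ* (A - 1) = 0 := by
      rw [Matrix.vecMul_sub, Matrix.vecMul_one, sub_eq_zero]
      have h5 := congrArg (fun z => Aᵀ *ᵥ z) h3
      simp only [Matrix.mulVec_mulVec] at h5
      rw [← Matrix.transpose_mul, hCA, Matrix.transpose_one, Matrix.one_mulVec,
        Matrix.mulVec_transpose] at h5
      exact h5.symm
    have h6 : v ∘ Sum.inr = 0 := by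
      apply (Matrix.vecMul_injective_iff_isUnit.mpr hU)
      show (v ∘ Sum.inr) ᵥ* (A - 1) = 0 ᵥ* (A - 1)
      rw [h4, Matrix.zero_vecMul]
    have h7 := hfix _ h1
    funext j
    rcases j with j | j
    · exact congrFun h7 j
    · exact congrFun h6 j
  · intro Q hQ hinv v hv
    obtain ⟨u, hu⟩ := (Matrix.mulVec_surjective_iff_isUnit.mpr hU) (v ∘ Sum.inl)
    have hw : (Sum.elim u 0 : Fin d ⊕ Fin d → F) ∈ stdLag d F := fun i => rfl
    have hXw : Matrix.fromBlocks A 0 0 Cᵀ *ᵥ (Sum.elim u 0 : Fin d ⊕ Fin d → F)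
        = Sum.elim (A *ᵥ u) 0 := by
      rw [hXmul]
      congr 1
      exact Matrix.mulVec_zero _
    have hXw' : (Sum.elim (A *ᵥ u) 0 : Fin d ⊕ Fin d → F) ∈ stdLag d F := fun i => rfl
    have hv' : v = Sum.elim (A *ᵥ u) 0 + Sum.elim u 0 := by
      funext j
      rcases j with j | j
      · have h1 := congrFun hu j
        rw [Matrix.sub_mulVec, Matrix.one_mulVec] at h1
        simp only [Pi.add_apply, Sum.elim_inl]
        simp only [Pi.sub_apply, Function.comp_apply] at h1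
        rw [← h1]
        linear_combination (-(u j)) * h2
      · simp only [Pi.add_apply, Sum.elim_inr, Pi.zero_apply, add_zero]
        exact hv j
    rw [hv', hQ.2, ← hXw, hinv, hXw, spForm_stdLag d _ _ hXw' hw]
    linear_combination (Q (Sum.elim u 0)) * h2

end Cfsg.Agent.Lib.Helper47.Qf
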