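import Cfsg.Agent.Lib.Helper47.QfA
import Cfsg.Agent.Lib.Helper47.OmcPieces

/-!
# S5983, piece RELIDX: the index of `O(Q)` in `Sp` is the size of the orbit of `Q`
-/

set_option autoImplicit false

namespace Cfsg.Agent.Lib.Helper47.Qf

open Cfsg.Agent.Lib.Helper47 Matrix

section QfD

variable {F : Type*} [Field F]

lemma shift_unique [CharP F 2] (d : ℕ) (a a' : Fin d ⊕ Fin d → F)
    (h : ∀ v, (spForm (Fin d) F a v) ^ 2 = (spForm (Fin d) F a' v) ^ 2) : a = a' := by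
  have h1 : ∀ v, spForm (Fin d) F a v = spForm (Fin d) F a' v := fun v => sq_inj (h v)
  have h2 : a - a' = 0 := by
    apply spForm_nondeg (l := Fin d) (F := F)
    intro y
    have h3 := spForm_add_left' d (a - a') a' y
    rw [sub_add_cancel, h1 y] at h3
    linear_combination -h3
  exact sub_eq_zero.mp h2

lemma gl_inv_mulVec' {d : ℕ} (g : GL (Fin d ⊕ Fin d) F) (v : Fin d ⊕ Fin d → F) :
    ((g⁻¹ : GL (Fin d ⊕ Fin d) F) : Matrix (Fin d ⊕ Fin d) (Fin d ⊕ Fin d) F)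
      *ᵥ ((g : Matrix (Fin d ⊕ Fin d) (Fin d ⊕ Fin d) F) *ᵥ v) = v := by
  rw [Matrix.mulVec_mulVec, ← Units.val_mul, inv_mul_cancel, Units.val_one, Matrix.one_mulVec]

lemma gl_mulVec_inv' {d : ℕ} (g : GL (Fin d ⊕ Fin d) F) (v : Fin d ⊕ Fin d → F) :
    (g : Matrix (Fin d ⊕ Fin d) (Fin d ⊕ Fin d) F)
      *ᵥ (((g⁻¹ : GL (Fin d ⊕ Fin d) F) : Matrix (Fin d ⊕ Fin d) (Fin d ⊕ Fin d) F) *ᵥ v) = v := by
  rw [Matrix.mulVec_mulVec, ← Units.val_mul, mul_inv_cancel, Units.val_one, Matrix.one_mulVec]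

-- PIECE RELIDX
theorem relindex_eq_card [Fintype F] [CharP F 2] (d : ℕ) (hd : 1 ≤ d)
    (Q : (Fin d ⊕ Fin d → F) → F) (hQ : IsQF d Q)
    (hdiff : ∀ A : Matrix (Fin d ⊕ Fin d) (Fin d ⊕ Fin d) F,
      A ∈ Matrix.symplecticGroup (Fin d) F →
      ∃ a : Fin d ⊕ Fin d → F, ∀ v, Q (A *ᵥ v) = Q v + (spForm (Fin d) F a v) ^ 2) :
    (Cfsg.Geo.quadSimilarityGroup Q).relIndex (Cfsg.spGL d F)
      = Nat.card {a : Fin d ⊕ Fin d → F // ∃ A : Matrix (Fin d ⊕ Fin d) (Fin d ⊕ Fin d) F,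
          A ∈ Matrix.symplecticGroup (Fin d) F ∧
          ∀ v, Q (A *ᵥ v) = Q v + (spForm (Fin d) F a v) ^ 2} := by
  classical
  have hdiff' : ∀ g : ↥(Cfsg.spGL d F), ∃ a : Fin d ⊕ Fin d → F,
      ∀ v, Q (((g : GL (Fin d ⊕ Fin d) F) : Matrix (Fin d ⊕ Fin d) (Fin d ⊕ Fin d) F) *ᵥ v)
        = Q v + (spForm (Fin d) F a v) ^ 2 :=
    fun g => hdiff _ ((mem_spGL_iff d _).mp g.2)
  choose α hα using hdiff'
  have hkey : ∀ g g' : ↥(Cfsg.spGL d F), α g = α g' ↔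
      g' * g⁻¹ ∈ (Cfsg.Geo.quadSimilarityGroup Q).subgroupOf (Cfsg.spGL d F) := by
    intro g g'
    rw [Subgroup.mem_subgroupOf]
    constructor
    · intro h
      refine ⟨1, fun v => ?_⟩
      rw [Units.val_one, one_mul, Subgroup.coe_mul, Subgroup.coe_inv, Units.val_mul,
        ← Matrix.mulVec_mulVec, hα g', ← h, ← hα g, gl_mulVec_inv']
    · rintro ⟨c, hc⟩
      have hmem : ((g' * g⁻¹ : ↥(Cfsg.spGL d F)) : GL (Fin d ⊕ Fin d) F) ∈ Cfsg.spGL d F :=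
        (g' * g⁻¹).2
      have h1 := quadSim_of_sp d hd hQ ((mem_spGL_iff d _).mp hmem) (c : F) hc
      apply shift_unique
      intro v
      have h2 := h1 (((g : GL (Fin d ⊕ Fin d) F) :
        Matrix (Fin d ⊕ Fin d) (Fin d ⊕ Fin d) F) *ᵥ v)
      rw [Subgroup.coe_mul, Subgroup.coe_inv, Units.val_mul, ← Matrix.mulVec_mulVec,
        gl_inv_mulVec', hα g', hα g] at h2
      linear_combination -h2
  have hcard := OmcSkel.card_eq_card_mul_range
    ((Cfsg.Geo.quadSimilarityGroup Q).subgroupOf (Cfsg.spGL d F)) α hkey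
  have hidx := Subgroup.index_mul_card
    ((Cfsg.Geo.quadSimilarityGroup Q).subgroupOf (Cfsg.spGL d F))
  have hrange : Set.range α = {a : Fin d ⊕ Fin d → F |
      ∃ A : Matrix (Fin d ⊕ Fin d) (Fin d ⊕ Fin d) F,
        A ∈ Matrix.symplecticGroup (Fin d) F ∧
        ∀ v, Q (A *ᵥ v) = Q v + (spForm (Fin d) F a v) ^ 2} := by
    ext a
    constructor
    · rintro ⟨g, rfl⟩
      exact ⟨_, (mem_spGL_iff d _).mp g.2, hα g⟩
    · rintro ⟨A, hA, hAa⟩
      have hdet : IsUnit A.det := SymplecticGroup.symplectic_det hA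
      obtain ⟨g, hg⟩ : ∃ g : GL (Fin d ⊕ Fin d) F,
          (g : Matrix (Fin d ⊕ Fin d) (Fin d ⊕ Fin d) F) = A :=
        ⟨Matrix.GeneralLinearGroup.mk'' A hdet, rfl⟩
      have hgm : g ∈ Cfsg.spGL d F := by
        rw [mem_spGL_iff, hg]
        exact hA
      refine ⟨⟨g, hgm⟩, ?_⟩
      apply shift_unique
      intro v
      have h1 := hα ⟨g, hgm⟩ v
      have h2 := hAa v
      rw [← hg] at h2
      have h3 : Q v + (spForm (Fin d) F (α ⟨g, hgm⟩) v) ^ 2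
          = Q v + (spForm (Fin d) F a v) ^ 2 := by
        rw [← h1, ← h2]
      exact add_left_cancel h3
  have hpos : 0 < Nat.card ↥((Cfsg.Geo.quadSimilarityGroup Q).subgroupOf (Cfsg.spGL d F)) :=
    Nat.card_pos
  have hfin : (Cfsg.Geo.quadSimilarityGroup Q).relIndex (Cfsg.spGL d F)
      = Nat.card (Set.range α) := by
    unfold Subgroup.relIndex
    have h5 : ((Cfsg.Geo.quadSimilarityGroup Q).subgroupOf (Cfsg.spGL d F)).index
        * Nat.card ↥((Cfsg.Geo.quadSimilarityGroup Q).subgroupOf (Cfsg.spGL d F))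
        = Nat.card (Set.range α)
          * Nat.card ↥((Cfsg.Geo.quadSimilarityGroup Q).subgroupOf (Cfsg.spGL d F)) := by
      rw [hidx, hcard, Nat.mul_comm]
    exact Nat.eq_of_mul_eq_mul_right hpos h5
  rw [hfin, hrange]
  rfl

end QfD

end Cfsg.Agent.Lib.Helper47.Qf
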