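import Cfsg.Agent.Lib.Helper47.OmcMain
import Cfsg.Agent.S0289
import Cfsg.Prelude.Def_GeometricClasses
import Cfsg.Prelude.Def_ClassicalGeometry

/-!
# Quadratic forms with the standard alternating polar form (characteristic two): definitions

Foundation for S5983 (elements of prime order of `Sp_{2d}(q)`, `q` even, and the subgroups
`O^±_{2d}(q)`).
-/

set_option autoImplicit false

namespace Cfsg.Agent.Lib.Helper47

open Matrix

section QfDefs

variable {F : Type*} [Field F]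

/-- `Q` is a quadratic form on `F^{2d}` whose polar form is the standard alternating form. -/
def IsQF (d : ℕ) (Q : (Fin d ⊕ Fin d → F) → F) : Prop :=
  (∀ (c : F) (v : Fin d ⊕ Fin d → F), Q (c • v) = c ^ 2 * Q v) ∧
  ∀ u v : Fin d ⊕ Fin d → F, Q (u + v) = Q u + Q v + spForm (Fin d) F u v

/-- The standard Lagrangian `{v | v ∘ inr = 0}`; the standard hyperbolic form vanishes on it. -/
def stdLag (d : ℕ) (F : Type*) [Field F] : Submodule F (Fin d ⊕ Fin d → F) where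
  carrier := {v | ∀ i, v (Sum.inr i) = 0}
  add_mem' {a b} ha hb i := by
    rw [Pi.add_apply, ha i, hb i, add_zero]
  zero_mem' i := rfl
  smul_mem' c {a} ha i := by
    rw [Pi.smul_apply, ha i, smul_zero]

lemma mem_stdLag (d : ℕ) (v : Fin d ⊕ Fin d → F) :
    v ∈ stdLag d F ↔ ∀ i, v (Sum.inr i) = 0 := Iff.rfl

lemma spForm_comm [CharP F 2] (d : ℕ) (u v : Fin d ⊕ Fin d → F) :
    spForm (Fin d) F u v = spForm (Fin d) F v u := by
  have h := (spForm_isSForm (F := F) (l := Fin d)).symm v u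
  rw [RingHom.id_apply, neg_one_mul, CharTwo.neg_eq] at h
  exact h

lemma spForm_add_right' (d : ℕ) (u v w : Fin d ⊕ Fin d → F) :
    spForm (Fin d) F u (v + w) = spForm (Fin d) F u v + spForm (Fin d) F u w :=
  (spForm_isSForm (F := F) (l := Fin d)).add_right u v w

lemma spForm_add_left' (d : ℕ) (u v w : Fin d ⊕ Fin d → F) :
    spForm (Fin d) F (u + v) w = spForm (Fin d) F u w + spForm (Fin d) F v w :=
  (spForm_isSForm (F := F) (l := Fin d)).add_left u v w

lemma spForm_smul_right' (d : ℕ) (c : F) (u v : Fin d ⊕ Fin d → F) :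
    spForm (Fin d) F u (c • v) = c * spForm (Fin d) F u v := by
  have h := (spForm_isSForm (F := F) (l := Fin d)).smul_right c u v
  rw [RingHom.id_apply] at h
  exact h

lemma spForm_smul_left' (d : ℕ) (c : F) (u v : Fin d ⊕ Fin d → F) :
    spForm (Fin d) F (c • u) v = c * spForm (Fin d) F u v :=
  (spForm_isSForm (F := F) (l := Fin d)).smul_left c u v

lemma spForm_mulVec (d : ℕ) {A : Matrix (Fin d ⊕ Fin d) (Fin d ⊕ Fin d) F}
    (hA : A ∈ Matrix.symplecticGroup (Fin d) F) (u v : Fin d ⊕ Fin d → F) :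
    spForm (Fin d) F (A *ᵥ u) (A *ᵥ v) = spForm (Fin d) F u v := by
  have h := spForm_isometry hA u v
  rw [Matrix.toLin'_apply, Matrix.toLin'_apply] at h
  exact h

lemma spForm_stdLag (d : ℕ) (u v : Fin d ⊕ Fin d → F) (hu : u ∈ stdLag d F)
    (hv : v ∈ stdLag d F) : spForm (Fin d) F u v = 0 := by
  rw [spForm_eq_sum]
  apply Finset.sum_eq_zero
  intro i _
  rw [hu i, hv i, zero_mul, mul_zero, sub_zero]

lemma qplus_stdLag (d : ℕ) (v : Fin d ⊕ Fin d → F) (hv : v ∈ stdLag d F) :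
    Cfsg.quadFormPlus d F v = 0 := by
  unfold Cfsg.quadFormPlus
  apply Finset.sum_eq_zero
  intro i _
  rw [hv i, mul_zero]

lemma isQF_plus [CharP F 2] (d : ℕ) : IsQF d (Cfsg.quadFormPlus d F) :=
  ⟨fun c v => qplus_smul d c v, fun u v => qplus_add d u v⟩

lemma IsQF.zero {d : ℕ} {Q : (Fin d ⊕ Fin d → F) → F} (hQ : IsQF d Q) : Q 0 = 0 := by
  have h := hQ.1 0 0
  rw [zero_smul] at h
  rw [h]
  ring

lemma IsQF.comp {d : ℕ} {Q : (Fin d ⊕ Fin d → F) → F} (hQ : IsQF d Q)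
    {A : Matrix (Fin d ⊕ Fin d) (Fin d ⊕ Fin d) F}
    (hA : A ∈ Matrix.symplecticGroup (Fin d) F) : IsQF d (fun v => Q (A *ᵥ v)) := by
  refine ⟨fun c v => ?_, fun u v => ?_⟩
  · show Q (A *ᵥ (c • v)) = c ^ 2 * Q (A *ᵥ v)
    rw [Matrix.mulVec_smul, hQ.1]
  · show Q (A *ᵥ (u + v)) = Q (A *ᵥ u) + Q (A *ᵥ v) + spForm (Fin d) F u v
    rw [Matrix.mulVec_add, hQ.2, spForm_mulVec d hA]

lemma IsQF.shift [CharP F 2] {d : ℕ} {Q : (Fin d ⊕ Fin d → F) → F} (hQ : IsQF d Q)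
    (a : Fin d ⊕ Fin d → F) : IsQF d (fun v => Q v + (spForm (Fin d) F a v) ^ 2) := by
  have h2 : (2 : F) = 0 := CharTwo.two_eq_zero
  refine ⟨fun c v => ?_, fun u v => ?_⟩
  · show Q (c • v) + (spForm (Fin d) F a (c • v)) ^ 2
      = c ^ 2 * (Q v + (spForm (Fin d) F a v) ^ 2)
    rw [hQ.1, spForm_smul_right']
    ring
  · show Q (u + v) + (spForm (Fin d) F a (u + v)) ^ 2
      = Q u + (spForm (Fin d) F a u) ^ 2 + (Q v + (spForm (Fin d) F a v) ^ 2)
        + spForm (Fin d) F u v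
    rw [hQ.2, spForm_add_right']
    linear_combination (spForm (Fin d) F a u * spForm (Fin d) F a v) * h2

/-- Membership in the frozen `spGL`. -/
lemma mem_spGL_iff (d : ℕ) (g : GL (Fin d ⊕ Fin d) F) :
    g ∈ Cfsg.spGL d F ↔
      (g : Matrix (Fin d ⊕ Fin d) (Fin d ⊕ Fin d) F) ∈ Matrix.symplecticGroup (Fin d) F := by
  constructor
  · intro h
    exact mem_sp_of_isometry (fun x y => h x y)
  · intro h x y
    exact spForm_mulVec d h x y

/-- There are vectors with `spForm u v = 1` when `d ≥ 1`. -/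
lemma exists_spForm_eq_one (d : ℕ) (hd : 1 ≤ d) :
    ∃ u v : Fin d ⊕ Fin d → F, spForm (Fin d) F u v = 1 := by
  classical
  refine ⟨Pi.single (Sum.inr ⟨0, hd⟩) 1, Pi.single (Sum.inl ⟨0, hd⟩) 1, ?_⟩
  rw [spForm_eq_sum]
  rw [Finset.sum_eq_single (⟨0, hd⟩ : Fin d)]
  · simp
  · intro i _ hi
    simp [hi]
  · intro h
    exact absurd (Finset.mem_univ _) h

/-- An element of `spGL` preserving `Q` up to a scalar preserves `Q`. -/
lemma quadSim_of_sp (d : ℕ) (hd : 1 ≤ d) {Q : (Fin d ⊕ Fin d → F) → F} (hQ : IsQF d Q)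
    {A : Matrix (Fin d ⊕ Fin d) (Fin d ⊕ Fin d) F}
    (hA : A ∈ Matrix.symplecticGroup (Fin d) F) (c : F)
    (hc : ∀ v, Q (A *ᵥ v) = c * Q v) (v : Fin d ⊕ Fin d → F) : Q (A *ᵥ v) = Q v := by
  obtain ⟨u, w, huw⟩ := exists_spForm_eq_one (F := F) d hd
  have h1 := hQ.2 (A *ᵥ u) (A *ᵥ w)
  rw [← Matrix.mulVec_add, hc, hc, hc, hQ.2, spForm_mulVec d hA, huw] at h1
  have hc1 : c = 1 := by linear_combination h1
  rw [hc, hc1, one_mul]

end QfDefs

end Cfsg.Agent.Lib.Helper47
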