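import Cfsg.Agent.Lib.Helper47.QfA

/-!
# S5983, pieces INVFIX and EXCDIM: involutions of `Sp_{2d}(q)`, `q` even, and quadratic forms
-/

set_option autoImplicit false

namespace Cfsg.Agent.Lib.Helper47.Qf

open Cfsg.Agent.Lib.Helper47 Matrix

section QfE

variable {F : Type*} [Field F]

lemma invol_mulVec (d : ℕ) {X : Matrix (Fin d ⊕ Fin d) (Fin d ⊕ Fin d) F} (hX2 : X * X = 1)
    (v : Fin d ⊕ Fin d → F) : X *ᵥ (X *ᵥ v) = v := by
  rw [Matrix.mulVec_mulVec, hX2, Matrix.one_mulVec]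

lemma invol_adj (d : ℕ) {X : Matrix (Fin d ⊕ Fin d) (Fin d ⊕ Fin d) F}
    (hX : X ∈ Matrix.symplecticGroup (Fin d) F) (hX2 : X * X = 1)
    (u v : Fin d ⊕ Fin d → F) :
    spForm (Fin d) F (X *ᵥ u) v = spForm (Fin d) F u (X *ᵥ v) := by
  have h := spForm_mulVec d hX (X *ᵥ u) v
  rw [invol_mulVec d hX2] at h
  exact h.symm

/-- A vector orthogonal to the fixed space of an involution `X` of `Sp` lies in the range of
`X + 1`. -/
lemma mem_range_of_orth_fixed [Fintype F] [CharP F 2] (d : ℕ)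
    (X : Matrix (Fin d ⊕ Fin d) (Fin d ⊕ Fin d) F)
    (hX : X ∈ Matrix.symplecticGroup (Fin d) F) (hX2 : X * X = 1) (α : Fin d ⊕ Fin d → F)
    (hα : ∀ u, X *ᵥ u = u → spForm (Fin d) F α u = 0) :
    ∃ a : Fin d ⊕ Fin d → F, α = X *ᵥ a + a := by
  classical
  by_contra hcon
  have hnot : α ∉ LinearMap.range (Matrix.toLin' (X + 1)) := by
    rintro ⟨a, ha⟩
    apply hcon
    refine ⟨a, ?_⟩
    rw [← ha, Matrix.toLin'_apply, Matrix.add_mulVec, Matrix.one_mulVec]
  obtain ⟨f, hfα, hfR⟩ := Submodule.exists_dual_map_eq_bot_of_notMem hnot inferInstance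
  have hB : IsSForm (RingHom.id F) (-1) (spForm (Fin d) F) := spForm_isSForm
  obtain ⟨w, hw⟩ := exists_repr (F := F) (X := Fin d ⊕ Fin d → F) (Y := Fin d ⊕ Fin d → F)
    (fun x y => spForm (Fin d) F x y)
    (fun x y y' => hB.add_right x y y')
    (fun y => ⟨fun x x' => hB.add_left x x' y, fun c x => hB.smul_left c x y⟩)
    (fun y hy => hB.nondeg_right spForm_nondeg y hy) le_rfl f
  have hw' : ∀ x, spForm (Fin d) F x w = f x := hw
  have hzero : ∀ v, f (X *ᵥ v + v) = 0 := by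
    intro v
    have hmem : f (X *ᵥ v + v) ∈ Submodule.map f (LinearMap.range (Matrix.toLin' (X + 1))) := by
      refine Submodule.mem_map_of_mem ⟨v, ?_⟩
      rw [Matrix.toLin'_apply, Matrix.add_mulVec, Matrix.one_mulVec]
    rw [hfR] at hmem
    exact (Submodule.mem_bot F).mp hmem
  have hXw : X *ᵥ w + w = 0 := by
    apply hB.nondeg_right spForm_nondeg
    intro v
    have h1 := hzero v
    rw [← hw', spForm_add_left', invol_adj d hX hX2] at h1
    rw [spForm_add_right']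
    exact h1
  have hXw' : X *ᵥ w = w := by
    have h2 : X *ᵥ w = -w := eq_neg_of_add_eq_zero_left hXw
    rw [h2]
    funext i
    exact CharTwo.neg_eq _
  apply hfα
  rw [← hw']
  exact hα w hXw'

-- PIECE INVFIX
theorem exists_inv_form [Fintype F] [CharP F 2] (d : ℕ) (Q : (Fin d ⊕ Fin d → F) → F)
    (X : Matrix (Fin d ⊕ Fin d) (Fin d ⊕ Fin d) F)
    (hX : X ∈ Matrix.symplecticGroup (Fin d) F) (hX2 : X * X = 1) (α : Fin d ⊕ Fin d → F)
    (hα : ∀ v, Q (X *ᵥ v) = Q v + (spForm (Fin d) F α v) ^ 2) :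
    ∃ a : Fin d ⊕ Fin d → F, ∀ v, Q (X *ᵥ v) + (spForm (Fin d) F a (X *ᵥ v)) ^ 2
      = Q v + (spForm (Fin d) F a v) ^ 2 := by
  have h2 : (2 : F) = 0 := CharTwo.two_eq_zero
  have horth : ∀ u, X *ᵥ u = u → spForm (Fin d) F α u = 0 := by
    intro u hu
    have h1 := hα u
    rw [hu] at h1
    have h3 : (spForm (Fin d) F α u) ^ 2 = 0 := by
      linear_combination -h1
    exact (pow_eq_zero_iff (n := 2) two_ne_zero).mp h3
  obtain ⟨a, ha⟩ := mem_range_of_orth_fixed d X hX hX2 α horth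
  refine ⟨a, fun v => ?_⟩
  have h1 : spForm (Fin d) F α v = spForm (Fin d) F a (X *ᵥ v) + spForm (Fin d) F a v := by
    rw [ha, spForm_add_left', invol_adj d hX hX2]
  rw [hα v, h1]
  linear_combination (spForm (Fin d) F a (X *ᵥ v) ^ 2
    + spForm (Fin d) F a (X *ᵥ v) * spForm (Fin d) F a v) * h2

-- PIECE EXCDIM
theorem exc_dim [Fintype F] [CharP F 2] (d : ℕ) (Q : (Fin d ⊕ Fin d → F) → F) (hQ : IsQF d Q)
    (X : Matrix (Fin d ⊕ Fin d) (Fin d ⊕ Fin d) F)
    (hX : X ∈ Matrix.symplecticGroup (Fin d) F) (hX2 : X * X = 1)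
    (hvan : ∀ u, X *ᵥ u = u → Q u = 0) :
    Module.finrank F (LinearMap.ker (Matrix.toLin' (X - 1))) = d := by
  classical
  have hsub : ∀ v : Fin d ⊕ Fin d → F, (X - 1) *ᵥ v = X *ᵥ v + v := by
    intro v
    rw [Matrix.sub_mulVec, Matrix.one_mulVec]
    funext i
    exact CharTwo.sub_eq_add _ _
  have hfix : ∀ v : Fin d ⊕ Fin d → F, X *ᵥ v + v = 0 ↔ X *ᵥ v = v := by
    intro v
    constructor
    · intro h
      have h2 : X *ᵥ v = -v := eq_neg_of_add_eq_zero_left h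
      rw [h2]
      funext i
      exact CharTwo.neg_eq _
    · intro h
      rw [h]
      funext i
      exact CharTwo.add_self_eq_zero _
  have hker : ∀ v : Fin d ⊕ Fin d → F, v ∈ LinearMap.ker (Matrix.toLin' (X - 1)) ↔ X *ᵥ v = v := by
    intro v
    rw [LinearMap.mem_ker, Matrix.toLin'_apply, hsub, hfix]
  have hle1 : LinearMap.ker (Matrix.toLin' (X - 1)) ≤ LinearMap.range (Matrix.toLin' (X - 1)) := by
    intro u hu
    have hu' := (hker u).mp hu
    have horth : ∀ u', X *ᵥ u' = u' → spForm (Fin d) F u u' = 0 := by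
      intro u' hu''
      have h1 := hQ.2 u u'
      have h3 : X *ᵥ (u + u') = u + u' := by
        rw [Matrix.mulVec_add, hu', hu'']
      rw [hvan _ h3, hvan _ hu', hvan _ hu''] at h1
      linear_combination -h1
    obtain ⟨a, ha⟩ := mem_range_of_orth_fixed d X hX hX2 u horth
    refine ⟨a, ?_⟩
    rw [Matrix.toLin'_apply, hsub, ha]
  have hle2 : LinearMap.range (Matrix.toLin' (X - 1)) ≤ LinearMap.ker (Matrix.toLin' (X - 1)) := by
    rintro _ ⟨a, rfl⟩
    rw [hker, Matrix.toLin'_apply, hsub, Matrix.mulVec_add, invol_mulVec d hX2, add_comm]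
  have heq : LinearMap.range (Matrix.toLin' (X - 1)) = LinearMap.ker (Matrix.toLin' (X - 1)) :=
    le_antisymm hle2 hle1
  have hrn := LinearMap.finrank_range_add_finrank_ker (Matrix.toLin' (X - 1))
  rw [heq, Module.finrank_fintype_fun_eq_card, Fintype.card_sum, Fintype.card_fin] at hrn
  omega

end QfE

end Cfsg.Agent.Lib.Helper47.Qf
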