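import Cfsg.Agent.Lib.Helper47.QfE
import Cfsg.Agent.Lib.Helper78.QuadEVENALT

/-!
# S5983, piece EXCEVEN: an exceptional involution forces `d` even
-/

set_option autoImplicit false

namespace Cfsg.Agent.Lib.Helper47.Qf

open Cfsg.Agent.Lib.Helper47 Matrix

section QfF

variable {F : Type*} [Field F]

lemma fix_iff [CharP F 2] (d : ℕ) (X : Matrix (Fin d ⊕ Fin d) (Fin d ⊕ Fin d) F)
    (v : Fin d ⊕ Fin d → F) : X *ᵥ v + v = 0 ↔ X *ᵥ v = v := by
  constructor
  · intro h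
    have h2 : X *ᵥ v = -v := eq_neg_of_add_eq_zero_left h
    rw [h2]
    funext i
    exact CharTwo.neg_eq _
  · intro h
    rw [h]
    funext i
    exact CharTwo.add_self_eq_zero _

lemma mem_ker_iff [CharP F 2] (d : ℕ) (X : Matrix (Fin d ⊕ Fin d) (Fin d ⊕ Fin d) F)
    (v : Fin d ⊕ Fin d → F) : v ∈ LinearMap.ker (Matrix.toLin' (X - 1)) ↔ X *ᵥ v = v := by
  rw [LinearMap.mem_ker, Matrix.toLin'_apply, Matrix.sub_mulVec, Matrix.one_mulVec, sub_eq_zero]

-- PIECE EXCEVEN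
theorem exc_even [Fintype F] [CharP F 2] (d : ℕ) (Q : (Fin d ⊕ Fin d → F) → F) (hQ : IsQF d Q)
    (X : Matrix (Fin d ⊕ Fin d) (Fin d ⊕ Fin d) F)
    (hX : X ∈ Matrix.symplecticGroup (Fin d) F) (hX2 : X * X = 1)
    (hinv : ∀ v, Q (X *ᵥ v) = Q v) (hvan : ∀ u, X *ᵥ u = u → Q u = 0)
    (hdim : Module.finrank F (LinearMap.ker (Matrix.toLin' (X - 1))) = d) : Even d := by
  classical
  have h2 : (2 : F) = 0 := CharTwo.two_eq_zero
  have hB : IsSForm (RingHom.id F) (-1) (spForm (Fin d) F) := spForm_isSForm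
  obtain ⟨W, hW⟩ := Submodule.exists_isCompl (LinearMap.ker (Matrix.toLin' (X - 1)))
  obtain ⟨f, hf⟩ : ∃ f : W → W → F, ∀ x y : W, f x y
      = spForm (Fin d) F (x : Fin d ⊕ Fin d → F)
        (X *ᵥ (y : Fin d ⊕ Fin d → F) + (y : Fin d ⊕ Fin d → F)) := ⟨_, fun _ _ => rfl⟩
  -- `(v, X v) = 0` for all `v`
  have hvXv : ∀ v : Fin d ⊕ Fin d → F, spForm (Fin d) F v (X *ᵥ v) = 0 := by
    intro v
    have h1 := hQ.2 (X *ᵥ v) v
    have h3 : X *ᵥ (X *ᵥ v + v) = X *ᵥ v + v := by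
      rw [Matrix.mulVec_add, invol_mulVec d hX2, add_comm]
    rw [hvan _ h3, hinv, spForm_comm] at h1
    linear_combination -h1 - Q v * h2
  have hsf : IsSForm (RingHom.id F) (-1) f := by
    refine ⟨fun x y z => ?_, fun c x y => ?_, fun x y => ?_⟩
    · rw [hf, hf, hf, Submodule.coe_add, spForm_add_left']
    · rw [hf, hf, Submodule.coe_smul, spForm_smul_left']
    · rw [hf, hf, RingHom.id_apply, spForm_add_right', spForm_add_right']
      have e1 : spForm (Fin d) F (y : Fin d ⊕ Fin d → F) (X *ᵥ (x : Fin d ⊕ Fin d → F))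
          = spForm (Fin d) F (x : Fin d ⊕ Fin d → F) (X *ᵥ (y : Fin d ⊕ Fin d → F)) := by
        rw [← invol_adj d hX hX2, spForm_comm]
      have e2 := spForm_comm d (y : Fin d ⊕ Fin d → F) (x : Fin d ⊕ Fin d → F)
      rw [e1, e2]
      linear_combination (spForm (Fin d) F (x : Fin d ⊕ Fin d → F)
        (X *ᵥ (y : Fin d ⊕ Fin d → F))
        + spForm (Fin d) F (x : Fin d ⊕ Fin d → F) (y : Fin d ⊕ Fin d → F)) * h2
  have halt : ∀ x, f x x = 0 := by
    intro x
    rw [hf, spForm_add_right', hvXv, spForm_alt, add_zero]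
  have hnd : Nondeg f := by
    intro x hx
    have hx' : ∀ v : Fin d ⊕ Fin d → F,
        spForm (Fin d) F (x : Fin d ⊕ Fin d → F) (X *ᵥ v + v) = 0 := by
      intro v
      have hv : v ∈ LinearMap.ker (Matrix.toLin' (X - 1)) ⊔ W := by
        rw [hW.sup_eq_top]
        exact Submodule.mem_top
      obtain ⟨k, hk, w, hw, rfl⟩ := Submodule.mem_sup.mp hv
      have hk' := (mem_ker_iff d X k).mp hk
      have h1 := hx ⟨w, hw⟩
      rw [hf] at h1
      have h3 : X *ᵥ (k + w) + (k + w) = (X *ᵥ k + k) + (X *ᵥ w + w) := by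
        rw [Matrix.mulVec_add]
        abel
      rw [h3, spForm_add_right', (fix_iff d X k).mpr hk', h1, hB.zero_right, add_zero]
    have hxk : X *ᵥ (x : Fin d ⊕ Fin d → F) + (x : Fin d ⊕ Fin d → F) = 0 := by
      apply spForm_nondeg (l := Fin d) (F := F)
      intro v
      rw [spForm_add_left', invol_adj d hX hX2, ← spForm_add_right']
      exact hx' v
    have hxK : (x : Fin d ⊕ Fin d → F) ∈ LinearMap.ker (Matrix.toLin' (X - 1)) :=
      (mem_ker_iff d X _).mpr ((fix_iff d X _).mp hxk)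
    have h0 : (x : Fin d ⊕ Fin d → F) = 0 := by
      have hmem : (x : Fin d ⊕ Fin d → F) ∈ LinearMap.ker (Matrix.toLin' (X - 1)) ⊓ W :=
        ⟨hxK, x.2⟩
      rw [hW.inf_eq_bot] at hmem
      exact (Submodule.mem_bot F).mp hmem
    exact Subtype.ext h0
  have hev := Cfsg.Agent.Lib.Helper78.Quad.even_finrank_of_alt hsf halt hnd
  have hWd : Module.finrank F W = d := by
    have h1 := Submodule.finrank_add_eq_of_isCompl hW
    rw [hdim, Module.finrank_fintype_fun_eq_card, Fintype.card_sum, Fintype.card_fin] at h1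
    omega
  rwa [hWd] at hev

end QfF

end Cfsg.Agent.Lib.Helper47.Qf
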