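import Cfsg.Agent.Lib.Helper47.QfDefs
import Cfsg.Agent.Lib.Helper18.Adapted

/-!
# S5983, piece LAGR: `Sp` is transitive on Lagrangian subspaces (one direction)
-/

set_option autoImplicit false

namespace Cfsg.Agent.Lib.Helper47.Qf

open Cfsg.Agent.Lib.Helper47 Matrix

section QfG

variable {F : Type*} [Field F]

-- PIECE LAGR
theorem exists_sp_lagr [Fintype F] [CharP F 2] (d : ℕ) (U : Submodule F (Fin d ⊕ Fin d → F))
    (hU : ∀ u ∈ U, ∀ v ∈ U, spForm (Fin d) F u v = 0) (hd : Module.finrank F U = d) :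
    ∃ T : Matrix (Fin d ⊕ Fin d) (Fin d ⊕ Fin d) F, T ∈ Matrix.symplecticGroup (Fin d) F ∧
      ∀ v : Fin d ⊕ Fin d → F, v ∈ stdLag d F → T *ᵥ v ∈ U := by
  classical
  have b : Module.Basis (Fin d) F U := Module.finBasisOfFinrankEq F U hd
  obtain ⟨x', hx'⟩ : ∃ x' : Fin d → (Fin d ⊕ Fin d → F), ∀ i, x' i = (b i : Fin d ⊕ Fin d → F) :=
    ⟨_, fun _ => rfl⟩
  obtain ⟨x, hx⟩ : ∃ x : Fin d → (Fin d ⊕ Fin d → F), ∀ i, x i = Pi.single (Sum.inl i) 1 :=
    ⟨_, fun _ => rfl⟩
  have hli' : LinearIndependent F x' := by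
    have h1 := b.linearIndependent.map' U.subtype (Submodule.ker_subtype U)
    have h2 : x' = U.subtype ∘ b := by
      funext i
      rw [hx']
      rfl
    rw [h2]
    exact h1
  have hli : LinearIndependent F x := by
    have h1 := (Pi.basisFun F (Fin d ⊕ Fin d)).linearIndependent.comp Sum.inl Sum.inl_injective
    have h2 : x = (Pi.basisFun F (Fin d ⊕ Fin d)) ∘ Sum.inl := by
      funext i
      rw [hx]
      simp [Pi.basisFun_apply]
    rw [h2]
    exact h1
  have hxmem : ∀ i, x i ∈ stdLag d F := by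
    intro i j
    rw [hx]
    simp
  have hiso : ∀ i j, Cfsg.Agent.Lib.Helper18.sympB (F := F) d (x i) (x j) = 0 := by
    intro i j
    rw [Cfsg.Agent.Lib.Helper18.sympB_apply]
    exact spForm_stdLag d _ _ (hxmem i) (hxmem j)
  have hiso' : ∀ i j, Cfsg.Agent.Lib.Helper18.sympB (F := F) d (x' i) (x' j) = 0 := by
    intro i j
    rw [Cfsg.Agent.Lib.Helper18.sympB_apply, hx', hx']
    exact hU _ (b i).2 _ (b j).2
  obtain ⟨g, hg⟩ := Cfsg.Agent.Lib.Helper18.witt_frames d d x x' hli hli' hiso hiso'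
  refine ⟨g.1, g.2, fun v hv => ?_⟩
  have hv' : v = ∑ i, v (Sum.inl i) • x i := by
    funext j
    rw [Finset.sum_apply]
    rcases j with j | j
    · simp [hx, Pi.single_apply]
    · rw [hv j]
      simp [hx]
  rw [hv', Matrix.mulVec_sum]
  apply Submodule.sum_mem
  intro i _
  rw [Matrix.mulVec_smul, hg, hx']
  exact U.smul_mem _ (b i).2

end QfG

end Cfsg.Agent.Lib.Helper47.Qf
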