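import Cfsg.Agent.Lib.Helper47.QfDefs

/-!
# S5983, piece UFORM: an element of order `r ∣ q^d + 1` acting fixed point freely and preserving
a nondegenerate alternating form (from the field of order `q^{2d}`)
-/

set_option autoImplicit false

namespace Cfsg.Agent.Lib.Helper47.Qf

open Cfsg.Agent.Lib.Helper47 Matrix

section QfH

variable {F : Type*} [Field F]

lemma uform_of_field (d r : ℕ) (K : Type*) [Field K] [Algebra F K] [FiniteDimensional F K]
    [Algebra.IsSeparable F K]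
    (σ : K ≃ₐ[F] K) (hσ : ∀ x, σ (σ x) = x) (θ : K) (hθ : σ θ ≠ θ) (lam : K) (hl1 : lam ≠ 1)
    (hlr : lam ^ r = 1) (hls : lam * σ lam = 1) (e : (Fin d ⊕ Fin d → F) ≃ₗ[F] K) :
    ∃ (B : (Fin d ⊕ Fin d → F) → (Fin d ⊕ Fin d → F) → F)
      (g : (Fin d ⊕ Fin d → F) →ₗ[F] (Fin d ⊕ Fin d → F)),
      IsSForm (RingHom.id F) (-1) B ∧ Nondeg B ∧ (∀ x, B x x = 0) ∧
      (∀ x y, B (g x) (g y) = B x y) ∧ g ^ r = 1 ∧ ∀ v, g v = v → v = 0 := by
  obtain ⟨B₀, hB₀⟩ : ∃ B₀ : K → K → F,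
      ∀ x y, B₀ x y = Algebra.trace F K (θ * (x * σ y - σ x * y)) := ⟨_, fun _ _ => rfl⟩
  have hadd : ∀ x y z, B₀ (x + y) z = B₀ x z + B₀ y z := by
    intro x y z
    rw [hB₀, hB₀, hB₀, ← map_add]
    congr 1
    rw [map_add]
    ring
  have hsmul : ∀ (c : F) x y, B₀ (c • x) y = c * B₀ x y := by
    intro c x y
    rw [hB₀, hB₀]
    have h1 : θ * (c • x * σ y - σ (c • x) * y) = c • (θ * (x * σ y - σ x * y)) := by
      rw [map_smul, Algebra.smul_def, Algebra.smul_def, Algebra.smul_def]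
      ring
    rw [h1, map_smul, smul_eq_mul]
  have hsymm : ∀ x y, B₀ y x = -1 * B₀ x y := by
    intro x y
    rw [hB₀, hB₀, neg_one_mul, ← map_neg]
    congr 1
    ring
  have halt : ∀ x, B₀ x x = 0 := by
    intro x
    rw [hB₀]
    have h0 : θ * (x * σ x - σ x * x) = 0 := by ring
    rw [h0, map_zero]
  have hinv : ∀ x y, B₀ (lam * x) (lam * y) = B₀ x y := by
    intro x y
    rw [hB₀, hB₀]
    congr 1
    rw [map_mul, map_mul]
    linear_combination (θ * (x * σ y - σ x * y)) * hls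
  have hnd : ∀ x, (∀ y, B₀ x y = 0) → x = 0 := by
    intro x hx
    have h1 : ∀ y, B₀ x y = Algebra.trace F K ((θ - σ θ) * x * σ y) := by
      intro y
      rw [hB₀]
      have h2 : θ * (x * σ y - σ x * y) = θ * x * σ y - σ (σ θ * x * σ y) := by
        rw [map_mul, map_mul, hσ, hσ]
        ring
      rw [h2, map_sub, Algebra.trace_eq_of_algEquiv, ← map_sub]
      congr 1
      ring
    by_contra hx0
    have hc : (θ - σ θ) * x ≠ 0 := mul_ne_zero (sub_ne_zero.mpr (Ne.symm hθ)) hx0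
    apply Algebra.trace_ne_zero F K
    apply LinearMap.ext
    intro w
    have h3 := hx (σ (((θ - σ θ) * x)⁻¹ * w))
    rw [h1, hσ, ← mul_assoc, mul_inv_cancel₀ hc, one_mul] at h3
    rw [h3]
    rfl
  obtain ⟨g, hg⟩ : ∃ g : (Fin d ⊕ Fin d → F) →ₗ[F] (Fin d ⊕ Fin d → F),
      ∀ v, g v = e.symm (lam * e v) :=
    ⟨e.symm.toLinearMap ∘ₗ (LinearMap.mulLeft F lam) ∘ₗ e.toLinearMap, fun _ => rfl⟩
  have hg' : ∀ v, e (g v) = lam * e v := fun v => by rw [hg, e.apply_symm_apply]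
  have hpow : ∀ (n : ℕ) v, (g ^ n) v = e.symm (lam ^ n * e v) := by
    intro n
    induction n with
    | zero =>
      intro v
      rw [pow_zero, pow_zero, one_mul, e.symm_apply_apply, Module.End.one_apply]
    | succ n ih =>
      intro v
      rw [pow_succ, Module.End.mul_apply, ih, hg', pow_succ, mul_assoc]
  refine ⟨fun x y => B₀ (e x) (e y), g, ⟨fun x y z => ?_, fun c x y => ?_, fun x y => ?_⟩,
    ?_, fun x => halt (e x), ?_, ?_, ?_⟩
  · show B₀ (e (x + y)) (e z) = B₀ (e x) (e z) + B₀ (e y) (e z)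
    rw [map_add, hadd]
  · show B₀ (e (c • x)) (e y) = c * B₀ (e x) (e y)
    rw [map_smul, hsmul]
  · show B₀ (e y) (e x) = -1 * (RingHom.id F) (B₀ (e x) (e y))
    rw [RingHom.id_apply]
    exact hsymm _ _
  · intro x hx
    have h1 : e x = 0 := by
      apply hnd
      intro y
      have h2 := hx (e.symm y)
      have h3 : B₀ (e x) (e (e.symm y)) = 0 := h2
      rw [e.apply_symm_apply] at h3
      exact h3
    exact e.map_eq_zero_iff.mp h1
  · intro x y
    show B₀ (e (g x)) (e (g y)) = B₀ (e x) (e y)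
    rw [hg', hg', hinv]
  · apply LinearMap.ext
    intro v
    rw [hpow, hlr, one_mul, e.symm_apply_apply]
    rfl
  · intro v hv
    have h1 : lam * e v = e v := by rw [← hg' v, hv]
    have h2 : (lam - 1) * e v = 0 := by linear_combination h1
    rcases mul_eq_zero.mp h2 with h | h
    · exact absurd (sub_eq_zero.mp h) hl1
    · exact e.map_eq_zero_iff.mp h

-- PIECE UFORM
theorem exists_unitary_form [Fintype F] [CharP F 2] {q : ℕ} (hF : Fintype.card F = q) (d : ℕ)
    (hd : 1 ≤ d) (r : ℕ) (hr : r.Prime) (hdvd : r ∣ q ^ d + 1) :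
    ∃ (B : (Fin d ⊕ Fin d → F) → (Fin d ⊕ Fin d → F) → F)
      (g : (Fin d ⊕ Fin d → F) →ₗ[F] (Fin d ⊕ Fin d → F)),
      IsSForm (RingHom.id F) (-1) B ∧ Nondeg B ∧ (∀ x, B x x = 0) ∧
      (∀ x y, B (g x) (g y) = B x y) ∧ g ^ r = 1 ∧ ∀ v, g v = v → v = 0 := by
  classical
  have hp2 : Fact (Nat.Prime 2) := ⟨Nat.prime_two⟩
  have hne : NeZero (2 * d) := ⟨by omega⟩
  have hrf : Fact r.Prime := ⟨hr⟩
  have hq2 : 2 ≤ q := by
    rw [← hF]
    exact Fintype.one_lt_card
  have hcardF : Nat.card F = q := by rw [← hF, Nat.card_eq_fintype_card]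
  have hN2 : 2 ≤ q ^ d := by
    calc 2 ≤ q := hq2
      _ = q ^ 1 := (pow_one q).symm
      _ ≤ q ^ d := Nat.pow_le_pow_right (by omega) hd
  have hqq : q ^ d * q ^ d = q ^ (2 * d) := by rw [two_mul, pow_add]
  obtain ⟨σ, hσ⟩ : ∃ σ : FiniteField.Extension F 2 (2 * d) ≃ₐ[F] FiniteField.Extension F 2 (2 * d),
      ∀ x, σ x = x ^ (q ^ d) :=
    ⟨(FiniteField.Extension.frob F 2 (2 * d)) ^ d, fun x => by
      rw [FiniteField.Extension.frob_iterate_apply, hcardF]⟩
  have hcardK : Nat.card (FiniteField.Extension F 2 (2 * d)) = q ^ (2 * d) := by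
    rw [FiniteField.natCard_extension, hcardF]
  have hpowK : ∀ x : FiniteField.Extension F 2 (2 * d), x ^ (q ^ (2 * d)) = x := by
    intro x
    have hfin := Fintype.ofFinite (FiniteField.Extension F 2 (2 * d))
    have h := FiniteField.pow_card x
    rwa [Fintype.card_eq_nat_card, hcardK] at h
  have hσσ : ∀ x, σ (σ x) = x := by
    intro x
    rw [hσ, hσ, ← pow_mul, hqq, hpowK]
  have hcardU : Nat.card (FiniteField.Extension F 2 (2 * d))ˣ = q ^ (2 * d) - 1 := by
    rw [Nat.card_units, hcardK]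
  -- an element not fixed by `σ`
  have hθ : ∃ θ : FiniteField.Extension F 2 (2 * d), σ θ ≠ θ := by
    by_contra hcon
    push Not at hcon
    obtain ⟨ζ, hζ⟩ := IsCyclic.exists_generator (α := (FiniteField.Extension F 2 (2 * d))ˣ)
    have hord := orderOf_eq_card_of_forall_mem_zpowers hζ
    rw [hcardU] at hord
    have h1 : (ζ : FiniteField.Extension F 2 (2 * d)) ^ (q ^ d) = ζ := by
      rw [← hσ]
      exact hcon _
    have h2 : ζ ^ (q ^ d - 1) = 1 := by
      apply Units.ext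
      rw [Units.val_pow_eq_pow_val, Units.val_one]
      have h3 : (ζ : FiniteField.Extension F 2 (2 * d)) ^ (q ^ d - 1) * ζ = 1 * ζ := by
        rw [← pow_succ, Nat.sub_add_cancel (by omega), one_mul]
        exact h1
      exact mul_right_cancel₀ ζ.ne_zero h3
    have h4 := orderOf_dvd_of_pow_eq_one h2
    rw [hord] at h4
    have h5 := Nat.le_of_dvd (by omega) h4
    have h6 : q ^ d * 2 ≤ q ^ d * q ^ d := Nat.mul_le_mul_left _ hN2
    rw [hqq] at h6
    omega
  obtain ⟨θ, hθ⟩ := hθ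
  -- an element of order `r`
  have hrdvd : r ∣ Nat.card (FiniteField.Extension F 2 (2 * d))ˣ := by
    rw [hcardU, ← hqq]
    have h1 : q ^ d * q ^ d - 1 = (q ^ d - 1) * (q ^ d + 1) := by
      obtain ⟨N, hN⟩ : ∃ N, q ^ d = N + 2 := ⟨q ^ d - 2, by omega⟩
      rw [hN]
      have h2 : (N + 2) * (N + 2) = (N + 1) * (N + 2 + 1) + 1 := by ring
      rw [h2]
      rfl
    rw [h1]
    exact Dvd.dvd.mul_left hdvd _
  obtain ⟨u, hu⟩ := exists_prime_orderOf_dvd_card' r hrdvd
  have hur : u ^ r = 1 := by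
    rw [← hu]
    exact pow_orderOf_eq_one u
  have hu1 : u ≠ 1 := by
    intro h
    rw [h, orderOf_one] at hu
    exact hr.one_lt.ne hu
  have huq : u ^ (q ^ d + 1) = 1 := by
    rw [← orderOf_dvd_iff_pow_eq_one, hu]
    exact hdvd
  have hl1 : (u : FiniteField.Extension F 2 (2 * d)) ≠ 1 := by
    intro h
    apply hu1
    exact Units.ext h
  have hlr : (u : FiniteField.Extension F 2 (2 * d)) ^ r = 1 := by
    rw [← Units.val_pow_eq_pow_val, hur, Units.val_one]
  have hls : (u : FiniteField.Extension F 2 (2 * d)) * σ u = 1 := by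
    rw [hσ, ← pow_succ', ← Units.val_pow_eq_pow_val, huq, Units.val_one]
  have hfr : Module.finrank F (Fin d ⊕ Fin d → F)
      = Module.finrank F (FiniteField.Extension F 2 (2 * d)) := by
    rw [FiniteField.finrank_extension, Module.finrank_fintype_fun_eq_card, Fintype.card_sum,
      Fintype.card_fin, two_mul]
  exact uform_of_field d r (FiniteField.Extension F 2 (2 * d)) σ hσσ θ hθ _ hl1 hlr hls
    (LinearEquiv.ofFinrankEq _ _ hfr)

end QfH

end Cfsg.Agent.Lib.Helper47.Qf
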