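import Cfsg.Agent.Lib.Helper47.QfPieces

/-!
# Elements of prime order of `Sp_{2d}(q)`, `q` even, and the subgroups `O^±_{2d}(q)`: assembly
-/

set_option autoImplicit false

namespace Cfsg.Agent.Lib.Helper47

open Matrix OmcSkel QfSkel

section QfMain

variable {F : Type*} [Field F] [Fintype F] [CharP F 2]

lemma sp_inv_mulVec {d : ℕ} (A : ↥(Matrix.symplecticGroup (Fin d) F))
    (v : Fin d ⊕ Fin d → F) :
    ((A⁻¹ : ↥(Matrix.symplecticGroup (Fin d) F)) : Matrix (Fin d ⊕ Fin d) (Fin d ⊕ Fin d) F)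
      *ᵥ ((A : Matrix (Fin d ⊕ Fin d) (Fin d ⊕ Fin d) F) *ᵥ v) = v := by
  rw [Matrix.mulVec_mulVec, sp_coe_inv_mul, Matrix.one_mulVec]

lemma sp_mulVec_inv {d : ℕ} (A : ↥(Matrix.symplecticGroup (Fin d) F))
    (v : Fin d ⊕ Fin d → F) :
    (A : Matrix (Fin d ⊕ Fin d) (Fin d ⊕ Fin d) F)
      *ᵥ (((A⁻¹ : ↥(Matrix.symplecticGroup (Fin d) F)) :
        Matrix (Fin d ⊕ Fin d) (Fin d ⊕ Fin d) F) *ᵥ v) = v := by
  rw [Matrix.mulVec_mulVec, sp_coe_mul_inv, Matrix.one_mulVec]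

lemma sq_eq_sq_char_two {x y : F} (h : x ^ 2 = y ^ 2) : x = y := by
  have h2 : (2 : F) = 0 := CharTwo.two_eq_zero
  have h1 : (x - y) ^ 2 = 0 := by linear_combination h - (x * y - y ^ 2) * h2
  exact sub_eq_zero.mp (pow_eq_zero_iff (two_ne_zero) |>.mp h1)

lemma add_sq_char_two (x y : F) : (x + y) ^ 2 = x ^ 2 + y ^ 2 := by
  have h2 : (2 : F) = 0 := CharTwo.two_eq_zero
  linear_combination (x * y) * h2

lemma isWP_sq_add (x : F) : IsWP (x ^ 2 + x) := ⟨x, rfl⟩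

lemma isWP_zero' : IsWP (0 : F) := ⟨0, by ring⟩

/-- Plus type forms are `Sp`-equivalent to the standard hyperbolic form. -/
theorem qf_std_of_plus (d : ℕ) (Q : (Fin d ⊕ Fin d → F) → F) (hQ : IsQF d Q)
    (hplus : Cfsg.Geo.IsPlusTypeOn Q ⊤) :
    ∃ T : ↥(Matrix.symplecticGroup (Fin d) F),
      ∀ v, Q v = Cfsg.quadFormPlus d F ((T : Matrix (Fin d ⊕ Fin d) (Fin d ⊕ Fin d) F) *ᵥ v) := by
  obtain ⟨U, -, hU0, hUd⟩ := hplus
  have hfin : Module.finrank F U = d := by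
    rw [finrank_top, Module.finrank_fintype_fun_eq_card, Fintype.card_sum, Fintype.card_fin] at hUd
    omega
  have hUi : ∀ u ∈ U, ∀ v ∈ U, spForm (Fin d) F u v = 0 := by
    intro u hu v hv
    have h := hQ.2 u v
    rw [hU0 u hu, hU0 v hv, hU0 (u + v) (U.add_mem hu hv)] at h
    rw [zero_add, zero_add] at h
    exact h.symm
  obtain ⟨T₁, hT₁, hT₁U⟩ := exists_sp_lagr d U hUi hfin
  have hQ₁ : IsQF d (fun v => Q (T₁ *ᵥ v)) := hQ.comp hT₁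
  obtain ⟨a, ha⟩ := qf_diff d (Cfsg.quadFormPlus d F) (fun v => Q (T₁ *ᵥ v)) (isQF_plus d) hQ₁
  have ha0 : ∀ v ∈ stdLag d F, spForm (Fin d) F a v = 0 := by
    intro v hv
    have h := ha v
    rw [hU0 _ (hT₁U v hv), qplus_stdLag d v hv, zero_add] at h
    exact pow_eq_zero_iff (two_ne_zero) |>.mp h.symm
  have haL : a ∈ stdLag d F := by
    classical
    intro i
    have h := ha0 (Pi.single (Sum.inl i) 1) (by
      intro j
      simp)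
    rw [spForm_eq_sum, Finset.sum_eq_single i] at h
    · simpa using h
    · intro j _ hj
      simp [hj]
    · intro h'
      exact absurd (Finset.mem_univ _) h'
  have hwp : IsWP (Cfsg.quadFormPlus d F a) := by
    rw [qplus_stdLag d a haL]
    exact isWP_zero'
  obtain ⟨A, hA, hAspec, -⟩ := exists_transv d a hwp
  refine ⟨(⟨A, hA⟩ : ↥(Matrix.symplecticGroup (Fin d) F)) * (⟨T₁, hT₁⟩ : ↥(Matrix.symplecticGroup (Fin d) F))⁻¹, fun v => ?_⟩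
  rw [Submonoid.coe_mul, ← Matrix.mulVec_mulVec, hAspec]
  have h := ha (((⟨T₁, hT₁⟩ : ↥(Matrix.symplecticGroup (Fin d) F))⁻¹ :
    ↥(Matrix.symplecticGroup (Fin d) F)) *ᵥ v)
  rw [← h]
  congr 1
  exact (sp_mulVec_inv (⟨T₁, hT₁⟩ : ↥(Matrix.symplecticGroup (Fin d) F)) v).symm

/-- Forms `Sp`-equivalent to the standard hyperbolic form are of plus type. -/
theorem plus_of_std (d : ℕ) (Q : (Fin d ⊕ Fin d → F) → F)
    (T : ↥(Matrix.symplecticGroup (Fin d) F))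
    (hT : ∀ v, Q v = Cfsg.quadFormPlus d F ((T : Matrix (Fin d ⊕ Fin d) (Fin d ⊕ Fin d) F) *ᵥ v)) :
    Cfsg.Geo.IsPlusTypeOn Q ⊤ := by
  apply plus_of_tsing d Q ((T⁻¹ : ↥(Matrix.symplecticGroup (Fin d) F)) :
    Matrix (Fin d ⊕ Fin d) (Fin d ⊕ Fin d) F) (SymplecticGroup.symplectic_det (T⁻¹).2)
  intro v hv
  rw [hT, sp_mulVec_inv, qplus_stdLag d v hv]

/-- The orbit of the standard form. -/
theorem orbit_plus_iff {q : ℕ} (hF : Fintype.card F = q) (d : ℕ) (a : Fin d ⊕ Fin d → F) :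
    (∃ A : ↥(Matrix.symplecticGroup (Fin d) F), ∀ v,
      Cfsg.quadFormPlus d F ((A : Matrix (Fin d ⊕ Fin d) (Fin d ⊕ Fin d) F) *ᵥ v)
        = Cfsg.quadFormPlus d F v + (spForm (Fin d) F a v) ^ 2)
      ↔ IsWP (Cfsg.quadFormPlus d F a) := by
  constructor
  · rintro ⟨A, hA⟩
    have h := alphaVec_unique d A a hA
    rw [← h]
    exact isWP_alphaVec hF d A
  · intro h
    obtain ⟨A, hA, hspec, -⟩ := exists_transv d a h
    exact ⟨⟨A, hA⟩, hspec⟩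

/-- A form which is not of plus type is a shift of the standard form by a non-`℘` vector. -/
theorem qf_nonplus_shift (d : ℕ) (Q : (Fin d ⊕ Fin d → F) → F) (hQ : IsQF d Q)
    (hnp : ¬ Cfsg.Geo.IsPlusTypeOn Q ⊤) :
    ∃ e : Fin d ⊕ Fin d → F, ¬ IsWP (Cfsg.quadFormPlus d F e) ∧
      ∀ v, Q v = Cfsg.quadFormPlus d F v + (spForm (Fin d) F e v) ^ 2 := by
  obtain ⟨e, he⟩ := qf_diff d (Cfsg.quadFormPlus d F) Q (isQF_plus d) hQ
  refine ⟨e, fun hwp => hnp ?_, he⟩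
  obtain ⟨A, hA, hspec, -⟩ := exists_transv d e hwp
  exact plus_of_std d Q ⟨A, hA⟩ (fun v => by rw [he v]; exact (hspec v).symm)

/-- Key arithmetic: for `Q = Q₀ + f(e,·)²` with `Q₀ e ∉ ℘`, `Q a ∈ ℘ ↔ Q₀ (e + a) ∉ ℘`. -/
lemma wp_shift_iff {q : ℕ} (hwp : WPFacts F q) (d : ℕ) (e a : Fin d ⊕ Fin d → F)
    (he : ¬ IsWP (Cfsg.quadFormPlus d F e)) :
    IsWP (Cfsg.quadFormPlus d F a + (spForm (Fin d) F e a) ^ 2)
      ↔ ¬ IsWP (Cfsg.quadFormPlus d F (e + a)) := by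
  have h2 : (2 : F) = 0 := CharTwo.two_eq_zero
  have hkey : Cfsg.quadFormPlus d F (e + a)
      = Cfsg.quadFormPlus d F e + ((Cfsg.quadFormPlus d F a + (spForm (Fin d) F e a) ^ 2)
        + ((spForm (Fin d) F e a) ^ 2 + spForm (Fin d) F e a)) := by
    rw [qplus_add]
    linear_combination (-(spForm (Fin d) F e a) ^ 2) * h2
  constructor
  · intro h hcon
    have h3 : IsWP ((Cfsg.quadFormPlus d F a + (spForm (Fin d) F e a) ^ 2)
        + ((spForm (Fin d) F e a) ^ 2 + spForm (Fin d) F e a)) :=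
      hwp.1 _ _ h (isWP_sq_add _)
    rw [hkey, add_comm] at hcon
    exact hwp.2.2.1 _ _ h3 he hcon
  · intro h
    by_contra hcon
    apply h
    have h3 : ¬ IsWP ((Cfsg.quadFormPlus d F a + (spForm (Fin d) F e a) ^ 2)
        + ((spForm (Fin d) F e a) ^ 2 + spForm (Fin d) F e a)) := by
      rw [add_comm]
      exact hwp.2.2.1 _ _ (isWP_sq_add _) hcon
    rw [hkey]
    exact hwp.2.1 _ _ he h3

/-- The orbit of an arbitrary form. -/
theorem orbit_iff {q : ℕ} (hF : Fintype.card F = q) (d : ℕ) (Q : (Fin d ⊕ Fin d → F) → F)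
    (hQ : IsQF d Q) (a : Fin d ⊕ Fin d → F) :
    (∃ A : Matrix (Fin d ⊕ Fin d) (Fin d ⊕ Fin d) F, A ∈ Matrix.symplecticGroup (Fin d) F ∧
      ∀ v, Q (A *ᵥ v) = Q v + (spForm (Fin d) F a v) ^ 2) ↔ IsWP (Q a) := by
  have hwp := wp_facts hF
  constructor
  · rintro ⟨A, hA, hspec⟩
    by_cases hplus : Cfsg.Geo.IsPlusTypeOn Q ⊤
    · obtain ⟨T, hT⟩ := qf_std_of_plus d Q hQ hplus
      rw [hT a]
      rw [← orbit_plus_iff hF d]
      refine ⟨T * ⟨A, hA⟩ * T⁻¹, fun w => ?_⟩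
      rw [Submonoid.coe_mul, Submonoid.coe_mul, ← Matrix.mulVec_mulVec, ← Matrix.mulVec_mulVec,
        ← hT, hspec, hT, sp_mulVec_inv]
      congr 2
      have h := spForm_mulVec d T.2 a
        (((T⁻¹ : ↥(Matrix.symplecticGroup (Fin d) F)) :
          Matrix (Fin d ⊕ Fin d) (Fin d ⊕ Fin d) F) *ᵥ w)
      rw [sp_mulVec_inv] at h
      exact h.symm
    · obtain ⟨e, he, hQe⟩ := qf_nonplus_shift d Q hQ hplus
      by_contra hcon
      rw [hQe a, wp_shift_iff hwp d e a he, not_not] at hcon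
      obtain ⟨A₁, hA₁, hspec₁, -⟩ := exists_transv d (e + a) hcon
      apply hplus
      apply plus_of_std d Q ((⟨A₁, hA₁⟩ : ↥(Matrix.symplecticGroup (Fin d) F))
        * (⟨A, hA⟩ : ↥(Matrix.symplecticGroup (Fin d) F))⁻¹)
      intro w
      rw [Submonoid.coe_mul, ← Matrix.mulVec_mulVec, hspec₁, spForm_add_left', add_sq_char_two,
        ← add_assoc, ← hQe, ← hspec, sp_mulVec_inv (⟨A, hA⟩ : ↥(Matrix.symplecticGroup (Fin d) F))]
  · intro h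
    exact exists_transv_qf d Q hQ a h

/-- `2 · #{a | Q₀ a ∈ ℘} = q^d (q^d + 1)`. -/
lemma card_wp_plus {q : ℕ} (hF : Fintype.card F = q) (d : ℕ) :
    Nat.card {a : Fin d ⊕ Fin d → F // IsWP (Cfsg.quadFormPlus d F a)} * 2
      = q ^ d * (q ^ d + 1) := by
  have hwp := wp_facts hF
  have hP := card_std_wp hF hwp d 0 (Nat.zero_le d)
  rw [Nat.sub_zero] at hP
  rw [← hP]
  congr 1
  exact Nat.card_congr (Equiv.subtypeEquivRight (fun a => by simp))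

theorem card_orbit_plus {q : ℕ} (hF : Fintype.card F = q) (d : ℕ)
    (Q : (Fin d ⊕ Fin d → F) → F) (hQ : IsQF d Q) (hplus : Cfsg.Geo.IsPlusTypeOn Q ⊤) :
    Nat.card {a : Fin d ⊕ Fin d → F // IsWP (Q a)} * 2 = q ^ d * (q ^ d + 1) := by
  obtain ⟨T, hT⟩ := qf_std_of_plus d Q hQ hplus
  rw [← card_wp_plus hF d]
  congr 1
  let e : (Fin d ⊕ Fin d → F) ≃ (Fin d ⊕ Fin d → F) :=
    ⟨fun v => (T : Matrix (Fin d ⊕ Fin d) (Fin d ⊕ Fin d) F) *ᵥ v,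
     fun v => ((T⁻¹ : ↥(Matrix.symplecticGroup (Fin d) F)) :
        Matrix (Fin d ⊕ Fin d) (Fin d ⊕ Fin d) F) *ᵥ v,
     fun v => sp_inv_mulVec T v, fun v => sp_mulVec_inv T v⟩
  exact Nat.card_congr (e.subtypeEquiv (fun a => by rw [hT a]; rfl))

theorem card_orbit_nonplus {q : ℕ} (hF : Fintype.card F = q) (d : ℕ)
    (Q : (Fin d ⊕ Fin d → F) → F) (hQ : IsQF d Q) (hnp : ¬ Cfsg.Geo.IsPlusTypeOn Q ⊤) :
    Nat.card {a : Fin d ⊕ Fin d → F // IsWP (Q a)} * 2 = q ^ d * (q ^ d - 1) := by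
  classical
  have hwp := wp_facts hF
  obtain ⟨e, he, hQe⟩ := qf_nonplus_shift d Q hQ hnp
  have h1 : Nat.card {a : Fin d ⊕ Fin d → F // IsWP (Q a)}
      = Nat.card {b : Fin d ⊕ Fin d → F // ¬ IsWP (Cfsg.quadFormPlus d F b)} := by
    apply Nat.card_congr
    exact (Equiv.addLeft e).subtypeEquiv (fun a => by
      rw [hQe a]
      exact wp_shift_iff hwp d e a he)
  have h2 : Nat.card {b : Fin d ⊕ Fin d → F // ¬ IsWP (Cfsg.quadFormPlus d F b)}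
      = q ^ (d + d) - Nat.card {b : Fin d ⊕ Fin d → F // IsWP (Cfsg.quadFormPlus d F b)} := by
    rw [Nat.card_eq_fintype_card, Nat.card_eq_fintype_card, Fintype.card_subtype_compl,
      Fintype.card_fun, hF, Fintype.card_sum, Fintype.card_fin]
  have h3 := card_wp_plus hF d
  have hq : 1 ≤ q := by
    rw [← hF]
    exact Fintype.card_pos
  have hx : 1 ≤ q ^ d := Nat.one_le_pow _ _ hq
  rw [h1, h2, pow_add]
  have h4 : q ^ d * (q ^ d + 1) = q ^ d * q ^ d + q ^ d := by ring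
  have h5 : q ^ d * (q ^ d - 1) = q ^ d * q ^ d - q ^ d := by
    rw [Nat.mul_sub, mul_one]
  rw [h4] at h3
  rw [h5]
  omega

/-- The index of the orthogonal group in the symplectic group. -/
theorem relindex_two {q : ℕ} (hF : Fintype.card F = q) (d : ℕ) (hd : 1 ≤ d)
    (Q : (Fin d ⊕ Fin d → F) → F) (hQ : IsQF d Q) :
    (Cfsg.Geo.IsPlusTypeOn Q ⊤ →
      (Cfsg.Geo.quadSimilarityGroup Q).relIndex (Cfsg.spGL d F) * 2 = q ^ d * (q ^ d + 1)) ∧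
    (¬ Cfsg.Geo.IsPlusTypeOn Q ⊤ →
      (Cfsg.Geo.quadSimilarityGroup Q).relIndex (Cfsg.spGL d F) * 2 = q ^ d * (q ^ d - 1)) := by
  have hrel := relindex_eq_card d hd Q hQ
    (fun A hA => qf_diff d Q (fun v => Q (A *ᵥ v)) hQ (hQ.comp hA))
  have hset : Nat.card {a : Fin d ⊕ Fin d → F //
      ∃ A : Matrix (Fin d ⊕ Fin d) (Fin d ⊕ Fin d) F,
        A ∈ Matrix.symplecticGroup (Fin d) F ∧
        ∀ v, Q (A *ᵥ v) = Q v + (spForm (Fin d) F a v) ^ 2}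
      = Nat.card {a : Fin d ⊕ Fin d → F // IsWP (Q a)} :=
    Nat.card_congr (Equiv.subtypeEquivRight (fun a => orbit_iff hF d Q hQ a))
  rw [hrel, hset]
  exact ⟨card_orbit_plus hF d Q hQ, card_orbit_nonplus hF d Q hQ⟩

/-- Some `Sp`-conjugate of `X` preserves `Q` (matrix form): `Q ∘ A` is `X`-invariant. -/
def ConjInto (d : ℕ) (Q : (Fin d ⊕ Fin d → F) → F)
    (X : Matrix (Fin d ⊕ Fin d) (Fin d ⊕ Fin d) F) : Prop :=
  ∃ A : ↥(Matrix.symplecticGroup (Fin d) F), ∀ v,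
    Q ((A : Matrix (Fin d ⊕ Fin d) (Fin d ⊕ Fin d) F) *ᵥ (X *ᵥ v))
      = Q ((A : Matrix (Fin d ⊕ Fin d) (Fin d ⊕ Fin d) F) *ᵥ v)

/-- An element of `Sp` as an element of `GL`. -/
def spToGL {d : ℕ} (A : ↥(Matrix.symplecticGroup (Fin d) F)) : GL (Fin d ⊕ Fin d) F :=
  ⟨A, ((A⁻¹ : ↥(Matrix.symplecticGroup (Fin d) F)) :
      Matrix (Fin d ⊕ Fin d) (Fin d ⊕ Fin d) F), sp_coe_mul_inv d A, sp_coe_inv_mul d A⟩

lemma spToGL_mem {d : ℕ} (A : ↥(Matrix.symplecticGroup (Fin d) F)) :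
    spToGL A ∈ Cfsg.spGL d F := (mem_spGL_iff d _).mpr A.2

lemma gl_mulVec_inv {d : ℕ} (g : GL (Fin d ⊕ Fin d) F) (v : Fin d ⊕ Fin d → F) :
    (g : Matrix (Fin d ⊕ Fin d) (Fin d ⊕ Fin d) F)
      *ᵥ (((g⁻¹ : GL (Fin d ⊕ Fin d) F) : Matrix (Fin d ⊕ Fin d) (Fin d ⊕ Fin d) F) *ᵥ v) = v := by
  rw [Matrix.mulVec_mulVec, ← Units.val_mul, mul_inv_cancel, Units.val_one, Matrix.one_mulVec]

theorem conj_iff (d : ℕ) (hd : 1 ≤ d) (Q : (Fin d ⊕ Fin d → F) → F) (hQ : IsQF d Q)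
    (x : GL (Fin d ⊕ Fin d) F) (hx : x ∈ Cfsg.spGL d F) :
    (∃ g ∈ Cfsg.spGL d F, g⁻¹ * x * g ∈ Cfsg.Geo.quadSimilarityGroup Q)
      ↔ ConjInto d Q (x : Matrix (Fin d ⊕ Fin d) (Fin d ⊕ Fin d) F) := by
  constructor
  · rintro ⟨g, hg, c, hc⟩
    have hgi : g⁻¹ ∈ Cfsg.spGL d F := (Cfsg.spGL d F).inv_mem hg
    have hy : g⁻¹ * x * g ∈ Cfsg.spGL d F :=
      (Cfsg.spGL d F).mul_mem ((Cfsg.spGL d F).mul_mem hgi hx) hg
    have hyQ := quadSim_of_sp d hd hQ ((mem_spGL_iff d _).mp hy) (c : F) hc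
    refine ⟨⟨((g⁻¹ : GL (Fin d ⊕ Fin d) F) : Matrix (Fin d ⊕ Fin d) (Fin d ⊕ Fin d) F),
      (mem_spGL_iff d _).mp hgi⟩, fun v => ?_⟩
    have h := hyQ (((g⁻¹ : GL (Fin d ⊕ Fin d) F) :
      Matrix (Fin d ⊕ Fin d) (Fin d ⊕ Fin d) F) *ᵥ v)
    rw [Units.val_mul, Units.val_mul, ← Matrix.mulVec_mulVec, ← Matrix.mulVec_mulVec,
      gl_mulVec_inv] at h
    exact h
  · rintro ⟨A, hA⟩
    refine ⟨(spToGL A)⁻¹, (Cfsg.spGL d F).inv_mem (spToGL_mem A), 1, fun v => ?_⟩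
    rw [inv_inv, Units.val_mul, Units.val_mul, ← Matrix.mulVec_mulVec, ← Matrix.mulVec_mulVec,
      Units.val_one, one_mul]
    show Q ((A : Matrix (Fin d ⊕ Fin d) (Fin d ⊕ Fin d) F) *ᵥ
      ((x : Matrix (Fin d ⊕ Fin d) (Fin d ⊕ Fin d) F) *ᵥ
        (((A⁻¹ : ↥(Matrix.symplecticGroup (Fin d) F)) :
          Matrix (Fin d ⊕ Fin d) (Fin d ⊕ Fin d) F) *ᵥ v))) = Q v
    rw [hA, sp_mulVec_inv]

/-- `r = 2`: every involution of `Sp` is conjugate into `O(Q)` when `Q` is of plus type or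
`d` is odd. -/
theorem inv_conjInto {q : ℕ} (hF : Fintype.card F = q) (d : ℕ) (Q : (Fin d ⊕ Fin d → F) → F)
    (hQ : IsQF d Q) (X : Matrix (Fin d ⊕ Fin d) (Fin d ⊕ Fin d) F)
    (hX : X ∈ Matrix.symplecticGroup (Fin d) F) (hX2 : X * X = 1)
    (hcase : Cfsg.Geo.IsPlusTypeOn Q ⊤ ∨ Odd d) : ConjInto d Q X := by
  have hwp := wp_facts hF
  have key : ∀ a : Fin d ⊕ Fin d → F,
      (∀ v, Q (X *ᵥ v) + (spForm (Fin d) F a (X *ᵥ v)) ^ 2
        = Q v + (spForm (Fin d) F a v) ^ 2) →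
      IsWP (Q a) → ConjInto d Q X := by
    intro a hinv hwpa
    obtain ⟨A, hA, hspec⟩ := exists_transv_qf d Q hQ a hwpa
    exact ⟨⟨A, hA⟩, fun v => by
      show Q (A *ᵥ (X *ᵥ v)) = Q (A *ᵥ v)
      rw [hspec, hspec, hinv]⟩
  obtain ⟨α, hα⟩ := qf_diff d Q (fun v => Q (X *ᵥ v)) hQ (hQ.comp hX)
  obtain ⟨a₀, ha₀⟩ := exists_inv_form d Q X hX hX2 α hα
  by_cases hwp0 : IsWP (Q a₀)
  · exact key a₀ ha₀ hwp0
  have hQ' : IsQF d (fun v => Q v + (spForm (Fin d) F a₀ v) ^ 2) := hQ.shift a₀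
  by_cases hvan : ∀ u, X *ᵥ u = u → Q u + (spForm (Fin d) F a₀ u) ^ 2 = 0
  · have hdim := exc_dim d _ hQ' X hX hX2 hvan
    have hev := exc_even d _ hQ' X hX hX2 ha₀ hvan hdim
    have hplus' : Cfsg.Geo.IsPlusTypeOn (fun v => Q v + (spForm (Fin d) F a₀ v) ^ 2) ⊤ := by
      refine ⟨LinearMap.ker (Matrix.toLin' (X - 1)), le_top, fun w hw => ?_, ?_⟩
      · apply hvan
        rw [LinearMap.mem_ker, Matrix.toLin'_apply, Matrix.sub_mulVec, Matrix.one_mulVec] at hw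
        exact sub_eq_zero.mp hw
      · rw [hdim, finrank_top, Module.finrank_fintype_fun_eq_card, Fintype.card_sum,
          Fintype.card_fin]
        omega
    rcases hcase with hplus | hodd
    · obtain ⟨T, hT⟩ := qf_std_of_plus d Q hQ hplus
      obtain ⟨T', hT'⟩ := qf_std_of_plus d _ hQ' hplus'
      have hA : ∀ w, Q (((T⁻¹ * T' : ↥(Matrix.symplecticGroup (Fin d) F)) :
          Matrix (Fin d ⊕ Fin d) (Fin d ⊕ Fin d) F) *ᵥ w)
          = Q w + (spForm (Fin d) F a₀ w) ^ 2 := by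
        intro w
        rw [Submonoid.coe_mul, ← Matrix.mulVec_mulVec, hT, sp_mulVec_inv]
        exact (hT' w).symm
      refine ⟨T⁻¹ * T', fun v => ?_⟩
      rw [hA, hA, ha₀]
    · exact absurd hev (Nat.not_even_iff_odd.mpr hodd)
  · push Not at hvan
    obtain ⟨u, hu, hQu⟩ := hvan
    obtain ⟨c, hc⟩ := exists_nonwp hwp d _ hQ' u hQu
    have hu' : X *ᵥ (c • u) = c • u := by rw [Matrix.mulVec_smul, hu]
    apply key (a₀ + c • u)
    · intro v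
      have h1 : spForm (Fin d) F (c • u) (X *ᵥ v) = spForm (Fin d) F (c • u) v := by
        have := spForm_mulVec d hX (c • u) v
        rw [hu'] at this
        exact this
      rw [spForm_add_left', spForm_add_left', add_sq_char_two, add_sq_char_two, h1,
        ← add_assoc, ha₀, add_assoc]
    · have h2 : (2 : F) = 0 := CharTwo.two_eq_zero
      have hkey : Q (a₀ + c • u)
          = (Q a₀ + (Q (c • u) + (spForm (Fin d) F a₀ (c • u)) ^ 2))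
            + ((spForm (Fin d) F a₀ (c • u)) ^ 2 + spForm (Fin d) F a₀ (c • u)) := by
        rw [hQ.2]
        linear_combination (-(spForm (Fin d) F a₀ (c • u)) ^ 2) * h2
      rw [hkey]
      exact hwp.1 _ _ (hwp.2.1 _ _ hwp0 hc) (isWP_sq_add _)

/-- Odd `r`, plus type: a fixed-point-free element of order `r` is not conjugate into `O(Q)`. -/
theorem odd_plus_not {q : ℕ} (hF : Fintype.card F = q) (d : ℕ) (hd : 1 ≤ d)
    (Q : (Fin d ⊕ Fin d → F) → F) (hQ : IsQF d Q) (hplus : Cfsg.Geo.IsPlusTypeOn Q ⊤)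
    (r : ℕ) (hr : r.Prime) (hr2 : r ≠ 2) (hdvd : r ∣ q ^ d + 1) :
    ∃ X : Matrix (Fin d ⊕ Fin d) (Fin d ⊕ Fin d) F, X ∈ Matrix.symplecticGroup (Fin d) F ∧
      X ^ r = 1 ∧ (∀ v, X *ᵥ v = v → v = 0) ∧ ¬ ConjInto d Q X := by
  obtain ⟨T, hT⟩ := qf_std_of_plus d Q hQ hplus
  obtain ⟨B, g, hB, hnd, halt, hg, hgr, hfix⟩ := exists_unitary_form hF d hd r hr hdvd
  obtain ⟨X, hX, hXr, hXfix⟩ := exists_sp_of_form d r B g hB hnd halt hg hgr hfix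
  refine ⟨X, hX, hXr, hXfix, ?_⟩
  rintro ⟨A, hA⟩
  obtain ⟨Xs, hXs⟩ : ∃ Xs : ↥(Matrix.symplecticGroup (Fin d) F),
      (Xs : Matrix (Fin d ⊕ Fin d) (Fin d ⊕ Fin d) F) = X := ⟨⟨X, hX⟩, rfl⟩
  obtain ⟨Bs, hBs⟩ : ∃ Bs : ↥(Matrix.symplecticGroup (Fin d) F), Bs = T * A := ⟨_, rfl⟩
  have hY : ∀ w, Cfsg.quadFormPlus d F
      (((Bs * Xs * Bs⁻¹ : ↥(Matrix.symplecticGroup (Fin d) F)) :
        Matrix (Fin d ⊕ Fin d) (Fin d ⊕ Fin d) F) *ᵥ w) = Cfsg.quadFormPlus d F w := by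
    intro w
    have h1 : ∀ z, Cfsg.quadFormPlus d F
        ((Bs : Matrix (Fin d ⊕ Fin d) (Fin d ⊕ Fin d) F) *ᵥ z)
        = Q ((A : Matrix (Fin d ⊕ Fin d) (Fin d ⊕ Fin d) F) *ᵥ z) := by
      intro z
      rw [hBs, Submonoid.coe_mul, ← Matrix.mulVec_mulVec, ← hT]
    rw [Submonoid.coe_mul, Submonoid.coe_mul, ← Matrix.mulVec_mulVec, ← Matrix.mulVec_mulVec,
      h1, hXs, hA, ← h1, sp_mulVec_inv]
  have hYr : ((Bs * Xs * Bs⁻¹ : ↥(Matrix.symplecticGroup (Fin d) F)) :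
      Matrix (Fin d ⊕ Fin d) (Fin d ⊕ Fin d) F) ^ r = 1 := by
    have h1 : Xs ^ r = 1 := by
      apply Subtype.ext
      rw [SubmonoidClass.coe_pow, hXs, hXr]
      rfl
    rw [← SubmonoidClass.coe_pow, conj_pow, h1, mul_one, mul_inv_cancel]
    rfl
  obtain ⟨v, hv0, hv⟩ := exists_fixed_of_count hF d hd r hr (arith_r q d r hd hr hr2 hdvd) _
    hYr hY
  apply hv0
  have h1 : X *ᵥ (((Bs⁻¹ : ↥(Matrix.symplecticGroup (Fin d) F)) :
      Matrix (Fin d ⊕ Fin d) (Fin d ⊕ Fin d) F) *ᵥ v)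
      = ((Bs⁻¹ : ↥(Matrix.symplecticGroup (Fin d) F)) :
      Matrix (Fin d ⊕ Fin d) (Fin d ⊕ Fin d) F) *ᵥ v := by
    have h2 := congrArg (fun z => ((Bs⁻¹ : ↥(Matrix.symplecticGroup (Fin d) F)) :
      Matrix (Fin d ⊕ Fin d) (Fin d ⊕ Fin d) F) *ᵥ z) hv
    rw [Submonoid.coe_mul, Submonoid.coe_mul, ← Matrix.mulVec_mulVec, ← Matrix.mulVec_mulVec,
      sp_inv_mulVec, hXs] at h2
    exact h2
  have h3 := hXfix _ h1
  rw [← sp_mulVec_inv Bs v, h3, Matrix.mulVec_zero]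

/-- Odd `r`, non-plus type. -/
theorem odd_minus_not {q : ℕ} (hF : Fintype.card F = q) (d : ℕ) (hd : 1 ≤ d)
    (Q : (Fin d ⊕ Fin d → F) → F) (hQ : IsQF d Q) (hnp : ¬ Cfsg.Geo.IsPlusTypeOn Q ⊤)
    (r : ℕ) (hr : r.Prime) (hdvd : r ∣ q ^ d - 1) :
    ∃ X : Matrix (Fin d ⊕ Fin d) (Fin d ⊕ Fin d) F, X ∈ Matrix.symplecticGroup (Fin d) F ∧
      X ^ r = 1 ∧ (∀ v, X *ᵥ v = v → v = 0) ∧ ¬ ConjInto d Q X := by
  obtain ⟨A₀, hA₀r, hA₀fix⟩ := exists_singer hF d hd r hr hdvd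
  obtain ⟨X, hX, hXr, hXfix, hXQ⟩ := block_elt d r hr.pos A₀ hA₀r hA₀fix
  refine ⟨X, hX, hXr, hXfix, ?_⟩
  rintro ⟨A, hA⟩
  apply hnp
  apply plus_of_tsing d Q (A : Matrix (Fin d ⊕ Fin d) (Fin d ⊕ Fin d) F)
    (SymplecticGroup.symplectic_det A.2)
  intro v hv
  exact hXQ (fun v => Q ((A : Matrix (Fin d ⊕ Fin d) (Fin d ⊕ Fin d) F) *ᵥ v)) (hQ.comp A.2)
    hA v hv

/-- `r = 2`, non-plus type, `d` even. -/
theorem two_not (d : ℕ) (hd : 1 ≤ d) (hev : Even d)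
    (Q : (Fin d ⊕ Fin d → F) → F) (hQ : IsQF d Q) (hnp : ¬ Cfsg.Geo.IsPlusTypeOn Q ⊤) :
    ∃ X : Matrix (Fin d ⊕ Fin d) (Fin d ⊕ Fin d) F, X ∈ Matrix.symplecticGroup (Fin d) F ∧
      X * X = 1 ∧ X ≠ 1 ∧ ¬ ConjInto d Q X := by
  obtain ⟨X, hX, hX2, hX1, hXQ, hXb⟩ := alt_only_plus (F := F) d hd hev
  refine ⟨X, hX, hX2, hX1, ?_⟩
  rintro ⟨A, hA⟩
  apply hnp
  apply plus_of_tsing d Q (A : Matrix (Fin d ⊕ Fin d) (Fin d ⊕ Fin d) F)
    (SymplecticGroup.symplectic_det A.2)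
  obtain ⟨b, hb⟩ := qf_diff d (Cfsg.quadFormPlus d F)
    (fun v => Q ((A : Matrix (Fin d ⊕ Fin d) (Fin d ⊕ Fin d) F) *ᵥ v)) (isQF_plus d)
    (hQ.comp A.2)
  have hbL : b ∈ stdLag d F := by
    apply hXb
    intro v
    have h1 := hb (X *ᵥ v)
    have h2 := hb v
    have h3 := hA v
    rw [h1, h2, hXQ] at h3
    exact add_left_cancel h3
  intro v hv
  have h2 := hb v
  rw [h2, qplus_stdLag d v hv, spForm_stdLag d b v hbL hv]
  ring

lemma sp_scalar_eq_one (d : ℕ) (hd : 1 ≤ d) (z : F)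
    (h : z • (1 : Matrix (Fin d ⊕ Fin d) (Fin d ⊕ Fin d) F) ∈ Matrix.symplecticGroup (Fin d) F) :
    z = 1 := by
  obtain ⟨u, w, huw⟩ := exists_spForm_eq_one (F := F) d hd
  have h1 := spForm_mulVec d h u w
  rw [Matrix.smul_mulVec, Matrix.smul_mulVec, Matrix.one_mulVec, Matrix.one_mulVec,
    spForm_smul_left', spForm_smul_right', huw] at h1
  apply sq_eq_sq_char_two
  rw [one_pow, pow_two]
  linear_combination h1

/-- **Main theorem** (S5983 in terms of `IsQF`). -/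
theorem sp_orth_elusive {q : ℕ} (hF : Fintype.card F = q) (d : ℕ) (hd : 2 ≤ d)
    (Q : (Fin d ⊕ Fin d → F) → F) (hQ : IsQF d Q) (r : ℕ) (hr : r.Prime)
    (hΩ : r ∣ (Cfsg.Geo.quadSimilarityGroup Q).relIndex (Cfsg.spGL d F)) :
    (∀ x ∈ Cfsg.spGL d F,
      (∃ z : F, ((x ^ r : GL (Fin d ⊕ Fin d) F) : Matrix (Fin d ⊕ Fin d) (Fin d ⊕ Fin d) F)
        = z • (1 : Matrix (Fin d ⊕ Fin d) (Fin d ⊕ Fin d) F)) →
      (∀ z : F, (x : Matrix (Fin d ⊕ Fin d) (Fin d ⊕ Fin d) F)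
        ≠ z • (1 : Matrix (Fin d ⊕ Fin d) (Fin d ⊕ Fin d) F)) →
      ∃ g ∈ Cfsg.spGL d F, g⁻¹ * x * g ∈ Cfsg.Geo.quadSimilarityGroup Q) ↔
    (r = 2 ∧ (Cfsg.Geo.IsPlusTypeOn Q ⊤ ∨ Odd d)) := by
  have hd1 : 1 ≤ d := by omega
  obtain ⟨u₀, w₀, huw⟩ := exists_spForm_eq_one (F := F) d hd1
  have hu₀ : u₀ ≠ 0 := by
    rintro rfl
    rw [(spForm_isSForm (F := F) (l := Fin d)).zero_left] at huw
    exact zero_ne_one huw
  -- a fixed-point-free or non-identity element of `Sp` is not scalar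
  have hns : ∀ X : Matrix (Fin d ⊕ Fin d) (Fin d ⊕ Fin d) F,
      X ∈ Matrix.symplecticGroup (Fin d) F → X ≠ 1 →
      ∀ z : F, X ≠ z • (1 : Matrix (Fin d ⊕ Fin d) (Fin d ⊕ Fin d) F) := by
    intro X hX hX1 z hz
    rw [hz] at hX
    rw [sp_scalar_eq_one d hd1 z hX, one_smul] at hz
    exact hX1 hz
  have hfpf : ∀ X : Matrix (Fin d ⊕ Fin d) (Fin d ⊕ Fin d) F,
      (∀ v, X *ᵥ v = v → v = 0) → X ≠ 1 := by
    rintro X hX rfl
    exact hu₀ (hX u₀ (Matrix.one_mulVec u₀))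
  constructor
  · intro H
    have hr2 : r = 2 := by
      by_contra hr2
      have hq2 : ∃ k, q = 2 ^ k := by
        obtain ⟨n, hn⟩ := FiniteField.card F 2
        exact ⟨n, by rw [← hF, hn.2]⟩
      have hq : 2 ≤ q := by
        rw [← hF]
        exact Fintype.one_lt_card
      have harith := arith_idx q d _ r hq hq2 hd1 hr hr2 hΩ
      have hrel := relindex_two hF d hd1 Q hQ
      by_cases hplus : Cfsg.Geo.IsPlusTypeOn Q ⊤
      · obtain ⟨X, hX, hXr, hXfix, hXc⟩ :=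
          odd_plus_not hF d hd1 Q hQ hplus r hr hr2 (harith.1 (hrel.1 hplus))
        apply hXc
        apply (conj_iff d hd1 Q hQ (spToGL ⟨X, hX⟩) (spToGL_mem _)).mp
        apply H _ (spToGL_mem _)
        · refine ⟨1, ?_⟩
          rw [Units.val_pow_eq_pow_val, one_smul]
          exact hXr
        · exact hns X hX (hfpf X hXfix)
      · obtain ⟨X, hX, hXr, hXfix, hXc⟩ :=
          odd_minus_not hF d hd1 Q hQ hplus r hr (harith.2 (hrel.2 hplus))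
        apply hXc
        apply (conj_iff d hd1 Q hQ (spToGL ⟨X, hX⟩) (spToGL_mem _)).mp
        apply H _ (spToGL_mem _)
        · refine ⟨1, ?_⟩
          rw [Units.val_pow_eq_pow_val, one_smul]
          exact hXr
        · exact hns X hX (hfpf X hXfix)
    refine ⟨hr2, ?_⟩
    by_contra hcon
    push Not at hcon
    obtain ⟨hnp, hnodd⟩ := hcon
    have hev : Even d := Nat.not_odd_iff_even.mp hnodd
    obtain ⟨X, hX, hX2, hX1, hXc⟩ := two_not d hd1 hev Q hQ hnp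
    apply hXc
    apply (conj_iff d hd1 Q hQ (spToGL ⟨X, hX⟩) (spToGL_mem _)).mp
    apply H _ (spToGL_mem _)
    · refine ⟨1, ?_⟩
      rw [Units.val_pow_eq_pow_val, one_smul, hr2, pow_two]
      exact hX2
    · exact hns X hX hX1
  · rintro ⟨hr2, hcase⟩ x hx ⟨z, hz⟩ -
    rw [conj_iff d hd1 Q hQ x hx]
    have hXS := (mem_spGL_iff d x).mp hx
    rw [hr2, Units.val_pow_eq_pow_val] at hz
    have hz1 : z = 1 := by
      apply sp_scalar_eq_one d hd1 z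
      rw [← hz]
      exact Submonoid.pow_mem _ hXS 2
    rw [hz1, one_smul, pow_two] at hz
    exact inv_conjInto hF d Q hQ _ hXS hz hcase

end QfMain

end Cfsg.Agent.Lib.Helper47
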