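import Cfsg.Agent.Lib.Helper47.QfDefs
import Cfsg.Agent.Lib.Helper47.QfA
import Cfsg.Agent.Lib.Helper47.QfB
import Cfsg.Agent.Lib.Helper47.QfC
import Cfsg.Agent.Lib.Helper47.QfD
import Cfsg.Agent.Lib.Helper47.QfE
import Cfsg.Agent.Lib.Helper47.QfF
import Cfsg.Agent.Lib.Helper47.QfG
import Cfsg.Agent.Lib.Helper47.QfH

/-!
# Pieces of the S5983 project, restated in one namespace
-/

set_option autoImplicit false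

namespace Cfsg.Agent.Lib.Helper47.QfSkel

open Cfsg.Agent.Lib.Helper47 Matrix

section Pieces

variable {F : Type*} [Field F]

-- PIECE DIFF
theorem qf_diff [Fintype F] [CharP F 2] (d : ℕ) (Q Q' : (Fin d ⊕ Fin d → F) → F)
    (hQ : IsQF d Q) (hQ' : IsQF d Q') :
    ∃ a : Fin d ⊕ Fin d → F, ∀ v, Q' v = Q v + (spForm (Fin d) F a v) ^ 2 :=
  Cfsg.Agent.Lib.Helper47.Qf.qf_diff d Q Q' hQ hQ'

-- PIECE TRANSVQ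
theorem exists_transv_qf [CharP F 2] (d : ℕ) (Q : (Fin d ⊕ Fin d → F) → F) (hQ : IsQF d Q)
    (b : Fin d ⊕ Fin d → F) (hb : IsWP (Q b)) :
    ∃ A : Matrix (Fin d ⊕ Fin d) (Fin d ⊕ Fin d) F, A ∈ Matrix.symplecticGroup (Fin d) F ∧
      ∀ v, Q (A *ᵥ v) = Q v + (spForm (Fin d) F b v) ^ 2 :=
  Cfsg.Agent.Lib.Helper47.Qf.exists_transv_qf d Q hQ b hb

-- PIECE LAGR
theorem exists_sp_lagr [Fintype F] [CharP F 2] (d : ℕ) (U : Submodule F (Fin d ⊕ Fin d → F))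
    (hU : ∀ u ∈ U, ∀ v ∈ U, spForm (Fin d) F u v = 0) (hd : Module.finrank F U = d) :
    ∃ T : Matrix (Fin d ⊕ Fin d) (Fin d ⊕ Fin d) F, T ∈ Matrix.symplecticGroup (Fin d) F ∧
      ∀ v : Fin d ⊕ Fin d → F, v ∈ stdLag d F → T *ᵥ v ∈ U :=
  Cfsg.Agent.Lib.Helper47.Qf.exists_sp_lagr d U hU hd

-- PIECE PLUSTO
theorem finrank_stdLag (d : ℕ) : Module.finrank F (stdLag d F) = d :=
  Cfsg.Agent.Lib.Helper47.Qf.finrank_stdLag d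

-- PIECE PLUSTO
theorem plus_of_tsing (d : ℕ) (Q : (Fin d ⊕ Fin d → F) → F)
    (T : Matrix (Fin d ⊕ Fin d) (Fin d ⊕ Fin d) F) (hT : IsUnit T.det)
    (hQ : ∀ v ∈ stdLag d F, Q (T *ᵥ v) = 0) : Cfsg.Geo.IsPlusTypeOn Q ⊤ :=
  Cfsg.Agent.Lib.Helper47.Qf.plus_of_tsing d Q T hT hQ

-- PIECE FLIP
theorem exists_nonwp [Fintype F] [CharP F 2] {q : ℕ} (hwp : WPFacts F q) (d : ℕ)
    (Q : (Fin d ⊕ Fin d → F) → F) (hQ : IsQF d Q) (u : Fin d ⊕ Fin d → F) (hu : Q u ≠ 0) :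
    ∃ c : F, ¬ IsWP (Q (c • u)) :=
  Cfsg.Agent.Lib.Helper47.Qf.exists_nonwp hwp d Q hQ u hu

-- PIECE INVFIX
theorem exists_inv_form [Fintype F] [CharP F 2] (d : ℕ) (Q : (Fin d ⊕ Fin d → F) → F)
    (X : Matrix (Fin d ⊕ Fin d) (Fin d ⊕ Fin d) F)
    (hX : X ∈ Matrix.symplecticGroup (Fin d) F) (hX2 : X * X = 1) (α : Fin d ⊕ Fin d → F)
    (hα : ∀ v, Q (X *ᵥ v) = Q v + (spForm (Fin d) F α v) ^ 2) :
    ∃ a : Fin d ⊕ Fin d → F, ∀ v, Q (X *ᵥ v) + (spForm (Fin d) F a (X *ᵥ v)) ^ 2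
      = Q v + (spForm (Fin d) F a v) ^ 2 :=
  Cfsg.Agent.Lib.Helper47.Qf.exists_inv_form d Q X hX hX2 α hα

-- PIECE EXCDIM
theorem exc_dim [Fintype F] [CharP F 2] (d : ℕ) (Q : (Fin d ⊕ Fin d → F) → F) (hQ : IsQF d Q)
    (X : Matrix (Fin d ⊕ Fin d) (Fin d ⊕ Fin d) F)
    (hX : X ∈ Matrix.symplecticGroup (Fin d) F) (hX2 : X * X = 1)
    (hvan : ∀ u, X *ᵥ u = u → Q u = 0) :
    Module.finrank F (LinearMap.ker (Matrix.toLin' (X - 1))) = d :=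
  Cfsg.Agent.Lib.Helper47.Qf.exc_dim d Q hQ X hX hX2 hvan

-- PIECE EXCEVEN
theorem exc_even [Fintype F] [CharP F 2] (d : ℕ) (Q : (Fin d ⊕ Fin d → F) → F) (hQ : IsQF d Q)
    (X : Matrix (Fin d ⊕ Fin d) (Fin d ⊕ Fin d) F)
    (hX : X ∈ Matrix.symplecticGroup (Fin d) F) (hX2 : X * X = 1)
    (hinv : ∀ v, Q (X *ᵥ v) = Q v) (hvan : ∀ u, X *ᵥ u = u → Q u = 0)
    (hdim : Module.finrank F (LinearMap.ker (Matrix.toLin' (X - 1))) = d) : Even d :=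
  Cfsg.Agent.Lib.Helper47.Qf.exc_even d Q hQ X hX hX2 hinv hvan hdim

-- PIECE ALTONLY
theorem alt_only_plus [Fintype F] [CharP F 2] (d : ℕ) (hd : 1 ≤ d) (hev : Even d) :
    ∃ X : Matrix (Fin d ⊕ Fin d) (Fin d ⊕ Fin d) F, X ∈ Matrix.symplecticGroup (Fin d) F ∧
      X * X = 1 ∧ X ≠ 1 ∧
      (∀ v, Cfsg.quadFormPlus d F (X *ᵥ v) = Cfsg.quadFormPlus d F v) ∧
      ∀ b : Fin d ⊕ Fin d → F,
        (∀ v, (spForm (Fin d) F b (X *ᵥ v)) ^ 2 = (spForm (Fin d) F b v) ^ 2) →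
        b ∈ stdLag d F :=
  Cfsg.Agent.Lib.Helper47.Qf.alt_only_plus d hd hev

-- PIECE SINGER
theorem exists_singer [Fintype F] {q : ℕ} (hF : Fintype.card F = q) (d : ℕ) (hd : 1 ≤ d)
    (r : ℕ) (hr : r.Prime) (hdvd : r ∣ q ^ d - 1) :
    ∃ A : Matrix (Fin d) (Fin d) F, A ^ r = 1 ∧ ∀ v, A *ᵥ v = v → v = 0 :=
  Cfsg.Agent.Lib.Helper47.Qf.exists_singer hF d hd r hr hdvd

-- PIECE BLOCKELT
theorem block_elt [CharP F 2] (d : ℕ) (r : ℕ) (hr : 0 < r) (A : Matrix (Fin d) (Fin d) F)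
    (hA : A ^ r = 1) (hfix : ∀ v, A *ᵥ v = v → v = 0) :
    ∃ X : Matrix (Fin d ⊕ Fin d) (Fin d ⊕ Fin d) F, X ∈ Matrix.symplecticGroup (Fin d) F ∧
      X ^ r = 1 ∧ (∀ v, X *ᵥ v = v → v = 0) ∧
      ∀ Q : (Fin d ⊕ Fin d → F) → F, IsQF d Q → (∀ v, Q (X *ᵥ v) = Q v) →
        ∀ v ∈ stdLag d F, Q v = 0 :=
  Cfsg.Agent.Lib.Helper47.Qf.block_elt d r hr A hA hfix

-- PIECE UFORM
theorem exists_unitary_form [Fintype F] [CharP F 2] {q : ℕ} (hF : Fintype.card F = q) (d : ℕ)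
    (hd : 1 ≤ d) (r : ℕ) (hr : r.Prime) (hdvd : r ∣ q ^ d + 1) :
    ∃ (B : (Fin d ⊕ Fin d → F) → (Fin d ⊕ Fin d → F) → F)
      (g : (Fin d ⊕ Fin d → F) →ₗ[F] (Fin d ⊕ Fin d → F)),
      IsSForm (RingHom.id F) (-1) B ∧ Nondeg B ∧ (∀ x, B x x = 0) ∧
      (∀ x y, B (g x) (g y) = B x y) ∧ g ^ r = 1 ∧ ∀ v, g v = v → v = 0 :=
  Cfsg.Agent.Lib.Helper47.Qf.exists_unitary_form hF d hd r hr hdvd

-- PIECE USTD
theorem exists_sp_of_form [Fintype F] (d : ℕ) (r : ℕ)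
    (B : (Fin d ⊕ Fin d → F) → (Fin d ⊕ Fin d → F) → F)
    (g : (Fin d ⊕ Fin d → F) →ₗ[F] (Fin d ⊕ Fin d → F))
    (hB : IsSForm (RingHom.id F) (-1) B) (hnd : Nondeg B) (halt : ∀ x, B x x = 0)
    (hg : ∀ x y, B (g x) (g y) = B x y) (hgr : g ^ r = 1) (hfix : ∀ v, g v = v → v = 0) :
    ∃ X : Matrix (Fin d ⊕ Fin d) (Fin d ⊕ Fin d) F, X ∈ Matrix.symplecticGroup (Fin d) F ∧
      X ^ r = 1 ∧ ∀ v, X *ᵥ v = v → v = 0 :=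
  Cfsg.Agent.Lib.Helper47.Qf.exists_sp_of_form d r B g hB hnd halt hg hgr hfix

-- PIECE FIXSING
theorem exists_fixed_of_count [Fintype F] {q : ℕ} (hF : Fintype.card F = q) (d : ℕ)
    (hd : 1 ≤ d) (r : ℕ) (hr : r.Prime) (hnd : ¬ r ∣ (q ^ d - 1) * (q ^ (d - 1) + 1))
    (Y : Matrix (Fin d ⊕ Fin d) (Fin d ⊕ Fin d) F) (hY : Y ^ r = 1)
    (hYQ : ∀ v, Cfsg.quadFormPlus d F (Y *ᵥ v) = Cfsg.quadFormPlus d F v) :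
    ∃ v : Fin d ⊕ Fin d → F, v ≠ 0 ∧ Y *ᵥ v = v :=
  Cfsg.Agent.Lib.Helper47.Qf.exists_fixed_of_count hF d hd r hr hnd Y hY hYQ

-- PIECE ARITHR
theorem arith_r (q d r : ℕ) (hd : 1 ≤ d) (hr : r.Prime) (hr2 : r ≠ 2)
    (hdvd : r ∣ q ^ d + 1) : ¬ r ∣ (q ^ d - 1) * (q ^ (d - 1) + 1) :=
  Cfsg.Agent.Lib.Helper47.Qf.arith_r q d r hd hr hr2 hdvd

-- PIECE RELIDX
theorem relindex_eq_card [Fintype F] [CharP F 2] (d : ℕ) (hd : 1 ≤ d)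
    (Q : (Fin d ⊕ Fin d → F) → F) (hQ : IsQF d Q)
    (hdiff : ∀ A : Matrix (Fin d ⊕ Fin d) (Fin d ⊕ Fin d) F,
      A ∈ Matrix.symplecticGroup (Fin d) F →
      ∃ a : Fin d ⊕ Fin d → F, ∀ v, Q (A *ᵥ v) = Q v + (spForm (Fin d) F a v) ^ 2) :
    (Cfsg.Geo.quadSimilarityGroup Q).relIndex (Cfsg.spGL d F)
      = Nat.card {a : Fin d ⊕ Fin d → F // ∃ A : Matrix (Fin d ⊕ Fin d) (Fin d ⊕ Fin d) F,
          A ∈ Matrix.symplecticGroup (Fin d) F ∧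
          ∀ v, Q (A *ᵥ v) = Q v + (spForm (Fin d) F a v) ^ 2} :=
  Cfsg.Agent.Lib.Helper47.Qf.relindex_eq_card d hd Q hQ hdiff

-- PIECE ARITHIDX
theorem arith_idx (q d n r : ℕ) (hq : 2 ≤ q) (hq2 : ∃ k, q = 2 ^ k) (hd : 1 ≤ d) (hr : r.Prime)
    (hr2 : r ≠ 2) (hrn : r ∣ n) :
    (n * 2 = q ^ d * (q ^ d + 1) → r ∣ q ^ d + 1) ∧
    (n * 2 = q ^ d * (q ^ d - 1) → r ∣ q ^ d - 1) :=
  Cfsg.Agent.Lib.Helper47.Qf.arith_idx q d n r hq hq2 hd hr hr2 hrn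

end Pieces

end Cfsg.Agent.Lib.Helper47.QfSkel
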