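import Cfsg.Agent.Lib.Helper47.S76Pieces
import Cfsg.Agent.Lib.Helper65.SpGUA

/-!
# S5976: assembly
-/

set_option autoImplicit false

universe u

namespace Cfsg.Agent.Lib.Helper47.S76Main

open Matrix Polynomial Cfsg.Agent.Lib.Helper47 Cfsg.Agent.Lib.Helper47.S76
  Cfsg.Agent.Lib.Helper47.S76Skel

variable {F : Type u} [Field F]

/-- A scalar matrix in the symplectic group has square one. -/
lemma sp_scalar (d : ℕ) (hd : 1 ≤ d) (z : F)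
    (h : z • (1 : Matrix (Fin d ⊕ Fin d) (Fin d ⊕ Fin d) F) ∈ Matrix.symplecticGroup (Fin d) F) :
    z * z = 1 := by
  obtain ⟨u, v, huv⟩ := exists_spForm_eq_one (F := F) d hd
  have h1 := spForm_mulVec d h u v
  rw [Matrix.smul_mulVec, Matrix.smul_mulVec, Matrix.one_mulVec, Matrix.one_mulVec,
    spForm_smul_left', spForm_smul_right', huv] at h1
  linear_combination h1

/-- Conjugating a skew-adjoint matrix by a symplectic matrix. -/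
lemma skew_conj (d : ℕ) {T P Pi : Matrix (Fin d ⊕ Fin d) (Fin d ⊕ Fin d) F} (hT : IsSkew d T)
    (hP : P ∈ Matrix.symplecticGroup (Fin d) F) (hPi : P * Pi = 1) : IsSkew d (P * T * Pi) := by
  intro u v
  have e1 : ∀ w : Fin d ⊕ Fin d → F, P *ᵥ (Pi *ᵥ w) = w := by
    intro w
    rw [Matrix.mulVec_mulVec, hPi, Matrix.one_mulVec]
  have e2 : ∀ w : Fin d ⊕ Fin d → F, (P * T * Pi) *ᵥ w = P *ᵥ (T *ᵥ (Pi *ᵥ w)) := by
    intro w
    rw [Matrix.mulVec_mulVec, Matrix.mulVec_mulVec]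
  rw [e2, e2]
  calc spForm (Fin d) F (P *ᵥ (T *ᵥ (Pi *ᵥ u))) v
      = spForm (Fin d) F (P *ᵥ (T *ᵥ (Pi *ᵥ u))) (P *ᵥ (Pi *ᵥ v)) := by rw [e1]
    _ = spForm (Fin d) F (T *ᵥ (Pi *ᵥ u)) (Pi *ᵥ v) := spForm_mulVec d hP _ _
    _ = - spForm (Fin d) F (Pi *ᵥ u) (T *ᵥ (Pi *ᵥ v)) := hT _ _
    _ = - spForm (Fin d) F (P *ᵥ (Pi *ᵥ u)) (P *ᵥ (T *ᵥ (Pi *ᵥ v))) := by
        rw [spForm_mulVec d hP]
    _ = - spForm (Fin d) F u (P *ᵥ (T *ᵥ (Pi *ᵥ v))) := by rw [e1]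

/-- An element of `Sp` as an element of `GL`. -/
def toGL {d : ℕ} (A : ↥(Matrix.symplecticGroup (Fin d) F)) : GL (Fin d ⊕ Fin d) F :=
  ⟨A, ((A⁻¹ : ↥(Matrix.symplecticGroup (Fin d) F)) :
      Matrix (Fin d ⊕ Fin d) (Fin d ⊕ Fin d) F),
    congrArg Subtype.val (mul_inv_cancel A), congrArg Subtype.val (inv_mul_cancel A)⟩

lemma toGL_mem {d : ℕ} (A : ↥(Matrix.symplecticGroup (Fin d) F)) :
    toGL A ∈ Cfsg.spGL d F := (mem_spGL_iff d _).mpr A.2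

lemma sp_mul_inv {d : ℕ} (A : ↥(Matrix.symplecticGroup (Fin d) F)) :
    (A : Matrix (Fin d ⊕ Fin d) (Fin d ⊕ Fin d) F)
      * ((A⁻¹ : ↥(Matrix.symplecticGroup (Fin d) F)) :
        Matrix (Fin d ⊕ Fin d) (Fin d ⊕ Fin d) F) = 1 :=
  congrArg Subtype.val (mul_inv_cancel A)

lemma sp_inv_mul {d : ℕ} (A : ↥(Matrix.symplecticGroup (Fin d) F)) :
    ((A⁻¹ : ↥(Matrix.symplecticGroup (Fin d) F)) : Matrix (Fin d ⊕ Fin d) (Fin d ⊕ Fin d) F)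
      * (A : Matrix (Fin d ⊕ Fin d) (Fin d ⊕ Fin d) F) = 1 :=
  congrArg Subtype.val (inv_mul_cancel A)

/-- Transport along a conjugation in `Sp`, then conjugate `θ''` to `θ`. -/
lemma conj_step [Fintype F] (h2 : (2 : F) ≠ 0) (d : ℕ) (δ : F) (hirr : ∀ c : F, c * c ≠ δ)
    (θ : Matrix (Fin d ⊕ Fin d) (Fin d ⊕ Fin d) F) (hθ : IsSkew d θ)
    (hθ2 : θ * θ = δ • (1 : Matrix (Fin d ⊕ Fin d) (Fin d ⊕ Fin d) F))
    (Y Y₀ : ↥(Matrix.symplecticGroup (Fin d) F)) (hconj : IsConj Y Y₀)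
    (θ₀ : Matrix (Fin d ⊕ Fin d) (Fin d ⊕ Fin d) F) (hθ₀ : IsSkew d θ₀)
    (hθ₀2 : θ₀ * θ₀ = δ • (1 : Matrix (Fin d ⊕ Fin d) (Fin d ⊕ Fin d) F))
    (hc : (Y₀ : Matrix (Fin d ⊕ Fin d) (Fin d ⊕ Fin d) F) * θ₀
        = θ₀ * (Y₀ : Matrix (Fin d ⊕ Fin d) (Fin d ⊕ Fin d) F) ∨
      (Y₀ : Matrix (Fin d ⊕ Fin d) (Fin d ⊕ Fin d) F) * θ₀
        = -(θ₀ * (Y₀ : Matrix (Fin d ⊕ Fin d) (Fin d ⊕ Fin d) F))) :
    ∃ Q : ↥(Matrix.symplecticGroup (Fin d) F),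
      ((Q : Matrix (Fin d ⊕ Fin d) (Fin d ⊕ Fin d) F) * (Y : Matrix (Fin d ⊕ Fin d) (Fin d ⊕ Fin d) F)
          * ((Q⁻¹ : ↥(Matrix.symplecticGroup (Fin d) F)) : Matrix (Fin d ⊕ Fin d) (Fin d ⊕ Fin d) F)) * θ
        = θ * ((Q : Matrix (Fin d ⊕ Fin d) (Fin d ⊕ Fin d) F)
          * (Y : Matrix (Fin d ⊕ Fin d) (Fin d ⊕ Fin d) F)
          * ((Q⁻¹ : ↥(Matrix.symplecticGroup (Fin d) F)) : Matrix (Fin d ⊕ Fin d) (Fin d ⊕ Fin d) F)) ∨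
      ((Q : Matrix (Fin d ⊕ Fin d) (Fin d ⊕ Fin d) F) * (Y : Matrix (Fin d ⊕ Fin d) (Fin d ⊕ Fin d) F)
          * ((Q⁻¹ : ↥(Matrix.symplecticGroup (Fin d) F)) : Matrix (Fin d ⊕ Fin d) (Fin d ⊕ Fin d) F)) * θ
        = -(θ * ((Q : Matrix (Fin d ⊕ Fin d) (Fin d ⊕ Fin d) F)
          * (Y : Matrix (Fin d ⊕ Fin d) (Fin d ⊕ Fin d) F)
          * ((Q⁻¹ : ↥(Matrix.symplecticGroup (Fin d) F)) : Matrix (Fin d ⊕ Fin d) (Fin d ⊕ Fin d) F))) := by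
  obtain ⟨c, hcY⟩ := isConj_iff.mp hconj
  obtain ⟨C, hC⟩ : ∃ C : Matrix (Fin d ⊕ Fin d) (Fin d ⊕ Fin d) F, C = c := ⟨_, rfl⟩
  obtain ⟨Ci, hCi⟩ : ∃ Ci : Matrix (Fin d ⊕ Fin d) (Fin d ⊕ Fin d) F,
      Ci = ((c⁻¹ : ↥(Matrix.symplecticGroup (Fin d) F)) :
        Matrix (Fin d ⊕ Fin d) (Fin d ⊕ Fin d) F) := ⟨_, rfl⟩
  obtain ⟨y, hy⟩ : ∃ y : Matrix (Fin d ⊕ Fin d) (Fin d ⊕ Fin d) F, y = Y := ⟨_, rfl⟩
  obtain ⟨y₀, hy₀⟩ : ∃ y₀ : Matrix (Fin d ⊕ Fin d) (Fin d ⊕ Fin d) F, y₀ = Y₀ := ⟨_, rfl⟩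
  have hCCi : C * Ci = 1 := by rw [hC, hCi]; exact sp_mul_inv c
  have hCiC : Ci * C = 1 := by rw [hC, hCi]; exact sp_inv_mul c
  have hCY : C * y * Ci = y₀ := by
    rw [hC, hCi, hy, hy₀]
    exact congrArg Subtype.val hcY
  have hCimem : Ci ∈ Matrix.symplecticGroup (Fin d) F := by rw [hCi]; exact (c⁻¹).2
  rw [← hy₀] at hc
  -- y = Ci * y₀ * C
  have hyeq : y = Ci * y₀ * C := by
    calc y = (Ci * C) * y * (Ci * C) := by rw [hCiC, one_mul, mul_one]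
      _ = Ci * (C * y * Ci) * C := by simp only [mul_assoc]
      _ = Ci * y₀ * C := by rw [hCY]
  obtain ⟨θ'', hθ''⟩ : ∃ θ'' : Matrix (Fin d ⊕ Fin d) (Fin d ⊕ Fin d) F, θ'' = Ci * θ₀ * C :=
    ⟨_, rfl⟩
  have hskew'' : IsSkew d θ'' := by rw [hθ'']; exact skew_conj d hθ₀ hCimem hCiC
  have hsq'' : θ'' * θ'' = δ • (1 : Matrix (Fin d ⊕ Fin d) (Fin d ⊕ Fin d) F) := by
    calc θ'' * θ'' = Ci * θ₀ * (C * Ci) * θ₀ * C := by rw [hθ'']; simp only [mul_assoc]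
      _ = Ci * (θ₀ * θ₀) * C := by rw [hCCi]; simp only [mul_assoc, mul_one]
      _ = δ • (1 : Matrix (Fin d ⊕ Fin d) (Fin d ⊕ Fin d) F) := by
        rw [hθ₀2, Matrix.mul_smul, Matrix.smul_mul, mul_one, hCiC]
  have e1 : y * θ'' = Ci * (y₀ * θ₀) * C := by
    calc y * θ'' = Ci * y₀ * (C * Ci) * θ₀ * C := by rw [hyeq, hθ'']; simp only [mul_assoc]
      _ = Ci * (y₀ * θ₀) * C := by rw [hCCi]; simp only [mul_assoc, mul_one]
  have e2 : θ'' * y = Ci * (θ₀ * y₀) * C := by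
    calc θ'' * y = Ci * θ₀ * (C * Ci) * y₀ * C := by rw [hyeq, hθ'']; simp only [mul_assoc]
      _ = Ci * (θ₀ * y₀) * C := by rw [hCCi]; simp only [mul_assoc, mul_one]
  have hc'' : y * θ'' = θ'' * y ∨ y * θ'' = -(θ'' * y) := by
    rcases hc with hc | hc
    · left
      rw [e1, e2, hc]
    · right
      rw [e1, e2, hc, Matrix.mul_neg, Matrix.neg_mul]
  obtain ⟨P, hP, hPθ⟩ := conj_theta d h2 δ hirr θ θ'' hθ hθ2 hskew'' hsq''
  refine ⟨⟨P, hP⟩, ?_⟩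
  obtain ⟨Pi, hPi⟩ : ∃ Pi : Matrix (Fin d ⊕ Fin d) (Fin d ⊕ Fin d) F,
      Pi = (((⟨P, hP⟩ : ↥(Matrix.symplecticGroup (Fin d) F))⁻¹ :
        ↥(Matrix.symplecticGroup (Fin d) F)) : Matrix (Fin d ⊕ Fin d) (Fin d ⊕ Fin d) F) :=
    ⟨_, rfl⟩
  have hPPi : P * Pi = 1 := by rw [hPi]; exact sp_mul_inv ⟨P, hP⟩
  have hPiP : Pi * P = 1 := by rw [hPi]; exact sp_inv_mul ⟨P, hP⟩
  have e3 : Pi * θ = θ'' * Pi := by
    calc Pi * θ = Pi * (θ * P) * Pi := by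
          rw [mul_assoc, mul_assoc, hPPi, mul_one]
      _ = (Pi * P) * θ'' * Pi := by rw [← hPθ]; simp only [mul_assoc]
      _ = θ'' * Pi := by rw [hPiP, one_mul]
  have e4 : P * y * Pi * θ = P * (y * θ'') * Pi := by
    calc P * y * Pi * θ = P * y * (Pi * θ) := by simp only [mul_assoc]
      _ = P * (y * θ'') * Pi := by rw [e3]; simp only [mul_assoc]
  have e5 : θ * (P * y * Pi) = P * (θ'' * y) * Pi := by
    calc θ * (P * y * Pi) = (θ * P) * y * Pi := by simp only [mul_assoc]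
      _ = P * (θ'' * y) * Pi := by rw [← hPθ]; simp only [mul_assoc]
  show (P * (Y : Matrix (Fin d ⊕ Fin d) (Fin d ⊕ Fin d) F)
      * (((⟨P, hP⟩ : ↥(Matrix.symplecticGroup (Fin d) F))⁻¹ :
        ↥(Matrix.symplecticGroup (Fin d) F)) : Matrix (Fin d ⊕ Fin d) (Fin d ⊕ Fin d) F)) * θ
      = θ * (P * (Y : Matrix (Fin d ⊕ Fin d) (Fin d ⊕ Fin d) F)
        * (((⟨P, hP⟩ : ↥(Matrix.symplecticGroup (Fin d) F))⁻¹ :
          ↥(Matrix.symplecticGroup (Fin d) F)) : Matrix (Fin d ⊕ Fin d) (Fin d ⊕ Fin d) F)) ∨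
    (P * (Y : Matrix (Fin d ⊕ Fin d) (Fin d ⊕ Fin d) F)
      * (((⟨P, hP⟩ : ↥(Matrix.symplecticGroup (Fin d) F))⁻¹ :
        ↥(Matrix.symplecticGroup (Fin d) F)) : Matrix (Fin d ⊕ Fin d) (Fin d ⊕ Fin d) F)) * θ
      = -(θ * (P * (Y : Matrix (Fin d ⊕ Fin d) (Fin d ⊕ Fin d) F)
        * (((⟨P, hP⟩ : ↥(Matrix.symplecticGroup (Fin d) F))⁻¹ :
          ↥(Matrix.symplecticGroup (Fin d) F)) : Matrix (Fin d ⊕ Fin d) (Fin d ⊕ Fin d) F)))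
  rw [← hPi, ← hy, e4, e5]
  rcases hc'' with hc'' | hc''
  · left
    rw [hc'']
  · right
    rw [hc'', Matrix.mul_neg, Matrix.neg_mul]

/-- The `r = 2` direction: an element of `Sp` with scalar square has a conjugate commuting or
anticommuting with `θ`. -/
lemma invol_case [Fintype F] {p : ℕ} [Fact p.Prime] [CharP F p] (hp2 : p ≠ 2) (h2 : (2 : F) ≠ 0)
    (d : ℕ) (hd : 1 ≤ d) (δ : F) (hirr : ∀ c : F, c * c ≠ δ)
    (θ : Matrix (Fin d ⊕ Fin d) (Fin d ⊕ Fin d) F) (hθ : IsSkew d θ)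
    (hθ2 : θ * θ = δ • (1 : Matrix (Fin d ⊕ Fin d) (Fin d ⊕ Fin d) F))
    (Y : ↥(Matrix.symplecticGroup (Fin d) F)) (z : F)
    (hYz : (Y : Matrix (Fin d ⊕ Fin d) (Fin d ⊕ Fin d) F) * (Y : Matrix (Fin d ⊕ Fin d) (Fin d ⊕ Fin d) F)
      = z • (1 : Matrix (Fin d ⊕ Fin d) (Fin d ⊕ Fin d) F)) :
    ∃ Q : ↥(Matrix.symplecticGroup (Fin d) F),
      ((Q : Matrix (Fin d ⊕ Fin d) (Fin d ⊕ Fin d) F) * (Y : Matrix (Fin d ⊕ Fin d) (Fin d ⊕ Fin d) F)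
          * ((Q⁻¹ : ↥(Matrix.symplecticGroup (Fin d) F)) : Matrix (Fin d ⊕ Fin d) (Fin d ⊕ Fin d) F)) * θ
        = θ * ((Q : Matrix (Fin d ⊕ Fin d) (Fin d ⊕ Fin d) F)
          * (Y : Matrix (Fin d ⊕ Fin d) (Fin d ⊕ Fin d) F)
          * ((Q⁻¹ : ↥(Matrix.symplecticGroup (Fin d) F)) : Matrix (Fin d ⊕ Fin d) (Fin d ⊕ Fin d) F)) ∨
      ((Q : Matrix (Fin d ⊕ Fin d) (Fin d ⊕ Fin d) F) * (Y : Matrix (Fin d ⊕ Fin d) (Fin d ⊕ Fin d) F)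
          * ((Q⁻¹ : ↥(Matrix.symplecticGroup (Fin d) F)) : Matrix (Fin d ⊕ Fin d) (Fin d ⊕ Fin d) F)) * θ
        = -(θ * ((Q : Matrix (Fin d ⊕ Fin d) (Fin d ⊕ Fin d) F)
          * (Y : Matrix (Fin d ⊕ Fin d) (Fin d ⊕ Fin d) F)
          * ((Q⁻¹ : ↥(Matrix.symplecticGroup (Fin d) F)) : Matrix (Fin d ⊕ Fin d) (Fin d ⊕ Fin d) F))) := by
  have hpp : p.Prime := Fact.out
  have hcop2 : Nat.Coprime 2 p := (Nat.coprime_primes Nat.prime_two hpp).mpr (Ne.symm hp2)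
  have hcop4 : Nat.Coprime 4 p := by
    have h := Nat.Coprime.pow_left 2 hcop2
    norm_num at h
    exact h
  have hzz : z * z = 1 := by
    apply sp_scalar d hd z
    rw [← hYz]
    exact (Y * Y).2
  rcases mul_self_eq_one_iff.mp hzz with hz | hz
  · -- involution
    rw [hz, one_smul] at hYz
    obtain ⟨a, ha, hcp⟩ := charpoly_invol d h2 (Y : Matrix (Fin d ⊕ Fin d) (Fin d ⊕ Fin d) F) Y.2 hYz
    obtain ⟨Y₀, hY₀, hY₀2, hcp₀, hcomm⟩ := std_invol (F := F) d a ha δ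
    have hconj : IsConj Y (⟨Y₀, hY₀⟩ : ↥(Matrix.symplecticGroup (Fin d) F)) := by
      apply sp_isConj_of_charpoly_eq p d Y ⟨Y₀, hY₀⟩ 2 2 hcop2 hcop2
      · apply Subtype.ext
        rw [SubmonoidClass.coe_pow, pow_two, hYz]
        rfl
      · apply Subtype.ext
        rw [SubmonoidClass.coe_pow, pow_two]
        exact hY₀2
      · exact hcp.trans hcp₀.symm
    exact conj_step h2 d δ hirr θ hθ hθ2 Y ⟨Y₀, hY₀⟩ hconj (thetaStd d δ) (thetaStd_skew d δ)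
      (thetaStd_sq d δ) (Or.inl hcomm)
  · -- square -1
    rw [hz, neg_smul, one_smul] at hYz
    have hcp := charpoly_neg d h2 (Y : Matrix (Fin d ⊕ Fin d) (Fin d ⊕ Fin d) F) Y.2 hYz
    have hJ : Matrix.J (Fin d) F ∈ Matrix.symplecticGroup (Fin d) F := SymplecticGroup.J_mem (Fin d) F
    have hJ2 : Matrix.J (Fin d) F * Matrix.J (Fin d) F = -1 := Matrix.J_squared (Fin d) F
    have hcpJ := charpoly_neg d h2 (Matrix.J (Fin d) F) hJ hJ2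
    have hconj : IsConj Y (⟨Matrix.J (Fin d) F, hJ⟩ : ↥(Matrix.symplecticGroup (Fin d) F)) := by
      apply sp_isConj_of_charpoly_eq p d Y ⟨Matrix.J (Fin d) F, hJ⟩ 4 4 hcop4 hcop4
      · apply Subtype.ext
        rw [SubmonoidClass.coe_pow]
        have e : (Y : Matrix (Fin d ⊕ Fin d) (Fin d ⊕ Fin d) F) ^ 4
            = ((Y : Matrix (Fin d ⊕ Fin d) (Fin d ⊕ Fin d) F)
              * (Y : Matrix (Fin d ⊕ Fin d) (Fin d ⊕ Fin d) F))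
              * ((Y : Matrix (Fin d ⊕ Fin d) (Fin d ⊕ Fin d) F)
              * (Y : Matrix (Fin d ⊕ Fin d) (Fin d ⊕ Fin d) F)) := by
          rw [← pow_two, ← pow_two, ← pow_mul]
        rw [e, hYz, neg_mul_neg, one_mul]
        rfl
      · apply Subtype.ext
        rw [SubmonoidClass.coe_pow]
        have e : (Matrix.J (Fin d) F) ^ 4
            = (Matrix.J (Fin d) F * Matrix.J (Fin d) F)
              * (Matrix.J (Fin d) F * Matrix.J (Fin d) F) := by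
          rw [← pow_two, ← pow_two, ← pow_mul]
        show (Matrix.J (Fin d) F) ^ 4 = 1
        rw [e, hJ2, neg_mul_neg, one_mul]
      · exact hcp.trans hcpJ.symm
    obtain ⟨θ₁, hθ₁, hθ₁2, hanti⟩ := exists_theta_anti (F := F) d δ
    exact conj_step h2 d δ hirr θ hθ hθ2 Y ⟨Matrix.J (Fin d) F, hJ⟩ hconj θ₁ hθ₁ hθ₁2
      (Or.inr hanti)

/-- Elements commuting or anticommuting with `θ` normalise `K = F + Fθ`. -/
lemma mem_normalizer_of (d : ℕ) (K : Subalgebra F (Matrix (Fin d ⊕ Fin d) (Fin d ⊕ Fin d) F))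
    (θ : Matrix (Fin d ⊕ Fin d) (Fin d ⊕ Fin d) F) (hθK : θ ∈ K)
    (hspan : ∀ k ∈ K, ∃ α β : F, k = α • (1 : Matrix (Fin d ⊕ Fin d) (Fin d ⊕ Fin d) F) + β • θ)
    (g : GL (Fin d ⊕ Fin d) F)
    (hc : (g : Matrix (Fin d ⊕ Fin d) (Fin d ⊕ Fin d) F) * θ
        = θ * (g : Matrix (Fin d ⊕ Fin d) (Fin d ⊕ Fin d) F) ∨
      (g : Matrix (Fin d ⊕ Fin d) (Fin d ⊕ Fin d) F) * θ
        = -(θ * (g : Matrix (Fin d ⊕ Fin d) (Fin d ⊕ Fin d) F))) :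
    g ∈ Cfsg.Geo.subalgebraNormalizer K := by
  obtain ⟨G, hG⟩ : ∃ G : Matrix (Fin d ⊕ Fin d) (Fin d ⊕ Fin d) F, G = g := ⟨_, rfl⟩
  obtain ⟨Gi, hGi⟩ : ∃ Gi : Matrix (Fin d ⊕ Fin d) (Fin d ⊕ Fin d) F,
      Gi = ((g⁻¹ : GL (Fin d ⊕ Fin d) F) : Matrix (Fin d ⊕ Fin d) (Fin d ⊕ Fin d) F) := ⟨_, rfl⟩
  have hGGi : G * Gi = 1 := by
    rw [hG, hGi, ← Units.val_mul, mul_inv_cancel, Units.val_one]
  have hGiG : Gi * G = 1 := by
    rw [hG, hGi, ← Units.val_mul, inv_mul_cancel, Units.val_one]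
  rw [← hG] at hc
  have hmem : ∀ α β : F, α • (1 : Matrix (Fin d ⊕ Fin d) (Fin d ⊕ Fin d) F) + β • θ ∈ K :=
    fun α β => K.add_mem (K.smul_mem K.one_mem α) (K.smul_mem hθK β)
  -- G θ Gi = ± θ and Gi θ G = ± θ
  have h1 : G * θ * Gi = θ ∨ G * θ * Gi = -θ := by
    rcases hc with hc | hc
    · left
      rw [hc, mul_assoc, hGGi, mul_one]
    · right
      rw [hc, Matrix.neg_mul, mul_assoc, hGGi, mul_one]
  have h2 : Gi * θ * G = θ ∨ Gi * θ * G = -θ := by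
    rcases hc with hc | hc
    · left
      rw [mul_assoc, ← hc, ← mul_assoc, hGiG, one_mul]
    · right
      have : θ * G = -(G * θ) := by rw [hc, neg_neg]
      rw [mul_assoc, this, Matrix.mul_neg, ← mul_assoc, hGiG, one_mul]
  show ∀ k : Matrix (Fin d ⊕ Fin d) (Fin d ⊕ Fin d) F, k ∈ K ↔
    (g : Matrix (Fin d ⊕ Fin d) (Fin d ⊕ Fin d) F) * k
      * ((g⁻¹ : GL (Fin d ⊕ Fin d) F) : Matrix (Fin d ⊕ Fin d) (Fin d ⊕ Fin d) F) ∈ K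
  intro k
  rw [← hG, ← hGi]
  constructor
  · intro hk
    obtain ⟨α, β, rfl⟩ := hspan k hk
    have e : G * (α • (1 : Matrix (Fin d ⊕ Fin d) (Fin d ⊕ Fin d) F) + β • θ) * Gi
        = α • (1 : Matrix (Fin d ⊕ Fin d) (Fin d ⊕ Fin d) F) + β • (G * θ * Gi) := by
      rw [mul_add, add_mul, Matrix.mul_smul, Matrix.smul_mul, mul_one, hGGi, Matrix.mul_smul,
        Matrix.smul_mul]
    rw [e]
    rcases h1 with h1 | h1
    · rw [h1]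
      exact hmem α β
    · rw [h1, smul_neg, ← neg_smul]
      exact hmem α (-β)
  · intro hk
    obtain ⟨α, β, hαβ⟩ := hspan _ hk
    have e : k = α • (1 : Matrix (Fin d ⊕ Fin d) (Fin d ⊕ Fin d) F) + β • (Gi * θ * G) := by
      calc k = (Gi * G) * k * (Gi * G) := by rw [hGiG, one_mul, mul_one]
        _ = Gi * (G * k * Gi) * G := by simp only [mul_assoc]
        _ = α • (1 : Matrix (Fin d ⊕ Fin d) (Fin d ⊕ Fin d) F) + β • (Gi * θ * G) := by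
          rw [hαβ, mul_add, add_mul, Matrix.mul_smul, Matrix.smul_mul, mul_one, hGiG,
            Matrix.mul_smul, Matrix.smul_mul]
    rw [e]
    rcases h2 with h2 | h2
    · rw [h2]
      exact hmem α β
    · rw [h2, smul_neg, ← neg_smul]
      exact hmem α (-β)

/-- A non-identity symplectic matrix of odd order is not scalar. -/
lemma nonscalar_of (d : ℕ) (hd : 1 ≤ d) (h2 : (2 : F) ≠ 0)
    (Y : Matrix (Fin d ⊕ Fin d) (Fin d ⊕ Fin d) F) (hY : Y ∈ Matrix.symplecticGroup (Fin d) F)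
    (hY1 : Y ≠ 1) (r : ℕ) (hr : Odd r) (hYr : Y ^ r = 1) (z : F) :
    Y ≠ z • (1 : Matrix (Fin d ⊕ Fin d) (Fin d ⊕ Fin d) F) := by
  intro hz
  have hzz : z * z = 1 := by
    apply sp_scalar d hd z
    rw [← hz]
    exact hY
  rcases mul_self_eq_one_iff.mp hzz with h | h
  · apply hY1
    rw [hz, h, one_smul]
  · rw [hz, h, _root_.smul_pow, one_pow, hr.neg_one_pow] at hYr
    have h3 := congrFun (congrFun hYr (Sum.inl ⟨0, hd⟩)) (Sum.inl ⟨0, hd⟩)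
    rw [Matrix.smul_apply, Matrix.one_apply_eq, smul_eq_mul, mul_one] at h3
    apply h2
    linear_combination -h3

/-- For every odd prime dividing `idxNum q d` there is an element of order `r` of `Sp_{2d}(F)`
commuting with no skew-adjoint matrix whose square is a non-square scalar. -/
lemma exists_derangement [Fintype F] {p : ℕ} [Fact p.Prime] [CharP F p] {q : ℕ}
    (hq : Fintype.card F = q) (h2 : (2 : F) ≠ 0) (d : ℕ) (hd : 1 ≤ d) (r : ℕ) (hr : r.Prime)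
    (hr2 : r ≠ 2) (hdvd : r ∣ idxNum q d) :
    ∃ Y : Matrix (Fin d ⊕ Fin d) (Fin d ⊕ Fin d) F, Y ∈ Matrix.symplecticGroup (Fin d) F ∧
      Y ^ r = 1 ∧ (∀ z : F, Y ≠ z • (1 : Matrix (Fin d ⊕ Fin d) (Fin d ⊕ Fin d) F)) ∧
      ∀ (T : Matrix (Fin d ⊕ Fin d) (Fin d ⊕ Fin d) F) (δ : F), T * Y = Y * T → IsSkew d T →
        T * T = δ • (1 : Matrix (Fin d ⊕ Fin d) (Fin d ⊕ Fin d) F) → ∃ c : F, c * c = δ := by
  have hrodd : Odd r := hr.odd_of_ne_two hr2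
  by_cases hrp : r = p
  · subst hrp
    obtain ⟨Y, hY, hYr, hYns, hYT⟩ := der_p (F := F) (p := r) d hd
    exact ⟨Y, hY, hYr, hYns, fun T δ h1 _ h3 => hYT T δ h1 h3⟩
  · obtain ⟨k, hpp, hk⟩ := FiniteField.card F p
    rw [hq] at hk
    -- a core element on `Fin n ⊕ Fin n`, then padding
    have key : ∀ n : ℕ, 1 ≤ n → n ≤ d →
        (∃ Y₀ : Matrix (Fin n ⊕ Fin n) (Fin n ⊕ Fin n) F,
          Y₀ ∈ Matrix.symplecticGroup (Fin n) F ∧ Y₀ ^ r = 1 ∧ (∀ v, Y₀ *ᵥ v = v → v = 0) ∧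
          ∀ (T : Matrix (Fin n ⊕ Fin n) (Fin n ⊕ Fin n) F) (δ : F), T * Y₀ = Y₀ * T →
            IsSkew n T → T * T = δ • (1 : Matrix (Fin n ⊕ Fin n) (Fin n ⊕ Fin n) F) →
            ∃ c : F, c * c = δ) →
        ∃ Y : Matrix (Fin d ⊕ Fin d) (Fin d ⊕ Fin d) F, Y ∈ Matrix.symplecticGroup (Fin d) F ∧
          Y ^ r = 1 ∧ (∀ z : F, Y ≠ z • (1 : Matrix (Fin d ⊕ Fin d) (Fin d ⊕ Fin d) F)) ∧
          ∀ (T : Matrix (Fin d ⊕ Fin d) (Fin d ⊕ Fin d) F) (δ : F), T * Y = Y * T → IsSkew d T →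
            T * T = δ • (1 : Matrix (Fin d ⊕ Fin d) (Fin d ⊕ Fin d) F) → ∃ c : F, c * c = δ := by
      rintro n hn1 hnd ⟨Y₀, hY₀, hY₀r, hfix, hcore⟩
      obtain ⟨Y, hY, hY1, hpow, hT⟩ := pad n d hnd hn1 Y₀ hY₀ hfix
      refine ⟨Y, hY, hpow r hY₀r, nonscalar_of d hd h2 Y hY hY1 r hrodd (hpow r hY₀r), ?_⟩
      intro T δ h1 h3 h4
      obtain ⟨T₀, a, b, c⟩ := hT T δ h1 h3 h4
      exact hcore T₀ δ a b c
    rcases arith p q r d hpp ⟨k, hk⟩ hr hr2 hrp hdvd with ⟨n, hn, hnodd, hnd⟩ | ⟨n, hn, hnev, hn1, hnd⟩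
    · obtain ⟨A, g, hA, hAfix, hg, hu⟩ := field_odd hq r hr hr2 hrp n hn hnodd
      obtain ⟨Y₀, hY₀, hY₀r, hfix, hcore⟩ := der_block_odd n hnodd r hr.pos A g hA hAfix hg hu
      have hn1 : 1 ≤ n := hnodd.pos
      exact key n hn1 hnd ⟨Y₀, hY₀, hY₀r, hfix, fun T δ h1 _ h3 => hcore T δ h1 h3⟩
    · obtain ⟨K, _, _, _, _, σ, lam, hσ, hl1, hlr, hls, hsl, hgen, hsq, ⟨e⟩⟩ :=
        exists_field_even hq r hr hr2 hrp n hn hnev
      obtain ⟨B, g, hB, hnd', halt, hg, hgr, hgfix, hcomm⟩ :=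
        uform_comm_of_field n r K h2 σ hσ lam hl1 hlr hls hsl hgen hsq e
      obtain ⟨Y₀, hY₀, hY₀r, hfix, hcore⟩ :=
        sp_of_form_comm n r B g hB hnd' halt hg hgr hgfix hcomm
      exact key n hn1 hnd ⟨Y₀, hY₀, hY₀r, hfix, hcore⟩

/-- **S5976.** -/
theorem main [Fintype F] {p : ℕ} [Fact p.Prime] [CharP F p] {q : ℕ} (hq : Fintype.card F = q)
    (hodd : Odd q) (d : ℕ) (hd : 2 ≤ d)
    (K : Subalgebra F (Matrix (Fin d ⊕ Fin d) (Fin d ⊕ Fin d) F))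
    (hK : Cfsg.Geo.IsFieldSubalgebra 2 K)
    (hKf : Cfsg.Geo.IsAdjointClosedFor (Cfsg.sympForm d F) K)
    (hKns : ¬ Cfsg.Geo.IsSelfAdjointFor (Cfsg.sympForm d F) K)
    (r : ℕ) [Fact r.Prime]
    (hΩ : r ∣ (Cfsg.Geo.subalgebraNormalizer K).relIndex (Cfsg.spGL d F)) :
    (∀ x ∈ Cfsg.spGL d F,
      (∃ z : F, ((x ^ r : GL (Fin d ⊕ Fin d) F) : Matrix (Fin d ⊕ Fin d) (Fin d ⊕ Fin d) F)
        = z • (1 : Matrix (Fin d ⊕ Fin d) (Fin d ⊕ Fin d) F)) →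
      (∀ z : F, (x : Matrix (Fin d ⊕ Fin d) (Fin d ⊕ Fin d) F)
        ≠ z • (1 : Matrix (Fin d ⊕ Fin d) (Fin d ⊕ Fin d) F)) →
      ∃ g ∈ Cfsg.spGL d F, g⁻¹ * x * g ∈ Cfsg.Geo.subalgebraNormalizer K) ↔ r = 2 := by
  classical
  have hr : r.Prime := Fact.out
  have hd1 : 1 ≤ d := by omega
  have hq1 : 1 ≤ q := by rw [← hq]; exact Fintype.card_pos
  have h2 : (2 : F) ≠ 0 := by
    intro h2
    have h0 : (q : F) = 0 := by
      rw [← hq]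
      exact FiniteField.cast_card_eq_zero F
    obtain ⟨k, rfl⟩ := hodd
    push_cast at h0
    rw [h2, zero_mul, zero_add] at h0
    exact one_ne_zero h0
  have hp2 : p ≠ 2 := by
    rintro rfl
    apply h2
    have := CharP.cast_eq_zero F 2
    exact_mod_cast this
  have hf : Cfsg.Geo.IsSymplecticForm (Cfsg.sympForm d F) :=
    Cfsg.Agent.Lib.Helper97.sympForm_symp d
  obtain ⟨θ, δ, hθK, hspan, hns, sd⟩ :=
    Cfsg.Agent.Lib.Helper65.exists_suData (Cfsg.sympForm d F) hf h2 K hK hKf hKns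
  have hskew : IsSkew d θ := fun u v => sd.adj u v
  have hθ2 : θ * θ = δ • (1 : Matrix (Fin d ⊕ Fin d) (Fin d ⊕ Fin d) F) := sd.theta_mul
  have hirr : ∀ c : F, c * c ≠ δ := sd.irr
  constructor
  · intro hall
    by_contra hr2
    have hidx : r ∣ idxNum q d :=
      dvd_trans hΩ (index_dvd hq h2 d K θ δ hθK hspan hskew hθ2 hirr
        (fun a ha x hx => card_centralizer_quad hq h2 d a ha x hx) (idx_arith q d hq1))
    obtain ⟨Y, hY, hYr, hYns, hYT⟩ := exists_derangement hq h2 d hd1 r hr hr2 hidx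
    obtain ⟨x, hx⟩ : ∃ x : GL (Fin d ⊕ Fin d) F, x = toGL ⟨Y, hY⟩ := ⟨_, rfl⟩
    have hxY : (x : Matrix (Fin d ⊕ Fin d) (Fin d ⊕ Fin d) F) = Y := by rw [hx]; rfl
    have hxmem : x ∈ Cfsg.spGL d F := by rw [hx]; exact toGL_mem _
    have hxr : x ^ r = 1 := by
      apply Units.ext
      rw [Units.val_pow_eq_pow_val, hxY, hYr]
      rfl
    obtain ⟨g, hg, hgN⟩ := hall x hxmem ⟨1, by rw [hxr, one_smul]; rfl⟩ (by rw [hxY]; exact hYns)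
    obtain ⟨G, hG⟩ : ∃ G : Matrix (Fin d ⊕ Fin d) (Fin d ⊕ Fin d) F, G = g := ⟨_, rfl⟩
    obtain ⟨Gi, hGi⟩ : ∃ Gi : Matrix (Fin d ⊕ Fin d) (Fin d ⊕ Fin d) F,
        Gi = ((g⁻¹ : GL (Fin d ⊕ Fin d) F) : Matrix (Fin d ⊕ Fin d) (Fin d ⊕ Fin d) F) :=
      ⟨_, rfl⟩
    have hGGi : G * Gi = 1 := by
      rw [hG, hGi, ← Units.val_mul, mul_inv_cancel, Units.val_one]
    have hGiG : Gi * G = 1 := by
      rw [hG, hGi, ← Units.val_mul, inv_mul_cancel, Units.val_one]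
    have hGmem : G ∈ Matrix.symplecticGroup (Fin d) F := by
      rw [hG]; exact (mem_spGL_iff d g).mp hg
    obtain ⟨y, hy⟩ : ∃ y : GL (Fin d ⊕ Fin d) F, y = g⁻¹ * x * g := ⟨_, rfl⟩
    have hyr : y ^ r = 1 := by
      have h := conj_pow (a := g⁻¹) (b := x) (i := r)
      rw [inv_inv] at h
      rw [hy, h, hxr, mul_one, inv_mul_cancel]
    have hyM : (y : Matrix (Fin d ⊕ Fin d) (Fin d ⊕ Fin d) F) = Gi * Y * G := by
      rw [hy, Units.val_mul, Units.val_mul, hxY, hG, hGi]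
    rw [← hy] at hgN
    have hk : (y : Matrix (Fin d ⊕ Fin d) (Fin d ⊕ Fin d) F) * θ
        * ((y⁻¹ : GL (Fin d ⊕ Fin d) F) : Matrix (Fin d ⊕ Fin d) (Fin d ⊕ Fin d) F) ∈ K :=
      (hgN θ).mp hθK
    obtain ⟨α, β, hαβ⟩ := hspan _ hk
    have hcomm : (y : Matrix (Fin d ⊕ Fin d) (Fin d ⊕ Fin d) F) * θ
        = θ * (y : Matrix (Fin d ⊕ Fin d) (Fin d ⊕ Fin d) F) := by
      apply comm_of_normalize_odd d θ _ _ δ h2 hθ2 hirr hns ?_ α β hαβ r (hr.odd_of_ne_two hr2)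
      · rw [← Units.val_pow_eq_pow_val, hyr]
        rfl
      · rw [← Units.val_mul, mul_inv_cancel, Units.val_one]
    rw [hyM] at hcomm
    obtain ⟨T, hT⟩ : ∃ T : Matrix (Fin d ⊕ Fin d) (Fin d ⊕ Fin d) F, T = G * θ * Gi := ⟨_, rfl⟩
    have hTY : T * Y = Y * T := by
      calc T * Y = G * (θ * (Gi * Y * G)) * Gi := by
            rw [hT]
            have : G * (θ * (Gi * Y * G)) * Gi = G * θ * Gi * Y * (G * Gi) := by
              simp only [mul_assoc]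
            rw [this, hGGi, mul_one]
        _ = G * (Gi * Y * G * θ) * Gi := by rw [hcomm]
        _ = Y * T := by
            rw [hT]
            have : G * (Gi * Y * G * θ) * Gi = (G * Gi) * Y * (G * θ * Gi) := by
              simp only [mul_assoc]
            rw [this, hGGi, one_mul]
    have hTskew : IsSkew d T := by rw [hT]; exact skew_conj d hskew hGmem hGGi
    have hTT : T * T = δ • (1 : Matrix (Fin d ⊕ Fin d) (Fin d ⊕ Fin d) F) := by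
      calc T * T = G * θ * (Gi * G) * θ * Gi := by rw [hT]; simp only [mul_assoc]
        _ = G * (θ * θ) * Gi := by rw [hGiG]; simp only [mul_assoc, mul_one]
        _ = δ • (1 : Matrix (Fin d ⊕ Fin d) (Fin d ⊕ Fin d) F) := by
          rw [hθ2, Matrix.mul_smul, Matrix.smul_mul, mul_one, hGGi]
    obtain ⟨c, hc⟩ := hYT T δ hTY hTskew hTT
    exact hirr c hc
  · intro hr2 x hx hz _
    subst hr2
    obtain ⟨z, hz⟩ := hz
    have hxmem : (x : Matrix (Fin d ⊕ Fin d) (Fin d ⊕ Fin d) F)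
        ∈ Matrix.symplecticGroup (Fin d) F := (mem_spGL_iff d x).mp hx
    have hYz : (x : Matrix (Fin d ⊕ Fin d) (Fin d ⊕ Fin d) F)
        * (x : Matrix (Fin d ⊕ Fin d) (Fin d ⊕ Fin d) F)
        = z • (1 : Matrix (Fin d ⊕ Fin d) (Fin d ⊕ Fin d) F) := by
      rw [← hz, Units.val_pow_eq_pow_val, pow_two]
    obtain ⟨Q, hQ⟩ := invol_case hp2 h2 d hd1 δ hirr θ hskew hθ2
      ⟨(x : Matrix (Fin d ⊕ Fin d) (Fin d ⊕ Fin d) F), hxmem⟩ z hYz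
    refine ⟨(toGL Q)⁻¹, (Cfsg.spGL d F).inv_mem (toGL_mem Q), ?_⟩
    apply mem_normalizer_of d K θ hθK hspan
    rw [inv_inv, Units.val_mul, Units.val_mul]
    exact hQ

end Cfsg.Agent.Lib.Helper47.S76Main
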