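import Cfsg.Agent.Lib.Helper47.S76Defs
import Cfsg.Agent.S0245
import Cfsg.Agent.Lib.Helper20.S76QDEX
import Cfsg.Agent.Lib.Helper21.S76FIELDODD
import Cfsg.Agent.Lib.Helper29.S76CONJ
import Cfsg.Agent.Lib.Helper30.S76INV2A
import Cfsg.Agent.Lib.Helper36.S76ARITH
import Cfsg.Agent.Lib.Helper36.S76IDXA
import Cfsg.Agent.Lib.Helper37.S76DERP
import Cfsg.Agent.Lib.Helper56.S76BLOCKODD
import Cfsg.Agent.Lib.Helper60.S76INV1A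
import Cfsg.Agent.Lib.Helper62.S76INV1B
import Cfsg.Agent.Lib.Helper62.S76THETA
import Cfsg.Agent.Lib.Helper68.S76QDMAIN
import Cfsg.Agent.Lib.Helper76.S76INDEX
import Cfsg.Agent.Lib.Helper77.S76USTDC
import Cfsg.Agent.Lib.Helper79.S76UFORMA
import Cfsg.Agent.Lib.Helper79.S76UFORMB
import Cfsg.Agent.Lib.Helper83.S76PAD
import Cfsg.Agent.Lib.Helper88.S76QDCENT
import Cfsg.Agent.Lib.Helper90.S76NORMODD

/-!
# Pieces of the S5976 project, restated in one namespace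
-/

set_option autoImplicit false

universe u

namespace Cfsg.Agent.Lib.Helper47.S76Skel

open Matrix Polynomial Cfsg.Agent.Lib.Helper47 Cfsg.Agent.Lib.Helper47.S76

variable {F : Type u} [Field F]

-- PIECE NORMODD
theorem comm_of_normalize_odd (d : ℕ) (θ y yi : Matrix (Fin d ⊕ Fin d) (Fin d ⊕ Fin d) F) (δ : F)
    (h2 : (2 : F) ≠ 0) (hθ : θ * θ = δ • (1 : Matrix (Fin d ⊕ Fin d) (Fin d ⊕ Fin d) F))
    (hirr : ∀ c : F, c * c ≠ δ)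
    (hns : ∀ c : F, θ ≠ c • (1 : Matrix (Fin d ⊕ Fin d) (Fin d ⊕ Fin d) F)) (hyi : y * yi = 1)
    (α β : F) (hy : y * θ * yi = α • (1 : Matrix (Fin d ⊕ Fin d) (Fin d ⊕ Fin d) F) + β • θ)
    (r : ℕ) (hr : Odd r) (hyr : y ^ r = 1) : y * θ = θ * y :=
  Cfsg.Agent.Lib.Helper90.S76NORMODD.comm_of_normalize_odd d θ y yi δ h2 hθ hirr hns hyi α β hy r hr hyr

-- PIECE DERP
theorem der_p {p : ℕ} [Fact p.Prime] [CharP F p] (d : ℕ) (hd : 1 ≤ d) :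
    ∃ Y : Matrix (Fin d ⊕ Fin d) (Fin d ⊕ Fin d) F, Y ∈ Matrix.symplecticGroup (Fin d) F ∧
      Y ^ p = 1 ∧ (∀ z : F, Y ≠ z • (1 : Matrix (Fin d ⊕ Fin d) (Fin d ⊕ Fin d) F)) ∧
      ∀ (T : Matrix (Fin d ⊕ Fin d) (Fin d ⊕ Fin d) F) (δ : F), T * Y = Y * T →
        T * T = δ • (1 : Matrix (Fin d ⊕ Fin d) (Fin d ⊕ Fin d) F) → ∃ c : F, c * c = δ :=
  Cfsg.Agent.Lib.Helper37.S76DERP.der_p d hd

-- PIECE FIELDODD
theorem field_odd [Fintype F] {p : ℕ} [Fact p.Prime] [CharP F p] {q : ℕ}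
    (hq : Fintype.card F = q) (r : ℕ) (hr : r.Prime) (hr2 : r ≠ 2) (hrp : r ≠ p) (n : ℕ)
    (hn : n = orderOf (q : ZMod r)) (hodd : Odd n) :
    ∃ (A : Matrix (Fin n) (Fin n) F) (g : F[X]), A ^ r = 1 ∧ (∀ v, A *ᵥ v = v → v = 0) ∧
      aeval A g = 0 ∧ IsUnit (aeval ((A ^ (r - 1))ᵀ) g) :=
  Cfsg.Agent.Lib.Helper21.S76FIELDODD.field_odd hq r hr hr2 hrp n hn hodd

-- PIECE BLOCKODD
theorem der_block_odd (n : ℕ) (hodd : Odd n) (r : ℕ) (hr : 0 < r) (A : Matrix (Fin n) (Fin n) F)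
    (g : F[X]) (hA : A ^ r = 1) (hfix : ∀ v, A *ᵥ v = v → v = 0) (hg : aeval A g = 0)
    (hu : IsUnit (aeval ((A ^ (r - 1))ᵀ) g)) :
    ∃ Y : Matrix (Fin n ⊕ Fin n) (Fin n ⊕ Fin n) F, Y ∈ Matrix.symplecticGroup (Fin n) F ∧
      Y ^ r = 1 ∧ (∀ v, Y *ᵥ v = v → v = 0) ∧
      ∀ (T : Matrix (Fin n ⊕ Fin n) (Fin n ⊕ Fin n) F) (δ : F), T * Y = Y * T →
        T * T = δ • (1 : Matrix (Fin n ⊕ Fin n) (Fin n ⊕ Fin n) F) → ∃ c : F, c * c = δ :=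
  Cfsg.Agent.Lib.Helper56.S76BLOCKODD.der_block_odd n hodd r hr A g hA hfix hg hu

-- PIECE UFORMA
theorem uform_comm_of_field (d r : ℕ) (K : Type*) [Field K] [Algebra F K] [FiniteDimensional F K]
    [Algebra.IsSeparable F K] (h2 : (2 : F) ≠ 0)
    (σ : K ≃ₐ[F] K) (hσ : ∀ x, σ (σ x) = x) (lam : K) (hl1 : lam ≠ 1)
    (hlr : lam ^ r = 1) (hls : lam * σ lam = 1) (hsl : σ lam ≠ lam)
    (hgen : Algebra.adjoin F {lam} = ⊤)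
    (hsq : ∀ ε : K, (∃ c : F, ε * ε = algebraMap F K c) → σ ε = ε)
    (e : (Fin d ⊕ Fin d → F) ≃ₗ[F] K) :
    ∃ (B : (Fin d ⊕ Fin d → F) → (Fin d ⊕ Fin d → F) → F)
      (g : (Fin d ⊕ Fin d → F) →ₗ[F] (Fin d ⊕ Fin d → F)),
      IsSForm (RingHom.id F) (-1) B ∧ Nondeg B ∧ (∀ x, B x x = 0) ∧
      (∀ x y, B (g x) (g y) = B x y) ∧ g ^ r = 1 ∧ (∀ v, g v = v → v = 0) ∧
      ∀ (T : (Fin d ⊕ Fin d → F) →ₗ[F] (Fin d ⊕ Fin d → F)) (δ : F),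
        (∀ v, T (g v) = g (T v)) → (∀ x y, B (T x) y = - B x (T y)) → (∀ v, T (T v) = δ • v) →
        ∃ c : F, c * c = δ :=
  Cfsg.Agent.Lib.Helper79.S76UFORMA.uform_comm_of_field d r K h2 σ hσ lam hl1 hlr hls hsl hgen hsq e

-- PIECE UFORMB
theorem exists_field_even [Fintype F] {p : ℕ} [Fact p.Prime] [CharP F p] {q : ℕ}
    (hq : Fintype.card F = q) (r : ℕ) (hr : r.Prime) (hr2 : r ≠ 2) (hrp : r ≠ p) (n : ℕ)
    (hn : 2 * n = orderOf (q : ZMod r)) (hev : Even n) :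
    ∃ (K : Type u) (_ : Field K) (_ : Algebra F K) (_ : FiniteDimensional F K)
      (_ : Algebra.IsSeparable F K) (σ : K ≃ₐ[F] K) (lam : K),
      (∀ x, σ (σ x) = x) ∧ lam ≠ 1 ∧ lam ^ r = 1 ∧ lam * σ lam = 1 ∧ σ lam ≠ lam ∧
      Algebra.adjoin F {lam} = ⊤ ∧
      (∀ ε : K, (∃ c : F, ε * ε = algebraMap F K c) → σ ε = ε) ∧
      Nonempty ((Fin n ⊕ Fin n → F) ≃ₗ[F] K) :=
  Cfsg.Agent.Lib.Helper79.S76UFORMB.exists_field_even hq r hr hr2 hrp n hn hev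

-- PIECE USTDC
theorem sp_of_form_comm [Fintype F] (d r : ℕ)
    (B : (Fin d ⊕ Fin d → F) → (Fin d ⊕ Fin d → F) → F)
    (g : (Fin d ⊕ Fin d → F) →ₗ[F] (Fin d ⊕ Fin d → F))
    (hB : IsSForm (RingHom.id F) (-1) B) (hnd : Nondeg B) (halt : ∀ x, B x x = 0)
    (hg : ∀ x y, B (g x) (g y) = B x y) (hgr : g ^ r = 1) (hfix : ∀ v, g v = v → v = 0)
    (hcomm : ∀ (T : (Fin d ⊕ Fin d → F) →ₗ[F] (Fin d ⊕ Fin d → F)) (δ : F),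
        (∀ v, T (g v) = g (T v)) → (∀ x y, B (T x) y = - B x (T y)) → (∀ v, T (T v) = δ • v) →
        ∃ c : F, c * c = δ) :
    ∃ Y : Matrix (Fin d ⊕ Fin d) (Fin d ⊕ Fin d) F, Y ∈ Matrix.symplecticGroup (Fin d) F ∧
      Y ^ r = 1 ∧ (∀ v, Y *ᵥ v = v → v = 0) ∧
      ∀ (T : Matrix (Fin d ⊕ Fin d) (Fin d ⊕ Fin d) F) (δ : F), T * Y = Y * T → IsSkew d T →
        T * T = δ • (1 : Matrix (Fin d ⊕ Fin d) (Fin d ⊕ Fin d) F) → ∃ c : F, c * c = δ :=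
  Cfsg.Agent.Lib.Helper77.S76USTDC.sp_of_form_comm d r B g hB hnd halt hg hgr hfix hcomm

-- PIECE PAD
theorem pad (n d : ℕ) (hnd : n ≤ d) (hn : 1 ≤ n)
    (Y₀ : Matrix (Fin n ⊕ Fin n) (Fin n ⊕ Fin n) F)
    (hY₀ : Y₀ ∈ Matrix.symplecticGroup (Fin n) F) (hfix : ∀ v, Y₀ *ᵥ v = v → v = 0) :
    ∃ Y : Matrix (Fin d ⊕ Fin d) (Fin d ⊕ Fin d) F, Y ∈ Matrix.symplecticGroup (Fin d) F ∧
      Y ≠ 1 ∧ (∀ k : ℕ, Y₀ ^ k = 1 → Y ^ k = 1) ∧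
      ∀ (T : Matrix (Fin d ⊕ Fin d) (Fin d ⊕ Fin d) F) (δ : F), T * Y = Y * T → IsSkew d T →
        T * T = δ • (1 : Matrix (Fin d ⊕ Fin d) (Fin d ⊕ Fin d) F) →
        ∃ T₀ : Matrix (Fin n ⊕ Fin n) (Fin n ⊕ Fin n) F, T₀ * Y₀ = Y₀ * T₀ ∧ IsSkew n T₀ ∧
          T₀ * T₀ = δ • (1 : Matrix (Fin n ⊕ Fin n) (Fin n ⊕ Fin n) F) :=
  Cfsg.Agent.Lib.Helper83.S76PAD.pad n d hnd hn Y₀ hY₀ hfix

-- PIECE ARITH
theorem arith (p q r d : ℕ) (hp : p.Prime) (hq : ∃ k, q = p ^ k) (hr : r.Prime) (hr2 : r ≠ 2)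
    (hrp : r ≠ p) (hdvd : r ∣ idxNum q d) :
    (∃ n, n = orderOf (q : ZMod r) ∧ Odd n ∧ n ≤ d) ∨
      (∃ n, 2 * n = orderOf (q : ZMod r) ∧ Even n ∧ 1 ≤ n ∧ n ≤ d) :=
  Cfsg.Agent.Lib.Helper36.S76ARITH.arith p q r d hp hq hr hr2 hrp hdvd

-- PIECE IDXA
theorem idx_arith (q d : ℕ) (hq : 1 ≤ q) :
    q ^ (d ^ 2) * ∏ i ∈ Finset.range d, (q ^ (2 * (i + 1)) - 1) = idxNum q d * guOrd q d :=
  Cfsg.Agent.Lib.Helper36.S76IDXA.idx_arith q d hq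

-- PIECE QDCENT (two theorems)
theorem quad_forms {K : Type u} [Fintype F] [Field K] [Fintype K] [Algebra F K] {q : ℕ} {ω : K}
    {τ : K →ₗ[F] F} (D : QuadData F K q ω τ) (m : ℕ) :
    IsSForm (RingHom.id F) (-1) (cubeForm m q τ) ∧ Nondeg (cubeForm m q τ) ∧
      (∀ u : Fin m → K, cubeForm m q τ u u = 0) ∧
      (∀ u v : Fin m → K, cubeForm m q τ (cubeMul F m ω u) (cubeMul F m ω v) = cubeForm m q τ u v) ∧
      Module.finrank F (Fin m → K) = 2 * m :=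
  Cfsg.Agent.Lib.Helper88.S76QDCENT.quad_forms D m

theorem quad_card_centralizer {K : Type u} [Fintype F] [Field K] [Fintype K] [Algebra F K] {q : ℕ}
    {ω : K} {τ : K →ₗ[F] F} (D : QuadData F K q ω τ) {m : ℕ}
    (φ : (Fin m ⊕ Fin m → F) ≃ₗ[F] (Fin m → K)) (x : Matrix.symplecticGroup (Fin m) F)
    (hφg : ∀ v, φ ((x : Matrix (Fin m ⊕ Fin m) (Fin m ⊕ Fin m) F) *ᵥ v) = ω • φ v)
    (hφB : ∀ v w, cubeForm m q τ (φ v) (φ w) = spForm (Fin m) F v w) :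
    Nat.card (Subgroup.centralizer ({x} : Set (Matrix.symplecticGroup (Fin m) F)))
      = Nat.card (Cfsg.GU m K q) :=
  Cfsg.Agent.Lib.Helper88.S76QDCENT.quad_card_centralizer D φ x hφg hφB

-- PIECE QDEX
theorem exists_quadData [Fintype F] {q : ℕ} (hq : Fintype.card F = q) (h2 : (2 : F) ≠ 0) (a : F)
    (hirr : ∀ c : F, c * c - 2 * a * c + 1 ≠ 0) :
    ∃ (K : Type u) (_ : Field K) (_ : Fintype K) (_ : Algebra F K) (ω : K) (τ : K →ₗ[F] F),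
      QuadData F K q ω τ ∧ ω * ω - algebraMap F K (2 * a) * ω + 1 = 0 :=
  Cfsg.Agent.Lib.Helper20.S76QDEX.exists_quadData hq h2 a hirr

-- PIECE QDMAIN
theorem card_centralizer_quad [Fintype F] {q : ℕ} (hq : Fintype.card F = q) (h2 : (2 : F) ≠ 0)
    (d : ℕ) (a : F) (hirr : ∀ c : F, c * c - 2 * a * c + 1 ≠ 0)
    (x : Matrix.symplecticGroup (Fin d) F)
    (hx : (x : Matrix (Fin d ⊕ Fin d) (Fin d ⊕ Fin d) F) * (x : Matrix (Fin d ⊕ Fin d) (Fin d ⊕ Fin d) F)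
      - (2 * a) • (x : Matrix (Fin d ⊕ Fin d) (Fin d ⊕ Fin d) F) + 1 = 0) :
    Nat.card (Subgroup.centralizer ({x} : Set (Matrix.symplecticGroup (Fin d) F))) = guOrd q d :=
  Cfsg.Agent.Lib.Helper68.S76QDMAIN.card_centralizer_quad hq h2 d a hirr x hx

-- PIECE INDEX
theorem index_dvd [Fintype F] {q : ℕ} (hq : Fintype.card F = q) (h2 : (2 : F) ≠ 0) (d : ℕ)
    (K : Subalgebra F (Matrix (Fin d ⊕ Fin d) (Fin d ⊕ Fin d) F))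
    (θ : Matrix (Fin d ⊕ Fin d) (Fin d ⊕ Fin d) F) (δ : F) (hθK : θ ∈ K)
    (hspan : ∀ k ∈ K, ∃ α β : F, k = α • (1 : Matrix (Fin d ⊕ Fin d) (Fin d ⊕ Fin d) F) + β • θ)
    (hskew : IsSkew d θ)
    (hθ2 : θ * θ = δ • (1 : Matrix (Fin d ⊕ Fin d) (Fin d ⊕ Fin d) F))
    (hirr : ∀ c : F, c * c ≠ δ)
    (hcent : ∀ (a : F), (∀ c : F, c * c - 2 * a * c + 1 ≠ 0) →
      ∀ x : Matrix.symplecticGroup (Fin d) F,
        (x : Matrix (Fin d ⊕ Fin d) (Fin d ⊕ Fin d) F) * (x : Matrix (Fin d ⊕ Fin d) (Fin d ⊕ Fin d) F)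
          - (2 * a) • (x : Matrix (Fin d ⊕ Fin d) (Fin d ⊕ Fin d) F) + 1 = 0 →
        Nat.card (Subgroup.centralizer ({x} : Set (Matrix.symplecticGroup (Fin d) F))) = guOrd q d)
    (harith : q ^ (d ^ 2) * ∏ i ∈ Finset.range d, (q ^ (2 * (i + 1)) - 1) = idxNum q d * guOrd q d) :
    (Cfsg.Geo.subalgebraNormalizer K).relIndex (Cfsg.spGL d F) ∣ idxNum q d :=
  Cfsg.Agent.Lib.Helper76.S76INDEX.index_dvd hq h2 d K θ δ hθK hspan hskew hθ2 hirr hcent harith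

-- PIECE INV1A
theorem charpoly_invol (d : ℕ) (h2 : (2 : F) ≠ 0) (Y : Matrix (Fin d ⊕ Fin d) (Fin d ⊕ Fin d) F)
    (hY : Y ∈ Matrix.symplecticGroup (Fin d) F) (hY2 : Y * Y = 1) :
    ∃ a : ℕ, a ≤ d ∧ Y.charpoly = (X - C (1 : F)) ^ (2 * a) * (X + C (1 : F)) ^ (2 * (d - a)) :=
  Cfsg.Agent.Lib.Helper60.S76INV1A.charpoly_invol d h2 Y hY hY2

-- PIECE INV1B
theorem std_invol (d a : ℕ) (ha : a ≤ d) (δ : F) :
    ∃ Y : Matrix (Fin d ⊕ Fin d) (Fin d ⊕ Fin d) F, Y ∈ Matrix.symplecticGroup (Fin d) F ∧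
      Y * Y = 1 ∧ Y.charpoly = (X - C (1 : F)) ^ (2 * a) * (X + C (1 : F)) ^ (2 * (d - a)) ∧
      Y * thetaStd d δ = thetaStd d δ * Y :=
  Cfsg.Agent.Lib.Helper62.S76INV1B.std_invol d a ha δ

-- PIECE INV2A
theorem charpoly_neg (d : ℕ) (h2 : (2 : F) ≠ 0) (Y : Matrix (Fin d ⊕ Fin d) (Fin d ⊕ Fin d) F)
    (hY : Y ∈ Matrix.symplecticGroup (Fin d) F) (hY2 : Y * Y = -1) :
    Y.charpoly = (X ^ 2 + C (1 : F)) ^ d :=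
  Cfsg.Agent.Lib.Helper30.S76INV2A.charpoly_neg d h2 Y hY hY2

-- PIECE THETA (three theorems)
theorem thetaStd_skew (d : ℕ) (δ : F) : IsSkew d (thetaStd d δ) :=
  Cfsg.Agent.Lib.Helper62.S76THETA.thetaStd_skew d δ

theorem thetaStd_sq (d : ℕ) (δ : F) :
    thetaStd d δ * thetaStd d δ = δ • (1 : Matrix (Fin d ⊕ Fin d) (Fin d ⊕ Fin d) F) :=
  Cfsg.Agent.Lib.Helper62.S76THETA.thetaStd_sq d δ

theorem exists_theta_anti [Fintype F] (d : ℕ) (δ : F) :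
    ∃ θ₁ : Matrix (Fin d ⊕ Fin d) (Fin d ⊕ Fin d) F, IsSkew d θ₁ ∧
      θ₁ * θ₁ = δ • (1 : Matrix (Fin d ⊕ Fin d) (Fin d ⊕ Fin d) F) ∧
      Matrix.J (Fin d) F * θ₁ = -(θ₁ * Matrix.J (Fin d) F) :=
  Cfsg.Agent.Lib.Helper62.S76THETA.exists_theta_anti d δ

-- PIECE CONJ
theorem conj_theta [Fintype F] (d : ℕ) (h2 : (2 : F) ≠ 0) (δ : F) (hirr : ∀ c : F, c * c ≠ δ)
    (θ θ' : Matrix (Fin d ⊕ Fin d) (Fin d ⊕ Fin d) F) (hθ : IsSkew d θ)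
    (hθ2 : θ * θ = δ • (1 : Matrix (Fin d ⊕ Fin d) (Fin d ⊕ Fin d) F)) (hθ' : IsSkew d θ')
    (hθ'2 : θ' * θ' = δ • (1 : Matrix (Fin d ⊕ Fin d) (Fin d ⊕ Fin d) F)) :
    ∃ P : Matrix (Fin d ⊕ Fin d) (Fin d ⊕ Fin d) F, P ∈ Matrix.symplecticGroup (Fin d) F ∧
      P * θ' = θ * P :=
  Cfsg.Agent.Lib.Helper29.S76CONJ.conj_theta d h2 δ hirr θ θ' hθ hθ2 hθ' hθ'2

end Cfsg.Agent.Lib.Helper47.S76Skel
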