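import Mathlib
import Cfsg.Agent.Lib.Helper12.TwoComp

set_option autoImplicit false

/-! Piece IDX2 of S0983: a subgroup of order `2 * odd` has a subgroup of index two containing all
its elements of odd order. -/

namespace Cfsg.Agent.S983

open Subgroup

variable {G : Type*} [Group G] [Finite G]

/-- In a finite group of order `2 * m`, `m` odd, there is a normal subgroup of order `m` and
index `2`. -/
theorem idx2_aux1 {H : Type*} [Group H] [Finite H] (m : ℕ) (hH : Nat.card H = 2 * m)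
    (hm : ¬ 2 ∣ m) :
    ∃ N0 : Subgroup H, Nat.card N0 = m ∧ N0.index = 2 := by
  have : Fact (Nat.Prime 2) := ⟨Nat.prime_two⟩
  obtain ⟨S⟩ : Nonempty (Sylow 2 H) := inferInstance
  -- the Sylow 2-subgroup has order 2
  have hS2 : Nat.card (S : Subgroup H) = 2 := by
    obtain ⟨n, hn⟩ := (IsPGroup.iff_card.1 S.isPGroup')
    have hidx := S.not_dvd_index
    have hmul : Nat.card (S : Subgroup H) * (S : Subgroup H).index = 2 * m := by
      rw [Subgroup.card_mul_index, hH]
    rw [hn] at hmul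
    rcases n with _ | _ | n
    · exfalso
      apply hidx
      rw [pow_zero, one_mul] at hmul
      rw [hmul]
      exact dvd_mul_right 2 m
    · rw [hn]
      norm_num
    · exfalso
      apply hm
      have h4 : 2 * 2 ∣ 2 * m := by
        rw [← hmul]
        refine Dvd.dvd.mul_right ?_ _
        rw [pow_succ, pow_succ, mul_assoc]
        exact dvd_mul_left _ _
      exact (Nat.mul_dvd_mul_iff_left (by norm_num)).1 h4
  have hcyc : IsCyclic (S : Subgroup H) := isCyclic_of_prime_card hS2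
  obtain ⟨N0, _, hodd, k, hk⟩ :=
    Cfsg.Agent.Lib.Helper12.exists_normal_two_complement_of_isCyclic_sylow S hcyc
  have hmul : Nat.card N0 * N0.index = 2 * m := by
    rw [Subgroup.card_mul_index, hH]
  rw [hk] at hmul
  rcases k with _ | _ | k
  · exfalso
    rw [pow_zero, mul_one] at hmul
    rw [hmul] at hodd
    exact (Nat.not_odd_iff_even.2 (even_two_mul m)) hodd
  · rw [pow_one] at hmul
    refine ⟨N0, ?_, by rw [hk, pow_one]⟩
    have : 2 * Nat.card N0 = 2 * m := by rw [← hmul, mul_comm]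
    exact Nat.eq_of_mul_eq_mul_left (by norm_num) this
  · exfalso
    apply hm
    have h4 : 2 * 2 ∣ 2 * m := by
      rw [← hmul]
      refine Dvd.dvd.mul_left ?_ _
      rw [pow_succ, pow_succ, mul_assoc]
      exact dvd_mul_left _ _
    exact (Nat.mul_dvd_mul_iff_left (by norm_num)).1 h4

/-- piece IDX2 -/
theorem exists_odd_index_two_subgroup (H : Subgroup G) (m : ℕ) (hH : Nat.card H = 2 * m)
    (hm : ¬ 2 ∣ m) :
    ∃ K : Subgroup G, K ≤ H ∧ Nat.card K = m ∧
      ∀ g ∈ H, (∃ k : ℕ, Odd k ∧ g ^ k = 1) → g ∈ K := by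
  obtain ⟨N0, hN0, hidx⟩ := idx2_aux1 (H := ↥H) m hH hm
  refine ⟨N0.map H.subtype, Subgroup.map_subtype_le N0, ?_, ?_⟩
  · rw [Subgroup.card_map_of_injective H.subtype_injective, hN0]
  · rintro g hg ⟨k, ⟨j, rfl⟩, hk⟩
    refine ⟨⟨g, hg⟩, ?_, rfl⟩
    have h2 : (⟨g, hg⟩ : ↥H) ^ 2 ∈ N0 := Subgroup.sq_mem_of_index_two hidx _
    have hk' : (⟨g, hg⟩ : ↥H) ^ (2 * j + 1) = 1 := by
      apply Subtype.ext
      rw [Subgroup.coe_pow]
      exact hk
    have h3 : (⟨g, hg⟩ : ↥H) = (((⟨g, hg⟩ : ↥H) ^ 2) ^ j)⁻¹ := by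
      rw [eq_inv_iff_mul_eq_one, ← pow_mul, ← pow_succ']
      exact hk'
    rw [h3]
    exact N0.inv_mem (N0.pow_mem h2 j)

end Cfsg.Agent.S983
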