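import Mathlib
import Cfsg.Prelude.Def_LieClassical
import Cfsg.Agent.Lib.Helper47.UnitaryEmb
import Cfsg.Agent.Lib.Helper47.SUConj
import Cfsg.Agent.Lib.Helper47.GUSim
import Cfsg.Agent.Lib.Helper47.PrimeOrd
import Cfsg.Agent.Lib.Helper47.DualPoly
import Cfsg.Agent.Lib.Helper7.SUOrder

/-!
# Involutions of `SU_3(q)`, `q` odd

Block-diagonal calculus `bd A d` (a `2 × 2` block and a scalar), the characteristic polynomial of
an involution of `SL_3`, conjugacy of the involutions of `SU_3(q)`, the centraliser of the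
involution `diag(-1,-1,1)` (isomorphic to `GU_2(q)`), and the Klein four-group structure of
commuting involutions.
-/

set_option autoImplicit false

namespace Cfsg.Agent.Lib.Helper47

open Matrix Polynomial

section BD

variable {F : Type*} [Field F]

/-- Block diagonal `3 × 3` matrix from a `2 × 2` block and a scalar. -/
def bd (A : Matrix (Fin 2) (Fin 2) F) (d : F) : Matrix (Fin 3) (Fin 3) F :=
  !![A 0 0, A 0 1, 0; A 1 0, A 1 1, 0; 0, 0, d]

/-- Top left `2 × 2` block. -/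
def tl (M : Matrix (Fin 3) (Fin 3) F) : Matrix (Fin 2) (Fin 2) F :=
  !![M 0 0, M 0 1; M 1 0, M 1 1]

lemma bd_mul (A A' : Matrix (Fin 2) (Fin 2) F) (d d' : F) :
    bd A d * bd A' d' = bd (A * A') (d * d') := by
  ext i j
  fin_cases i <;> fin_cases j <;>
    simp [bd, Matrix.mul_apply, Fin.sum_univ_three, Fin.sum_univ_two]

lemma bd_one : bd (1 : Matrix (Fin 2) (Fin 2) F) 1 = 1 := by
  ext i j
  fin_cases i <;> fin_cases j <;> simp [bd]

lemma det_bd (A : Matrix (Fin 2) (Fin 2) F) (d : F) : (bd A d).det = A.det * d := by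
  rw [Matrix.det_fin_three, Matrix.det_fin_two]
  simp [bd]
  ring

lemma sT_bd (σ : F →+* F) (A : Matrix (Fin 2) (Fin 2) F) (d : F) :
    sT σ (bd A d) = bd (sT σ A) (σ d) := by
  ext i j
  fin_cases i <;> fin_cases j <;> simp [bd, sT]

lemma tl_bd (A : Matrix (Fin 2) (Fin 2) F) (d : F) : tl (bd A d) = A := by
  ext i j
  fin_cases i <;> fin_cases j <;> simp [bd, tl]

lemma bd_apply_two (A : Matrix (Fin 2) (Fin 2) F) (d : F) : bd A d 2 2 = d := by
  simp [bd]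

lemma bd_injective {A A' : Matrix (Fin 2) (Fin 2) F} {d d' : F} (h : bd A d = bd A' d') :
    A = A' ∧ d = d' := by
  constructor
  · rw [← tl_bd A d, h, tl_bd]
  · rw [← bd_apply_two A d, h, bd_apply_two]

lemma eq_zero_of_eq_neg_self (h2 : (2 : F) ≠ 0) {x : F} (h : x = -x) : x = 0 := by
  have h1 : 2 * x = 0 := by linear_combination h
  exact (mul_eq_zero.mp h1).resolve_left h2

lemma eq_bd_of_commute (h2 : (2 : F) ≠ 0) (M : Matrix (Fin 3) (Fin 3) F)
    (hM : M * bd (-1) 1 = bd (-1) 1 * M) : M = bd (tl M) (M 2 2) := by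
  have e02 := congrFun (congrFun hM 0) 2
  have e12 := congrFun (congrFun hM 1) 2
  have e20 := congrFun (congrFun hM 2) 0
  have e21 := congrFun (congrFun hM 2) 1
  simp [bd, Matrix.mul_apply, Fin.sum_univ_three] at e02 e12 e20 e21
  have h02 : M 0 2 = 0 := eq_zero_of_eq_neg_self h2 e02
  have h12 : M 1 2 = 0 := eq_zero_of_eq_neg_self h2 e12
  have h20 : M 2 0 = 0 := eq_zero_of_eq_neg_self h2 e20.symm
  have h21 : M 2 1 = 0 := eq_zero_of_eq_neg_self h2 e21.symm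
  ext i j
  fin_cases i <;> fin_cases j <;> simp [bd, tl, h02, h12, h20, h21]

end BD

section Invol

variable {F : Type*} [Field F]

lemma two_ne_zero_of_char (p : ℕ) [Fact p.Prime] [CharP F p] (hp2 : p ≠ 2) : (2 : F) ≠ 0 := by
  intro h
  have h1 : ((2 : ℕ) : F) = 0 := by exact_mod_cast h
  have h2 := (CharP.cast_eq_zero_iff F p 2).mp h1
  exact hp2 ((Nat.prime_dvd_prime_iff_eq Fact.out Nat.prime_two).mp h2)

/-- The characteristic polynomial of a nontrivial involution of `SL_3`, odd characteristic. -/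
lemma charpoly_involution_SL3 (p : ℕ) [Fact p.Prime] [CharP F p] (hp2 : p ≠ 2)
    (T : Matrix (Fin 3) (Fin 3) F) (hT2 : T * T = 1) (hT1 : T ≠ 1) (hdet : T.det = 1) :
    T.charpoly = (X - 1) * (X + 1) ^ 2 := by
  have h2F : (2 : F) ≠ 0 := two_ne_zero_of_char p hp2
  have hT2' : T ^ 2 = 1 := by rw [pow_two, hT2]
  obtain ⟨c, s, hs, hchar⟩ :=
    charpoly_factors_of_pow_eq_one p Nat.prime_two (Ne.symm hp2) T hT2'
  have hirr : Irreducible (X + 1 : F[X]) := by
    have h1 := irreducible_X_sub_C (-1 : F)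
    rwa [C_neg, sub_neg_eq_add, C_1] at h1
  have hmon : (X + 1 : F[X]).Monic := by
    have h1 := monic_X_add_C (1 : F)
    rwa [C_1] at h1
  have hs1 : ∀ f ∈ s, f = X + 1 := by
    intro f hf
    obtain ⟨hfm, hfi, hfd⟩ := hs f hf
    rw [cyclotomic_two] at hfd
    exact eq_of_monic_of_associated hfm hmon (hfi.associated_of_dvd hirr hfd)
  have hs2 : s = Multiset.replicate (Multiset.card s) (X + 1) :=
    Multiset.eq_replicate.mpr ⟨rfl, hs1⟩
  obtain ⟨b, hb⟩ : ∃ b, b = Multiset.card s := ⟨_, rfl⟩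
  rw [hs2, Multiset.prod_replicate, ← hb] at hchar
  have hdeg : c + b = 3 := by
    have h1 := congrArg natDegree hchar
    rw [Matrix.charpoly_natDegree_eq_dim, Fintype.card_fin,
      natDegree_mul (pow_ne_zero _ monic_X_sub_one.ne_zero) (pow_ne_zero _ hmon.ne_zero),
      natDegree_pow, natDegree_pow] at h1
    have h3 : (X - 1 : F[X]).natDegree = 1 := by
      rw [← C_1]
      exact natDegree_X_sub_C 1
    have h4 : (X + 1 : F[X]).natDegree = 1 := by
      rw [← C_1]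
      exact natDegree_X_add_C 1
    rw [h3, h4] at h1
    omega
  have hc0 := charpoly_coeff_zero T
  rw [hchar, hdet, coeff_zero_eq_eval_zero, eval_mul, eval_pow, eval_pow, eval_sub, eval_add,
    eval_X, eval_one, zero_sub, zero_add, one_pow, mul_one, mul_one] at hc0
  have hcodd : Odd c := by
    by_contra hne
    rw [Nat.not_odd_iff_even] at hne
    rw [hne.neg_one_pow] at hc0
    have h3 : (2 : F) = 0 := by
      have h4 : ((-1 : F)) ^ 3 = -1 := by norm_num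
      rw [h4] at hc0
      linear_combination hc0
    exact h2F h3
  have hc3 : c ≠ 3 := by
    rintro rfl
    have hb0 : b = 0 := by omega
    rw [hb0, pow_zero, mul_one] at hchar
    exact hT1 (eq_one_of_charpoly_eq p Nat.prime_two (Ne.symm hp2) T hT2' 3 hchar)
  have hc1 : c = 1 := by
    obtain ⟨k, hk⟩ := hcodd
    omega
  have hb2 : b = 2 := by omega
  rw [hchar, hc1, hb2, pow_one]

/-- Commuting involutions: structure of a `2 × 2` block. -/
lemma block_of_involution (h2 : (2 : F) ≠ 0) (A : Matrix (Fin 2) (Fin 2) F) (d : F)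
    (hA : A * A = 1) (hd : d * d = 1) (hdet : A.det * d = 1)
    (h1 : bd A d ≠ 1) (hD : bd A d ≠ bd (-1) 1) :
    d = -1 ∧ A 1 1 = -A 0 0 ∧ A 0 0 * A 0 0 + A 0 1 * A 1 0 = 1 := by
  have e00 := congrFun (congrFun hA 0) 0
  have e01 := congrFun (congrFun hA 0) 1
  have e10 := congrFun (congrFun hA 1) 0
  have e11 := congrFun (congrFun hA 1) 1
  simp only [Matrix.mul_apply, Fin.sum_univ_two, Matrix.one_apply_eq] at e00 e11
  rw [Matrix.mul_apply, Fin.sum_univ_two, Matrix.one_apply_ne (by decide)] at e01 e10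
  rw [Matrix.det_fin_two] at hdet
  rcases mul_self_eq_one_iff.mp hd with rfl | rfl
  · exfalso
    rw [mul_one] at hdet
    have hs : A 0 0 + A 1 1 ≠ 0 := by
      intro hs
      have h3 : (2 : F) = 0 := by
        linear_combination (A 0 0) * hs - e00 - hdet
      exact h2 h3
    have hb : A 0 1 = 0 := by
      have h3 : A 0 1 * (A 0 0 + A 1 1) = 0 := by linear_combination e01
      exact (mul_eq_zero.mp h3).resolve_right hs
    have hc : A 1 0 = 0 := by
      have h3 : A 1 0 * (A 0 0 + A 1 1) = 0 := by linear_combination e10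
      exact (mul_eq_zero.mp h3).resolve_right hs
    have had : A 0 0 = A 1 1 := by
      have h3 : (A 0 0 - A 1 1) * (A 0 0 + A 1 1) = 0 := by linear_combination e00 - e11
      exact sub_eq_zero.mp ((mul_eq_zero.mp h3).resolve_right hs)
    have ha : A 0 0 * A 0 0 = 1 := by
      rw [hb, zero_mul, add_zero] at e00
      exact e00
    rcases mul_self_eq_one_iff.mp ha with ha1 | ha1
    · apply h1
      have hA1 : A = 1 := by
        ext i j
        fin_cases i <;> fin_cases j <;> simp [hb, hc, ha1, ← had]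
      rw [hA1, bd_one]
    · apply hD
      have hA1 : A = -1 := by
        ext i j
        fin_cases i <;> fin_cases j <;> simp [hb, hc, ha1, ← had]
      rw [hA1]
  · refine ⟨rfl, ?_, e00⟩
    have h3 : (A 0 0 + A 1 1) * (A 0 0 + A 1 1) = 0 := by
      linear_combination e00 + e11 - 2 * hdet
    have h4 : A 0 0 + A 1 1 = 0 := mul_self_eq_zero.mp h3
    linear_combination h4

/-- Two commuting trace-zero involutions of `GL_2` are equal or opposite. -/
lemma block_commute (h2 : (2 : F) ≠ 0) (A B : Matrix (Fin 2) (Fin 2) F)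
    (hA1 : A 1 1 = -A 0 0) (hA2 : A 0 0 * A 0 0 + A 0 1 * A 1 0 = 1)
    (hB1 : B 1 1 = -B 0 0) (hB2 : B 0 0 * B 0 0 + B 0 1 * B 1 0 = 1)
    (hAB : A * B = B * A) : B = A ∨ B = -A := by
  have e00 := congrFun (congrFun hAB 0) 0
  have e01 := congrFun (congrFun hAB 0) 1
  have e10 := congrFun (congrFun hAB 1) 0
  simp only [Matrix.mul_apply, Fin.sum_univ_two] at e00 e01 e10
  rw [hA1, hB1] at e01 e10
  have k1 : A 0 1 * B 1 0 = B 0 1 * A 1 0 := by linear_combination e00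
  have k2 : A 0 0 * B 0 1 = B 0 0 * A 0 1 := by
    have h3 : 2 * (A 0 0 * B 0 1 - B 0 0 * A 0 1) = 0 := by linear_combination e01
    exact sub_eq_zero.mp ((mul_eq_zero.mp h3).resolve_left h2)
  have k3 : A 1 0 * B 0 0 = B 1 0 * A 0 0 := by
    have h3 : 2 * (A 1 0 * B 0 0 - B 1 0 * A 0 0) = 0 := by linear_combination e10
    exact sub_eq_zero.mp ((mul_eq_zero.mp h3).resolve_left h2)
  obtain ⟨lam, hlam⟩ : ∃ lam : F, lam = A 0 0 * B 0 0 + A 0 1 * B 1 0 := ⟨_, rfl⟩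
  have ha : B 0 0 = lam * A 0 0 := by
    rw [hlam]
    linear_combination (-(B 0 0)) * hA2 + (A 0 1) * k3
  have hb : B 0 1 = lam * A 0 1 := by
    rw [hlam]
    linear_combination (-(B 0 1)) * hA2 + (A 0 0) * k2 - (A 0 1) * k1
  have hc : B 1 0 = lam * A 1 0 := by
    rw [hlam]
    linear_combination (-(B 1 0)) * hA2 - (A 0 0) * k3
  have hl : lam * lam = 1 := by
    have h3 := hB2
    rw [ha, hb, hc] at h3
    linear_combination h3 + (-(lam * lam)) * hA2
  rcases mul_self_eq_one_iff.mp hl with h | h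
  · left
    rw [h, one_mul] at ha hb hc
    ext i j
    fin_cases i <;> fin_cases j <;> simp [ha, hb, hc, hA1, hB1]
  · right
    rw [h] at ha hb hc
    ext i j
    fin_cases i <;> fin_cases j <;> simp [ha, hb, hc, hA1, hB1]

end Invol

section Grp

lemma card_centralizer_conj' {G : Type*} [Group G] (g t : G) :
    Nat.card (Subgroup.centralizer ({g * t * g⁻¹} : Set G))
      = Nat.card (Subgroup.centralizer ({t} : Set G)) := by
  apply Nat.card_congr
  refine ⟨fun c => ⟨g⁻¹ * c.1 * g, ?_⟩, fun c => ⟨g * c.1 * g⁻¹, ?_⟩, ?_, ?_⟩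
  · rw [Subgroup.mem_centralizer_singleton_iff]
    have h := Subgroup.mem_centralizer_singleton_iff.mp c.2
    calc g⁻¹ * c.1 * g * t = g⁻¹ * (c.1 * (g * t * g⁻¹)) * g := by group
      _ = g⁻¹ * ((g * t * g⁻¹) * c.1) * g := by rw [h]
      _ = t * (g⁻¹ * c.1 * g) := by group
  · rw [Subgroup.mem_centralizer_singleton_iff]
    have h := Subgroup.mem_centralizer_singleton_iff.mp c.2
    calc g * c.1 * g⁻¹ * (g * t * g⁻¹) = g * (c.1 * t) * g⁻¹ := by group
      _ = g * (t * c.1) * g⁻¹ := by rw [h]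
      _ = g * t * g⁻¹ * (g * c.1 * g⁻¹) := by group
  · intro c
    apply Subtype.ext
    simp only
    group
  · intro c
    apply Subtype.ext
    simp only
    group

lemma card_conj_mul_card_centralizer {G : Type*} [Group G] (g : G) :
    Nat.card {h : G // IsConj g h} * Nat.card (Subgroup.centralizer ({g} : Set G))
      = Nat.card G := by
  rw [Subgroup.nat_card_centralizer_nat_card_stabilizer]
  have h1 := Nat.card_congr (MulAction.orbitProdStabilizerEquivGroup (ConjAct G) g)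
  rw [Nat.card_prod] at h1
  have h2 : Nat.card (MulAction.orbit (ConjAct G) g) = Nat.card {h : G // IsConj g h} := by
    apply Nat.card_congr
    exact Equiv.subtypeEquivRight (fun h => by rw [ConjAct.mem_orbit_conjAct, isConj_comm])
  rw [← h2, h1]
  rfl

end Grp

section SU3

set_option linter.unusedSectionVars false

variable {F : Type*} [Field F] [Fintype F] {q : ℕ}

lemma su_coe_mul {n : ℕ} (x y : ↥(Cfsg.SU n F q)) :
    ((x * y).1.1 : Matrix (Fin n) (Fin n) F) = x.1.1 * y.1.1 := rfl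

lemma su_coe_one {n : ℕ} : ((1 : ↥(Cfsg.SU n F q)).1.1 : Matrix (Fin n) (Fin n) F) = 1 := rfl

lemma su_ext {n : ℕ} {x y : ↥(Cfsg.SU n F q)}
    (h : (x.1.1 : Matrix (Fin n) (Fin n) F) = y.1.1) : x = y := Subtype.ext (Subtype.ext h)

lemma mem_SU_iff_sT {σ : F →+* F} (hσq : ∀ x, σ x = x ^ q) (hσ : ∀ x, σ (σ x) = x) {n : ℕ}
    (g : Matrix.SpecialLinearGroup (Fin n) F) :
    g ∈ Cfsg.SU n F q ↔ sT σ (g.1 : Matrix (Fin n) (Fin n) F) * g.1 = 1 := by
  rw [mem_SU_iff]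
  constructor
  · intro h
    apply sT_mul_self_of_unitary hσ
    intro u v
    have h1 := h u v
    rw [hermForm_eq q σ hσq, hermForm_eq q σ hσq] at h1
    exact h1
  · intro h u v
    rw [hermForm_eq q σ hσq, hermForm_eq q σ hσq]
    exact unitary_of_sT_mul_self hσ h u v

lemma mem_GU_iff_sT {σ : F →+* F} (hσq : ∀ x, σ x = x ^ q) (hσ : ∀ x, σ (σ x) = x) {n : ℕ}
    (g : GL (Fin n) F) :
    g ∈ Cfsg.GU n F q ↔ sT σ (g.1 : Matrix (Fin n) (Fin n) F) * g.1 = 1 := by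
  change (∀ u v : Fin n → F, Cfsg.hermForm n F q ((g.1 : Matrix (Fin n) (Fin n) F) *ᵥ u)
    ((g.1 : Matrix (Fin n) (Fin n) F) *ᵥ v) = Cfsg.hermForm n F q u v) ↔ _
  constructor
  · intro h
    apply sT_mul_self_of_unitary hσ
    intro u v
    have h1 := h u v
    rw [hermForm_eq q σ hσq, hermForm_eq q σ hσq] at h1
    exact h1
  · intro h u v
    rw [hermForm_eq q σ hσq, hermForm_eq q σ hσq]
    exact unitary_of_sT_mul_self hσ h u v

lemma exists_SU3_bd {σ : F →+* F} (hσq : ∀ x, σ x = x ^ q) (hσ : ∀ x, σ (σ x) = x)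
    (A : Matrix (Fin 2) (Fin 2) F) (d : F) (hA : sT σ A * A = 1) (hd : σ d * d = 1)
    (hdet : A.det * d = 1) :
    ∃ g : ↥(Cfsg.SU 3 F q), (g.1.1 : Matrix (Fin 3) (Fin 3) F) = bd A d := by
  obtain ⟨g₀, hg₀⟩ : ∃ g₀ : Matrix.SpecialLinearGroup (Fin 3) F,
      (g₀.1 : Matrix (Fin 3) (Fin 3) F) = bd A d :=
    ⟨⟨bd A d, by rw [det_bd, hdet]⟩, rfl⟩
  refine ⟨⟨g₀, ?_⟩, hg₀⟩
  rw [mem_SU_iff_sT hσq hσ, hg₀, sT_bd, bd_mul, hA, hd, bd_one]

/-- All involutions of `SU_3(q)`, `q` odd, are conjugate. -/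
theorem su3_involutions_isConj (hF : Fintype.card F = q ^ 2) (p : ℕ) [Fact p.Prime] [CharP F p]
    (hp2 : p ≠ 2) (x y : ↥(Cfsg.SU 3 F q)) (hx1 : x ≠ 1) (hx2 : x * x = 1) (hy1 : y ≠ 1)
    (hy2 : y * y = 1) : IsConj x y := by
  have hcop : (2 : ℕ).Coprime p := (Nat.coprime_primes Nat.prime_two Fact.out).mpr (Ne.symm hp2)
  apply su_isConj_of_charpoly_eq hF p 3 x y 2 2 hcop hcop (by rw [pow_two, hx2])
    (by rw [pow_two, hy2])
  rw [charpoly_involution_SL3 p hp2 _ (by rw [← su_coe_mul, hx2]; rfl)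
      (fun h => hx1 (su_ext h)) x.1.2,
    charpoly_involution_SL3 p hp2 _ (by rw [← su_coe_mul, hy2]; rfl)
      (fun h => hy1 (su_ext h)) y.1.2]

lemma centralizer_data {σ : F →+* F} (hσq : ∀ x, σ x = x ^ q) (hσ : ∀ x, σ (σ x) = x)
    (h2 : (2 : F) ≠ 0) (t₀ : ↥(Cfsg.SU 3 F q))
    (ht₀ : (t₀.1.1 : Matrix (Fin 3) (Fin 3) F) = bd (-1) 1)
    (c : ↥(Cfsg.SU 3 F q)) (hc : c * t₀ = t₀ * c) :
    ∃ (A : Matrix (Fin 2) (Fin 2) F) (d : F), A = tl c.1.1 ∧
      (c.1.1 : Matrix (Fin 3) (Fin 3) F) = bd A d ∧ sT σ A * A = 1 ∧ σ d * d = 1 ∧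
      A.det * d = 1 := by
  obtain ⟨M, hMdef⟩ : ∃ M : Matrix (Fin 3) (Fin 3) F, M = c.1.1 := ⟨_, rfl⟩
  have hM : M * bd (-1) 1 = bd (-1) 1 * M := by
    rw [hMdef, ← ht₀, ← su_coe_mul, ← su_coe_mul, hc]
  have h1 := eq_bd_of_commute h2 _ hM
  have h3 : sT σ M * M = 1 := by
    rw [hMdef]
    exact (mem_SU_iff_sT hσq hσ c.1).mp c.2
  have h4 : M.det = 1 := by
    rw [hMdef]
    exact c.1.2
  obtain ⟨A, hA⟩ : ∃ A : Matrix (Fin 2) (Fin 2) F, A = tl M := ⟨_, rfl⟩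
  obtain ⟨d, hd⟩ : ∃ d : F, d = M 2 2 := ⟨_, rfl⟩
  rw [← hA, ← hd] at h1
  rw [h1, sT_bd, bd_mul, ← bd_one] at h3
  obtain ⟨h5, h6⟩ := bd_injective h3
  rw [h1, det_bd] at h4
  exact ⟨A, d, by rw [hA, hMdef], by rw [← hMdef, h1], h5, h6, h4⟩

/-- The centraliser of `diag(-1,-1,1)` in `SU_3(q)` is in bijection with `GU_2(q)`. -/
theorem card_centralizer_bd {σ : F →+* F} (hσq : ∀ x, σ x = x ^ q) (hσ : ∀ x, σ (σ x) = x)
    (h2 : (2 : F) ≠ 0) (t₀ : ↥(Cfsg.SU 3 F q))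
    (ht₀ : (t₀.1.1 : Matrix (Fin 3) (Fin 3) F) = bd (-1) 1) :
    Nat.card (Subgroup.centralizer ({t₀} : Set ↥(Cfsg.SU 3 F q))) = Nat.card ↥(Cfsg.GU 2 F q) := by
  classical
  have hdata : ∀ c : Subgroup.centralizer ({t₀} : Set ↥(Cfsg.SU 3 F q)),
      (c.1.1.1 : Matrix (Fin 3) (Fin 3) F) = bd (tl c.1.1.1) ((tl c.1.1.1).det)⁻¹ ∧
        sT σ (tl c.1.1.1) * tl c.1.1.1 = 1 := by
    intro c
    obtain ⟨A, d, hA, h1, h3, -, h5⟩ := centralizer_data hσq hσ h2 t₀ ht₀ c.1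
      (Subgroup.mem_centralizer_singleton_iff.mp c.2)
    have hd : d = A.det⁻¹ := eq_inv_of_mul_eq_one_right h5
    rw [← hA]
    exact ⟨by rw [h1, hd], h3⟩
  obtain ⟨f, hf⟩ : ∃ f : Subgroup.centralizer ({t₀} : Set ↥(Cfsg.SU 3 F q)) → ↥(Cfsg.GU 2 F q),
      ∀ c, ((f c).1.1 : Matrix (Fin 2) (Fin 2) F) = tl c.1.1.1 :=
    ⟨fun c => ⟨⟨tl c.1.1.1, sT σ (tl c.1.1.1), mul_eq_one_comm.mp (hdata c).2, (hdata c).2⟩,
      (mem_GU_iff_sT hσq hσ _).mpr (hdata c).2⟩, fun c => rfl⟩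
  apply Nat.card_eq_of_bijective f
  constructor
  · intro c₁ c₂ h
    have h1 : tl c₁.1.1.1 = tl c₂.1.1.1 := by rw [← hf, ← hf, h]
    apply Subtype.ext
    apply su_ext
    rw [(hdata c₁).1, (hdata c₂).1, h1]
  · intro g
    have hg : sT σ (g.1.1 : Matrix (Fin 2) (Fin 2) F) * g.1.1 = 1 :=
      (mem_GU_iff_sT hσq hσ g.1).mp g.2
    have hdet : σ (g.1.1 : Matrix (Fin 2) (Fin 2) F).det * (g.1.1 : Matrix (Fin 2) (Fin 2) F).det
        = 1 := by
      rw [← det_sT, ← Matrix.det_mul, hg, Matrix.det_one]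
    have hdet0 : (g.1.1 : Matrix (Fin 2) (Fin 2) F).det ≠ 0 := by
      intro h0
      rw [h0, mul_zero] at hdet
      exact zero_ne_one hdet
    obtain ⟨c, hc⟩ := exists_SU3_bd hσq hσ (g.1.1 : Matrix (Fin 2) (Fin 2) F)
      ((g.1.1 : Matrix (Fin 2) (Fin 2) F).det)⁻¹ hg
      (by rw [map_inv₀, ← mul_inv, hdet, inv_one]) (mul_inv_cancel₀ hdet0)
    have hcm : c ∈ Subgroup.centralizer ({t₀} : Set ↥(Cfsg.SU 3 F q)) := by
      rw [Subgroup.mem_centralizer_singleton_iff]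
      apply su_ext
      rw [su_coe_mul, su_coe_mul, hc, ht₀, bd_mul, bd_mul]
      simp
    refine ⟨⟨c, hcm⟩, ?_⟩
    apply Subtype.ext
    apply Units.ext
    rw [hf]
    change tl (c.1.1 : Matrix (Fin 3) (Fin 3) F) = g.1.1
    rw [hc, tl_bd]

/-- Uniqueness of the third involution commuting with two commuting involutions (the first one
being `diag(-1,-1,1)`). -/
theorem third_unique (h2 : (2 : F) ≠ 0) (t₀ : ↥(Cfsg.SU 3 F q))
    (ht₀ : (t₀.1.1 : Matrix (Fin 3) (Fin 3) F) = bd (-1) 1) (x y : ↥(Cfsg.SU 3 F q))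
    (hx1 : x ≠ 1) (hx2 : x * x = 1) (hxt : x ≠ t₀) (hxc : x * t₀ = t₀ * x)
    (hy1 : y ≠ 1) (hy2 : y * y = 1) (hyt : y ≠ t₀) (hyx : y ≠ x) (hyc : y * t₀ = t₀ * y)
    (hxy : x * y = y * x) : y = t₀ * x := by
  have key : ∀ z : ↥(Cfsg.SU 3 F q), z ≠ 1 → z * z = 1 → z ≠ t₀ → z * t₀ = t₀ * z →
      ∃ A : Matrix (Fin 2) (Fin 2) F, (z.1.1 : Matrix (Fin 3) (Fin 3) F) = bd A (-1) ∧
        A 1 1 = -A 0 0 ∧ A 0 0 * A 0 0 + A 0 1 * A 1 0 = 1 := by
    intro z hz1 hz2 hzt hzc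
    obtain ⟨M, hMdef⟩ : ∃ M : Matrix (Fin 3) (Fin 3) F, M = z.1.1 := ⟨_, rfl⟩
    have hM : M * bd (-1) 1 = bd (-1) 1 * M := by
      rw [hMdef, ← ht₀, ← su_coe_mul, ← su_coe_mul, hzc]
    have h1 := eq_bd_of_commute h2 _ hM
    obtain ⟨A, hA⟩ : ∃ A : Matrix (Fin 2) (Fin 2) F, A = tl M := ⟨_, rfl⟩
    obtain ⟨d, hd⟩ : ∃ d : F, d = M 2 2 := ⟨_, rfl⟩
    rw [← hA, ← hd] at h1
    have h3 : M * M = 1 := by
      rw [hMdef, ← su_coe_mul, hz2]
      rfl
    have h4 : M.det = 1 := by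
      rw [hMdef]
      exact z.1.2
    rw [h1, bd_mul, ← bd_one] at h3
    obtain ⟨h5, h6⟩ := bd_injective h3
    rw [h1, det_bd] at h4
    have h7 : bd A d ≠ 1 := by
      intro h
      apply hz1
      apply su_ext
      rw [← hMdef, h1, h]
      rfl
    have h8 : bd A d ≠ bd (-1) 1 := by
      intro h
      apply hzt
      apply su_ext
      rw [← hMdef, h1, h, ht₀]
    obtain ⟨hd1, h9, h10⟩ := block_of_involution h2 A d h5 h6 h4 h7 h8
    exact ⟨A, by rw [← hMdef, h1, hd1], h9, h10⟩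
  obtain ⟨A, hXA, hA1, hA2⟩ := key x hx1 hx2 hxt hxc
  obtain ⟨B, hYB, hB1, hB2⟩ := key y hy1 hy2 hyt hyc
  have hAB : A * B = B * A := by
    have h1 : (x.1.1 : Matrix (Fin 3) (Fin 3) F) * y.1.1 = y.1.1 * x.1.1 := by
      rw [← su_coe_mul, ← su_coe_mul, hxy]
    rw [hXA, hYB, bd_mul, bd_mul] at h1
    exact (bd_injective h1).1
  rcases block_commute h2 A B hA1 hA2 hB1 hB2 hAB with h | h
  · exfalso
    apply hyx
    apply su_ext
    rw [hYB, hXA, h]
  · apply su_ext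
    rw [su_coe_mul, hYB, ht₀, hXA, bd_mul, h]
    simp

end SU3

end Cfsg.Agent.Lib.Helper47
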