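import Cfsg.Agent.Lib.Helper81.Sl2Base

/-!
# Normal elementary abelian subgroups of Sylow `2`-subgroups of `Sp_{2n}(q)`, `q` odd

The inductive wreath-product construction of `Helper81.SpSyl`, carrying a normal elementary
abelian subgroup of order `2 ^ m` instead of the `SqDer` property.
-/

set_option autoImplicit false

namespace Cfsg.Agent.Lib.Helper47

open Cfsg.Agent.Lib.Helper74.Wreath Cfsg.Agent.Lib.Helper74.Symp Cfsg.Agent.Lib.Helper81.SpSyl

universe u

section NE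

/-- `T` has a normal elementary abelian `2`-subgroup of order `2 ^ m`. -/
def HasNE (T : Type*) [Group T] (m : ℕ) : Prop :=
  ∃ E : Subgroup T, E.Normal ∧ (∀ x ∈ E, ∀ y ∈ E, x * y = y * x) ∧ (∀ x ∈ E, x ^ 2 = 1) ∧
    Nat.card E = 2 ^ m

theorem HasNE.of_mulEquiv {A B : Type*} [Group A] [Group B] (e : A ≃* B) {m : ℕ}
    (h : HasNE A m) : HasNE B m := by
  obtain ⟨E, hn, hc, h2, hcard⟩ := h
  refine ⟨E.map e.toMonoidHom, hn.map _ e.surjective, ?_, ?_, ?_⟩
  · rintro _ ⟨x, hx, rfl⟩ _ ⟨y, hy, rfl⟩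
    show e x * e y = e y * e x
    rw [← map_mul, ← map_mul, hc x hx y hy]
  · rintro _ ⟨x, hx, rfl⟩
    show e x ^ 2 = 1
    rw [← map_pow, h2 x hx, map_one]
  · rw [Subgroup.card_map_of_injective e.injective, hcard]

theorem HasNE.prod {A B : Type*} [Group A] [Group B] {a b : ℕ} (hA : HasNE A a)
    (hB : HasNE B b) : HasNE (A × B) (a + b) := by
  obtain ⟨E₁, hn₁, hc₁, h2₁, hcard₁⟩ := hA
  obtain ⟨E₂, hn₂, hc₂, h2₂, hcard₂⟩ := hB
  refine ⟨E₁.prod E₂, Subgroup.prod_normal E₁ E₂, ?_, ?_, ?_⟩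
  · rintro ⟨x₁, x₂⟩ ⟨hx₁, hx₂⟩ ⟨y₁, y₂⟩ ⟨hy₁, hy₂⟩
    exact Prod.ext (hc₁ x₁ hx₁ y₁ hy₁) (hc₂ x₂ hx₂ y₂ hy₂)
  · rintro ⟨x₁, x₂⟩ ⟨hx₁, hx₂⟩
    exact Prod.ext (h2₁ x₁ hx₁) (h2₂ x₂ hx₂)
  · rw [Nat.card_congr (Subgroup.prodEquiv E₁ E₂).toEquiv, Nat.card_prod, hcard₁, hcard₂, pow_add]

open RegularWreathProduct

variable {D Q : Type*} [Group D] [Group Q]

/-- The subgroup `E^Q` of the base group of a regular wreath product. -/
def wrBase (E : Subgroup D) : Subgroup (D ≀ᵣ Q) where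
  carrier := {a | a.right = 1 ∧ ∀ q, a.left q ∈ E}
  mul_mem' := by
    rintro a b ⟨ha1, ha2⟩ ⟨hb1, hb2⟩
    refine ⟨by rw [RegularWreathProduct.mul_right, ha1, hb1, one_mul], fun q => ?_⟩
    rw [RegularWreathProduct.mul_left]
    exact E.mul_mem (ha2 q) (hb2 _)
  one_mem' := ⟨rfl, fun q => E.one_mem⟩
  inv_mem' := by
    rintro a ⟨ha1, ha2⟩
    refine ⟨by rw [RegularWreathProduct.inv_right, ha1, inv_one], fun q => ?_⟩
    rw [RegularWreathProduct.inv_left]
    exact E.inv_mem (ha2 _)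

theorem mem_wrBase (E : Subgroup D) (a : D ≀ᵣ Q) :
    a ∈ wrBase (Q := Q) E ↔ a.right = 1 ∧ ∀ q, a.left q ∈ E := Iff.rfl

theorem wrBase_normal {E : Subgroup D} (hE : E.Normal) : (wrBase (Q := Q) E).Normal := by
  constructor
  rintro a ⟨ha1, ha2⟩ g
  refine ⟨by simp [ha1], fun q => ?_⟩
  have h1 : (g * a * g⁻¹).left q = g.left q * a.left (g.right⁻¹ * q) * (g.left q)⁻¹ := by
    simp [ha1]
  rw [h1]
  exact hE.conj_mem _ (ha2 _) _

theorem card_wrBase [Finite Q] (E : Subgroup D) :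
    Nat.card (wrBase (Q := Q) E) = Nat.card E ^ Nat.card Q := by
  rw [← Nat.card_fun]
  apply Nat.card_congr
  exact
    { toFun := fun a q => ⟨a.1.left q, a.2.2 q⟩
      invFun := fun f => ⟨⟨fun q => (f q : D), 1⟩, rfl, fun q => (f q).2⟩
      left_inv := by
        rintro ⟨⟨l, r⟩, hr, hl⟩
        apply Subtype.ext
        have hr' : r = 1 := hr
        subst hr'
        rfl
      right_inv := fun f => rfl }

theorem HasNE.wreath [Finite Q] (hQ : Nat.card Q = 2) {m : ℕ} (h : HasNE D m) :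
    HasNE (D ≀ᵣ Q) (2 * m) := by
  obtain ⟨E, hn, hc, h2, hcard⟩ := h
  refine ⟨wrBase E, wrBase_normal hn, ?_, ?_, ?_⟩
  · rintro a ⟨ha1, ha2⟩ b ⟨hb1, hb2⟩
    ext q
    · simp only [RegularWreathProduct.mul_left, Pi.mul_apply, ha1, hb1, inv_one, one_mul]
      exact hc _ (ha2 q) _ (hb2 q)
    · simp [ha1, hb1]
  · rintro a ⟨ha1, ha2⟩
    rw [pow_two]
    ext q
    · simp only [RegularWreathProduct.mul_left, Pi.mul_apply, ha1, inv_one, one_mul,
        RegularWreathProduct.one_left, Pi.one_apply]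
      rw [← pow_two]
      exact h2 _ (ha2 q)
    · simp [ha1]
  · rw [card_wrBase, hcard, hQ, ← pow_mul, mul_comm]

end NE

section HasSylNE

open RegularWreathProduct

/-- Some finite `2`-group with a normal elementary abelian subgroup of order `2 ^ m` and order
divisible by `2 ^ (m * c + v₂(m!))` acts faithfully on `l ⊕ l → F`, `l` of cardinality `m`,
preserving the standard symplectic form. -/
def HasSylNE (F : Type u) [Field F] (c m : ℕ) : Prop :=
  ∃ (l : Type) (_ : Fintype l) (_ : Nonempty l) (T : Type u) (_ : Group T) (_ : Finite T)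
    (ρ : Representation F T (l ⊕ l → F)),
    Fintype.card l = m ∧ IsPGroup 2 T ∧
      2 ^ (m * c + padicValNat 2 m.factorial) ∣ Nat.card T ∧ HasNE T m ∧
      Function.Injective ρ ∧ ∀ g u v, om l (ρ g u) (ρ g v) = om l u v

theorem HasSylNE.step {F : Type u} [Field F] {c m : ℕ} (h : HasSylNE F c m)
    (hν : padicValNat 2 (2 * m).factorial ≤ 2 * padicValNat 2 m.factorial + 1) :
    HasSylNE F c (2 * m) := by
  have hfact : Fact (Nat.Prime 2) := ⟨Nat.prime_two⟩
  obtain ⟨l, _, _, T, _, _, ρ, hcard, hT, hdvd, hne, hinj, hpres⟩ := h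
  have hntQ : Nontrivial (Multiplicative (ZMod 2)) := by
    have : Fact (1 < 2) := ⟨by norm_num⟩
    infer_instance
  have hσinj := wrRep_injective (Q := Multiplicative (ZMod 2)) ρ hinj
  have hσpres : ∀ (a : T ≀ᵣ Multiplicative (ZMod 2))
      (x y : Multiplicative (ZMod 2) → (l ⊕ l → F)),
      (∑ q, om l (wrRep ρ a x q) (wrRep ρ a y q)) = ∑ q, om l (x q) (y q) := by
    intro a x y
    simp only [wrRep_apply, hpres]
    exact Equiv.sum_comp (Equiv.mulLeft a.right⁻¹) (fun q => om l (x q) (y q))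
  obtain ⟨ρ', hinj', hpres'⟩ := transport (l := Multiplicative (ZMod 2) × l)
    (fun x y : Multiplicative (ZMod 2) → (l ⊕ l → F) => ∑ q, om l (x q) (y q))
    ((LinearEquiv.funCongrLeft F F (Equiv.prodSumDistrib (Multiplicative (ZMod 2)) l l)).trans
      (LinearEquiv.curry F F (Multiplicative (ZMod 2)) (l ⊕ l)))
    (by
      intro u v
      simp only [om, Fintype.sum_prod_type]
      rfl)
    (wrRep ρ) hσpres hσinj
  have hcQ : Nat.card (Multiplicative (ZMod 2)) = 2 := by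
    rw [Nat.card_eq_fintype_card, Fintype.card_multiplicative, ZMod.card]
  have hc : Nat.card (T ≀ᵣ Multiplicative (ZMod 2)) = Nat.card T ^ 2 * 2 := by
    rw [RegularWreathProduct.card, hcQ]
  refine ⟨Multiplicative (ZMod 2) × l, inferInstance, inferInstance,
    T ≀ᵣ Multiplicative (ZMod 2), inferInstance, inferInstance, ρ', ?_, ?_, ?_, ?_,
    hinj', hpres'⟩
  · rw [Fintype.card_prod, Fintype.card_multiplicative, ZMod.card, hcard]
  · obtain ⟨a, ha⟩ := IsPGroup.iff_card.1 hT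
    have hc' : Nat.card (T ≀ᵣ Multiplicative (ZMod 2)) = 2 ^ (a * 2 + 1) := by
      rw [hc, ha, ← pow_mul, pow_succ]
    exact IsPGroup.of_card hc'
  · rw [hc]
    have h1 : (2 ^ (m * c + padicValNat 2 m.factorial)) ^ 2 * 2 ∣ Nat.card T ^ 2 * 2 :=
      mul_dvd_mul (pow_dvd_pow_of_dvd hdvd 2) (dvd_refl 2)
    refine dvd_trans ?_ h1
    rw [← pow_mul, ← pow_succ]
    apply pow_dvd_pow
    have h2 : 2 * m * c = m * c * 2 := by ring
    rw [h2]
    omega
  · exact HasNE.wreath hcQ hne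

theorem HasSylNE.prod {F : Type u} [Field F] {c a b : ℕ} (h₁ : HasSylNE F c a)
    (h₂ : HasSylNE F c b)
    (hν : padicValNat 2 (a + b).factorial ≤
      padicValNat 2 a.factorial + padicValNat 2 b.factorial) :
    HasSylNE F c (a + b) := by
  have hfact : Fact (Nat.Prime 2) := ⟨Nat.prime_two⟩
  obtain ⟨l₁, _, _, T₁, _, _, ρ₁, hcard₁, hT₁, hdvd₁, hne₁, hinj₁, hpres₁⟩ := h₁
  obtain ⟨l₂, _, _, T₂, _, _, ρ₂, hcard₂, hT₂, hdvd₂, hne₂, hinj₂, hpres₂⟩ := h₂
  let σ : Representation F (T₁ × T₂) ((l₁ ⊕ l₁ → F) × (l₂ ⊕ l₂ → F)) :=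
    { toFun := fun g => LinearMap.prodMap (ρ₁ g.1) (ρ₂ g.2)
      map_one' := by
        show LinearMap.prodMap (ρ₁ 1) (ρ₂ 1) = 1
        rw [map_one, map_one]
        exact LinearMap.prodMap_one
      map_mul' := by
        intro x y
        show LinearMap.prodMap (ρ₁ (x.1 * y.1)) (ρ₂ (x.2 * y.2)) = _
        rw [map_mul, map_mul]
        refine LinearMap.ext fun v => ?_
        simp [Module.End.mul_apply] }
  have hσinj : Function.Injective σ := by
    intro x y hxy
    refine Prod.ext (hinj₁ ?_) (hinj₂ ?_)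
    · refine LinearMap.ext fun w => ?_
      exact congrArg (fun f : Module.End F ((l₁ ⊕ l₁ → F) × (l₂ ⊕ l₂ → F)) => (f (w, 0)).1) hxy
    · refine LinearMap.ext fun w => ?_
      exact congrArg (fun f : Module.End F ((l₁ ⊕ l₁ → F) × (l₂ ⊕ l₂ → F)) => (f (0, w)).2) hxy
  obtain ⟨ρ', hinj', hpres'⟩ := transport (l := l₁ ⊕ l₂)
    (fun x y : (l₁ ⊕ l₁ → F) × (l₂ ⊕ l₂ → F) => om l₁ x.1 y.1 + om l₂ x.2 y.2)
    ((LinearEquiv.funCongrLeft F F (Equiv.sumSumSumComm l₁ l₁ l₂ l₂)).trans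
      (LinearEquiv.sumArrowLequivProdArrow (l₁ ⊕ l₁) (l₂ ⊕ l₂) F F))
    (by
      intro u v
      simp only [om]
      rw [Fintype.sum_sum_type]
      rfl)
    σ
    (by
      intro g x y
      show om l₁ (ρ₁ g.1 x.1) (ρ₁ g.1 y.1) + om l₂ (ρ₂ g.2 x.2) (ρ₂ g.2 y.2) = _
      rw [hpres₁, hpres₂])
    hσinj
  obtain ⟨j₁, hj₁⟩ := IsPGroup.iff_card.1 hT₁
  obtain ⟨j₂, hj₂⟩ := IsPGroup.iff_card.1 hT₂
  refine ⟨l₁ ⊕ l₂, inferInstance, inferInstance, T₁ × T₂, inferInstance, inferInstance, ρ',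
    ?_, ?_, ?_, HasNE.prod hne₁ hne₂, hinj', hpres'⟩
  · rw [Fintype.card_sum, hcard₁, hcard₂]
  · have hc : Nat.card (T₁ × T₂) = 2 ^ (j₁ + j₂) := by
      rw [Nat.card_prod, hj₁, hj₂, pow_add]
    exact IsPGroup.of_card hc
  · rw [Nat.card_prod]
    refine dvd_trans ?_ (mul_dvd_mul hdvd₁ hdvd₂)
    rw [← pow_add]
    apply pow_dvd_pow
    have h2 : (a + b) * c = a * c + b * c := by ring
    rw [h2]
    omega

/-- The base case gives every degree. -/
theorem hasSylNE_all {F : Type u} [Field F] {c : ℕ} (h1 : HasSylNE F c 1) :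
    ∀ n, 1 ≤ n → HasSylNE F c n := by
  intro n
  induction n using Nat.strong_induction_on with
  | _ n ih =>
    intro hn
    rcases Nat.lt_or_ge n 2 with h2 | h2
    · have h3 : n = 1 := by omega
      rw [h3]
      exact h1
    · obtain ⟨k, hk⟩ : ∃ k, k = Nat.log 2 n := ⟨_, rfl⟩
      have hlo : 2 ^ k ≤ n := by
        rw [hk]
        exact Nat.pow_log_le_self 2 (by omega)
      have hhi : n < 2 ^ (k + 1) := by
        rw [hk]
        exact Nat.lt_pow_succ_log_self (by norm_num) n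
      have hk1 : 1 ≤ k := by
        by_contra hcon
        have h3 : k = 0 := by omega
        rw [h3] at hhi
        norm_num at hhi
        omega
      rcases Nat.eq_or_lt_of_le hlo with heq | hlt
      · obtain ⟨j, rfl⟩ : ∃ j, k = j + 1 := ⟨k - 1, by omega⟩
        have hm : 2 * 2 ^ j = n := by
          rw [← heq, pow_succ]
          ring
        have hj1 : 1 ≤ 2 ^ j := Nat.one_le_two_pow
        rw [← hm]
        apply (ih (2 ^ j) (by omega) hj1).step
        rw [mul_comm 2, ← pow_succ, val_two_pow_factorial, val_two_pow_factorial, pow_succ]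
        omega
      · obtain ⟨r, hr⟩ : ∃ r, n = 2 ^ k + r := ⟨n - 2 ^ k, by omega⟩
        have hr0 : 0 < r := by omega
        have hrk : r < 2 ^ k := by
          rw [pow_succ] at hhi
          omega
        have hk0 : 1 ≤ 2 ^ k := Nat.one_le_two_pow
        rw [hr]
        apply (ih (2 ^ k) (by omega) hk0).prod (ih r (by omega) (by omega))
        rw [val_factorial_add_two_pow k r hrk]

/-- Conversion to an embedding into the symplectic group. -/
theorem HasSylNE.exists_hom {F : Type u} [Field F] {c n : ℕ} (h : HasSylNE F c n) :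
    ∃ (T : Type u) (_ : Group T) (_ : Finite T)
      (φ : T →* Matrix.symplecticGroup (Fin n) F),
      IsPGroup 2 T ∧ 2 ^ (n * c + padicValNat 2 n.factorial) ∣ Nat.card T ∧ HasNE T n ∧
        Function.Injective φ := by
  classical
  obtain ⟨l, _, _, T, _, _, ρ, hcard, hT, hdvd, hne, hinj, hpres⟩ := h
  have hc : Fintype.card l = Fintype.card (Fin n) := by
    rw [hcard, Fintype.card_fin]
  let e : l ≃ Fin n := Fintype.equivOfCardEq hc
  obtain ⟨ρ', hinj', hpres'⟩ := transport (l := Fin n)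
    (fun x y : (l ⊕ l → F) => om l x y)
    (LinearEquiv.funCongrLeft F F (Equiv.sumCongr e e))
    (by
      intro u v
      simp only [om]
      rw [← Equiv.sum_comp e]
      rfl)
    ρ hpres hinj
  have hmem : ∀ g, (MonoidHomClass.toMonoidHom (LinearMap.toMatrixAlgEquiv' (R := F)
      (n := Fin n ⊕ Fin n))).comp ρ' g ∈ Matrix.symplecticGroup (Fin n) F := by
    intro g
    refine mem_symp_of_pres (Fin n) _ fun u v => ?_
    have h1 : ∀ w, (LinearMap.toMatrix' (ρ' g)).mulVec w = ρ' g w := by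
      intro w
      rw [← Matrix.toLin'_apply, Matrix.toLin'_toMatrix']
    show om (Fin n) ((LinearMap.toMatrix' (ρ' g)).mulVec u)
      ((LinearMap.toMatrix' (ρ' g)).mulVec v) = _
    rw [h1, h1, hpres']
  refine ⟨T, inferInstance, inferInstance,
    ((MonoidHomClass.toMonoidHom (LinearMap.toMatrixAlgEquiv' (R := F)
      (n := Fin n ⊕ Fin n))).comp ρ').codRestrict _ hmem, hT, hdvd, hne, ?_⟩
  intro a b hab
  apply hinj'
  have h1 := congrArg Subtype.val hab
  exact (LinearMap.toMatrixAlgEquiv' (R := F) (n := Fin n ⊕ Fin n)).injective h1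

/-- The base case, from the base case of `Helper81`: a nontrivial `2`-group has a central
element of order two. -/
theorem hasSylNE_base {F : Type u} [Field F] [Fintype F] (hodd : Odd (Fintype.card F)) :
    HasSylNE F (padicValNat 2 (Fintype.card F ^ 2 - 1)) 1 := by
  have hfact : Fact (Nat.Prime 2) := ⟨Nat.prime_two⟩
  obtain ⟨l, hl1, hl2, T, hT1, hT2, ρ, hcard, hT, hdvd, -, hinj, hpres⟩ :=
    Cfsg.Agent.Lib.Helper81.Sl2Base.hasSyl_base hodd
  refine ⟨l, hl1, hl2, T, hT1, hT2, ρ, hcard, hT, hdvd, ?_, hinj, hpres⟩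
  -- `T` is nontrivial
  have hq1 : 1 < Fintype.card F := Fintype.one_lt_card
  have hc1 : 1 ≤ padicValNat 2 (Fintype.card F ^ 2 - 1) := by
    have h2 : 2 ∣ Fintype.card F ^ 2 - 1 := by
      obtain ⟨t, ht⟩ := hodd
      rw [ht]
      exact ⟨2 * t ^ 2 + 2 * t, by
        have : (2 * t + 1) ^ 2 = 4 * t ^ 2 + 4 * t + 1 := by ring
        rw [this]
        omega⟩
    have h3 : Fintype.card F ^ 2 - 1 ≠ 0 := by
      have : 2 ≤ Fintype.card F ^ 2 := le_trans hq1 (Nat.le_self_pow (by norm_num) _)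
      omega
    exact one_le_padicValNat_of_dvd h3 h2
  have h2T : 2 ∣ Nat.card T := by
    refine dvd_trans ?_ hdvd
    exact dvd_pow_self 2 (by omega)
  have hntT : Nontrivial T := by
    rw [← Finite.one_lt_card_iff_nontrivial]
    have := Nat.le_of_dvd Nat.card_pos h2T
    omega
  have hntZ : Nontrivial (Subgroup.center T) := hT.center_nontrivial
  have hZ2 : 2 ∣ Nat.card (Subgroup.center T) := by
    obtain ⟨k, hk⟩ := IsPGroup.iff_card.1 (hT.to_subgroup (Subgroup.center T))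
    rw [hk]
    have hk0 : k ≠ 0 := by
      rintro rfl
      rw [pow_zero] at hk
      have := Finite.one_lt_card_iff_nontrivial.mpr hntZ
      omega
    exact dvd_pow_self 2 hk0
  obtain ⟨z, hz⟩ := exists_prime_orderOf_dvd_card' 2 hZ2
  have hzc : ∀ g : T, g * (z : T) = (z : T) * g := fun g => Subgroup.mem_center_iff.mp z.2 g
  have hz2 : orderOf (z : T) = 2 := by
    rw [Subgroup.orderOf_coe]
    exact hz
  have hpowc : ∀ (x : T), x ∈ Subgroup.zpowers (z : T) → ∀ g : T, g * x = x * g := by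
    rintro _ ⟨i, rfl⟩ g
    exact ((Commute.zpow_right (hzc g) i)).eq
  refine ⟨Subgroup.zpowers (z : T), ⟨fun x hx g => ?_⟩, fun x hx y _ => ?_, ?_, ?_⟩
  · rw [hpowc x hx g, mul_inv_cancel_right]
    exact hx
  · exact (hpowc y ‹_› x).symm ▸ rfl
  · rintro _ ⟨i, rfl⟩
    show ((z : T) ^ i) ^ 2 = 1
    rw [← zpow_natCast, ← zpow_mul, mul_comm, zpow_mul, zpow_natCast, ← hz2, pow_orderOf_eq_one,
      one_zpow]
  · rw [Nat.card_zpowers, hz2, pow_one]

end HasSylNE

section SylowNE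

/-- A `2`-group of full `2`-power order embedded in `G` transfers its normal elementary abelian
subgroup to every Sylow `2`-subgroup of `G`. -/
theorem hasNE_sylow_of_hom {G : Type*} [Group G] [Finite G] {T : Type*} [Group T] [Finite T]
    (φ : T →* G) (hφ : Function.Injective φ) (hT : IsPGroup 2 T)
    (hdvd : 2 ^ (Nat.card G).factorization 2 ∣ Nat.card T) {m : ℕ} (hne : HasNE T m)
    (P : Sylow 2 G) : HasNE P m := by
  have hfact : Fact (Nat.Prime 2) := ⟨Nat.prime_two⟩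
  have hcR : Nat.card φ.range = Nat.card T :=
    Nat.card_congr (MonoidHom.ofInjective hφ).toEquiv.symm
  obtain ⟨j, hj⟩ := IsPGroup.iff_card.1 hT
  have h1 : Nat.card φ.range ∣ Nat.card G := Subgroup.card_subgroup_dvd_card _
  have h2 : Nat.card T = 2 ^ (Nat.card G).factorization 2 := by
    rw [hj] at hdvd ⊢
    rw [hcR, hj] at h1
    have h3 : (Nat.card G).factorization 2 ≤ j :=
      (Nat.pow_dvd_pow_iff_le_right (by norm_num)).1 hdvd
    have h4 : j ≤ (Nat.card G).factorization 2 :=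
      (Nat.Prime.pow_dvd_iff_le_factorization Nat.prime_two Nat.card_pos.ne').1 h1
    rw [le_antisymm h4 h3]
  obtain ⟨R, hR⟩ : ∃ R : Sylow 2 G, (R : Subgroup G) = φ.range :=
    ⟨Sylow.ofCard φ.range (by rw [hcR, h2]), rfl⟩
  have e1 : P ≃* R := Sylow.equiv P R
  have e2 : T ≃* (R : Subgroup G) := by
    rw [hR]
    exact MonoidHom.ofInjective hφ
  exact HasNE.of_mulEquiv (e2.trans e1.symm) hne

end SylowNE

end Cfsg.Agent.Lib.Helper47
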