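import Mathlib

set_option autoImplicit false

namespace Cfsg.Agent.Lib.Helper47

open Finset

section nt

variable (q r : ℕ) [hr : Fact r.Prime]

theorem natCast_ne_zero_of_not_dvd (hrq : ¬ r ∣ q) : (q : ZMod r) ≠ 0 := by
  intro h
  exact hrq ((ZMod.natCast_eq_zero_iff q r).mp h)

theorem orderOf_zmod_pos (hrq : ¬ r ∣ q) : 0 < orderOf (q : ZMod r) := by
  rw [orderOf_pos_iff, isOfFinOrder_iff_pow_eq_one]
  refine ⟨r - 1, ?_, ZMod.pow_card_sub_one_eq_one (natCast_ne_zero_of_not_dvd q r hrq)⟩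
  have := hr.out.two_le
  omega

theorem dvd_pow_sub_one_iff (hq : 1 ≤ q) (j : ℕ) :
    r ∣ q ^ j - 1 ↔ orderOf (q : ZMod r) ∣ j := by
  rw [orderOf_dvd_iff_pow_eq_one, ← ZMod.natCast_eq_zero_iff]
  have h1 : 1 ≤ q ^ j := Nat.one_le_pow _ _ hq
  rw [Nat.cast_sub h1, Nat.cast_pow, Nat.cast_one, sub_eq_zero]

theorem padicVal_pow_sub_one (hq : 2 ≤ q) (j : ℕ) (hj : 0 < j) (hjr : j < r) :
    padicValNat r (q ^ j - 1) = if orderOf (q : ZMod r) ∣ j then
      padicValNat r (q ^ orderOf (q : ZMod r) - 1) else 0 := by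
  split_ifs with hd
  · obtain ⟨k, rfl⟩ := hd
    obtain ⟨d, hd⟩ : ∃ d, d = orderOf (q : ZMod r) := ⟨_, rfl⟩
    rw [← hd] at hj hjr ⊢
    have hk : 0 < k := Nat.pos_of_mul_pos_left hj |> fun h => by
      rcases Nat.eq_zero_or_pos k with h0 | h0
      · rw [h0] at hj
        simp at hj
      · exact h0
    have hd0 : 0 < d := by
      rcases Nat.eq_zero_or_pos d with h0 | h0
      · rw [h0] at hj
        simp at hj
      · exact h0
    have hqd : 2 ≤ q ^ d := le_trans hq (Nat.le_self_pow hd0.ne' q)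
    -- geometric sum
    have hgeo : (∑ i ∈ range k, (q ^ d - 1 + 1) ^ i) * (q ^ d - 1) + 1 = (q ^ d - 1 + 1) ^ k :=
      geom_sum_mul_add (q ^ d - 1) k
    have h1 : q ^ d - 1 + 1 = q ^ d := by omega
    rw [h1] at hgeo
    have hS : q ^ (d * k) - 1 = (∑ i ∈ range k, (q ^ d) ^ i) * (q ^ d - 1) := by
      rw [pow_mul]
      omega
    have hSr : ¬ r ∣ ∑ i ∈ range k, (q ^ d) ^ i := by
      rw [← ZMod.natCast_eq_zero_iff]
      push_cast
      have hone : (q : ZMod r) ^ d = 1 := by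
        rw [hd]
        exact pow_orderOf_eq_one _
      simp only [hone, one_pow, sum_const, card_range, nsmul_eq_mul, mul_one]
      rw [ZMod.natCast_eq_zero_iff]
      intro hdvd
      have := Nat.le_of_dvd hk hdvd
      have : k ≤ d * k := Nat.le_mul_of_pos_left k hd0
      omega
    have hS0 : (∑ i ∈ range k, (q ^ d) ^ i) ≠ 0 := by
      intro h0
      apply hSr
      rw [h0]
      exact dvd_zero r
    rw [hS, padicValNat.mul hS0 (by omega), padicValNat.eq_zero_of_not_dvd hSr, zero_add]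
  · apply padicValNat.eq_zero_of_not_dvd
    rw [dvd_pow_sub_one_iff q r (by omega)]
    exact hd

theorem padicVal_cyclotomic (hq : 2 ≤ q) (hrq : ¬ r ∣ q) :
    padicValNat r ((Polynomial.cyclotomic (orderOf (q : ZMod r)) ℤ).eval (q : ℤ)).natAbs
      = padicValNat r (q ^ orderOf (q : ZMod r) - 1) := by
  obtain ⟨d, hd⟩ : ∃ d, d = orderOf (q : ZMod r) := ⟨_, rfl⟩
  have hd0 : 0 < d := by
    rw [hd]
    exact orderOf_zmod_pos q r hrq
  rw [← hd]
  have hprod := Polynomial.prod_cyclotomic_eq_X_pow_sub_one hd0 ℤ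
  have heval := congrArg (Polynomial.eval (q : ℤ)) hprod
  rw [Polynomial.eval_prod, ← Nat.insert_self_properDivisors hd0.ne',
    Finset.prod_insert Nat.self_notMem_properDivisors] at heval
  simp only [Polynomial.eval_sub, Polynomial.eval_pow, Polynomial.eval_X, Polynomial.eval_one]
    at heval
  obtain ⟨c, hc⟩ : ∃ c : ℤ, c = ∏ x ∈ d.properDivisors,
      Polynomial.eval (q : ℤ) (Polynomial.cyclotomic x ℤ) := ⟨_, rfl⟩
  rw [← hc] at heval
  have hqd : 2 ≤ q ^ d := le_trans hq (Nat.le_self_pow hd0.ne' q)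
  have hnat : (((q : ℤ) ^ d - 1 : ℤ)).natAbs = q ^ d - 1 := by
    have : ((q : ℤ) ^ d - 1 : ℤ) = ((q ^ d - 1 : ℕ) : ℤ) := by
      rw [Nat.cast_sub (by omega)]
      push_cast
      ring
    rw [this, Int.natAbs_natCast]
  have hcr : ¬ r ∣ c.natAbs := by
    intro hdvd
    have hdvd' : (r : ℤ) ∣ c := Int.natCast_dvd.mpr hdvd
    rw [hc] at hdvd'
    have hprime : Prime (r : ℤ) := Nat.prime_iff_prime_int.mp hr.out
    obtain ⟨e, he, hre⟩ := (Prime.dvd_finsetProd_iff hprime _).mp hdvd'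
    rw [Nat.mem_properDivisors] at he
    have h1 : Polynomial.eval (q : ℤ) (Polynomial.cyclotomic e ℤ) ∣ (q : ℤ) ^ e - 1 := by
      have := Polynomial.eval_dvd (x := (q : ℤ)) (Polynomial.cyclotomic.dvd_X_pow_sub_one e ℤ)
      simpa using this
    have h2 : (r : ℤ) ∣ (q : ℤ) ^ e - 1 := dvd_trans hre h1
    have h3 : r ∣ q ^ e - 1 := by
      have hqe : 1 ≤ q ^ e := Nat.one_le_pow _ _ (by omega)
      have : ((q : ℤ) ^ e - 1 : ℤ) = ((q ^ e - 1 : ℕ) : ℤ) := by
        rw [Nat.cast_sub hqe]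
        push_cast
        ring
      rw [this] at h2
      exact Int.natCast_dvd_natCast.mp h2
    rw [dvd_pow_sub_one_iff q r (by omega), ← hd] at h3
    have hepos : 0 < e := Nat.pos_of_dvd_of_pos he.1 hd0
    have := Nat.le_of_dvd hepos h3
    omega
  have hmul : q ^ d - 1 = (Polynomial.eval (q : ℤ) (Polynomial.cyclotomic d ℤ)).natAbs * c.natAbs := by
    rw [← Int.natAbs_mul, heval, hnat]
  have hA0 : (Polynomial.eval (q : ℤ) (Polynomial.cyclotomic d ℤ)).natAbs ≠ 0 := by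
    intro h0
    rw [h0, zero_mul] at hmul
    omega
  have hc0 : c.natAbs ≠ 0 := by
    intro h0
    rw [h0, mul_zero] at hmul
    omega
  rw [hmul, padicValNat.mul hA0 hc0, padicValNat.eq_zero_of_not_dvd hcr, add_zero]

theorem factorization_card_GL (F : Type*) [Field F] [Fintype F] (n : ℕ) (hn : n < r)
    (hrq : ¬ r ∣ Fintype.card F) :
    (Nat.card (GL (Fin n) F)).factorization r
      = (n / orderOf ((Fintype.card F : ℕ) : ZMod r)) *
        padicValNat r (Fintype.card F ^ orderOf ((Fintype.card F : ℕ) : ZMod r) - 1) := by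
  obtain ⟨q, hq⟩ : ∃ q, q = Fintype.card F := ⟨_, rfl⟩
  have hq2 : 2 ≤ q := by
    rw [hq]
    exact Fintype.one_lt_card
  rw [← hq] at hrq ⊢
  rw [Matrix.card_GL_field, ← hq]
  have hne : ∀ i ∈ (Finset.univ : Finset (Fin n)), q ^ n - q ^ (i : ℕ) ≠ 0 := by
    intro i _
    have : q ^ (i : ℕ) < q ^ n := Nat.pow_lt_pow_right (by omega) i.2
    omega
  rw [Nat.factorization_prod hne]
  simp only [Finsupp.coe_finsetSum, Finset.sum_apply]
  have hterm : ∀ i : Fin n, (q ^ n - q ^ (i : ℕ)).factorization r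
      = if orderOf (q : ZMod r) ∣ (n - 1 - (i : ℕ)) + 1 then
        padicValNat r (q ^ orderOf (q : ZMod r) - 1) else 0 := by
    intro i
    have hi : (i : ℕ) < n := i.2
    have hsplit : q ^ n - q ^ (i : ℕ) = q ^ (i : ℕ) * (q ^ (n - (i : ℕ)) - 1) := by
      rw [Nat.mul_sub, mul_one, ← pow_add]
      congr 2
      omega
    have h1 : q ^ (i : ℕ) ≠ 0 := by positivity
    have h2 : q ^ (n - (i : ℕ)) - 1 ≠ 0 := by
      have : 2 ≤ q ^ (n - (i : ℕ)) := le_trans hq2 (Nat.le_self_pow (by omega) q)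
      omega
    rw [hsplit, Nat.factorization_mul h1 h2, Finsupp.add_apply, Nat.factorization_def _ hr.out,
      Nat.factorization_def _ hr.out]
    have h3 : padicValNat r (q ^ (i : ℕ)) = 0 := by
      apply padicValNat.eq_zero_of_not_dvd
      intro hdvd
      exact hrq (hr.out.dvd_of_dvd_pow hdvd)
    rw [h3, zero_add, padicVal_pow_sub_one q r hq2 (n - (i : ℕ)) (by omega) (by omega)]
    have : n - (i : ℕ) = n - 1 - (i : ℕ) + 1 := by omega
    rw [this]
  simp only [hterm]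
  rw [Fin.sum_univ_eq_sum_range (fun i => if orderOf (q : ZMod r) ∣ (n - 1 - i) + 1 then
        padicValNat r (q ^ orderOf (q : ZMod r) - 1) else 0) n]
  rw [Finset.sum_range_reflect (fun k => if orderOf (q : ZMod r) ∣ k + 1 then
        padicValNat r (q ^ orderOf (q : ZMod r) - 1) else 0) n]
  rw [← Finset.sum_filter, Finset.sum_const, Nat.card_multiples, smul_eq_mul]

end nt

end Cfsg.Agent.Lib.Helper47
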