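import Mathlib
import Cfsg.Agent.Lib.Helper47.SylowNT
import Cfsg.Agent.Lib.Helper47.ClassicalEmb

set_option autoImplicit false

namespace Cfsg.Agent.Lib.Helper47

open Matrix

/-- An element of order `m` gives an embedding of the cyclic group of order `m`. -/
theorem exists_injective_zmod_hom {G : Type*} [Group G] (g : G) (m : ℕ) (h : orderOf g = m) :
    ∃ f : Multiplicative (ZMod m) →* G, Function.Injective f := by
  subst h
  have hc : IsCyclic (Subgroup.zpowers g) := inferInstance
  have e := zmodCyclicMulEquiv hc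
  rw [Nat.card_zpowers] at e
  exact ⟨(Subgroup.zpowers g).subtype.comp e.toMonoidHom,
    Subtype.val_injective.comp e.injective⟩

/-- A finite cyclic group has elements of every order dividing the group order. -/
theorem exists_orderOf_eq_of_dvd {G : Type*} [Group G] [Finite G] [IsCyclic G] (m : ℕ)
    (hm : m ∣ Nat.card G) : ∃ g : G, orderOf g = m := by
  obtain ⟨g₀, hg₀⟩ := IsCyclic.exists_ofOrder_eq_natCard (α := G)
  obtain ⟨k, hk⟩ := hm
  have hpos : 0 < Nat.card G := Nat.card_pos
  have hk0 : k ≠ 0 := by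
    rintro rfl
    omega
  have hm0 : m ≠ 0 := by
    rintro rfl
    omega
  refine ⟨g₀ ^ k, ?_⟩
  rw [orderOf_pow_of_dvd hk0 (by rw [hg₀, hk]; exact dvd_mul_left k m), hg₀, hk]
  exact Nat.mul_div_cancel m (Nat.pos_of_ne_zero hk0)

/-- Block-diagonal embedding of a power of a cyclic subgroup of `(F_{q^d})ˣ` into `GL_n(F)`. -/
theorem exists_torus_embedding (F : Type*) [Field F] [Fintype F] (d a n m : ℕ) (hd : 0 < d)
    (hn : a * d ≤ n) (hm : m ∣ Fintype.card F ^ d - 1) :
    ∃ f : (Fin a → Multiplicative (ZMod m)) →* GL (Fin n) F, Function.Injective f := by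
  classical
  obtain ⟨p, hp⟩ := CharP.exists F
  have hpp : p.Prime := by
    rcases CharP.char_is_prime_or_zero F p with h | h
    · exact h
    · exfalso
      subst h
      have : CharZero F := CharP.charP_to_charZero F
      exact not_finite F
  have : Fact p.Prime := ⟨hpp⟩
  have : NeZero d := ⟨hd.ne'⟩
  obtain ⟨K, hK⟩ : ∃ K : Type, K = FiniteField.Extension F p d := ⟨_, rfl⟩
  subst hK
  have hcardK : Nat.card (FiniteField.Extension F p d) = Nat.card F ^ d :=
    FiniteField.natCard_extension F p d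
  have hcardU : Nat.card (FiniteField.Extension F p d)ˣ = Fintype.card F ^ d - 1 := by
    rw [Nat.card_units, hcardK, Nat.card_eq_fintype_card]
  obtain ⟨g₀, hg₀⟩ := exists_orderOf_eq_of_dvd (G := (FiniteField.Extension F p d)ˣ) m
    (by rw [hcardU]; exact hm)
  obtain ⟨f₁, hf₁⟩ := exists_injective_zmod_hom g₀ m hg₀
  let b : Module.Basis (Fin d) F (FiniteField.Extension F p d) :=
    Module.finBasisOfFinrankEq F _ (FiniteField.finrank_extension F p d)
  let L : FiniteField.Extension F p d →* Matrix (Fin d) (Fin d) F :=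
    (Algebra.leftMulMatrix b : FiniteField.Extension F p d →ₐ[F] Matrix (Fin d) (Fin d) F)
  have hL : Function.Injective L := Algebra.leftMulMatrix_injective b
  let f₂ : Multiplicative (ZMod m) →* Matrix (Fin d) (Fin d) F :=
    L.comp ((Units.coeHom _).comp f₁)
  have hf₂ : Function.Injective f₂ := hL.comp (Units.val_injective.comp hf₁)
  let f₃ : (Fin a → Multiplicative (ZMod m)) →* (Fin a → Matrix (Fin d) (Fin d) F) :=
    MonoidHom.pi fun i => f₂.comp (Pi.evalMonoidHom _ i)
  have hf₃ : Function.Injective f₃ := by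
    intro x y hxy
    funext i
    apply hf₂
    exact congrFun hxy i
  let f₄ : (Fin a → Matrix (Fin d) (Fin d) F) →* Matrix (Fin d × Fin a) (Fin d × Fin a) F :=
    (Matrix.blockDiagonalRingHom (Fin d) (Fin a) F).toMonoidHom
  have hf₄ : Function.Injective f₄ := Matrix.blockDiagonal_injective
  let f₅ : Matrix (Fin d × Fin a) (Fin d × Fin a) F →*
      Matrix ((Fin d × Fin a) ⊕ Fin (n - a * d)) ((Fin d × Fin a) ⊕ Fin (n - a * d)) F :=
    blockL (Fin (n - a * d))
  have hf₅ : Function.Injective f₅ := blockL_injective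
  have hcard : Fintype.card ((Fin d × Fin a) ⊕ Fin (n - a * d)) = Fintype.card (Fin n) := by
    simp only [Fintype.card_sum, Fintype.card_prod, Fintype.card_fin]
    rw [mul_comm d a]
    omega
  let e : (Fin d × Fin a) ⊕ Fin (n - a * d) ≃ Fin n := Fintype.equivOfCardEq hcard
  let f₆ : Matrix ((Fin d × Fin a) ⊕ Fin (n - a * d)) ((Fin d × Fin a) ⊕ Fin (n - a * d)) F →*
      Matrix (Fin n) (Fin n) F := (Matrix.reindexAlgEquiv F F e : _ →* _)
  have hf₆ : Function.Injective f₆ := (Matrix.reindexAlgEquiv F F e).injective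
  let Θ : (Fin a → Multiplicative (ZMod m)) →* Matrix (Fin n) (Fin n) F :=
    f₆.comp (f₅.comp (f₄.comp f₃))
  have hΘ : Function.Injective Θ := hf₆.comp (hf₅.comp (hf₄.comp hf₃))
  refine ⟨Θ.toHomUnits, ?_⟩
  intro x y hxy
  apply hΘ
  have h1 := congrArg (fun g : GL (Fin n) F => (g : Matrix (Fin n) (Fin n) F)) hxy
  simpa using h1

/-- Sylow `r`-subgroups of `GL_n(q)` for `r > n`, `r ∤ q`. -/
theorem sylow_GL_homocyclic {F : Type*} [Field F] [Fintype F] (n : ℕ)
    (r : ℕ) [Fact r.Prime] (hrn : n < r) (hrq : ¬ r ∣ Fintype.card F)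
    (P : Sylow r (GL (Fin n) F)) :
    Nonempty (↥(P : Subgroup (GL (Fin n) F)) ≃*
      (Fin (n / orderOf ((Fintype.card F : ℕ) : ZMod r)) →
        Multiplicative (ZMod (r ^ padicValNat r ((Polynomial.cyclotomic
          (orderOf ((Fintype.card F : ℕ) : ZMod r)) ℤ).eval ((Fintype.card F : ℕ) : ℤ)).natAbs)))) := by
  classical
  have hq2 : 2 ≤ Fintype.card F := Fintype.one_lt_card
  have hd0 := orderOf_zmod_pos (Fintype.card F) r hrq
  have hfac := factorization_card_GL r F n hrn hrq
  rw [← padicVal_cyclotomic (Fintype.card F) r hq2 hrq] at hfac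
  have hdvd : r ^ padicValNat r ((Polynomial.cyclotomic
      (orderOf ((Fintype.card F : ℕ) : ZMod r)) ℤ).eval ((Fintype.card F : ℕ) : ℤ)).natAbs
      ∣ Fintype.card F ^ orderOf ((Fintype.card F : ℕ) : ZMod r) - 1 := by
    rw [padicVal_cyclotomic (Fintype.card F) r hq2 hrq]
    exact pow_padicValNat_dvd
  obtain ⟨f, hf⟩ := exists_torus_embedding F (orderOf ((Fintype.card F : ℕ) : ZMod r))
    (n / orderOf ((Fintype.card F : ℕ) : ZMod r)) n _ hd0 (Nat.div_mul_le_self _ _) hdvd
  have hH : Nat.card f.range = r ^ (Nat.card (GL (Fin n) F)).factorization r := by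
    rw [← Nat.card_congr (MonoidHom.ofInjective hf).toEquiv, Nat.card_fun, hfac]
    have h1 : Nat.card (Multiplicative (ZMod (r ^ padicValNat r ((Polynomial.cyclotomic
      (orderOf ((Fintype.card F : ℕ) : ZMod r)) ℤ).eval ((Fintype.card F : ℕ) : ℤ)).natAbs)))
        = r ^ padicValNat r ((Polynomial.cyclotomic
      (orderOf ((Fintype.card F : ℕ) : ZMod r)) ℤ).eval ((Fintype.card F : ℕ) : ℤ)).natAbs :=
      Nat.card_zmod _
    rw [h1, Nat.card_eq_fintype_card, Fintype.card_fin, ← pow_mul, mul_comm]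
  exact ⟨(Sylow.equiv P (Sylow.ofCard f.range hH)).trans (MonoidHom.ofInjective hf).symm⟩

end Cfsg.Agent.Lib.Helper47
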