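import Mathlib
import Cfsg.Agent.Lib.Helper47.SylowGL

set_option autoImplicit false

namespace Cfsg.Agent.Lib.Helper47

open Matrix

/-- `|GL_n(F)| = |SL_n(F)| * (|F| - 1)` for `n ≥ 1`. -/
theorem card_GL_eq_card_SL_mul (F : Type*) [Field F] [Fintype F] (n : ℕ) (hn : 0 < n) :
    Nat.card (GL (Fin n) F)
      = Nat.card (Matrix.SpecialLinearGroup (Fin n) F) * (Fintype.card F - 1) := by
  classical
  have : Nonempty (Fin n) := ⟨⟨0, hn⟩⟩
  have hsurj : Function.Surjective (Matrix.GeneralLinearGroup.det : GL (Fin n) F →* Fˣ) :=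
    Matrix.GeneralLinearGroup.det_surjective
  have h1 := Subgroup.card_mul_index (Matrix.GeneralLinearGroup.det : GL (Fin n) F →* Fˣ).ker
  rw [Subgroup.index_ker, MonoidHom.range_eq_top.mpr hsurj, Subgroup.card_top, Nat.card_units]
    at h1
  have h2 : Nat.card (Matrix.SpecialLinearGroup (Fin n) F)
      = Nat.card (Matrix.GeneralLinearGroup.det : GL (Fin n) F →* Fˣ).ker := by
    apply Nat.card_congr
    refine Equiv.ofBijective (fun g => ⟨Matrix.SpecialLinearGroup.toGL g, ?_⟩) ⟨?_, ?_⟩
    · rw [MonoidHom.mem_ker]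
      exact Matrix.SpecialLinearGroup.coeToGL_det g
    · intro g g' h
      exact Matrix.SpecialLinearGroup.toGL_injective (congrArg Subtype.val h)
    · rintro ⟨g, hg⟩
      rw [MonoidHom.mem_ker] at hg
      refine ⟨⟨(g : Matrix (Fin n) (Fin n) F), ?_⟩, ?_⟩
      · have := congrArg Units.val hg
        simpa using this
      · apply Subtype.ext
        apply Units.ext
        rfl
  rw [h2, ← h1, Nat.card_eq_fintype_card (α := F)]

/-- Counting multiples of `d` in `[2, n]`. -/
theorem card_Icc_two_filter_dvd (n d : ℕ) (hn : 0 < n) :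
    ((Finset.Icc 2 n).filter (fun i => d ∣ i)).card + (if d ∣ 1 then 1 else 0) = n / d := by
  rw [← Nat.Ioc_filter_dvd_card_eq_div]
  have h1 : Finset.Ioc 0 n = insert 1 (Finset.Icc 2 n) := by
    ext i
    simp only [Finset.mem_Ioc, Finset.mem_insert, Finset.mem_Icc]
    omega
  rw [h1, Finset.filter_insert]
  split_ifs with h
  · rw [Finset.card_insert_of_notMem]
    simp
  · rfl

/-- The `r`-part of `|SL_n(q)|` for `r > n`, `r ∤ q`. -/
theorem factorization_card_SL (r : ℕ) [hr : Fact r.Prime] (F : Type*) [Field F] [Fintype F]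
    (n : ℕ) (hn : n < r) (hrq : ¬ r ∣ Fintype.card F) :
    (Nat.card (Matrix.SpecialLinearGroup (Fin n) F)).factorization r
      = ((Finset.Icc 2 n).filter
          (fun i => orderOf ((Fintype.card F : ℕ) : ZMod r) ∣ i)).card *
        padicValNat r (Fintype.card F ^ orderOf ((Fintype.card F : ℕ) : ZMod r) - 1) := by
  classical
  rcases Nat.eq_zero_or_pos n with h0 | hpos
  · subst h0
    have : Nat.card (Matrix.SpecialLinearGroup (Fin 0) F) = 1 := by
      rw [Nat.card_eq_one_iff_unique]
      refine ⟨⟨fun a b => ?_⟩, ⟨1⟩⟩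
      apply Subtype.ext
      ext i
      exact i.elim0
    rw [this]
    simp
  · have hq2 : 2 ≤ Fintype.card F := Fintype.one_lt_card
    have hGL := factorization_card_GL r F n hn hrq
    rw [card_GL_eq_card_SL_mul F n hpos] at hGL
    have hSL0 : Nat.card (Matrix.SpecialLinearGroup (Fin n) F) ≠ 0 := Nat.card_pos.ne'
    have hq0 : Fintype.card F - 1 ≠ 0 := by omega
    rw [Nat.factorization_mul hSL0 hq0, Finsupp.add_apply, Nat.factorization_def _ hr.out,
      Nat.factorization_def _ hr.out] at hGL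
    have h1 := padicVal_pow_sub_one (Fintype.card F) r hq2 1 one_pos hr.out.one_lt
    rw [pow_one] at h1
    rw [h1, ← card_Icc_two_filter_dvd n _ hpos, add_mul] at hGL
    rw [Nat.factorization_def _ hr.out]
    split_ifs at hGL with hd
    · rw [one_mul] at hGL
      exact Nat.add_right_cancel hGL
    · simpa using hGL

/-- A matrix-valued monoid hom with determinant one lands in `SL`. -/
def toSLHom {G : Type*} [Group G] {n : Type*} [Fintype n] [DecidableEq n] {R : Type*}
    [CommRing R] (f : G →* Matrix n n R) (hdet : ∀ x, (f x).det = 1) :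
    G →* Matrix.SpecialLinearGroup n R where
  toFun x := ⟨f x, hdet x⟩
  map_one' := Subtype.ext f.map_one
  map_mul' x y := Subtype.ext (f.map_mul x y)

theorem toSLHom_injective {G : Type*} [Group G] {n : Type*} [Fintype n] [DecidableEq n]
    {R : Type*} [CommRing R] (f : G →* Matrix n n R) (hdet : ∀ x, (f x).det = 1)
    (hf : Function.Injective f) : Function.Injective (toSLHom f hdet) := by
  intro x y h
  apply hf
  exact congrArg Subtype.val h

/-- The embedding `g ↦ diag(g, (det g)⁻¹)` of `GL_k` into matrices of size `k + 1`. -/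
noncomputable def glBlock (k : ℕ) (F : Type*) [Field F] :
    GL (Fin k) F →* Matrix (Fin k ⊕ Unit) (Fin k ⊕ Unit) F where
  toFun g := Matrix.fromBlocks (g : Matrix (Fin k) (Fin k) F) 0 0
    (Matrix.of (fun _ _ => ((g : Matrix (Fin k) (Fin k) F).det)⁻¹))
  map_one' := by
    ext i j
    rcases i with i | i <;> rcases j with j | j <;> simp [Matrix.one_apply]
  map_mul' g h := by
    rw [Matrix.fromBlocks_multiply]
    ext i j
    rcases i with i | i <;> rcases j with j | j <;>
      simp [Matrix.mul_apply, Matrix.det_mul, mul_comm]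

theorem glBlock_injective (k : ℕ) (F : Type*) [Field F] :
    Function.Injective (glBlock k F) := by
  intro g h hgh
  apply Units.ext
  ext i j
  have := congrFun (congrFun hgh (Sum.inl i)) (Sum.inl j)
  simpa [glBlock] using this

theorem glBlock_det (k : ℕ) (F : Type*) [Field F] (g : GL (Fin k) F) :
    (glBlock k F g).det = 1 := by
  have h1 : (glBlock k F g) = Matrix.fromBlocks (g : Matrix (Fin k) (Fin k) F) 0 0
    (Matrix.of (fun _ _ => ((g : Matrix (Fin k) (Fin k) F).det)⁻¹)) := rfl
  have h2 : (Matrix.of (fun (_ _ : Unit) => ((g : Matrix (Fin k) (Fin k) F).det)⁻¹)).det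
      = ((g : Matrix (Fin k) (Fin k) F).det)⁻¹ := by
    rw [Matrix.det_unique, Matrix.of_apply]
  rw [h1, Matrix.det_fromBlocks_zero₂₁, h2]
  have hne : (g : Matrix (Fin k) (Fin k) F).det ≠ 0 := by
    have := (Matrix.isUnit_iff_isUnit_det _).mp g.isUnit
    exact this.ne_zero
  exact mul_inv_cancel₀ hne

/-- Embedding of a homocyclic group into `SL_n(F)`. -/
theorem exists_SL_torus_embedding (r : ℕ) [hr : Fact r.Prime] (F : Type*) [Field F] [Fintype F]
    (n : ℕ) (hrq : ¬ r ∣ Fintype.card F) (s : ℕ)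
    (hs : r ^ s ∣ Fintype.card F ^ orderOf ((Fintype.card F : ℕ) : ZMod r) - 1) :
    ∃ f : (Fin ((Finset.Icc 2 n).filter
          (fun i => orderOf ((Fintype.card F : ℕ) : ZMod r) ∣ i)).card →
            Multiplicative (ZMod (r ^ s))) →* Matrix.SpecialLinearGroup (Fin n) F,
      Function.Injective f := by
  classical
  rcases Nat.eq_zero_or_pos n with h0 | hpos
  · subst h0
    refine ⟨1, ?_⟩
    intro x y _
    funext i
    have hi := i.2
    simp at hi
  have hq2 : 2 ≤ Fintype.card F := Fintype.one_lt_card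
  have hd0 := orderOf_zmod_pos (Fintype.card F) r hrq
  have hcount := card_Icc_two_filter_dvd n (orderOf ((Fintype.card F : ℕ) : ZMod r)) hpos
  obtain ⟨d, hd⟩ : ∃ d, d = orderOf ((Fintype.card F : ℕ) : ZMod r) := ⟨_, rfl⟩
  rw [← hd] at hd0 hcount hs ⊢
  obtain ⟨a, ha⟩ : ∃ a, a = ((Finset.Icc 2 n).filter (fun i => d ∣ i)).card := ⟨_, rfl⟩
  rw [← ha] at hcount ⊢
  by_cases hd1 : d ∣ 1
  · -- d = 1
    have hd1' : d = 1 := Nat.dvd_one.mp hd1
    rw [if_pos hd1] at hcount
    rw [hd1'] at hcount hs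
    rw [Nat.div_one] at hcount
    obtain ⟨f₀, hf₀⟩ := exists_torus_embedding F 1 a (n - 1) (r ^ s) one_pos (by omega) hs
    have hcard : Fintype.card (Fin (n - 1) ⊕ Unit) = Fintype.card (Fin n) := by
      simp only [Fintype.card_sum, Fintype.card_fin, Fintype.card_unit]
      omega
    let e : Fin (n - 1) ⊕ Unit ≃ Fin n := Fintype.equivOfCardEq hcard
    let f₁ : Matrix (Fin (n - 1) ⊕ Unit) (Fin (n - 1) ⊕ Unit) F →* Matrix (Fin n) (Fin n) F :=
      (Matrix.reindexAlgEquiv F F e : _ →* _)
    have hf₁ : Function.Injective f₁ := (Matrix.reindexAlgEquiv F F e).injective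
    let Θ : (Fin a → Multiplicative (ZMod (r ^ s))) →* Matrix (Fin n) (Fin n) F :=
      f₁.comp ((glBlock (n - 1) F).comp f₀)
    have hΘ : Function.Injective Θ := hf₁.comp ((glBlock_injective (n - 1) F).comp hf₀)
    have hdet : ∀ x, (Θ x).det = 1 := by
      intro x
      have : Θ x = Matrix.reindexAlgEquiv F F e (glBlock (n - 1) F (f₀ x)) := rfl
      rw [this, Matrix.det_reindexAlgEquiv, glBlock_det]
    exact ⟨toSLHom Θ hdet, toSLHom_injective Θ hdet hΘ⟩
  · -- d ≥ 2
    rw [if_neg hd1, add_zero] at hcount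
    obtain ⟨f₀, hf₀⟩ := exists_torus_embedding F d a n (r ^ s) hd0
      (by rw [hcount]; exact Nat.div_mul_le_self _ _) hs
    let Θ : (Fin a → Multiplicative (ZMod (r ^ s))) →* Matrix (Fin n) (Fin n) F :=
      (Units.coeHom _).comp f₀
    have hΘ : Function.Injective Θ := Units.val_injective.comp hf₀
    have hrq1 : ¬ r ∣ Fintype.card F - 1 := by
      intro hdvd
      have := (dvd_pow_sub_one_iff (Fintype.card F) r (by omega) 1).mp (by rwa [pow_one])
      rw [← hd] at this
      exact hd1 this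
    have hdet : ∀ x, (Θ x).det = 1 := by
      intro x
      have hcardG : Nat.card (Fin a → Multiplicative (ZMod (r ^ s))) = (r ^ s) ^ a := by
        rw [Nat.card_fun]
        have h1 : Nat.card (Multiplicative (ZMod (r ^ s))) = r ^ s := Nat.card_zmod _
        rw [h1, Nat.card_eq_fintype_card, Fintype.card_fin]
      have hx : x ^ ((r ^ s) ^ a) = 1 := by
        rw [← hcardG]
        exact pow_card_eq_one'
      have h1 : (Θ x).det ^ ((r ^ s) ^ a) = 1 := by
        rw [← Matrix.det_pow, ← map_pow, hx, map_one, Matrix.det_one]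
      have hne : (Θ x).det ≠ 0 := by
        intro h0
        rw [h0, zero_pow (pow_ne_zero _ (pow_ne_zero _ hr.out.ne_zero))] at h1
        exact zero_ne_one h1
      have h2 : (Θ x).det ^ (Fintype.card F - 1) = 1 := FiniteField.pow_card_sub_one_eq_one _ hne
      have h3 : orderOf (Θ x).det ∣ (r ^ s) ^ a := orderOf_dvd_of_pow_eq_one h1
      have h4 : orderOf (Θ x).det ∣ Fintype.card F - 1 := orderOf_dvd_of_pow_eq_one h2
      have hcop : Nat.Coprime ((r ^ s) ^ a) (Fintype.card F - 1) := by
        apply Nat.Coprime.pow_left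
        apply Nat.Coprime.pow_left
        exact (Nat.Prime.coprime_iff_not_dvd hr.out).mpr hrq1
      have h5 : orderOf (Θ x).det = 1 := Nat.eq_one_of_dvd_coprimes hcop h3 h4
      exact orderOf_eq_one_iff.mp h5
    exact ⟨toSLHom Θ hdet, toSLHom_injective Θ hdet hΘ⟩

/-- Sylow `r`-subgroups of `SL_n(q)` for `r > n`, `r ∤ q`. -/
theorem sylow_SL_homocyclic {F : Type*} [Field F] [Fintype F] (n : ℕ)
    (r : ℕ) [Fact r.Prime] (hrn : n < r) (hrq : ¬ r ∣ Fintype.card F)
    (P : Sylow r (Matrix.SpecialLinearGroup (Fin n) F)) :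
    Nonempty (↥(P : Subgroup (Matrix.SpecialLinearGroup (Fin n) F)) ≃*
      (Fin ((Finset.Icc 2 n).filter
          (fun i => orderOf ((Fintype.card F : ℕ) : ZMod r) ∣ i)).card →
        Multiplicative (ZMod (r ^ padicValNat r ((Polynomial.cyclotomic
          (orderOf ((Fintype.card F : ℕ) : ZMod r)) ℤ).eval
            ((Fintype.card F : ℕ) : ℤ)).natAbs)))) := by
  classical
  have hq2 : 2 ≤ Fintype.card F := Fintype.one_lt_card
  have hfac := factorization_card_SL r F n hrn hrq
  rw [← padicVal_cyclotomic (Fintype.card F) r hq2 hrq] at hfac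
  have hdvd : r ^ padicValNat r ((Polynomial.cyclotomic
      (orderOf ((Fintype.card F : ℕ) : ZMod r)) ℤ).eval ((Fintype.card F : ℕ) : ℤ)).natAbs
      ∣ Fintype.card F ^ orderOf ((Fintype.card F : ℕ) : ZMod r) - 1 := by
    rw [padicVal_cyclotomic (Fintype.card F) r hq2 hrq]
    exact pow_padicValNat_dvd
  obtain ⟨f, hf⟩ := exists_SL_torus_embedding r F n hrq _ hdvd
  have hH : Nat.card f.range
      = r ^ (Nat.card (Matrix.SpecialLinearGroup (Fin n) F)).factorization r := by
    rw [← Nat.card_congr (MonoidHom.ofInjective hf).toEquiv, Nat.card_fun, hfac]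
    have h1 : Nat.card (Multiplicative (ZMod (r ^ padicValNat r ((Polynomial.cyclotomic
      (orderOf ((Fintype.card F : ℕ) : ZMod r)) ℤ).eval ((Fintype.card F : ℕ) : ℤ)).natAbs)))
        = r ^ padicValNat r ((Polynomial.cyclotomic
      (orderOf ((Fintype.card F : ℕ) : ZMod r)) ℤ).eval ((Fintype.card F : ℕ) : ℤ)).natAbs :=
      Nat.card_zmod _
    rw [h1, Nat.card_eq_fintype_card, Fintype.card_fin, ← pow_mul, mul_comm]
  exact ⟨(Sylow.equiv P (Sylow.ofCard f.range hH)).trans (MonoidHom.ofInjective hf).symm⟩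

end Cfsg.Agent.Lib.Helper47
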