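import Mathlib
import Cfsg.Prelude.Def_Sz
import Cfsg.Agent.Lib.Helper47.FreeLaw

set_option autoImplicit false

namespace Cfsg.Agent.Lib.Helper47

open Polynomial Matrix

section szpp

variable {F : Type*} [Field F]

/-- action of the lower root element -/
noncomputable def actA (p r : F[X]) (v : Fin 4 → F[X]) : Fin 4 → F[X] :=
  ![v 0, v 1, v 2 + p * v 0, v 3 + r * v 0 + p * v 1]

/-- action of the upper root element -/
noncomputable def actB (p r : F[X]) (v : Fin 4 → F[X]) : Fin 4 → F[X] :=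
  ![v 0 + r * v 3 + p * v 2, v 1 + p * v 3, v 2, v 3]

/-- reversal of coordinates -/
def mir (v : Fin 4 → F[X]) : Fin 4 → F[X] := ![v 3, v 2, v 1, v 0]

theorem mir_mir (v : Fin 4 → F[X]) : mir (mir v) = v := by
  funext i
  fin_cases i <;> rfl

theorem actB_eq (p r : F[X]) (v : Fin 4 → F[X]) : actB p r v = mir (actA p r (mir v)) := by
  funext i
  fin_cases i <;> rfl

theorem actA_eq (p r : F[X]) (v : Fin 4 → F[X]) : actA p r v = mir (actB p r (mir v)) := by
  funext i
  fin_cases i <;> rfl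

/-- target set after a lower element -/
def tgtA (e k : ℕ) (v : Fin 4 → F[X]) : Prop :=
  v 0 ≠ 0 ∧ (v 3).natDegree = (v 0).natDegree + e * k ∧ (v 1).natDegree ≤ (v 0).natDegree ∧
    (v 2).natDegree ≤ (v 0).natDegree + k

/-- target set after an upper element -/
def tgtB (e k : ℕ) (v : Fin 4 → F[X]) : Prop := tgtA e k (mir v)

theorem trans_same (e ki kj : ℕ) (he : 2 ≤ e) (hkj : 1 ≤ kj) (p r p' r' : F[X])
    (hp : p.natDegree = kj) (hr : r.natDegree = e * kj) (hp' : p'.natDegree = kj)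
    (hr' : r'.natDegree = e * kj) (v : Fin 4 → F[X]) (hv : tgtA e ki v) (hv3 : v 3 ≠ 0) :
    tgtA e kj (actA p' r' (actB p r v)) := by
  obtain ⟨h0, h3, h1, h2⟩ := hv
  have hekj : 2 * kj ≤ e * kj := Nat.mul_le_mul_right kj he
  have heki : 2 * ki ≤ e * ki := Nat.mul_le_mul_right ki he
  have hr0 : r ≠ 0 := ne_zero_of_natDegree_gt (n := 0) (by omega)
  have hr0' : r' ≠ 0 := ne_zero_of_natDegree_gt (n := 0) (by omega)
  have hrv3 : (r * v 3).natDegree = e * kj + (v 3).natDegree := by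
    rw [natDegree_mul hr0 hv3, hr]
  have hpv2 : (p * v 2).natDegree ≤ kj + (v 2).natDegree := by
    refine natDegree_mul_le.trans ?_
    rw [hp]
  have hA0 : (v 0 + r * v 3).natDegree = (r * v 3).natDegree :=
    natDegree_add_eq_right_of_natDegree_lt (by omega)
  have hu0 : (v 0 + r * v 3 + p * v 2).natDegree = e * kj + (v 3).natDegree := by
    rw [natDegree_add_eq_left_of_natDegree_lt (by omega), hA0, hrv3]
  have hu0ne : v 0 + r * v 3 + p * v 2 ≠ 0 := ne_zero_of_natDegree_gt (n := 0) (by omega)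
  have hpv3 : (p * v 3).natDegree ≤ kj + (v 3).natDegree := by
    refine natDegree_mul_le.trans ?_
    rw [hp]
  have hu1 : (v 1 + p * v 3).natDegree ≤ kj + (v 3).natDegree := by
    refine (natDegree_add_le _ _).trans ?_
    apply max_le <;> omega
  have hru0 : (r' * (v 0 + r * v 3 + p * v 2)).natDegree
      = e * kj + (v 0 + r * v 3 + p * v 2).natDegree := by
    rw [natDegree_mul hr0' hu0ne, hr']
  have hpu1 : (p' * (v 1 + p * v 3)).natDegree ≤ kj + (v 1 + p * v 3).natDegree := by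
    refine natDegree_mul_le.trans ?_
    rw [hp']
  have hpu0 : (p' * (v 0 + r * v 3 + p * v 2)).natDegree
      ≤ kj + (v 0 + r * v 3 + p * v 2).natDegree := by
    refine natDegree_mul_le.trans ?_
    rw [hp']
  refine ⟨hu0ne, ?_, ?_, ?_⟩
  · change (v 3 + r' * (v 0 + r * v 3 + p * v 2) + p' * (v 1 + p * v 3)).natDegree
      = (v 0 + r * v 3 + p * v 2).natDegree + e * kj
    have hA : (v 3 + r' * (v 0 + r * v 3 + p * v 2)).natDegree
        = (r' * (v 0 + r * v 3 + p * v 2)).natDegree :=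
      natDegree_add_eq_right_of_natDegree_lt (by omega)
    rw [natDegree_add_eq_left_of_natDegree_lt (by omega), hA, hru0]
    omega
  · change (v 1 + p * v 3).natDegree ≤ (v 0 + r * v 3 + p * v 2).natDegree
    omega
  · change (v 2 + p' * (v 0 + r * v 3 + p * v 2)).natDegree
      ≤ (v 0 + r * v 3 + p * v 2).natDegree + kj
    refine (natDegree_add_le _ _).trans ?_
    apply max_le <;> omega

theorem trans_diff (e ki kj : ℕ) (he : 2 ≤ e) (hkj : 1 ≤ kj) (hne : ki ≠ kj)
    (p r p' r' : F[X])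
    (hp : p.natDegree = kj) (hr : r.natDegree = e * kj) (hp' : p'.natDegree = kj)
    (hr' : r'.natDegree = e * kj) (v : Fin 4 → F[X]) (hv : tgtA e ki v) :
    tgtB e kj (actB p' r' (actA p r v)) := by
  obtain ⟨h0, h3, h1, h2⟩ := hv
  have hekj : 2 * kj ≤ e * kj := Nat.mul_le_mul_right kj he
  have heki : 2 * ki ≤ e * ki := Nat.mul_le_mul_right ki he
  have hr0 : r ≠ 0 := ne_zero_of_natDegree_gt (n := 0) (by omega)
  have hr0' : r' ≠ 0 := ne_zero_of_natDegree_gt (n := 0) (by omega)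
  have hrv0 : (r * v 0).natDegree = e * kj + (v 0).natDegree := by
    rw [natDegree_mul hr0 h0, hr]
  have hpv1 : (p * v 1).natDegree ≤ kj + (v 1).natDegree := by
    refine natDegree_mul_le.trans ?_
    rw [hp]
  have hpv0 : (p * v 0).natDegree ≤ kj + (v 0).natDegree := by
    refine natDegree_mul_le.trans ?_
    rw [hp]
  -- the new last coordinate
  have hD : (v 0).natDegree + e * ki ≤ (v 3 + r * v 0 + p * v 1).natDegree ∧
      (v 0).natDegree + e * kj ≤ (v 3 + r * v 0 + p * v 1).natDegree := by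
    rcases lt_or_gt_of_ne hne with hlt | hgt
    · have hlt' : e * ki < e * kj := Nat.mul_lt_mul_of_pos_left hlt (by omega)
      have hA : (v 3 + r * v 0).natDegree = (r * v 0).natDegree :=
        natDegree_add_eq_right_of_natDegree_lt (by omega)
      rw [natDegree_add_eq_left_of_natDegree_lt (by omega), hA, hrv0]
      omega
    · have hgt' : e * kj < e * ki := Nat.mul_lt_mul_of_pos_left hgt (by omega)
      have hA : (v 3 + r * v 0).natDegree = (v 3).natDegree :=
        natDegree_add_eq_left_of_natDegree_lt (by omega)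
      rw [natDegree_add_eq_left_of_natDegree_lt (by omega), hA, h3]
      omega
  obtain ⟨hD1, hD2⟩ := hD
  have hu3ne : v 3 + r * v 0 + p * v 1 ≠ 0 := ne_zero_of_natDegree_gt (n := 0) (by omega)
  have hu2 : (v 2 + p * v 0).natDegree ≤ (v 3 + r * v 0 + p * v 1).natDegree := by
    refine (natDegree_add_le _ _).trans ?_
    apply max_le <;> omega
  have hru3 : (r' * (v 3 + r * v 0 + p * v 1)).natDegree
      = e * kj + (v 3 + r * v 0 + p * v 1).natDegree := by
    rw [natDegree_mul hr0' hu3ne, hr']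
  have hpu2 : (p' * (v 2 + p * v 0)).natDegree ≤ kj + (v 2 + p * v 0).natDegree := by
    refine natDegree_mul_le.trans ?_
    rw [hp']
  have hpu3 : (p' * (v 3 + r * v 0 + p * v 1)).natDegree
      ≤ kj + (v 3 + r * v 0 + p * v 1).natDegree := by
    refine natDegree_mul_le.trans ?_
    rw [hp']
  refine ⟨hu3ne, ?_, ?_, ?_⟩
  · change (v 0 + r' * (v 3 + r * v 0 + p * v 1) + p' * (v 2 + p * v 0)).natDegree
      = (v 3 + r * v 0 + p * v 1).natDegree + e * kj
    have hA : (v 0 + r' * (v 3 + r * v 0 + p * v 1)).natDegree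
        = (r' * (v 3 + r * v 0 + p * v 1)).natDegree :=
      natDegree_add_eq_right_of_natDegree_lt (by omega)
    rw [natDegree_add_eq_left_of_natDegree_lt (by omega), hA, hru3]
    omega
  · change (v 2 + p * v 0).natDegree ≤ (v 3 + r * v 0 + p * v 1).natDegree
    exact hu2
  · change (v 1 + p' * (v 3 + r * v 0 + p * v 1)).natDegree
      ≤ (v 3 + r * v 0 + p * v 1).natDegree + kj
    refine (natDegree_add_le _ _).trans ?_
    apply max_le <;> omega

end szpp

section szmat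

/-- lower root matrix -/
def gA {R : Type*} [CommRing R] (s u : R) : Matrix (Fin 4) (Fin 4) R :=
  !![1, 0, 0, 0; 0, 1, 0, 0; s, 0, 1, 0; u, s, 0, 1]

/-- upper root matrix -/
def gB {R : Type*} [CommRing R] (s u : R) : Matrix (Fin 4) (Fin 4) R :=
  !![1, 0, s, u; 0, 1, 0, s; 0, 0, 1, 0; 0, 0, 0, 1]

variable {R : Type*} [CommRing R]

theorem gA_mul (s u s' u' : R) : gA s u * gA s' u' = gA (s + s') (u + u') := by
  ext i j
  fin_cases i <;> fin_cases j <;> simp [gA, Matrix.mul_apply, Fin.sum_univ_four] <;> ring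

theorem gB_mul (s u s' u' : R) : gB s u * gB s' u' = gB (s + s') (u + u') := by
  ext i j
  fin_cases i <;> fin_cases j <;> simp [gB, Matrix.mul_apply, Fin.sum_univ_four] <;> ring

theorem gA_zero : gA (0 : R) 0 = 1 := by
  ext i j
  fin_cases i <;> fin_cases j <;> simp [gA]

theorem gB_zero : gB (0 : R) 0 = 1 := by
  ext i j
  fin_cases i <;> fin_cases j <;> simp [gB]

/-- lower root element -/
def uA (s u : R) : GL (Fin 4) R :=
  ⟨gA s u, gA (-s) (-u), by rw [gA_mul]; simp [gA_zero], by rw [gA_mul]; simp [gA_zero]⟩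

/-- upper root element -/
def uB (s u : R) : GL (Fin 4) R :=
  ⟨gB s u, gB (-s) (-u), by rw [gB_mul]; simp [gB_zero], by rw [gB_mul]; simp [gB_zero]⟩

theorem uA_coe (s u : R) : ((uA s u : GL (Fin 4) R) : Matrix (Fin 4) (Fin 4) R) = gA s u := rfl

theorem uB_coe (s u : R) : ((uB s u : GL (Fin 4) R) : Matrix (Fin 4) (Fin 4) R) = gB s u := rfl

theorem uA_inv_coe (s u : R) :
    (((uA s u)⁻¹ : GL (Fin 4) R) : Matrix (Fin 4) (Fin 4) R) = gA (-s) (-u) := rfl

theorem uB_inv_coe (s u : R) :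
    (((uB s u)⁻¹ : GL (Fin 4) R) : Matrix (Fin 4) (Fin 4) R) = gB (-s) (-u) := rfl

theorem gA_map {S : Type*} [CommRing S] (f : R →+* S) (s u : R) :
    (gA s u).map f = gA (f s) (f u) := by
  ext i j
  fin_cases i <;> fin_cases j <;> simp [gA]

theorem gB_map {S : Type*} [CommRing S] (f : R →+* S) (s u : R) :
    (gB s u).map f = gB (f s) (f u) := by
  ext i j
  fin_cases i <;> fin_cases j <;> simp [gB]

end szmat

section szword

variable {F : Type*} [Field F]

theorem gA_mulVec (p r : F[X]) (v : Fin 4 → F[X]) : gA p r *ᵥ v = actA p r v := by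
  funext i
  fin_cases i <;> simp [gA, actA, Matrix.mulVec, dotProduct, Fin.sum_univ_four] <;> ring

theorem gB_mulVec (p r : F[X]) (v : Fin 4 → F[X]) : gB p r *ᵥ v = actB p r v := by
  funext i
  fin_cases i <;> simp [gB, actB, Matrix.mulVec, dotProduct, Fin.sum_univ_four] <;> ring

/-- the `i`-th generator over `F[X]` -/
noncomputable def genX (F : Type*) [Field F] (e i : ℕ) : GL (Fin 4) F[X] :=
  uA (X ^ (i + 1)) ((X ^ (i + 1)) ^ e) * uB (X ^ (i + 1)) ((X ^ (i + 1)) ^ e)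

/-- a letter -/
noncomputable def letterX (F : Type*) [Field F] (e : ℕ) (x : ℕ × Bool) : GL (Fin 4) F[X] :=
  cond x.2 (genX F e x.1) (genX F e x.1)⁻¹

/-- the product of a word -/
noncomputable def wordX (F : Type*) [Field F] (e : ℕ) (L : List (ℕ × Bool)) : GL (Fin 4) F[X] :=
  (L.map (letterX F e)).prod

theorem letterX_true_mulVec (e i : ℕ) (v : Fin 4 → F[X]) :
    ((letterX F e (i, true) : GL (Fin 4) F[X]) : Matrix (Fin 4) (Fin 4) F[X]) *ᵥ v
      = actA (X ^ (i + 1)) ((X ^ (i + 1)) ^ e) (actB (X ^ (i + 1)) ((X ^ (i + 1)) ^ e) v) := by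
  simp only [letterX, cond_true, genX, Units.val_mul, uA_coe, uB_coe]
  rw [← Matrix.mulVec_mulVec, gB_mulVec, gA_mulVec]

theorem letterX_false_mulVec (e i : ℕ) (v : Fin 4 → F[X]) :
    ((letterX F e (i, false) : GL (Fin 4) F[X]) : Matrix (Fin 4) (Fin 4) F[X]) *ᵥ v
      = actB (-X ^ (i + 1)) (-(X ^ (i + 1)) ^ e)
        (actA (-X ^ (i + 1)) (-(X ^ (i + 1)) ^ e) v) := by
  simp only [letterX, cond_false, genX, _root_.mul_inv_rev, Units.val_mul, uA_inv_coe, uB_inv_coe]
  rw [← Matrix.mulVec_mulVec, gA_mulVec, gB_mulVec]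

/-- target of a letter -/
def tgtX (F : Type*) [Field F] (e : ℕ) (x : ℕ × Bool) (v : Fin 4 → F[X]) : Prop :=
  if x.2 then tgtA e (x.1 + 1) v else tgtB e (x.1 + 1) v

theorem natDeg_pX (i : ℕ) : (X ^ (i + 1) : F[X]).natDegree = i + 1 := natDegree_X_pow _

theorem natDeg_rX (e i : ℕ) : ((X ^ (i + 1)) ^ e : F[X]).natDegree = e * (i + 1) := by
  rw [← pow_mul, natDegree_X_pow, mul_comm]

theorem natDeg_npX (i : ℕ) : (-X ^ (i + 1) : F[X]).natDegree = i + 1 := by
  rw [natDegree_neg, natDegree_X_pow]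

theorem natDeg_nrX (e i : ℕ) : (-(X ^ (i + 1)) ^ e : F[X]).natDegree = e * (i + 1) := by
  rw [natDegree_neg, natDeg_rX]

theorem tgtA_v3_ne (e k : ℕ) (he : 2 ≤ e) (hk : 1 ≤ k) (v : Fin 4 → F[X]) (hv : tgtA e k v) :
    v 3 ≠ 0 := by
  obtain ⟨-, h3, -, -⟩ := hv
  have : 2 * k ≤ e * k := Nat.mul_le_mul_right k he
  exact ne_zero_of_natDegree_gt (n := 0) (by omega)

theorem mir_actB_actA (p r p' r' : F[X]) (v : Fin 4 → F[X]) :
    mir (actB p' r' (actA p r v)) = actA p' r' (actB p r (mir v)) := by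
  rw [actB_eq p' r', mir_mir, actA_eq p r, mir_mir]

theorem letterX_same (e : ℕ) (he : 2 ≤ e) (i j : ℕ) (s : Bool) (v : Fin 4 → F[X])
    (hv : tgtX F e (i, s) v) :
    tgtX F e (j, s) (((letterX F e (j, s) : GL (Fin 4) F[X]) : Matrix (Fin 4) (Fin 4) F[X]) *ᵥ v) := by
  cases s
  · simp only [tgtX, Bool.false_eq_true, if_false] at hv ⊢
    rw [letterX_false_mulVec]
    unfold tgtB at hv ⊢
    rw [mir_actB_actA]
    exact trans_same e (i + 1) (j + 1) he (by omega) _ _ _ _ (natDeg_npX j) (natDeg_nrX e j)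
      (natDeg_npX j) (natDeg_nrX e j) _ hv (tgtA_v3_ne e (i + 1) he (by omega) _ hv)
  · simp only [tgtX, if_true] at hv ⊢
    rw [letterX_true_mulVec]
    exact trans_same e (i + 1) (j + 1) he (by omega) _ _ _ _ (natDeg_pX j) (natDeg_rX e j)
      (natDeg_pX j) (natDeg_rX e j) _ hv (tgtA_v3_ne e (i + 1) he (by omega) _ hv)

theorem letterX_diff (e : ℕ) (he : 2 ≤ e) (i j : ℕ) (hij : i ≠ j) (s : Bool) (v : Fin 4 → F[X])
    (hv : tgtX F e (i, s) v) :
    tgtX F e (j, !s)
      (((letterX F e (j, !s) : GL (Fin 4) F[X]) : Matrix (Fin 4) (Fin 4) F[X]) *ᵥ v) := by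
  cases s
  · simp only [tgtX, Bool.false_eq_true, if_false, Bool.not_false, if_true] at hv ⊢
    rw [letterX_true_mulVec]
    unfold tgtB at hv
    have h := trans_diff e (i + 1) (j + 1) he (by omega) (by omega) _ _ _ _ (natDeg_pX j)
      (natDeg_rX e j) (natDeg_pX j) (natDeg_rX e j) _ hv
    unfold tgtB at h
    rw [mir_actB_actA, mir_mir] at h
    exact h
  · simp only [tgtX, if_true, Bool.not_true, Bool.false_eq_true, if_false] at hv ⊢
    rw [letterX_false_mulVec]
    exact trans_diff e (i + 1) (j + 1) he (by omega) (by omega) _ _ _ _ (natDeg_npX j)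
      (natDeg_nrX e j) (natDeg_npX j) (natDeg_nrX e j) _ hv

/-- the base vector -/
noncomputable def v4 (F : Type*) [Field F] : Fin 4 → F[X] := ![1, 0, 0, 1]

theorem mir_v4 : mir (v4 F) = v4 F := by
  funext i
  fin_cases i <;> rfl

theorem tgtA_v4 (e : ℕ) : tgtA e 0 (v4 F) := by
  refine ⟨?_, ?_, ?_, ?_⟩
  · change (1 : F[X]) ≠ 0
    exact one_ne_zero
  · change (1 : F[X]).natDegree = (1 : F[X]).natDegree + e * 0
    simp
  · change (0 : F[X]).natDegree ≤ (1 : F[X]).natDegree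
    simp
  · change (0 : F[X]).natDegree ≤ (1 : F[X]).natDegree + 0
    simp

theorem letterX_init (e : ℕ) (he : 2 ≤ e) (x : ℕ × Bool) :
    tgtX F e x (((letterX F e x : GL (Fin 4) F[X]) : Matrix (Fin 4) (Fin 4) F[X]) *ᵥ v4 F) := by
  obtain ⟨j, s⟩ := x
  have hv3 : v4 F 3 ≠ 0 := by
    change (1 : F[X]) ≠ 0
    exact one_ne_zero
  cases s
  · simp only [tgtX, Bool.false_eq_true, if_false]
    rw [letterX_false_mulVec]
    unfold tgtB
    rw [mir_actB_actA, mir_v4]
    exact trans_same e 0 (j + 1) he (by omega) _ _ _ _ (natDeg_npX j) (natDeg_nrX e j)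
      (natDeg_npX j) (natDeg_nrX e j) _ (tgtA_v4 e) hv3
  · simp only [tgtX, if_true]
    rw [letterX_true_mulVec]
    exact trans_same e 0 (j + 1) he (by omega) _ _ _ _ (natDeg_pX j) (natDeg_rX e j)
      (natDeg_pX j) (natDeg_rX e j) _ (tgtA_v4 e) hv3

theorem tgtX_wordX (e : ℕ) (he : 2 ≤ e) (L : List (ℕ × Bool)) (x : ℕ × Bool)
    (hL : FreeGroup.IsReduced (x :: L)) :
    tgtX F e x (((wordX F e (x :: L) : GL (Fin 4) F[X]) : Matrix (Fin 4) (Fin 4) F[X]) *ᵥ v4 F) := by
  induction L generalizing x with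
  | nil =>
    have : wordX F e [x] = letterX F e x := by simp [wordX]
    rw [this]
    exact letterX_init e he x
  | cons y L ih =>
    rw [FreeGroup.isReduced_cons_cons] at hL
    have h1 := ih y hL.2
    have h2 : ((wordX F e (x :: y :: L) : GL (Fin 4) F[X]) : Matrix (Fin 4) (Fin 4) F[X]) *ᵥ v4 F
        = ((letterX F e x : GL (Fin 4) F[X]) : Matrix (Fin 4) (Fin 4) F[X]) *ᵥ
          (((wordX F e (y :: L) : GL (Fin 4) F[X]) : Matrix (Fin 4) (Fin 4) F[X]) *ᵥ v4 F) := by
      rw [Matrix.mulVec_mulVec, ← Units.val_mul]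
      simp [wordX]
    rw [h2]
    obtain ⟨i, s⟩ := y
    obtain ⟨j, s'⟩ := x
    by_cases hs : s' = s
    · subst hs
      exact letterX_same e he i j s' _ h1
    · have hs' : s' = !s := by
        cases s <;> cases s' <;> simp_all
      subst hs'
      have hij : i ≠ j := by
        intro h
        have h6 := hL.1 h.symm
        simp at h6
      exact letterX_diff e he i j hij s _ h1

end szword

section szdeg

variable {F : Type*} [Field F]

/-- degree bound for `4 × 4` polynomial matrices -/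
def MatDeg4 (A : Matrix (Fin 4) (Fin 4) F[X]) (k : ℕ) : Prop := ∀ i j, (A i j).natDegree ≤ k

theorem matDeg4_one : MatDeg4 (1 : Matrix (Fin 4) (Fin 4) F[X]) 0 := by
  intro i j
  rw [Matrix.one_apply]
  split_ifs <;> simp

theorem matDeg4_mul (A B : Matrix (Fin 4) (Fin 4) F[X]) (k l : ℕ) (hA : MatDeg4 A k)
    (hB : MatDeg4 B l) : MatDeg4 (A * B) (k + l) := by
  intro i j
  rw [Matrix.mul_apply]
  apply natDegree_sum_le_of_forall_le
  intro m _
  exact natDegree_mul_le_of_le (hA i m) (hB m j)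

theorem matDeg4_gA (p r : F[X]) (k : ℕ) (hp : p.natDegree ≤ k) (hr : r.natDegree ≤ k) :
    MatDeg4 (gA p r) k := by
  intro a b
  fin_cases a <;> fin_cases b <;> simp [gA] <;> assumption

theorem matDeg4_gB (p r : F[X]) (k : ℕ) (hp : p.natDegree ≤ k) (hr : r.natDegree ≤ k) :
    MatDeg4 (gB p r) k := by
  intro a b
  fin_cases a <;> fin_cases b <;> simp [gB] <;> assumption

theorem matDeg4_letterX (e : ℕ) (he : 1 ≤ e) (x : ℕ × Bool) :
    MatDeg4 ((letterX F e x : GL (Fin 4) F[X]) : Matrix (Fin 4) (Fin 4) F[X])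
      (e * (2 * (x.1 + 1))) := by
  obtain ⟨i, s⟩ := x
  have h1 : i + 1 ≤ e * (i + 1) := Nat.le_mul_of_pos_left _ he
  have hsum : e * (2 * (i + 1)) = e * (i + 1) + e * (i + 1) := by ring
  cases s
  · simp only [letterX, cond_false, genX, _root_.mul_inv_rev, Units.val_mul, uA_inv_coe,
      uB_inv_coe]
    rw [hsum]
    exact matDeg4_mul _ _ _ _
      (matDeg4_gB _ _ _ (by rw [natDeg_npX]; exact h1) (by rw [natDeg_nrX]))
      (matDeg4_gA _ _ _ (by rw [natDeg_npX]; exact h1) (by rw [natDeg_nrX]))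
  · simp only [letterX, cond_true, genX, Units.val_mul, uA_coe, uB_coe]
    rw [hsum]
    exact matDeg4_mul _ _ _ _
      (matDeg4_gA _ _ _ (by rw [natDeg_pX]; exact h1) (by rw [natDeg_rX]))
      (matDeg4_gB _ _ _ (by rw [natDeg_pX]; exact h1) (by rw [natDeg_rX]))

theorem matDeg4_wordX (e : ℕ) (he : 1 ≤ e) (L : List (ℕ × Bool)) :
    MatDeg4 ((wordX F e L : GL (Fin 4) F[X]) : Matrix (Fin 4) (Fin 4) F[X])
      (e * wordBound L) := by
  induction L with
  | nil => simpa [wordX, wordBound] using matDeg4_one (F := F)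
  | cons x L ih =>
    have h : ((wordX F e (x :: L) : GL (Fin 4) F[X]) : Matrix (Fin 4) (Fin 4) F[X])
        = ((letterX F e x : GL (Fin 4) F[X]) : Matrix (Fin 4) (Fin 4) F[X]) *
          ((wordX F e L : GL (Fin 4) F[X]) : Matrix (Fin 4) (Fin 4) F[X]) := by
      rw [← Units.val_mul]
      simp [wordX]
    rw [h]
    have h1 := matDeg4_mul _ _ _ _ (matDeg4_letterX (F := F) e he x) ih
    have h2 : e * wordBound (x :: L) = e * (2 * (x.1 + 1)) + e * wordBound L := by
      simp [wordBound, mul_add]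
    rw [h2]
    exact h1

/-- evaluation at `t` on `GL₄` -/
noncomputable def evalGL (t : F) : GL (Fin 4) F[X] →* GL (Fin 4) F :=
  Units.map ((Polynomial.evalRingHom t).mapMatrix.toMonoidHom)

theorem evalGL_coe (t : F) (g : GL (Fin 4) F[X]) (i j : Fin 4) :
    ((evalGL t g : GL (Fin 4) F) : Matrix (Fin 4) (Fin 4) F) i j
      = ((g : Matrix (Fin 4) (Fin 4) F[X]) i j).eval t := rfl

theorem evalGL_genX (t : F) (e i : ℕ) :
    evalGL t (genX F e i)
      = uA (t ^ (i + 1)) ((t ^ (i + 1)) ^ e) * uB (t ^ (i + 1)) ((t ^ (i + 1)) ^ e) := by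
  have hA : evalGL t (uA (X ^ (i + 1)) ((X ^ (i + 1)) ^ e)) = uA (t ^ (i + 1)) ((t ^ (i + 1)) ^ e) := by
    apply Units.ext
    ext a b
    rw [evalGL_coe, uA_coe, uA_coe]
    fin_cases a <;> fin_cases b <;> simp [gA]
  have hB : evalGL t (uB (X ^ (i + 1)) ((X ^ (i + 1)) ^ e)) = uB (t ^ (i + 1)) ((t ^ (i + 1)) ^ e) := by
    apply Units.ext
    ext a b
    rw [evalGL_coe, uB_coe, uB_coe]
    fin_cases a <;> fin_cases b <;> simp [gB]
  rw [genX, map_mul, hA, hB]

/-- A non-trivial word takes a non-trivial value on the products of opposite root elements. -/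
theorem sz_word_ne_one (F : Type*) [Field F] [Fintype F] (e : ℕ) (he : 2 ≤ e) (w : FreeGroup ℕ)
    (hw : w ≠ 1) (hcard : e * wordBound w.toWord < Fintype.card F) :
    ∃ t : F, FreeGroup.lift (fun i => uA (t ^ (i + 1)) ((t ^ (i + 1)) ^ e) *
      uB (t ^ (i + 1)) ((t ^ (i + 1)) ^ e)) w ≠ 1 := by
  classical
  have hred : FreeGroup.IsReduced w.toWord := FreeGroup.isReduced_toWord
  have hne : w.toWord ≠ [] := fun h => hw (FreeGroup.toWord_eq_nil_iff.mp h)
  obtain ⟨x, L, hxL⟩ := List.exists_cons_of_ne_nil hne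
  obtain ⟨M, hM⟩ : ∃ M, M = wordX F e w.toWord := ⟨_, rfl⟩
  have ht : tgtX F e x ((M : Matrix (Fin 4) (Fin 4) F[X]) *ᵥ v4 F) := by
    rw [hM, hxL]
    rw [hxL] at hred
    exact tgtX_wordX e he L x hred
  have e0 : ((M : Matrix (Fin 4) (Fin 4) F[X]) *ᵥ v4 F) 0
      = (M : Matrix (Fin 4) (Fin 4) F[X]) 0 0 + (M : Matrix (Fin 4) (Fin 4) F[X]) 0 3 := by
    simp [Matrix.mulVec, dotProduct, Fin.sum_univ_four, v4]
  have e3 : ((M : Matrix (Fin 4) (Fin 4) F[X]) *ᵥ v4 F) 3
      = (M : Matrix (Fin 4) (Fin 4) F[X]) 3 0 + (M : Matrix (Fin 4) (Fin 4) F[X]) 3 3 := by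
    simp [Matrix.mulVec, dotProduct, Fin.sum_univ_four, v4]
  obtain ⟨P, hP⟩ : ∃ P, P = ((M : Matrix (Fin 4) (Fin 4) F[X]) *ᵥ v4 F) 0
      - ((M : Matrix (Fin 4) (Fin 4) F[X]) *ᵥ v4 F) 3 := ⟨_, rfl⟩
  have hek : 2 * (x.1 + 1) ≤ e * (x.1 + 1) := Nat.mul_le_mul_right _ he
  have hP0 : P ≠ 0 := by
    intro h
    rw [hP, sub_eq_zero] at h
    unfold tgtX at ht
    split_ifs at ht
    · obtain ⟨-, h3, -, -⟩ := ht
      rw [h] at h3
      omega
    · unfold tgtB at ht
      obtain ⟨-, h3, -, -⟩ := ht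
      change (((M : Matrix (Fin 4) (Fin 4) F[X]) *ᵥ v4 F) 0).natDegree
        = (((M : Matrix (Fin 4) (Fin 4) F[X]) *ᵥ v4 F) 3).natDegree + e * (x.1 + 1) at h3
      rw [h] at h3
      omega
  have hdeg : P.natDegree ≤ e * wordBound w.toWord := by
    have hMd := matDeg4_wordX (F := F) e (by omega) w.toWord
    rw [← hM] at hMd
    rw [hP, e0, e3]
    refine (natDegree_sub_le _ _).trans (max_le ?_ ?_)
    · exact (natDegree_add_le _ _).trans (max_le (hMd 0 0) (hMd 0 3))
    · exact (natDegree_add_le _ _).trans (max_le (hMd 3 0) (hMd 3 3))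
  obtain ⟨t, ht'⟩ : ∃ t : F, P.eval t ≠ 0 := by
    by_contra hcon
    rw [not_exists] at hcon
    apply hP0
    apply Polynomial.eq_zero_of_natDegree_lt_card_of_eval_eq_zero' P (Finset.univ : Finset F)
    · intro c _
      simpa using hcon c
    · rw [Finset.card_univ]
      omega
  refine ⟨t, ?_⟩
  have hlift : FreeGroup.lift (fun i => uA (t ^ (i + 1)) ((t ^ (i + 1)) ^ e) *
      uB (t ^ (i + 1)) ((t ^ (i + 1)) ^ e)) w = evalGL t M := by
    have h1 : (fun i => uA (t ^ (i + 1)) ((t ^ (i + 1)) ^ e) *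
        uB (t ^ (i + 1)) ((t ^ (i + 1)) ^ e)) = fun i => evalGL t (genX F e i) := by
      funext i
      rw [evalGL_genX]
    have h2 : FreeGroup.lift (fun i => evalGL t (genX F e i))
        = (evalGL t).comp (FreeGroup.lift (genX F e)) := by
      ext i
      simp
    rw [h1, h2, MonoidHom.comp_apply]
    congr 1
    conv_lhs => rw [← FreeGroup.mk_toWord (x := w)]
    rw [FreeGroup.lift_mk, hM]
    rfl
  rw [hlift]
  intro h1
  apply ht'
  have hent : ∀ i j : Fin 4, ((M : Matrix (Fin 4) (Fin 4) F[X]) i j).eval t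
      = (1 : Matrix (Fin 4) (Fin 4) F) i j := by
    intro i j
    rw [← evalGL_coe, h1]
    rfl
  rw [hP, e0, e3]
  simp [hent]

end szdeg

section szmem

variable {F : Type*} [Field F]

theorem uA_mem_Sz (e : ℕ) (he : e ≠ 0) (h2 : (2 : F) = 0) (hee : ∀ x : F, (x ^ e) ^ e = x ^ 2)
    (s : F) : uA s (s ^ e) ∈ Cfsg.Lie.Sz F e := by
  apply Subgroup.subset_closure
  refine ⟨?_, ?_⟩
  · intro u v
    change Cfsg.Lie.altForm4 (gA s (s ^ e) *ᵥ u) (gA s (s ^ e) *ᵥ v) = Cfsg.Lie.altForm4 u v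
    simp only [Cfsg.Lie.altForm4, gA, Matrix.mulVec, dotProduct, Fin.sum_univ_four]
    simp
    linear_combination (s ^ e * u 0 * v 0 + s * u 0 * v 1 + s * u 1 * v 0) * h2
  · change Cfsg.Lie.star4 (gA s (s ^ e)) = (gA s (s ^ e)).map (fun x => x ^ e)
    have hneg : -(s ^ e) = s ^ e := by linear_combination (-(s ^ e)) * h2
    ext i j
    fin_cases i <;> fin_cases j <;>
      simp [Cfsg.Lie.star4, Cfsg.Lie.pairOf, gA, he, hee, hneg, sq]

theorem uB_mem_Sz (e : ℕ) (he : e ≠ 0) (h2 : (2 : F) = 0) (hee : ∀ x : F, (x ^ e) ^ e = x ^ 2)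
    (s : F) : uB s (s ^ e) ∈ Cfsg.Lie.Sz F e := by
  apply Subgroup.subset_closure
  refine ⟨?_, ?_⟩
  · intro u v
    change Cfsg.Lie.altForm4 (gB s (s ^ e) *ᵥ u) (gB s (s ^ e) *ᵥ v) = Cfsg.Lie.altForm4 u v
    simp only [Cfsg.Lie.altForm4, gB, Matrix.mulVec, dotProduct, Fin.sum_univ_four]
    simp
    linear_combination (s * u 2 * v 3 + s ^ e * u 3 * v 3 + s * u 3 * v 2) * h2
  · change Cfsg.Lie.star4 (gB s (s ^ e)) = (gB s (s ^ e)).map (fun x => x ^ e)
    have hneg : -(s ^ e) = s ^ e := by linear_combination (-(s ^ e)) * h2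
    ext i j
    fin_cases i <;> fin_cases j <;>
      simp [Cfsg.Lie.star4, Cfsg.Lie.pairOf, gB, he, hee, hneg, sq]

end szmem

end Cfsg.Agent.Lib.Helper47
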